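import Cfsg.Agent.Geom.Groups
import Cfsg.Agent.Cusp.D
import Cfsg.Prelude.Def_DegreeGraph

/-!
# Parabolic induction in symplectic and orthogonal groups: definitions
-/

set_option autoImplicit false

open scoped ComplexConjugate MatrixGroups
open Cfsg Finset Matrix

namespace CF.Hc
open CF.Char CF.Geom

/-- A non-degenerate symplectic (`o = false`) or orthogonal (`o = true`) space. -/
structure Pol (F V : Type) [Field F] [AddCommGroup V] [Module F V] where
  o : Bool
  f : LinearMap.BilinForm F V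
  Q : QuadraticForm F V
  nd : ∀ x, (∀ y, f x y = 0) → x = 0
  ho : o = true → f = QuadraticMap.polarBilin Q
  hs : o = false → Q = 0 ∧ f.IsAlt

variable {F V : Type} [Field F] [AddCommGroup V] [Module F V]

/-- The space of a hyperbolic extension. -/
abbrev HV (F : Type) (k : ℕ) (V : Type) : Type := (Fin k → F) × V × (Fin k → F)

/-- The inverse transpose. -/
def ti {k : ℕ} (x : GL (Fin k) F) : GL (Fin k) F :=
  ⟨x⁻¹.1ᵀ, x.1ᵀ, by rw [← transpose_mul, ← Units.val_mul]; simp,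
    by rw [← transpose_mul, ← Units.val_mul]; simp⟩

theorem ti_val {k : ℕ} (x : GL (Fin k) F) : (ti x).1 = x⁻¹.1ᵀ := rfl

variable (F) in
/-- The standard alternating matrix. -/
def J2 : GL (Fin 2) F :=
  ⟨!![0, 1; -1, 0], !![0, -1; 1, 0], by simp [one_fin_two], by simp [one_fin_two]⟩

/-- The terms of the Mackey formula. -/
noncomputable def MS {G : Type*} [Group G] (H : Subgroup G) [Fintype H] (Ψ : H → ℂ) (g : G) : ℂ :=
  ∑ h : H, Ψ h * conj (extendByZero H Ψ (g⁻¹ * h * g))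

/-- Any two prime divisors of the order divide a common irreducible character degree. -/
def Cov (X : Type*) [Group X] : Prop := ∀ r s : ℕ, r.Prime → s.Prime → r ≠ s → r ∣ Nat.card X →
  s ∣ Nat.card X → ∃ d ∈ charDegrees X, r * s ∣ d

namespace Pol
variable (P : Pol F V)

/-- Isometric spaces. -/
def Iso {V' : Type} [AddCommGroup V'] [Module F V'] (P' : Pol F V') : Prop :=
  ∃ e : V ≃ₗ[F] V', (∀ x y, P'.f (e x) (e y) = P.f x y) ∧ ∀ x, P'.Q (e x) = P.Q x

/-- Anisotropic. -/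
def Ani : Prop := ∀ v, P.Q v = 0 → v = 0

/-- The number of singular vectors (with `0`). -/
noncomputable def sv : ℕ := Nat.card {v : V // P.Q v = 0}

/-- The exponent of the order of the unipotent radical. -/
noncomputable def ux (k : ℕ) : ℕ :=
  k * Module.finrank F V + if P.o then k * (k - 1) / 2 else k * (k + 1) / 2

/-- The sign of the form. -/
def e : F := if P.o then 1 else -1
/-- `1` for an orthogonal, `0` for a symplectic space. -/
def d : F := if P.o then 1 else 0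

theorem cases : (P.o = true ∧ P.e = 1 ∧ P.d = 1 ∧ P.f = QuadraticMap.polarBilin P.Q) ∨
    (P.o = false ∧ P.e = -1 ∧ P.d = 0 ∧ P.Q = 0 ∧ P.f.IsAlt) := by
  cases h : P.o
  · exact Or.inr ⟨rfl, by simp [e, h], by simp [d, h], P.hs h⟩
  · exact Or.inl ⟨rfl, by simp [e, h], by simp [d, h], P.ho h⟩

theorem e_sq : P.e * P.e = 1 := by rcases P.cases with h | h <;> simp [h.2.1]
theorem d_e : P.d * P.e = P.d := by rcases P.cases with h | h <;> simp [h.2.1, h.2.2.1]
theorem d_d : P.d * P.d = P.d := by rcases P.cases with h | h <;> simp [h.2.2.1]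
theorem d_Q (v : V) : P.d * P.Q v = P.Q v := by
  rcases P.cases with h | h
  · simp [h.2.2.1]
  · simp [h.2.2.2.1]
theorem e_Q (v : V) : P.e * P.Q v = P.Q v := by
  rcases P.cases with h | h
  · simp [h.2.1]
  · simp [h.2.2.2.1]

theorem symm (u v : V) : P.f u v = P.e * P.f v u := by
  rcases P.cases with h | h
  · simp [h.2.1, h.2.2.2, QuadraticMap.polar_comm]
  · rw [h.2.1, neg_one_mul, h.2.2.2.2.neg_eq]

theorem self (v : V) : P.f v v = 2 * P.Q v := by
  rcases P.cases with h | h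
  · simp [h.2.2.2, two_mul]
  · simp [h.2.2.2.1, h.2.2.2.2.self_eq_zero]

theorem add (u v : V) : P.Q (u + v) = P.Q u + P.Q v + P.d * P.f u v := by
  rcases P.cases with h | h
  · simp [h.2.2.1, h.2.2.2, QuadraticMap.polar]
  · simp [h.2.2.1, h.2.2.2.1]

theorem smul (c : F) (v : V) : P.Q (c • v) = c * c * P.Q v := by
  rw [QuadraticMap.map_smul, smul_eq_mul]

theorem refl {u v : V} (h : P.f u v = 0) : P.f v u = 0 := by rw [P.symm, h, mul_zero]

theorem nondeg : P.f.Nondegenerate := ⟨P.nd, fun y h => P.nd y fun x => P.refl (h x)⟩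

theorem wp : IsWittPair (RingHom.id F) P.f P.Q := by
  rcases P.cases with h | h
  · have := isWittPair_quad P.Q (h.2.2.2 ▸ P.nondeg)
    rwa [← h.2.2.2] at this
  · have := isWittPair_alt P.f P.nondeg h.2.2.2.2
    rw [h.2.2.2.1]
    exact this

/-- The isometry group. -/
abbrev G : Subgroup (V ≃ₗ[F] V) := Isom P.f P.Q

theorem G_f (g : P.G) (u v : V) : P.f (g.1 u) (g.1 v) = P.f u v := g.2.1 u v
theorem G_Q (g : P.G) (v : V) : P.Q (g.1 v) = P.Q v := g.2.2 v

instance instFiniteG [Finite V] : Finite P.G :=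
  Finite.of_injective (fun g : P.G => (g.1 : V → V)) fun _ _ h => Subtype.ext (DFunLike.coe_injective h)

noncomputable instance instFintypeG [Finite V] : Fintype P.G := Fintype.ofFinite _

/-- `-1`. -/
def neg : P.G := ⟨LinearEquiv.neg F, fun u v => by simp, fun v => by simp⟩

@[simp] theorem neg_apply (v : V) : P.neg.1 v = -v := rfl

/-- An isometry from a linear map. -/
noncomputable def mkG [Finite V] (g : V →ₗ[F] V) (h1 : ∀ u v, P.f (g u) (g v) = P.f u v)
    (h2 : ∀ v, P.Q (g v) = P.Q v) : P.G :=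
  ⟨LinearEquiv.ofInjectiveEndo g ((injective_iff_map_eq_zero g).2 fun x hx =>
    P.nd x fun y => by rw [← h1, hx]; simp), h1, h2⟩

@[simp] theorem mkG_apply [Finite V] (g : V →ₗ[F] V) (h1 : ∀ u v, P.f (g u) (g v) = P.f u v)
    (h2 : ∀ v, P.Q (g v) = P.Q v) (v : V) : (P.mkG g h1 h2).1 v = g v := rfl

/-- Eichler transformations. -/
theorem eich [Finite V] {a y : V} (ha : P.Q a = 0) (hy : P.f a y = 0) : ∃ g : P.G, ∀ v,
    g.1 v = v + P.f v a • y - (P.e * P.f v y) • a - (P.Q y * P.f v a) • a := by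
  have h1 := P.refl hy
  have h2 : P.f a a = 0 := by rw [P.self, ha, mul_zero]
  let g : V →ₗ[F] V := LinearMap.id + (P.f.flip a).smulRight y - (P.e • P.f.flip y).smulRight a -
    (P.Q y • P.f.flip a).smulRight a
  have hg : ∀ v, g v = v + P.f v a • y - (P.e * P.f v y) • a - (P.Q y * P.f v a) • a :=
    fun v => rfl
  refine ⟨P.mkG g (fun u v => ?_) fun v => ?_, hg⟩
  · simp only [hg, LinearMap.sub_apply, LinearMap.add_apply, LinearMap.smul_apply, map_add, map_sub,
      map_smul, smul_eq_mul, hy, h1, h2, P.self y, P.symm y v, P.symm a v]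
    linear_combination (-P.f u y * P.f v a) * P.e_sq - (P.f u a * P.f v a) * P.e_Q y
  · simp only [hg, LinearMap.add_apply, LinearMap.smul_apply, smul_eq_mul,
      sub_eq_add_neg, ← neg_smul, P.add, P.smul, map_add, map_smul, ha, h1, h2]
    linear_combination (-P.f v y * P.f v a) * P.d_e - (P.f v a * P.f v a) * P.d_Q y

/-- The hyperbolic extension. -/
noncomputable def hyp (k : ℕ) : Pol F (HV F k V) where
  o := P.o
  f := LinearMap.mk₂ F (fun x y => x.1 ⬝ᵥ y.2.2 + P.f x.2.1 y.2.1 + P.e * (x.2.2 ⬝ᵥ y.1))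
    (fun _ _ _ => by simp; ring) (fun _ _ _ => by simp; ring) (fun _ _ _ => by simp; ring)
    (fun _ _ _ => by simp; ring)
  Q := P.d • LinearMap.BilinMap.toQuadraticMap
    (LinearMap.mk₂ F (fun x y : HV F k V => x.1 ⬝ᵥ y.2.2) (fun _ _ _ => by simp)
    (fun _ _ _ => by simp) (fun _ _ _ => by simp) (fun _ _ _ => by simp)) +
    P.Q.comp (LinearMap.fst F V _ ∘ₗ LinearMap.snd F _ _)
  nd := fun x h => by
    have he : P.e ≠ 0 := left_ne_zero_of_mul_eq_one P.e_sq
    refine Prod.ext (funext fun i => ?_) (Prod.ext (P.nd _ fun y => ?_) (funext fun i => ?_))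
    · simpa using h (0, 0, Pi.single i 1)
    · simpa using h (0, y, 0)
    · simpa [he] using h (Pi.single i 1, 0, 0)
  ho := fun h => by
    refine LinearMap.ext₂ fun x y => ?_
    simp [e, d, h, P.ho h, QuadraticMap.polar, dotProduct_comm x.2.2]
    ring
  hs := fun h => ⟨by ext x; simp [d, h, (P.hs h).1], fun x => by
    simp [e, h, (P.hs h).2.self_eq_zero, dotProduct_comm x.2.2]⟩

variable {k : ℕ}

@[simp] theorem hyp_o : (P.hyp k).o = P.o := rfl
@[simp] theorem hyp_e : (P.hyp k).e = P.e := rfl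
@[simp] theorem hyp_d : (P.hyp k).d = P.d := rfl
theorem hyp_f (x y : HV F k V) :
    (P.hyp k).f x y = x.1 ⬝ᵥ y.2.2 + P.f x.2.1 y.2.1 + P.e * (x.2.2 ⬝ᵥ y.1) := rfl
theorem hyp_Q (x : HV F k V) : (P.hyp k).Q x = P.d * (x.1 ⬝ᵥ x.2.2) + P.Q x.2.1 := rfl

/-- The combination `∑ b i • Y i`. -/
def cmb (Y : Fin k → V) : (Fin k → F) →ₗ[F] V := Fintype.linearCombination F Y
/-- The vector of the `f v (Y i)`. -/
def shp (Y : Fin k → V) : V →ₗ[F] (Fin k → F) := LinearMap.pi fun i => P.f.flip (Y i)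

theorem cmb_apply (Y : Fin k → V) (b : Fin k → F) : cmb Y b = ∑ i, b i • Y i :=
  Fintype.linearCombination_apply _ _ _
theorem shp_apply (Y : Fin k → V) (v : V) (i : Fin k) : P.shp Y v i = P.f v (Y i) := rfl
theorem f_cmb (Y : Fin k → V) (v : V) (b : Fin k → F) : P.f v (cmb Y b) = P.shp Y v ⬝ᵥ b := by
  simp [cmb_apply, shp_apply, dotProduct, mul_comm]

/-- The parameters of the unipotent radical. -/
def Cd (Y : Fin k → V) (C : Matrix (Fin k) (Fin k) F) : Prop :=
  (∀ i j, C j i + P.e * C i j + P.f (Y i) (Y j) = 0) ∧ ∀ i, P.d * C i i + P.Q (Y i) = 0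

variable {P}

theorem dot_inv (x : GL (Fin k) F) (a b : Fin k → F) : x.1 *ᵥ a ⬝ᵥ x⁻¹.1ᵀ *ᵥ b = a ⬝ᵥ b := by
  rw [dotProduct_mulVec, vecMul_transpose, mulVec_mulVec, ← Units.val_mul, inv_mul_cancel]
  simp

theorem Cd.f {Y : Fin k → V} {C : Matrix (Fin k) (Fin k) F} (h : P.Cd Y C) (b b' : Fin k → F) :
    P.f (cmb Y b) (cmb Y b') = -((C *ᵥ b) ⬝ᵥ b') - P.e * (b ⬝ᵥ C *ᵥ b') := by
  have : ∀ i j, P.f (Y i) (Y j) = -C j i - P.e * C i j := fun i j => by
    linear_combination h.1 i j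
  simp only [cmb_apply, map_sum, map_smul, LinearMap.sum_apply, LinearMap.smul_apply, this,
    smul_eq_mul, dotProduct, mulVec, mul_sum, sum_mul, ← sum_neg_distrib]
  rw [sum_comm (f := fun i j => P.e * (b i * (C i j * b' j))), ← sum_sub_distrib]
  refine sum_congr rfl fun j _ => ?_
  rw [← sum_sub_distrib]
  exact sum_congr rfl fun i _ => by ring

theorem Cd.Q {Y : Fin k → V} {C : Matrix (Fin k) (Fin k) F} (h : P.Cd Y C) (b : Fin k → F) :
    P.Q (cmb Y b) = -(P.d * ((C *ᵥ b) ⬝ᵥ b)) := by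
  induction b using Pi.single_induction with
  | zero => simp
  | add b b' hb hb' =>
    rw [map_add, P.add, hb, hb', h.f, mulVec_add, add_dotProduct, dotProduct_add, dotProduct_add,
      dotProduct_comm b]
    linear_combination (-((C *ᵥ b') ⬝ᵥ b)) * P.d_e
  | single i c =>
    have : cmb Y (Pi.single i c) = c • Y i := by simp [cmb]
    rw [this, P.smul]
    simp only [mulVec_single, dotProduct_single, MulOpposite.smul_eq_mul_unop, Pi.smul_apply,
      col_apply, MulOpposite.unop_op]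
    linear_combination (c * c) * h.2 i

variable (P) [Finite F] [Finite V]

/-- The Levi complement. -/
noncomputable def lev (x : GL (Fin k) F) (h : P.G) : (P.hyp k).G :=
  (P.hyp k).mkG ((toLin' x.1).prodMap (h.1.toLinearMap.prodMap (toLin' x⁻¹.1ᵀ)))
    (fun u v => by simp [hyp_f, P.G_f, dot_inv, -coe_units_inv, dotProduct_comm (x⁻¹.1ᵀ *ᵥ _),
      dotProduct_comm u.2.2])
    fun v => by simp [hyp_Q, P.G_Q, dot_inv, -coe_units_inv]

theorem lev_apply (x : GL (Fin k) F) (h : P.G) (v : HV F k V) :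
    (P.lev x h).1 v = (x.1 *ᵥ v.1, h.1 v.2.1, x⁻¹.1ᵀ *ᵥ v.2.2) := rfl

variable {P} in
/-- The unipotent radical. -/
noncomputable def uu {Y : Fin k → V} {C : Matrix (Fin k) (Fin k) F} (h : P.Cd Y C) :
    (P.hyp k).G :=
  (P.hyp k).mkG ((LinearMap.fst F _ _ - P.shp Y ∘ₗ LinearMap.fst F _ _ ∘ₗ LinearMap.snd F _ _ +
    toLin' C ∘ₗ LinearMap.snd F _ _ ∘ₗ LinearMap.snd F _ _).prod
    (((LinearMap.fst F _ _ + cmb Y ∘ₗ LinearMap.snd F _ _).prod (LinearMap.snd F _ _)) ∘ₗ
      LinearMap.snd F _ _))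
    (fun u v => by
      simp [hyp_f, h.f, P.symm (cmb Y _) v.2.1, P.f_cmb Y u.2.1, P.f_cmb Y v.2.1,
        dotProduct_comm u.2.2]
      ring)
    fun v => by
      simp [hyp_Q, P.add, h.Q, P.f_cmb Y v.2.1]
      ring

variable {P} in
theorem uu_apply {Y : Fin k → V} {C : Matrix (Fin k) (Fin k) F} (h : P.Cd Y C) (v : HV F k V) :
    (uu h).1 v = (v.1 - P.shp Y v.2.1 + C *ᵥ v.2.2, v.2.1 + cmb Y v.2.2, v.2.2) := rfl

variable (k) in
/-- The element interchanging the two totally singular subspaces. -/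
noncomputable def sw : (P.hyp k).G :=
  (P.hyp k).mkG ((P.e • (LinearMap.snd F _ _ ∘ₗ LinearMap.snd F _ _)).prod
    ((LinearMap.fst F _ _ ∘ₗ LinearMap.snd F _ _).prod (LinearMap.fst F _ _)))
    (fun u v => by
      simp [hyp_f]
      linear_combination (u.1 ⬝ᵥ v.2.2) * P.e_sq)
    fun v => by
      change P.d * ((P.e • v.2.2) ⬝ᵥ v.1) + P.Q v.2.1 = P.d * (v.1 ⬝ᵥ v.2.2) + P.Q v.2.1
      rw [smul_dotProduct, smul_eq_mul, ← mul_assoc, P.d_e, dotProduct_comm]

theorem sw_apply (v : HV F k V) : (P.sw k).1 v = (P.e • v.2.2, v.2.1, v.1) := rfl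

open _root_.Classical in
/-- The isometry `v ↦ v + Y C⁻¹ Y^# v` (`1` if `(Y, C)` is not a parameter). -/
noncomputable def hY (Y : Fin k → V) (C : GL (Fin k) F) : P.G :=
  if h : P.Cd Y C.1 then P.mkG (LinearMap.id + cmb Y ∘ₗ toLin' C⁻¹.1 ∘ₗ P.shp Y)
    (fun u v => by
      simp [h.f, P.symm (cmb Y _) v, P.f_cmb Y u, P.f_cmb Y v, mulVec_mulVec, -coe_units_inv,
        ← Units.val_mul, dotProduct_comm (C⁻¹.1 *ᵥ _)])
    fun v => by
      simp [P.add, h.Q, P.f_cmb Y v, mulVec_mulVec, -coe_units_inv, ← Units.val_mul]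
  else 1

variable {P} in
theorem hY_apply {Y : Fin k → V} {C : GL (Fin k) F} (h : P.Cd Y C.1) (v : V) :
    (P.hY Y C).1 v = v + cmb Y (C⁻¹.1 *ᵥ P.shp Y v) := by
  rw [hY, dif_pos h]; rfl

variable (k) in
/-- The stabiliser of the first summand. -/
def Par : Subgroup (P.hyp k).G where
  carrier := {g | ∀ a, (g.1 (a, 0)).2 = 0}
  one_mem' := fun _ => rfl
  mul_mem' := fun {g h} hg hh a => by
    change (g.1 (h.1 (a, 0))).2 = 0
    rw [show h.1 (a, 0) = ((h.1 (a, 0)).1, 0) from Prod.ext rfl (hh a), hg]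
  inv_mem' := fun {g} hg a => by
    have h : ∀ a, g.1 (a, 0) = ((g.1 (a, 0)).1, 0) := fun a => Prod.ext rfl (hg a)
    obtain ⟨b, hb⟩ := (Finite.injective_iff_surjective (f := fun a => (g.1 (a, 0)).1)).1
      (fun a b e => (Prod.ext_iff.1 (g.1.injective (a₁ := (a, 0)) (a₂ := (b, 0))
        (Prod.ext e ((hg a).trans (hg b).symm)))).1) a
    change (g.1.symm (a, 0)).2 = 0
    rw [show g.1.symm (a, 0) = (b, 0) by
      rw [LinearEquiv.symm_apply_eq, h]; exact Prod.ext hb.symm rfl]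

theorem mem_Par {g : (P.hyp k).G} : g ∈ P.Par k ↔ ∀ a, (g.1 (a, 0)).2 = 0 := Iff.rfl

noncomputable instance instFintypePar : Fintype (P.Par k) := Fintype.ofFinite _

variable {P}

theorem par1 (g : P.Par k) (a : Fin k → F) : g.1.1 (a, 0) = ((g.1.1 (a, 0)).1, 0) :=
  Prod.ext rfl (g.2 a)

theorem par3 (g : P.Par k) (a : Fin k → F) (v : V) : (g.1.1 (a, v, 0)).2.2 = 0 := by
  funext i
  have h := (P.hyp k).G_f g.1 ((g⁻¹.1.1 (Pi.single i 1, 0)).1, 0) (a, v, 0)
  rw [← par1, show g.1.1 (g⁻¹.1.1 (Pi.single i 1, 0)) = (Pi.single i 1, 0) from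
    g.1.1.apply_symm_apply _, par1] at h
  simpa [hyp_f] using h

theorem par2 (g : P.Par k) (a : Fin k → F) (v : V) :
    (g.1.1 (a, v, 0)).2 = ((g.1.1 (0, v, 0)).2.1, 0) := by
  rw [show ((a, v, 0) : HV F k V) = (a, 0) + (0, v, 0) by simp, map_add, Prod.snd_add, g.2,
    zero_add]
  exact Prod.ext rfl (par3 g 0 v)

variable (P k)

/-- The action on the first summand. -/
noncomputable def p1 : P.Par k →* GL (Fin k) F := MonoidHom.toHomUnits
  { toFun := fun g => LinearMap.toMatrix'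
      (LinearMap.fst F _ _ ∘ₗ g.1.1.toLinearMap ∘ₗ LinearMap.inl F _ _)
    map_one' := by ext i j; simp [one_apply, Pi.single_apply]
    map_mul' := fun g h => by
      rw [← LinearMap.toMatrix'_comp]
      congr 1
      refine LinearMap.ext fun a => ?_
      change (g.1.1 (h.1.1 (a, 0))).1 = (g.1.1 ((h.1.1 (a, 0)).1, 0)).1
      rw [← par1] }

/-- The action on the middle factor. -/
noncomputable def p2 : P.Par k →* P.G where
  toFun g := P.mkG (LinearMap.fst F _ _ ∘ₗ LinearMap.snd F _ _ ∘ₗ g.1.1.toLinearMap ∘ₗ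
      LinearMap.inr F _ _ ∘ₗ LinearMap.inl F _ _)
    (fun u v => by
      have h := (P.hyp k).G_f g.1 (0, u, 0) (0, v, 0)
      simpa [hyp_f, par3] using h)
    fun v => by
      have h := (P.hyp k).G_Q g.1 (0, v, 0)
      simpa [hyp_Q, par3] using h
  map_one' := Subtype.ext (LinearEquiv.ext fun _ => rfl)
  map_mul' g h := Subtype.ext (LinearEquiv.ext fun v => by
    change (g.1.1 (h.1.1 (0, v, 0))).2.1 = (g.1.1 (0, (h.1.1 (0, v, 0)).2.1, 0)).2.1
    rw [show h.1.1 (0, v, 0) = ((h.1.1 (0, v, 0)).1, (h.1.1 (0, v, 0)).2.1, 0) from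
      Prod.ext rfl (par2 h 0 v), par2])

variable {P k}

theorem p1_spec (g : P.Par k) (a : Fin k → F) : g.1.1 (a, 0) = ((P.p1 k g).1 *ᵥ a, 0) := by
  rw [par1]
  congr 1
  exact (LinearMap.toMatrix'_mulVec
    (LinearMap.fst F _ _ ∘ₗ g.1.1.toLinearMap ∘ₗ LinearMap.inl F _ _) a).symm

theorem p2_spec (g : P.Par k) (a : Fin k → F) (v : V) :
    (g.1.1 (a, v, 0)).2 = ((P.p2 k g).1 v, 0) := par2 g a v

variable (P k) in
/-- The unipotent radical as a subgroup. -/
noncomputable def Un : Subgroup (P.hyp k).G :=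
  ((P.p1 k).ker ⊓ (P.p2 k).ker).map (P.Par k).subtype

noncomputable instance instFintypeUn : Fintype (P.Un k) := Fintype.ofFinite _

variable (P k) in
/-- The index of the parabolic subgroup times the degree of a cuspidal character. -/
noncomputable def DD : ℕ := (P.Par k).index * ∏ i ∈ Ico 1 k, (Nat.card F ^ i - 1)

variable (P k) in
/-- The inflated character of the parabolic subgroup. -/
noncomputable def Psi (ψ : GL (Fin k) F → ℂ) (φ : P.G → ℂ) : P.Par k → ℂ :=
  fun g => ψ (P.p1 k g) * φ (P.p2 k g)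

variable (P) in
/-- Isometries acting on the image of `β` as `x` and trivially on `β^⊥ / β`. -/
def QS (β : (Fin k → F) →ₗ[F] V) : Subgroup (P.G × GL (Fin k) F) where
  carrier := {z | (∀ a, z.1.1 (β a) = β (z.2.1 *ᵥ a)) ∧
    ∀ v, (∀ a, P.f (β a) v = 0) → ∃ a, z.1.1 v = v + β a}
  one_mem' := ⟨fun a => by simp, fun v _ => ⟨0, by simp⟩⟩
  mul_mem' := fun {z w} hz hw => ⟨fun a => by
      change z.1.1 (w.1.1 _) = _
      rw [hw.1, hz.1, mulVec_mulVec]; rfl, fun v hv => by
      obtain ⟨a, ha⟩ := hw.2 v hv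
      obtain ⟨b, hb⟩ := hz.2 v hv
      refine ⟨b + z.2.1 *ᵥ a, ?_⟩
      change z.1.1 (w.1.1 _) = _
      rw [ha, map_add, hb, hz.1, map_add, add_assoc]⟩
  inv_mem' := fun {z} hz => by
    have h : ∀ a, z.1.1.symm (β a) = β (z.2⁻¹.1 *ᵥ a) := fun a => by
      rw [LinearEquiv.symm_apply_eq, hz.1, mulVec_mulVec, ← Units.val_mul, mul_inv_cancel]
      simp
    refine ⟨h, fun v hv => ?_⟩
    obtain ⟨a, ha⟩ := hz.2 v hv
    refine ⟨-(z.2⁻¹.1 *ᵥ a), ?_⟩
    change z.1.1.symm v = _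
    rw [map_neg, ← h, LinearEquiv.symm_apply_eq, map_add, map_neg, ha]
    simp

noncomputable instance instFintypeQS (β : (Fin k → F) →ₗ[F] V) : Fintype (P.QS β) :=
  Fintype.ofFinite _

variable (P) in
/-- `ψ` does not occur in the Harish-Chandra restriction of `φ`. -/
def IV (ψ : GL (Fin k) F → ℂ) (φ : P.G → ℂ) : Prop :=
  ∀ β : (Fin k → F) →ₗ[F] V, Function.Injective β → (∀ a, P.Q (β a) = 0) →
    (∀ a b, P.f (β a) (β b) = 0) → ∑ z : P.QS β, φ z.1.1 * conj (ψ z.1.2) = 0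

variable (P) in
/-- `n` is an irreducible character degree (of a character trivial on `-1` if `ev`). -/
def Dg (ev : Bool) (n : ℕ) : Prop :=
  ∃ χ : P.G → ℂ, IsIrrCharacter P.G χ ∧ χ 1 = n ∧ (ev = true → χ P.neg = χ 1)

variable (P) in
/-- The number of singular points fixed by `g`, times `q - 1`. -/
noncomputable def fx (g : P.G) : ℕ := Nat.card {v : V // v ≠ 0 ∧ P.Q v = 0 ∧ ∃ c : F, g.1 v = c • v}

variable (P) in
/-- The number of singular points moved by `g` to a collinear point, times `q - 1`. -/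
noncomputable def aj (g : P.G) : ℕ :=
  Nat.card {v : V // v ≠ 0 ∧ P.Q v = 0 ∧ (¬ ∃ c : F, g.1 v = c • v) ∧ P.f v (g.1 v) = 0}

open _root_.Classical in
variable (P) in
/-- The linear coefficient of the quadratic relation. -/
noncomputable def cs [Fintype F] [DecidableEq F] [Fintype V] (J : GL (Fin k) F)
    (ψ : GL (Fin k) F → ℂ) (φ : P.G → ℂ) : ℂ :=
  ∑ Y : Fin k → V, ∑ C : GL (Fin k) F, if P.Cd Y C.1 then ψ (J⁻¹ * C) * φ (P.hY Y C) else 0

variable (P) in
/-- `PSp`. -/
abbrev PS : Type := P.G ⧸ Subgroup.center P.G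

variable (P) in
/-- `PΩ`. -/
abbrev PO : Type := commutator P.G ⧸ Subgroup.center (commutator P.G)

variable (P) in
/-- `Γ` moves pairs of singular vectors like the full group. -/
def Tr2 (Γ : Subgroup P.G) : Prop :=
  ∀ (g : P.G) (u v : V), P.Q u = 0 → P.Q v = 0 → ∃ γ ∈ Γ, γ.1 u = g.1 u ∧ γ.1 v = g.1 v

end Pol

/-- The zero space. -/
def z0 (F : Type) [Field F] (o : Bool) : Pol F (Fin 0 → F) where
  o := o
  f := 0
  Q := 0
  nd := fun _ _ => Subsingleton.elim _ _
  ho := fun _ => LinearMap.ext₂ fun x y => by simp [QuadraticMap.polar]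
  hs := fun _ => ⟨rfl, fun _ => rfl⟩

/-- The form `x²`. -/
noncomputable def z1 (h2 : (2 : F) ≠ 0) : Pol F F where
  o := true
  f := QuadraticMap.polarBilin QuadraticMap.sq
  Q := QuadraticMap.sq
  nd := fun x h => by
    have := h 1
    simp only [QuadraticMap.polarBilin_apply_apply, QuadraticMap.polar, QuadraticMap.sq_apply] at this
    exact (mul_eq_zero.1 (show 2 * x = 0 by linear_combination this)).resolve_left h2
  ho := fun _ => rfl
  hs := fun h => nomatch h

/-- The binary form `x² + a x y + b y²`. -/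
noncomputable def q2 (a b : F) : QuadraticForm F (Fin 2 → F) :=
  QuadraticMap.proj 0 0 + a • QuadraticMap.proj 0 1 + b • QuadraticMap.proj 1 1

theorem q2_apply (a b : F) (z : Fin 2 → F) :
    q2 a b z = z 0 ^ 2 + a * z 0 * z 1 + b * z 1 ^ 2 := by
  simp [q2]; ring

/-- The binary form is anisotropic. -/
def An (a b : F) : Prop := ∀ z₁ z₂ : F, z₁ ^ 2 + a * z₁ * z₂ + b * z₂ ^ 2 = 0 → z₁ = 0 ∧ z₂ = 0

theorem An.disc [Finite F] {a b : F} (h : An a b) : a ^ 2 - 4 * b ≠ 0 := fun e => by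
  by_cases h2 : (2 : F) = 0
  · have : CharP F 2 := CharTwo.of_one_ne_zero_of_two_eq_zero one_ne_zero h2
    obtain ⟨c, hc⟩ := FiniteField.isSquare_of_char_two (ringChar.eq F 2) b
    have ha : a = 0 := pow_eq_zero_iff two_ne_zero |>.1 (by linear_combination e + 2 * b * h2)
    exact one_ne_zero (h c 1 (by rw [ha, hc]; linear_combination c * c * h2)).2
  · exact h2 (h (-a) 2 (by linear_combination -e)).2

/-- The anisotropic plane. -/
noncomputable def z2 [Finite F] {a b : F} (h : An a b) : Pol F (Fin 2 → F) where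
  o := true
  f := QuadraticMap.polarBilin (q2 a b)
  Q := q2 a b
  nd := fun x hx => by
    have h0 := hx (Pi.single 0 1)
    have h1 := hx (Pi.single 1 1)
    simp [QuadraticMap.polar, q2_apply] at h0 h1
    have e0 : (a ^ 2 - 4 * b) * x 0 = 0 := by linear_combination a * h1 - 2 * b * h0
    have e1 : (a ^ 2 - 4 * b) * x 1 = 0 := by linear_combination a * h0 - 2 * h1
    ext i
    fin_cases i
    · exact (mul_eq_zero.1 e0).resolve_left h.disc
    · exact (mul_eq_zero.1 e1).resolve_left h.disc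
  ho := fun _ => rfl
  hs := fun h => nomatch h

end CF.Hc
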