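import Cfsg.Agent.Hc.A
import Cfsg.Agent.Char.More

/-!
# The structure of the parabolic subgroup
-/

set_option autoImplicit false

open scoped ComplexConjugate MatrixGroups
open Cfsg Finset Matrix

namespace CF.Hc
open CF.Char CF.Geom

variable {F : Type} [Field F] {k : ℕ}

theorem ti_mul (x y : GL (Fin k) F) : ti (x * y) = ti x * ti y :=
  Units.ext (by simp only [ti_val, _root_.mul_inv_rev, Units.val_mul, transpose_mul])

theorem ti_one : ti (1 : GL (Fin k) F) = 1 := Units.ext (by simp [ti_val])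

theorem ti_ti (x : GL (Fin k) F) : ti (ti x) = x := Units.ext (transpose_transpose _)

theorem ti_inv (x : GL (Fin k) F) : ti x⁻¹ = (ti x)⁻¹ :=
  eq_inv_of_mul_eq_one_left (by rw [← ti_mul, inv_mul_cancel, ti_one])

theorem ti_inv_val (x : GL (Fin k) F) : (ti x)⁻¹.1 = x.1ᵀ := rfl

theorem gl_ext {x y : GL (Fin k) F} (h : ∀ a, x.1 *ᵥ a = y.1 *ᵥ a) : x = y :=
  Units.ext (by ext i j; simpa using congrFun (h (Pi.single j 1)) i)

theorem gl_inj (x : GL (Fin k) F) {a : Fin k → F} (h : x.1 *ᵥ a = 0) : a = 0 := by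
  have := congrArg (x⁻¹.1 *ᵥ ·) h
  simpa [mulVec_mulVec, ← Units.val_mul, -coe_units_inv] using this

theorem gl_mul_inv (x : GL (Fin k) F) (a : Fin k → F) : x.1 *ᵥ (x⁻¹.1 *ᵥ a) = a := by
  simp [mulVec_mulVec, ← Units.val_mul, -coe_units_inv]

theorem gl_inv_mul (x : GL (Fin k) F) (a : Fin k → F) : x⁻¹.1 *ᵥ (x.1 *ᵥ a) = a := by
  simp [mulVec_mulVec, ← Units.val_mul, -coe_units_inv]

theorem dot_ext {a b : Fin k → F} (h : ∀ c, c ⬝ᵥ a = c ⬝ᵥ b) : a = b :=
  funext fun i => by simpa using h (Pi.single i 1)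

variable {V : Type} [AddCommGroup V] [Module F V] {P : Pol F V}

namespace Pol

theorem ext_G {g h : P.G} (e : ∀ v, g.1 v = h.1 v) : g = h := Subtype.ext (LinearEquiv.ext e)

theorem mul_apply (g h : P.G) (v : V) : (g * h).1 v = g.1 (h.1 v) := rfl
theorem one_apply (v : V) : (1 : P.G).1 v = v := rfl
theorem inv_apply (g : P.G) (v : V) : g⁻¹.1 (g.1 v) = v := g.1.symm_apply_apply v
theorem apply_inv (g : P.G) (v : V) : g.1 (g⁻¹.1 v) = v := g.1.apply_symm_apply v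
theorem inv_eq {g : P.G} {v w : V} (h : g.1 v = w) : g⁻¹.1 w = v := by rw [← h, inv_apply]

theorem neg_center : P.neg ∈ Subgroup.center P.G :=
  Subgroup.mem_center_iff.2 fun g => ext_G fun v => by simp [mul_apply]

theorem cmb_single (Y : Fin k → V) (i : Fin k) : cmb Y (Pi.single i (1 : F)) = Y i := by simp [cmb]

theorem e_ne : P.e ≠ 0 := left_ne_zero_of_mul_eq_one P.e_sq

/-- A totally singular complement to `W^⊥` is a graph. -/
theorem Cd_of (τ : (Fin k → F) →ₗ[F] HV F k V) (h3 : ∀ b, (τ b).2.2 = b)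
    (hf : ∀ b b', (P.hyp k).f (τ b) (τ b') = 0) (hQ : ∀ b, (P.hyp k).Q (τ b) = 0) :
    ∃ Y C, P.Cd Y C ∧ ∀ b, τ b = (C *ᵥ b, cmb Y b, b) := by
  let C := LinearMap.toMatrix' (LinearMap.fst F _ _ ∘ₗ τ)
  have hC : ∀ b, C *ᵥ b = (τ b).1 := fun b => LinearMap.toMatrix'_mulVec _ b
  have hC' : ∀ i j, (τ (Pi.single i 1)).1 j = C j i := fun i j => by rw [← hC]; simp
  refine ⟨fun i => (τ (Pi.single i 1)).2.1, C, ⟨fun i j => ?_, fun i => ?_⟩, fun b => ?_⟩
  · have := hf (Pi.single i 1) (Pi.single j 1)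
    simp only [hyp_f, h3, dotProduct_single, single_dotProduct, hC'] at this
    linear_combination this
  · have := hQ (Pi.single i 1)
    simp only [hyp_Q, h3, dotProduct_single, hC'] at this
    linear_combination this
  · refine Prod.ext (hC b).symm (Prod.ext ?_ (h3 b))
    have : LinearMap.fst F _ _ ∘ₗ LinearMap.snd F _ _ ∘ₗ τ = cmb fun i => (τ (Pi.single i 1)).2.1 :=
      (Pi.basisFun F _).ext fun i => by simp [cmb_single]
    exact LinearMap.congr_fun this b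

/-- The free entries of `C`. -/
abbrev Ix (P : Pol F V) (k : ℕ) : Type :=
  {p : Fin k × Fin k // p.1 < p.2 ∨ (P.o = false ∧ p.1 = p.2)}

/-- The parameters `C` for a fixed `Y`. -/
noncomputable def cdE (Y : Fin k → V) : {C // P.Cd Y C} ≃ (P.Ix k → F) where
  toFun C p := C.1 p.1.1 p.1.2
  invFun c := ⟨of fun i j => if h : i < j ∨ (P.o = false ∧ i = j) then c ⟨(i, j), h⟩ else
      if h : j < i then -P.e * c ⟨(j, i), Or.inl h⟩ - P.f (Y j) (Y i) else -P.Q (Y i), by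
    refine ⟨fun i j => ?_, fun i => ?_⟩
    · simp only [of_apply]
      rcases lt_trichotomy i j with h | rfl | h
      · rw [dif_neg (by omega), dif_pos h, dif_pos (Or.inl h)]
        ring
      · rcases P.cases with h | h
        · rw [dif_neg (by simp [h.1]), dif_neg (lt_irrefl _), P.self, h.2.1]
          ring
        · obtain ⟨h1, h2, -, h4, -⟩ := h
          rw [dif_pos (Or.inr ⟨h1, rfl⟩), P.self, h2, h4]
          simp
      · rw [dif_pos (Or.inl h), dif_neg (by omega), dif_pos h, P.symm (Y i)]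
        linear_combination (-c ⟨(j, i), Or.inl h⟩) * P.e_sq
    · simp only [of_apply]
      rcases P.cases with h | h
      · rw [dif_neg (by simp [h.1]), dif_neg (lt_irrefl _), h.2.2.1]
        ring
      · rw [h.2.2.1, h.2.2.2.1]
        simp⟩
  left_inv C := Subtype.ext (by
    ext i j
    simp only [of_apply]
    split_ifs with h1 h2
    · rfl
    · linear_combination -C.2.1 j i
    · obtain rfl : i = j := by omega
      have := C.2.2 i
      rcases P.cases with h | h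
      · rw [h.2.2.1] at this
        linear_combination -this
      · exact absurd (Or.inr ⟨h.1, rfl⟩) h1)
  right_inv c := funext fun p => dif_pos p.2

theorem exists_Cd (Y : Fin k → V) : ∃ C, P.Cd Y C := ⟨_, ((cdE Y).symm 0).2⟩

theorem card_Ix : Nat.card (P.Ix k) = if P.o then k * (k - 1) / 2 else k * (k + 1) / 2 := by
  have h1 := Fintype.card_product_filter_lt (α := Fin k)
  rw [Nat.card_eq_fintype_card, Fintype.card_subtype]
  cases h : P.o
  · have h2 : #{p : Fin k × Fin k | p.1 = p.2} = k := by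
      rw [show ({p : Fin k × Fin k | p.1 = p.2} : Finset _) = Finset.diag univ by ext p; simp,
        diag_card]
      simp
    simp only [true_and, filter_or]
    rw [card_union_of_disjoint (disjoint_filter.2 fun _ _ h => h.ne), h1, h2, Fintype.card_fin,
      if_neg (by simp), Nat.choose_two_right, ← Nat.add_mul_div_right _ _ two_pos]
    congr 1
    cases k
    · rfl
    · simp only [Nat.add_sub_cancel]
      ring
  · simp only [reduceCtorEq, false_and, or_false]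
    rw [h1, Fintype.card_fin, Nat.choose_two_right, if_pos trivial]

variable [Finite F] [Finite V]

theorem lev_mem (x : GL (Fin k) F) (h : P.G) : P.lev x h ∈ P.Par k := fun a => by simp [lev_apply]

theorem p1_eq {g : P.Par k} {x : GL (Fin k) F} (h : ∀ a, (g.1.1 (a, 0)).1 = x.1 *ᵥ a) :
    P.p1 k g = x := gl_ext fun a => by rw [← h, p1_spec]

theorem p2_eq {g : P.Par k} {x : P.G} (h : ∀ v, (g.1.1 (0, v, 0)).2.1 = x.1 v) :
    P.p2 k g = x := ext_G fun v => by rw [← h, p2_spec]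

theorem p1_lev (x : GL (Fin k) F) (h : P.G) : P.p1 k ⟨_, lev_mem x h⟩ = x := p1_eq fun _ => rfl

theorem p2_lev (x : GL (Fin k) F) (h : P.G) : P.p2 k ⟨_, lev_mem x h⟩ = h := p2_eq fun _ => rfl

theorem lev_mul (x y : GL (Fin k) F) (h h' : P.G) :
    P.lev (x * y) (h * h') = P.lev x h * P.lev y h' := ext_G fun v => by
  simp only [mul_apply, lev_apply, mulVec_mulVec, _root_.mul_inv_rev, Units.val_mul, transpose_mul]

theorem lev_one : P.lev (1 : GL (Fin k) F) 1 = 1 := ext_G fun v => by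
  simp [lev_apply, one_apply]

theorem lev_inv (x : GL (Fin k) F) (h : P.G) : P.lev x⁻¹ h⁻¹ = (P.lev x h)⁻¹ :=
  eq_inv_of_mul_eq_one_left (by rw [← lev_mul, inv_mul_cancel, inv_mul_cancel, lev_one])

theorem lev_neg : P.lev (-1 : GL (Fin k) F) P.neg = (P.hyp k).neg := ext_G fun v => by
  simp [lev_apply, inv_neg, neg_mulVec, Prod.ext_iff]

theorem lev_sw (x : GL (Fin k) F) (h : P.G) :
    P.lev x h * P.sw k = P.sw k * P.lev (ti x) h := ext_G fun v => by
  simp only [mul_apply, lev_apply, sw_apply, ti_inv_val, ti_val, transpose_transpose, mulVec_smul]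

theorem sw_sq : P.sw k * P.sw k = P.lev (if P.o then 1 else -1) 1 := ext_G fun v => by
  rcases P.cases with h | h <;>
    simp [mul_apply, lev_apply, sw_apply, h.1, h.2.1, one_apply, inv_neg, neg_mulVec]

theorem sw_not_mem (hk : 0 < k) : P.sw k ∉ P.Par k := fun h => by
  have := congrFun (congrArg Prod.snd (h fun _ => 1)) ⟨0, hk⟩
  simp [sw_apply] at this

theorem p3_spec (g : P.Par k) (v : HV F k V) :
    (g.1.1 v).2.2 = (ti (P.p1 k g)).1 *ᵥ v.2.2 := dot_ext fun c => by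
  have h := (P.hyp k).G_f g.1 ((P.p1 k g)⁻¹.1 *ᵥ c, 0) v
  rw [p1_spec, gl_mul_inv] at h
  rw [ti_val, dotProduct_mulVec, vecMul_transpose]
  simpa [hyp_f, -coe_units_inv] using h

theorem Un_le : P.Un k ≤ P.Par k := Subgroup.map_subtype_le _

theorem mem_Un' {g : P.Par k} : g.1 ∈ P.Un k ↔ P.p1 k g = 1 ∧ P.p2 k g = 1 :=
  ⟨fun ⟨_, h, e⟩ => Subtype.ext e ▸ h, fun h => ⟨g, h, rfl⟩⟩

theorem p_Un {g : P.Par k} (h : g.1 ∈ P.Un k) : P.p1 k g = 1 ∧ P.p2 k g = 1 := mem_Un'.1 h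

theorem mem_Un {g : (P.hyp k).G} :
    g ∈ P.Un k ↔ (∀ a, g.1 (a, 0) = (a, 0)) ∧ ∀ v, (g.1 (0, v, 0)).2.1 = v := by
  refine ⟨fun h => ?_, fun h => ?_⟩
  · obtain ⟨h1, h2⟩ := p_Un (g := ⟨g, Un_le h⟩) h
    refine ⟨fun a => ?_, fun v => ?_⟩
    · simpa [h1] using p1_spec ⟨g, Un_le h⟩ a
    · simpa [h2, one_apply] using congrArg Prod.fst (p2_spec ⟨g, Un_le h⟩ 0 v)
  · exact (mem_Un' (g := ⟨g, fun a => by rw [h.1]⟩)).2
      ⟨p1_eq fun a => by simp [h.1], p2_eq fun v => h.2 v⟩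

theorem uu_mem {Y : Fin k → V} {C : Matrix (Fin k) (Fin k) F} (h : P.Cd Y C) :
    uu h ∈ P.Un k := mem_Un.2 ⟨fun a => by simp [uu_apply], fun v => by simp [uu_apply]⟩

theorem uu_three {Y : Fin k → V} {C : Matrix (Fin k) (Fin k) F} (h : P.Cd Y C) (b : Fin k → F) :
    (uu h).1 (0, 0, b) = (C *ᵥ b, cmb Y b, b) := by simp [uu_apply]

theorem exists_uu {g : (P.hyp k).G} (h : g ∈ P.Un k) : ∃ Y C, ∃ h : P.Cd Y C, g = uu h := by
  have h3 : ∀ v, (g.1 v).2.2 = v.2.2 := fun v => by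
    simpa [(p_Un (g := ⟨g, Un_le h⟩) h).1, ti_one] using p3_spec ⟨g, Un_le h⟩ v
  obtain ⟨h1, h2⟩ := mem_Un.1 h
  obtain ⟨Y, C, hC, e⟩ := P.Cd_of (g.1.toLinearMap ∘ₗ LinearMap.inr F _ _ ∘ₗ LinearMap.inr F _ _)
    (fun b => h3 _) (fun b b' => ((P.hyp k).G_f g _ _).trans (by simp [hyp_f]))
    fun b => ((P.hyp k).G_Q g _).trans (by simp [hyp_Q])
  replace e : ∀ b, g.1 (0, 0, b) = (C *ᵥ b, cmb Y b, b) := e
  refine ⟨Y, C, hC, ext_G fun ⟨a, v, b⟩ => ?_⟩
  have h4 : g.1 (0, v, 0) = (-P.shp Y v, v, 0) := by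
    refine Prod.ext (dot_ext fun c => ?_) (Prod.ext (h2 v) (h3 _))
    have := (P.hyp k).G_f g (0, v, 0) (0, 0, c)
    simp only [e, hyp_f, h2, h3, f_cmb, zero_dotProduct, map_zero, dotProduct_zero] at this
    rw [dotProduct_comm, dotProduct_neg, dotProduct_comm c]
    linear_combination this
  rw [show ((a, v, b) : HV F k V) = (a, 0) + (0, v, 0) + (0, 0, b) by simp, map_add, map_add, h1,
    h4, e, uu_apply]
  simp [sub_eq_add_neg]

theorem uu_inj {Y Y' : Fin k → V} {C C' : Matrix (Fin k) (Fin k) F} {h : P.Cd Y C}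
    {h' : P.Cd Y' C'} (e : uu h = uu h') : Y = Y' ∧ C = C' := by
  have : ∀ b, (C *ᵥ b, cmb Y b, b) = (C' *ᵥ b, cmb Y' b, b) := fun b => by
    rw [← uu_three h, e, uu_three]
  refine ⟨funext fun i => ?_, ?_⟩
  · simpa [cmb_single] using congrArg (·.2.1) (this (Pi.single i 1))
  · ext i j
    simpa using congrFun (congrArg (·.1) (this (Pi.single j 1))) i

theorem uu_one {Y : Fin k → V} {C : Matrix (Fin k) (Fin k) F} (h : P.Cd Y C)
    (h1 : ∀ b, C *ᵥ b = 0) (h2 : ∀ b : Fin k → F, cmb Y b = 0) : uu h = 1 := by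
  obtain rfl : Y = 0 := funext fun i => by simpa [cmb_single] using h2 (Pi.single i 1)
  refine ext_G fun v => ?_
  have : P.shp (0 : Fin k → V) v.2.1 = 0 := funext fun i => by simp [shp_apply]
  simp [uu_apply, h1, h2, this, one_apply]

/-- The parametrisation of the unipotent radical. -/
noncomputable def unE : (Σ Y : Fin k → V, {C // P.Cd Y C}) ≃ P.Un k :=
  Equiv.ofBijective (fun z => ⟨uu z.2.2, uu_mem _⟩) ⟨fun ⟨Y, C, h⟩ ⟨Y', C', h'⟩ e => by
    obtain ⟨rfl, rfl⟩ := uu_inj (h := h) (h' := h') (congrArg Subtype.val e)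
    rfl, fun g => by
    obtain ⟨Y, C, h, e⟩ := exists_uu g.2
    exact ⟨⟨Y, C, h⟩, Subtype.ext e.symm⟩⟩

theorem card_Un : Nat.card (P.Un k) = Nat.card F ^ P.ux k := by
  rw [← Nat.card_congr unE, Nat.card_congr (Equiv.sigmaCongrRight cdE),
    Nat.card_congr (Equiv.sigmaEquivProd _ _), Nat.card_prod, Nat.card_fun, Nat.card_fun, card_Ix,
    Module.natCard_eq_pow_finrank (K := F) (V := V), ux, pow_add, ← pow_mul, mul_comm k (Module.finrank F V),
    Nat.card_eq_fintype_card (α := Fin k), Fintype.card_fin]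

theorem decomp (g : P.Par k) : ∃ u ∈ P.Un k, g.1 = u * P.lev (P.p1 k g) (P.p2 k g) :=
  ⟨_, (mem_Un' (g := g * (⟨_, lev_mem (P.p1 k g) (P.p2 k g)⟩ : P.Par k)⁻¹)).2
    (by simp [p1_lev, p2_lev]), by simp⟩

theorem conj_Un {u : (P.hyp k).G} (hu : u ∈ P.Un k) {g : (P.hyp k).G} (hg : g ∈ P.Par k) :
    g * u * g⁻¹ ∈ P.Un k := by
  obtain ⟨h1, h2⟩ := p_Un (g := ⟨u, Un_le hu⟩) hu
  exact (mem_Un' (g := ⟨g, hg⟩ * ⟨u, Un_le hu⟩ * (⟨g, hg⟩ : P.Par k)⁻¹)).2
    (by simp only [map_mul, map_inv, h1, h2, mul_one, mul_inv_cancel, and_self])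

theorem p_surj : Function.Surjective ((P.p1 k).prod (P.p2 k)) := fun z =>
  ⟨⟨_, lev_mem z.1 z.2⟩, Prod.ext (p1_lev _ _) (p2_lev _ _)⟩

theorem irr_Psi {ψ : GL (Fin k) F → ℂ} (hψ : IsIrrCharacter _ ψ) {φ : P.G → ℂ}
    (hφ : IsIrrCharacter _ φ) : IsIrrCharacter _ (P.Psi k ψ φ) :=
  irr_comp_of_surjective (irr_prod hψ hφ) _ p_surj

theorem opp {g : (P.hyp k).G} (h : ∀ a, (g.1 (a, 0)).2.2 = 0 → a = 0) :
    ∃ p ∈ P.Par k, ∃ p' ∈ P.Par k, g = p * P.sw k * p' := by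
  let D := LinearEquiv.ofInjectiveEndo (LinearMap.snd F _ _ ∘ₗ LinearMap.snd F _ _ ∘ₗ
    g.1.toLinearMap ∘ₗ LinearMap.inl F (Fin k → F) _) ((injective_iff_map_eq_zero _).2 h)
  obtain ⟨Y, C, hC, e⟩ := P.Cd_of (g.1.toLinearMap ∘ₗ LinearMap.inl F _ _ ∘ₗ D.symm.toLinearMap)
    (fun b => D.apply_symm_apply b) (fun b b' => ((P.hyp k).G_f g _ _).trans (by simp [hyp_f]))
    fun b => ((P.hyp k).G_Q g _).trans (by simp [hyp_Q])
  refine ⟨_, Un_le (uu_mem hC), (P.sw k)⁻¹ * ((uu hC)⁻¹ * g), fun a => ?_, by group⟩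
  have : g.1 (a, 0) = (uu hC).1 ((P.sw k).1 (D a, 0)) := by
    rw [sw_apply]
    simpa [uu_apply] using e (D a)
  rw [mul_apply, mul_apply, this, inv_apply, inv_apply]

theorem opp_of {p p' : (P.hyp k).G} (hp : p ∈ P.Par k) (hp' : p' ∈ P.Par k) (a : Fin k → F)
    (h : ((p * P.sw k * p').1 (a, 0)).2.2 = 0) : a = 0 := by
  rw [mul_apply, mul_apply, p1_spec ⟨p', hp'⟩, p3_spec ⟨p, hp⟩] at h
  exact gl_inj _ (gl_inj _ h)

theorem un_sw {u : (P.hyp k).G} (hu : u ∈ P.Un k) (h : (P.sw k)⁻¹ * u * P.sw k ∈ P.Par k) :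
    u = 1 := by
  obtain ⟨Y, C, hC, rfl⟩ := exists_uu hu
  have : ∀ b, (C *ᵥ b, cmb Y b, b) = (P.sw k).1 ((P.p1 k ⟨_, h⟩).1 *ᵥ b, 0) := fun b => by
    rw [← p1_spec, ← uu_three hC]
    simp only [mul_apply, apply_inv, sw_apply]
    simp
  exact uu_one hC (fun b => by simpa [sw_apply] using congrArg (·.1) (this b))
    fun b => by simpa [sw_apply] using congrArg (·.2.1) (this b)

theorem sw_lev (x : GL (Fin k) F) (h : P.G) :
    (P.sw k)⁻¹ * P.lev x h * P.sw k = P.lev (ti x) h := by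
  rw [mul_assoc, lev_sw, inv_mul_cancel_left]

theorem lev_of {g : (P.hyp k).G} (h : g ∈ P.Par k) (h' : (P.sw k)⁻¹ * g * P.sw k ∈ P.Par k) :
    ∃ x h, g = P.lev x h := by
  obtain ⟨u, hu, e⟩ := decomp ⟨g, h⟩
  refine ⟨P.p1 k ⟨g, h⟩, P.p2 k ⟨g, h⟩, e.trans ?_⟩
  rw [un_sw hu, one_mul]
  have := mul_mem h' (inv_mem (sw_lev (P.p1 k ⟨g, h⟩) (P.p2 k ⟨g, h⟩) ▸ lev_mem _ _))
  convert this using 1
  rw [show u = g * (P.lev (P.p1 k ⟨g, h⟩) (P.p2 k ⟨g, h⟩))⁻¹ from eq_mul_inv_of_mul_eq e.symm]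
  group

theorem big {Y : Fin k → V} {C : GL (Fin k) F} (h : P.Cd Y C.1) : ∃ u1 ∈ P.Un k, ∃ u2 ∈ P.Un k,
    P.sw k * uu h * P.sw k = u1 * P.sw k * P.lev C (P.hY Y C) * u2 := by
  set g := P.sw k * uu h * P.sw k
  have hg : ∀ a v, g.1 (a, v, 0) = (P.e • a, v + cmb Y a, -P.shp Y v + C.1 *ᵥ a) := fun a v => by
    simp [g, mul_apply, sw_apply, uu_apply]
  obtain ⟨Y1, C1, h1, e⟩ := P.Cd_of (g.1.toLinearMap ∘ₗ LinearMap.inl F _ _ ∘ₗ toLin' C⁻¹.1)
    (fun b => (congrArg (·.2.2) (hg (C⁻¹.1 *ᵥ b) 0)).trans (by simp [-coe_units_inv, gl_mul_inv]))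
    (fun b b' => ((P.hyp k).G_f g _ _).trans (by simp [hyp_f]))
    fun b => ((P.hyp k).G_Q g _).trans (by simp [hyp_Q])
  replace e : ∀ b, g.1 (C⁻¹.1 *ᵥ b, 0) = (C1 *ᵥ b, cmb Y1 b, b) := e
  have e1 : ∀ a, ((P.sw k)⁻¹ * ((uu h1)⁻¹ * g)).1 (a, 0) = (C.1 *ᵥ a, 0) := fun a => by
    refine inv_eq (Eq.symm (inv_eq ?_))
    rw [sw_apply]
    simpa [uu_apply, -coe_units_inv, gl_inv_mul] using (e (C.1 *ᵥ a)).symm
  let p : P.Par k := ⟨_, fun a => congrArg Prod.snd (e1 a)⟩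
  have e2 : P.p1 k p = C := p1_eq fun a => congrArg Prod.fst (e1 a)
  have e3 : P.p2 k p = P.hY Y C := p2_eq fun v => by
    have h2 : (uu h1).1 ((P.sw k).1 (p.1.1 (0, v, 0))) = g.1 (0, v, 0) := by
      simp only [p, mul_apply, apply_inv]
    rw [hg, uu_apply, sw_apply] at h2
    have h3 := congrArg (·.2.1) h2
    have h4 := congrArg (·.2.2) h2
    have h5 := congrArg (·.2.1) ((hg _ 0).symm.trans (e (P.shp Y v)))
    simp only [mulVec_zero, add_zero, map_zero, zero_add] at h3 h4 h5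
    rw [h4, map_neg, ← h5] at h3
    rw [hY_apply h]
    exact eq_add_of_add_neg_eq h3
  obtain ⟨u, hu, e4⟩ := decomp p
  rw [e2, e3] at e4
  refine ⟨_, uu_mem h1, _, conj_Un hu (inv_mem (lev_mem C (P.hY Y C))), ?_⟩
  rw [show g = uu h1 * (P.sw k * p.1) by simp only [p]; group, e4]
  group

theorem card_Par : Nat.card (P.Par k) =
    Nat.card (P.Un k) * (Nat.card (GL (Fin k) F) * Nat.card P.G) := by
  rw [← Nat.card_prod, ← Subgroup.card_mul_index ((P.p1 k).prod (P.p2 k)).ker,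
    Subgroup.index_ker, MonoidHom.range_eq_top.2 p_surj, Subgroup.card_top, Un,
    Subgroup.card_map_of_injective (P.Par k).subtype_injective, MonoidHom.ker_prod]

omit [Finite V] in
theorem card_GL' : Nat.card (GL (Fin k) F) =
    Nat.card F ^ (k * (k - 1) / 2) * ∏ i ∈ Ico 1 (k + 1), (Nat.card F ^ i - 1) := by
  have := Fintype.ofFinite F
  rw [card_GL_field, ← Nat.card_eq_fintype_card, Fin.prod_univ_eq_prod_range
    (fun i => Nat.card F ^ k - Nat.card F ^ i), ← sum_range_id, ← prod_pow_eq_pow_sum,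
    prod_Ico_eq_prod_range, Nat.add_sub_cancel, ← prod_range_reflect (fun i => Nat.card F ^ (1 + i) - 1),
    ← prod_mul_distrib]
  refine prod_congr rfl fun i hi => ?_
  rw [Nat.mul_sub, ← pow_add, mul_one]
  have := mem_range.1 hi
  congr 2
  omega

theorem DD_mul (hk : 0 < k) : P.DD k * (Nat.card F ^ k - 1) *
    (Nat.card F ^ (P.ux k + k * (k - 1) / 2) * Nat.card P.G) = Nat.card (P.hyp k).G := by
  rw [← (P.Par k).index_mul_card, card_Par, card_Un, card_GL', prod_Ico_succ_top hk, DD]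
  ring

open _root_.Classical in
theorem sum_Un [Fintype F] [DecidableEq F] [Fintype V] (f : (P.hyp k).G → ℂ) :
    ∑ u : P.Un k, f u =
    ∑ Y : Fin k → V, ∑ C : Matrix (Fin k) (Fin k) F, if h : P.Cd Y C then f (uu h) else 0 := by
  rw [← unE.sum_comp, Fintype.sum_sigma]
  refine sum_congr rfl fun Y _ => ?_
  rw [← Fintype.sum_subtype_add_sum_subtype (P.Cd Y ·), sum_eq_zero (s := univ)
    (f := fun C : {C // ¬ P.Cd Y C} => if h : P.Cd Y C.1 then f (uu h) else 0)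
    fun C _ => dif_neg C.2, add_zero]
  exact sum_congr rfl fun C _ => by rw [dif_pos C.2]; rfl

end Pol
end CF.Hc
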