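import Cfsg.Agent.Hc.A
import Cfsg.Agent.Cusp.H
import Cfsg.Agent.Cls.ED

/-!
# Cuspidal characters of general linear groups: basic facts
-/

set_option autoImplicit false

open scoped ComplexConjugate MatrixGroups
open Cfsg Finset Matrix

namespace CF.Hc
open CF.Char CF.Geom CF.Cusp

variable {F : Type} [Field F] [Fintype F] [DecidableEq F] {k : ℕ}

omit [Fintype F] [DecidableEq F] in
theorem N0.rad {X : Submodule F (Fin k → F)} {K : Type*} [Group K] (ρ : K →* GL (Fin k) F)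
    (h : ∀ a ∈ X, ∀ l : Fin k → F, (∀ w ∈ X, l ⬝ᵥ w = 0) → ∃ z, (ρ z).1 = 1 + vecMulVec a l)
    (n : radS X) : ∃ z, (ρ z).1 = 1 + LinearMap.toMatrix' n.1 := by
  let b := Module.finBasis F X
  let c : _ → (Fin k → F) →ₗ[F] F := fun i => b.coord i ∘ₗ n.1.codRestrict X n.2.1
  have hc : ∀ i, ∀ w ∈ X, c i w = 0 := fun i w hw => by
    have : n.1.codRestrict X n.2.1 w = 0 := Subtype.ext (n.2.2 w hw)
    simp [c, this]
  let m : _ → radS X := fun i => ⟨(c i).smulRight (b i).1,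
    fun v => X.smul_mem _ (b i).2, fun v hv => by simp [hc i v hv]⟩
  have e : n = ∑ i, m i := by
    refine Subtype.ext (LinearMap.ext fun v => ?_)
    have := congrArg Subtype.val (b.sum_repr (n.1.codRestrict X n.2.1 v))
    rw [AddSubmonoidClass.coe_finsetSum] at this
    simpa [m, c, -Module.Basis.sum_repr] using this.symm
  rw [e]
  refine sum_induction m (fun n : radS X => ∃ z, (ρ z).1 = 1 + LinearMap.toMatrix' n.1) ?_
    ⟨1, by simp⟩ fun i _ => ?_
  · rintro a a' ⟨z, hz⟩ ⟨z', hz'⟩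
    refine ⟨z * z', ?_⟩
    rw [map_mul, Units.val_mul, hz, hz', add_mul, mul_add, mul_add, ← LinearMap.toMatrix'_mul,
      radS_mul]
    simp [add_comm, add_left_comm]
  · have e1 : ∀ w, (fun j => c i (Pi.single j 1)) ⬝ᵥ w = c i w := fun w => by
      rw [LinearMap.pi_apply_eq_sum_univ (c i) w, dotProduct]
      refine sum_congr rfl fun j _ => ?_
      rw [smul_eq_mul, mul_comm]
      congr 2
      ext l
      simp [Pi.single_apply, eq_comm]
    obtain ⟨z, hz⟩ := h _ (b i).2 (fun j => c i (Pi.single j 1)) fun w hw => by rw [e1, hc i w hw]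
    refine ⟨z, hz.trans ?_⟩
    congr 1
    ext s t
    simp [m, vecMulVec_apply, mul_comm]

/-- N0 -/
theorem cu_sum {ψ : GL (Fin k) F → ℂ} (hψ : IsCharacter _ ψ) (hc : IsCusp ψ)
    {X : Submodule F (Fin k → F)} (h0 : X ≠ ⊥) (h1 : X ≠ ⊤) {K : Type*} [Group K] [Fintype K]
    (ρ : K →* GL (Fin k) F)
    (h : ∀ a ∈ X, ∀ l : Fin k → F, (∀ w ∈ X, l ⬝ᵥ w = 0) → ∃ z, (ρ z).1 = 1 + vecMulVec a l)
    (x : GL (Fin k) F) : ∑ z, ψ (x * ρ z) = 0 := by
  choose w hw using N0.rad ρ h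
  have h2 : ∀ g : GL (Fin k) F, ∑ n : radS X, ψ (g * ρ (w n)) = 0 := fun g => by
    rw [← cuspF_fam hψ hc _ X h0 h1 ((glE (Pi.basisFun F (Fin k))).symm g).1]
    refine sum_congr rfl fun n _ => ?_
    have := fam_eq (char_isClassFunction hψ) (Pi.basisFun F (Fin k))
      ((glE (Pi.basisFun F (Fin k))).symm g * radHom X (Multiplicative.ofAdd n))
    rw [map_mul, MulEquiv.apply_symm_apply] at this
    refine Eq.trans ?_ this.symm
    congr 2
    refine Units.ext ?_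
    rw [hw, glE_val, LinearMap.toMatrix_eq_toMatrix']
    change _ = LinearMap.toMatrix' (1 + n.1)
    rw [map_add, LinearMap.toMatrix'_one]
  have h3 : ∀ n : radS X, ∑ z, ψ (x * ρ z) = ∑ z, ψ (x * ρ z * ρ (w n)) := fun n =>
    (Fintype.sum_equiv (Equiv.mulRight (w n)) _ _ fun z => by simp [mul_assoc]).symm
  have h4 := sum_congr (s₁ := univ) rfl fun n _ => h3 n
  rw [sum_const, sum_comm] at h4
  simp only [h2, sum_const_zero, card_univ, nsmul_eq_mul, mul_eq_zero, Nat.cast_eq_zero] at h4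
  exact h4.resolve_left Fintype.card_ne_zero

/-- N0 -/
theorem chr_ti {ψ : GL (Fin k) F → ℂ} (hψ : IsCharacter _ ψ) (x : GL (Fin k) F) :
    ψ (ti x) = conj (ψ x) := by
  obtain ⟨c, hc⟩ := CF.Cls.isConj_transpose x⁻¹.1
  rw [← char_inv hψ, ← char_isClassFunction hψ x⁻¹ c]
  congr 1
  rw [eq_mul_inv_iff_mul_eq]
  exact Units.ext hc.symm

/-- N0 -/
theorem deg_cu {ψ : GL (Fin k) F → ℂ} (hk : 0 < k) (hψ : IsIrrCharacter _ ψ) (hc : IsCusp ψ) :
    ψ 1 = (∏ i ∈ Ico 1 k, (Nat.card F ^ i - 1) : ℕ) := by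
  obtain ⟨θ, h⟩ := (AddChar.exists_apply_ne_zero (α := F) (a := 1)).2 one_ne_zero
  have := Fintype.ofFinite (Uni k F)
  rw [(deg_cusp (ψ := θ) (fun e => h (by rw [e]; rfl)) hk hc hψ).2, Nat.cast_prod,
    Nat.card_eq_fintype_card]
  refine prod_congr rfl fun i _ => ?_
  rw [Nat.cast_sub (Nat.one_le_pow _ _ Fintype.card_pos)]
  simp

omit [DecidableEq F] in
/-- N0 -/
theorem card_GL : Nat.card (GL (Fin k) F) =
    Nat.card F ^ (k * (k - 1) / 2) * ∏ i ∈ Ico 1 (k + 1), (Nat.card F ^ i - 1) := by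
  rw [Matrix.card_GL_field, Nat.card_eq_fintype_card, ← sum_range_id, ← prod_pow_eq_pow_sum,
    prod_Ico_eq_prod_range, Nat.add_sub_cancel, ← prod_range_reflect (fun i => _ ^ (1 + i) - 1),
    ← prod_mul_distrib, Fin.prod_univ_eq_prod_range (fun i => _ ^ k - _ ^ i)]
  refine prod_congr rfl fun i hi => ?_
  rw [mem_range] at hi
  rw [Nat.mul_sub, mul_one, ← pow_add]
  congr 2
  omega

end CF.Hc
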