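import Cfsg.Agent.Hc.B
import Cfsg.Agent.Hc.N0

/-! Vanishing of Harish-Chandra restrictions. -/

set_option autoImplicit false

open scoped ComplexConjugate MatrixGroups
open Cfsg Finset Matrix

namespace CF.Hc
open CF.Char CF.Geom CF.Cusp

namespace K3

theorem absv {G K ι : Type*} [Group G] [Fintype G] [Group K] [Fintype K] [Finite ι] (S : ι → Subgroup G)
    (hS : ∀ i x, ∃ j, ∀ g, x * g * x⁻¹ ∈ S i ↔ g ∈ S j) {φ : G → ℂ} (hφ : IsIrrCharacter G φ)
    (h : classInner (fun g => (Nat.card {i // g ∈ S i} : ℂ)) φ ≠ 0) (a : K →* G) {ψ : K → ℂ} (hψ : IsCharacter K ψ)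
    (hz : ∀ i, ∑ᶠ z : (S i).comap a, ψ z = 0) : ∑ z, φ (a z) * conj (ψ z) = 0 := by
  classical
  have := Fintype.ofFinite ι
  obtain ⟨i, hi⟩ : ∃ i, classInner (indFun (S i) fun _ => 1) φ ≠ 0 := by
    by_contra! H
    refine h ?_
    have : (fun g => (Nat.card {i // g ∈ S i} : ℂ)) = ∑ i, extendByZero (S i) fun _ => 1 := by
      ext g; simp [extendByZero_apply, Fintype.card_subtype]
    rw [this, inner_sum_left]
    refine sum_eq_zero fun i _ => ?_
    have := H i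
    rw [inner_indFun_left _ _ (irr_isClassFunction hφ), inner_def] at this
    rw [inner_def, sum_extendByZero_mul, (mul_eq_zero.1 this).resolve_left (inv_ne_zero card_ne_zero_complex), mul_zero]
  obtain ⟨n1, e1⟩ := inner_char_eq_nat (char_comp (irr_isCharacter hφ) a) hψ
  obtain ⟨n2, e2⟩ := inner_char_eq_nat (char_comp (char_sub_of_inner_ne_zero (char_indFun_one (S i)) hφ hi) a) hψ
  have e : (n1 + n2 : ℂ) = 0 := by
    rw [← e1, ← e2, ← Char.inner_add_left, inner_def]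
    simp only [Pi.add_apply, Pi.sub_apply, add_sub_cancel, indFun_apply', mul_assoc, ← mul_sum, sum_mul]
    rw [sum_comm, sum_eq_zero, mul_zero, mul_zero]
    intro x _
    obtain ⟨j, hj⟩ := hS i x
    have := congrArg conj (hz j)
    rw [finsum_eq_sum_of_fintype, map_sum, map_zero, ← sum_extendByZero] at this
    refine (sum_congr rfl fun z _ => ?_).trans this
    simp [extendByZero_apply, ← mul_assoc, hj]
  rw [← card_mul_inner, e1, show n1 = 0 by norm_cast at e; omega, Nat.cast_zero, mul_zero]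

variable {F : Type} [Field F] [Fintype F] [DecidableEq F] {k : ℕ}

theorem stab {ψ : GL (Fin k) F → ℂ} (hψ : IsIrrCharacter _ ψ) (h1 : ψ ≠ fun _ => 1)
    (X : Submodule F (Fin k → F)) (hc : IsCusp ψ ∨ X = ⊤) {K : Type*} [Group K] [Fintype K] (ρ : K →* GL (Fin k) F)
    (h : ∀ x : GL (Fin k) F, (∀ a ∈ X, x.1 *ᵥ a ∈ X) → ∃ z, ρ z = x) : ∑ z, ψ (ρ z) = 0 := by
  by_cases e : X = ⊥ ∨ X = ⊤
  · rw [sum_comp_surjective ρ fun x => h x (by rcases e with rfl | rfl <;> simp), sum_irr_eq_zero hψ h1, mul_zero]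
  · push Not at e
    simpa using cu_sum (irr_isCharacter hψ) (hc.resolve_right e.2) e.1 e.2 ρ (fun a ha l hl => by
      have : vecMulVec a l * vecMulVec a l = 0 := by simp [vecMulVec_mul_vecMulVec, hl a ha]
      obtain ⟨z, hz⟩ := h ⟨1 + vecMulVec a l, 1 - vecMulVec a l, by simp [add_mul, mul_sub, this],
        by simp [mul_add, sub_mul, this]⟩ fun b hb => by simpa [add_mulVec, vecMulVec_mulVec, hl b hb] using hb
      exact ⟨z, by rw [hz]⟩) 1

variable {V : Type} [AddCommGroup V] [Module F V] [Fintype V] {P : Pol F V} {β : (Fin k → F) →ₗ[F] V}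

theorem exA (hi : Function.Injective β) (hQ : ∀ a, P.Q (β a) = 0) (hf : ∀ a b, P.f (β a) (β b) = 0) (x : GL (Fin k) F)
    (l : V →ₗ[F] (Fin k → F)) (hl : ∀ a, l (β a) = a) :
    ∃ z : P.QS β, z.1.2 = x ∧ ∀ w, (∀ a, P.f (β a) w = 0) → z.1.1.1 w = w + β (x.1 *ᵥ l w - l w) := by
  let U : Submodule F V := ⨅ a, LinearMap.ker (P.f (β a))
  have hU : ∀ {w}, w ∈ U ↔ ∀ a, P.f (β a) w = 0 := by simp [U]
  let t : V →ₗ[F] V := LinearMap.id + β ∘ₗ (toLin' x.1 - LinearMap.id) ∘ₗ l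
  have ht : ∀ w, t w = w + β (x.1 *ᵥ l w - l w) := fun _ => rfl
  have hb : ∀ a, t (β a) = β (x.1 *ᵥ a) := fun a => by simp [ht, hl]
  obtain ⟨g, g1, g2, g3⟩ := P.wp.extend_map U (t ∘ₗ U.subtype) ((injective_iff_map_eq_zero _).2 fun w hw => by
      have e : w.1 = β (-(x.1 *ᵥ l w - l w)) := by rw [map_neg]; exact eq_neg_of_add_eq_zero_left hw
      have : t w.1 = 0 := hw
      rw [e, hb, map_eq_zero_iff _ hi] at this
      exact Subtype.ext (by rw [e, gl_inj x this, map_zero]; rfl))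
    (fun w w' => by
      change P.f (t w) (t w') = _
      simp only [ht, map_add, LinearMap.add_apply, hf, hU.1 w'.2, P.refl (hU.1 w.2 _), add_zero])
    fun w => by
      change P.Q (t w) = _
      rw [ht, P.add, hQ, P.refl (hU.1 w.2 _), mul_zero, add_zero, add_zero]
  have g4 : ∀ w, (∀ a, P.f (β a) w = 0) → g w = t w := fun w hw => g3 ⟨w, hU.2 hw⟩
  exact ⟨⟨(⟨g, g1, g2⟩, x), fun a => (g4 _ fun b => hf b a).trans (hb a), fun w hw => ⟨_, g4 w hw⟩⟩, rfl, g4⟩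

theorem exB (hi : Function.Injective β) (hQ : ∀ a, P.Q (β a) = 0) (hf : ∀ a b, P.f (β a) (β b) = 0) {v : V}
    (hv : P.Q v = 0) : ∃ X : Submodule F (Fin k → F), ∀ x : GL (Fin k) F, (∀ a ∈ X, x.1 *ᵥ a ∈ X) →
      ∃ z : P.QS β, z.1.2 = x ∧ ∃ c : F, z.1.1.1 v = c • v := by
  obtain ⟨l, hl⟩ := β.exists_leftInverse_of_injective (LinearMap.ker_eq_bot.2 hi)
  replace hl : ∀ a, l (β a) = a := LinearMap.congr_fun hl
  by_cases h1 : v ∈ LinearMap.range β
  · obtain ⟨b, rfl⟩ := h1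
    refine ⟨F ∙ b, fun x hx => ?_⟩
    obtain ⟨z, hz, -⟩ := exA hi hQ hf x l hl
    obtain ⟨c, hc⟩ := Submodule.mem_span_singleton.1 (hx b (Submodule.mem_span_singleton_self b))
    exact ⟨z, hz, c, by rw [z.2.1, hz, ← hc, map_smul]⟩
  by_cases h2 : ∀ a, P.f (β a) v = 0
  · obtain ⟨m, m1, m2⟩ := Submodule.exists_le_ker_of_notMem h1
    refine ⟨⊤, fun x _ => ?_⟩
    obtain ⟨z, hz, hw⟩ := exA hi hQ hf x (l - ((m v)⁻¹ • m).smulRight (l v)) fun a => by
      simp [hl, show m (β a) = 0 from m2 ⟨a, rfl⟩]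
    exact ⟨z, hz, 1, by simp [hw v h2, m1]⟩
  obtain ⟨b, hb⟩ : ∃ b, P.f (β b) v = 1 := by
    push Not at h2
    obtain ⟨a, ha⟩ := h2
    exact ⟨(P.f (β a) v)⁻¹ • a, by simp [ha]⟩
  refine ⟨LinearMap.ker (P.f.flip v ∘ₗ β), fun x hx => ?_⟩
  obtain ⟨c, hc⟩ : ∃ c, ∀ a, P.f (β (x.1 *ᵥ a)) v = P.f (β a) v * c := ⟨P.f (β (x.1 *ᵥ b)) v, fun a => by
    have := hx (a - P.f (β a) v • b) (by simp [hb])
    simpa [mulVec_sub, mulVec_smul, sub_eq_zero] using this⟩
  have c0 : c ≠ 0 := fun e => by simpa [gl_mul_inv, hb, e] using hc (x⁻¹.1 *ᵥ b)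
  obtain ⟨z, hz, hw⟩ := exA hi hQ hf x (l + (P.f.flip v - P.f.flip v ∘ₗ β ∘ₗ l).smulRight b) fun a => by simp [hl]
  have e : ∀ w, (∀ a, P.f (β a) w = 0) → P.f w (z.1.1⁻¹.1 (c⁻¹ • v)) = P.f w v := fun w h => by
    rw [← P.G_f z.1.1, Pol.apply_inv, hw w h]
    simp only [map_smul, map_add, map_sub, LinearMap.add_apply, LinearMap.sub_apply, hc]
    simp [hb, c0, mul_comm c⁻¹]
  let U : Submodule F V := ⨅ a, LinearMap.ker (P.f (β a))
  have hU : ∀ {w}, w ∈ U ↔ ∀ a, P.f (β a) w = 0 := by simp [U]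
  obtain ⟨s, s1, s2, s3, s4⟩ := P.wp.step U v (z.1.1⁻¹.1 (c⁻¹ • v)) (fun h => h2 (hU.1 h))
    (fun h => one_ne_zero (hb.symm.trans ((e _ fun a => hf a b).symm.trans (hU.1 h b))))
    (by rw [P.G_Q, P.smul, hv, mul_zero]) fun w h => e w (hU.1 h)
  exact ⟨z * ⟨(⟨s, s1, s2⟩, 1), fun a => by simpa using s3 _ (hU.2 fun b => hf b a),
    fun w h => ⟨0, by simpa using s3 _ (hU.2 h)⟩⟩, by simp [hz], c⁻¹, by exact (congrArg z.1.1.1 s4).trans (Pol.apply_inv _ _)⟩

end K3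

variable {F : Type} [Field F] [Fintype F] [DecidableEq F] {k : ℕ}
variable {V : Type} [AddCommGroup V] [Module F V] [Fintype V] {P : Pol F V}

namespace Pol

theorem iv_one {ψ : GL (Fin k) F → ℂ} (hψ : IsIrrCharacter _ ψ) (h1 : ψ ≠ fun _ => 1) :
    P.IV ψ fun _ => 1 := fun β hi hQ hf => by
  obtain ⟨l, hl⟩ := β.exists_leftInverse_of_injective (LinearMap.ker_eq_bot.2 hi)
  have := K3.stab hψ h1 ⊤ (.inr rfl) ((MonoidHom.snd _ _).comp (P.QS β).subtype) fun x _ =>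
    (K3.exA hi hQ hf x l (LinearMap.congr_fun hl)).imp fun _ => And.left
  simpa using congrArg conj this

theorem iv_pi {ψ : GL (Fin k) F → ℂ} (hψ : IsIrrCharacter _ ψ) (hc : IsCusp ψ)
    (h1 : ψ ≠ fun _ => 1) {φ : P.G → ℂ} (hφ : IsIrrCharacter _ φ)
    (h : classInner (fun g => (P.fx g : ℂ)) φ ≠ 0) : P.IV ψ φ := fun β hi hQ hf => by
  let S : {v : V // v ≠ 0 ∧ P.Q v = 0} → Subgroup P.G := fun v =>
    { carrier := {g | ∃ c : F, g.1 v = c • v.1}
      one_mem' := ⟨1, by simp⟩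
      mul_mem' := fun ⟨c, hc⟩ ⟨d, hd⟩ => ⟨d * c, by rw [mul_apply, hd, map_smul, hc, mul_smul]⟩
      inv_mem' := fun {g} ⟨c, hc⟩ => ⟨c⁻¹, inv_eq (by
        rw [map_smul, hc, smul_smul, inv_mul_cancel₀, one_smul]
        rintro rfl
        exact v.2.1 (by simpa using hc))⟩ }
  refine K3.absv S (fun v x => ⟨⟨x⁻¹.1 v, by simpa using v.2.1, by rw [P.G_Q, v.2.2]⟩, fun g => exists_congr fun c => ?_⟩) hφ
    (by
      convert h using 4 with g
      exact Nat.card_congr ((Equiv.subtypeSubtypeEquivSubtypeInter _ fun v : V => ∃ c : F, g.1 v = c • v).trans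
        (Equiv.subtypeEquivRight fun _ => and_assoc)))
    ((MonoidHom.fst _ _).comp (P.QS β).subtype) (char_comp (irr_isCharacter hψ) ((MonoidHom.snd _ _).comp (P.QS β).subtype))
    fun v => ?_
  · rw [mul_apply, mul_apply, ← map_smul]
    exact ⟨fun e => (inv_eq e).symm, fun e => by rw [e, apply_inv]⟩
  · classical
    obtain ⟨X, hX⟩ := K3.exB hi hQ hf v.2.2
    rw [finsum_eq_sum_of_fintype]
    exact K3.stab hψ h1 X (.inl hc) (((MonoidHom.snd _ _).comp (P.QS β).subtype).comp (Subgroup.subtype _)) fun x hx =>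
      (hX x hx).elim fun z hz => ⟨⟨z, hz.2⟩, hz.1⟩

theorem iv_vac (h : P.Ani) {j : ℕ} (hj : j < k) (ψ : GL (Fin k) F → ℂ) (φ : (P.hyp j).G → ℂ) :
    (P.hyp j).IV ψ φ := fun β hi hQ hf => by
  exfalso
  let T : (Fin k → F) →ₗ[F] (Fin j → F) := LinearMap.snd F _ _ ∘ₗ LinearMap.snd F _ _ ∘ₗ β
  have hT : ∀ a : LinearMap.ker T, (β a).2 = 0 := fun a => by
    have e : (β a).2.2 = 0 := a.2
    exact Prod.ext (h _ (by simpa [hyp_Q, e] using hQ a)) e
  have := LinearMap.finrank_le_finrank_of_injective (f := LinearMap.codRestrict (LinearMap.range T).dualAnnihilator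
    ((dotProductEquiv F (Fin j)).toLinearMap ∘ₗ LinearMap.fst F _ _ ∘ₗ β ∘ₗ (LinearMap.ker T).subtype) fun a => by
      rw [Submodule.mem_dualAnnihilator]
      rintro _ ⟨b, rfl⟩
      simpa [hyp_f, hT, T] using hf a b) ((injective_iff_map_eq_zero _).2 fun a ha =>
    Subtype.ext ((map_eq_zero_iff _ hi).1 (Prod.ext (by simpa using congrArg Subtype.val ha) (hT a))))
  have e1 := Subspace.finrank_add_finrank_dualAnnihilator_eq (LinearMap.range T)
  have e2 := T.finrank_range_add_finrank_ker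
  simp only [Module.finrank_fintype_fun_eq_card, Fintype.card_fin] at e1 e2
  omega

end Pol

end CF.Hc
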