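import Cfsg.Agent.Hc.A
import Cfsg.Agent.Hc.H0a

/-!
# The quadratic relation in a two-dimensional Hecke algebra
-/

set_option autoImplicit false

open scoped ComplexConjugate MatrixGroups
open Cfsg Finset Matrix

namespace CF.Hc
open CF.Char CF.Geom CF.Cusp

namespace H0
variable {G : Type*} [Group G] {A : Type*} [Ring A]

/-- The algebraic data used in the computation. -/
structure Dat (H U L : Subgroup G) (φ : G →* A) (s : G) (e : A) : Prop where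
  hU : U ≤ H
  hL : L ≤ H
  hUL : ∀ p ∈ H, ∃ u ∈ U, ∃ l ∈ L, p = u * l
  sq : e * e = e
  cm : ∀ p ∈ H, φ p * e = e * φ p
  ue : ∀ u ∈ U, φ u * e = e
  ls : ∀ l ∈ L, φ l * φ s * e = φ s * φ l * e

variable {H U L : Subgroup G} {φ : G →* A} {s : G} {e : A}

theorem Dat.eu (d : Dat H U L φ s e) {u : G} (hu : u ∈ U) : e * φ u = e := by
  rw [← d.cm u (d.hU hu), d.ue u hu]

theorem Dat.lt (d : Dat H U L φ s e) {l : G} (hl : l ∈ L) :
    φ l * (e * φ s * e) = e * (φ s * φ l) * e := by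
  calc _ = φ l * e * φ s * e := by simp only [mul_assoc]
    _ = e * (φ l * φ s * e) := by rw [d.cm l (d.hL hl)]; simp only [mul_assoc]
    _ = _ := by rw [d.ls l hl]; simp only [mul_assoc]

theorem Dat.pt (d : Dat H U L φ s e) {p : G} (hp : p ∈ H) :
    φ p * (e * φ s * e) = e * φ s * e * φ p := by
  obtain ⟨u, hu, l, hl, rfl⟩ := d.hUL p hp
  calc _ = φ u * (φ l * (e * φ s * e)) := by rw [map_mul, mul_assoc]
    _ = φ u * e * φ s * (φ l * e) := by rw [d.lt hl]; simp only [mul_assoc]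
    _ = e * φ s * (e * φ u * φ l) := by rw [d.ue u hu, d.cm l (d.hL hl), d.eu hu]
    _ = _ := by rw [map_mul]; simp only [mul_assoc]

theorem Dat.big (d : Dat H U L φ s e) {u1 u2 l : G} (h1 : u1 ∈ U) (h2 : u2 ∈ U) (hl : l ∈ L) :
    e * φ (u1 * s * l * u2) * e = φ l * (e * φ s * e) := by
  calc _ = e * φ u1 * (φ s * φ l) * (φ u2 * e) := by simp only [map_mul, mul_assoc]
    _ = _ := by rw [d.eu h1, d.ue u2 h2, d.lt hl]

variable [Fintype U]

theorem Dat.su (d : Dat H U L φ s e) {p : G} (hp : p ∈ H) :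
    (∑ u : U, φ u) * φ p * φ s * e = (∑ u : U, φ u) * φ s * φ p * e := by
  obtain ⟨u, hu, l, hl, rfl⟩ := d.hUL p hp
  have e1 : (∑ v : U, φ v) * φ u = ∑ v : U, φ v := by
    rw [Finset.sum_mul]
    exact Fintype.sum_equiv (Equiv.mulRight (⟨u, hu⟩ : U)) _ _ fun v => by simp
  have e2 : φ u * φ l * e = φ l * e := by
    rw [mul_assoc, d.cm l (d.hL hl), ← mul_assoc, d.ue u hu]
  calc _ = (∑ v : U, φ v) * φ u * (φ l * φ s * e) := by simp only [map_mul, mul_assoc]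
    _ = (∑ v : U, φ v) * φ s * (φ u * φ l * e) := by
      rw [e1, e2, d.ls l hl]; simp only [mul_assoc]
    _ = _ := by simp only [map_mul, mul_assoc]

variable [Algebra ℂ A] [Fintype H] {Ψ : H → ℂ}

theorem Dat.tt (d : Dat H U L φ s (ee H Ψ φ)) :
    (Nat.card U : ℂ) • (ee H Ψ φ * φ s * ee H Ψ φ * (ee H Ψ φ * φ s * ee H Ψ φ)) =
      ∑ u : U, ee H Ψ φ * φ (s * u * s) * ee H Ψ φ := by
  have e1 : (∑ u : U, φ u) * ee H Ψ φ = (Nat.card U : ℂ) • ee H Ψ φ := by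
    rw [Finset.sum_mul, Finset.sum_congr rfl fun (u : U) _ => d.ue u u.2, Finset.sum_const,
      Finset.card_univ, Nat.card_eq_fintype_card, Nat.cast_smul_eq_nsmul]
  have e2 : (∑ u : U, φ u) * ee H Ψ φ * φ s * ee H Ψ φ =
      (∑ u : U, φ u) * φ s * ee H Ψ φ * ee H Ψ φ := by
    generalize hS : ∑ u : U, φ u = S
    have h := fun p : H => hS ▸ d.su p.2
    generalize hE : ee H Ψ φ = E at h
    nth_rewrite 1 [← hE]
    nth_rewrite 2 [← hE]
    simp only [ee, Finset.mul_sum, Finset.sum_mul, mul_smul_comm, smul_mul_assoc, h]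
  rw [e1, mul_assoc _ (ee H Ψ φ) (ee H Ψ φ), d.sq] at e2
  calc _ = ee H Ψ φ * φ s * (ee H Ψ φ * ee H Ψ φ) * φ s * ((Nat.card U : ℂ) • ee H Ψ φ) := by
        simp only [mul_assoc, mul_smul_comm]
    _ = ee H Ψ φ * φ s * ((Nat.card U : ℂ) • ee H Ψ φ * φ s * ee H Ψ φ) := by
        rw [d.sq]; simp only [mul_assoc, mul_smul_comm, smul_mul_assoc]
    _ = _ := by
        rw [e2]; simp only [Finset.mul_sum, Finset.sum_mul, map_mul, mul_assoc]

omit [Fintype U] in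
theorem dat (hU : U ≤ H) (hL : L ≤ H) (hΨ : IsIrrCharacter H Ψ)
    (hUL : ∀ p ∈ H, ∃ u ∈ U, ∃ l ∈ L, p = u * l) (hk : ∀ u : U, Ψ ⟨u, hU u.2⟩ = Ψ 1)
    (hc : ∀ l ∈ L, ∃ z : H, Ψ z = Ψ 1 ∧ s⁻¹ * l * s = l * z) : Dat H U L φ s (ee H Ψ φ) where
  hU := hU
  hL := hL
  hUL := hUL
  sq := ee_sq φ hΨ
  cm _ hp := ee_comm φ (irr_isClassFunction hΨ) hp
  ue u hu := ker_ee φ (irr_isCharacter hΨ) (hk ⟨u, hu⟩)
  ls l hl := by
    obtain ⟨z, hz, h⟩ := hc l hl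
    have : l * s = s * l * z := by rw [mul_assoc, ← h]; group
    rw [← map_mul, this, map_mul, mul_assoc, ker_ee φ (irr_isCharacter hΨ) hz, map_mul]

variable [Fintype G] {τ : A →ₗ[ℂ] ℂ}

omit [Fintype U] [Fintype H] [Fintype G] in
theorem cyc (tr : ∀ x y, τ (x * y) = τ (y * x)) (sq : e * e = e) (x : A) :
    τ (e * x * e) = τ (x * e) := by
  rw [mul_assoc, tr, mul_assoc, sq]

theorem Dat.ltt (d : Dat H U L φ s (ee H Ψ φ)) (hΨ : IsCharacter H Ψ)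
    (tr : ∀ x y, τ (x * y) = τ (y * x)) (h : ∀ g, τ (φ g) = regChar G g)
    (hss : ∃ z : H, Ψ z = Ψ 1 ∧ s * s = z) (h1 : ∀ u ∈ U, s * u * s ∈ H → u = 1) (l : H) :
    (Nat.card U : ℂ) * τ (φ l * (ee H Ψ φ * φ s * ee H Ψ φ * (ee H Ψ φ * φ s * ee H Ψ φ))) =
      H.index * Ψ 1 * Ψ l := by
  rw [← smul_eq_mul, ← map_smul, ← mul_smul_comm, d.tt, Finset.mul_sum, map_sum]
  have e1 : ∀ u : U, τ (φ l * (ee H Ψ φ * φ (s * u * s) * ee H Ψ φ)) =
      H.index * Ψ 1 * extendByZero H Ψ (l * (s * u * s)) := fun u => by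
    rw [← mul_assoc, ← mul_assoc, d.cm l l.2, mul_assoc _ (φ l), cyc tr d.sq, ← map_mul,
      reg_ee φ hΨ τ h]
  simp only [e1]
  obtain ⟨z, hz, hs⟩ := hss
  rw [Finset.sum_eq_single 1]
  · rw [OneMemClass.coe_one, mul_one, hs, ← Subgroup.coe_mul, extendByZero_coe,
      char_mul_of_eq_one' hΨ hz]
  · intro u _ hu
    rw [extendByZero_of_not_mem, mul_zero]
    intro hm
    exact hu (Subtype.ext (h1 u u.2 ((H.mul_mem_cancel_left l.2).1 hm)))
  · intro h; exact absurd (mem_univ _) h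

omit [Fintype U] in
theorem Dat.off (d : Dat H U L φ s (ee H Ψ φ)) (hΨ : IsCharacter H Ψ)
    (tr : ∀ x y, τ (x * y) = τ (y * x)) (h : ∀ g, τ (φ g) = regChar G g) (hss : s * s ∈ H) {g : G}
    (hg : ¬ ∃ p ∈ H, ∃ p' ∈ H, g = p * s * p') :
    τ (ee H Ψ φ * φ g * ee H Ψ φ * (ee H Ψ φ * φ s * ee H Ψ φ)) = 0 := by
  have e1 : ee H Ψ φ * φ g * ee H Ψ φ * (ee H Ψ φ * φ s * ee H Ψ φ) =
      ee H Ψ φ * (φ g * (ee H Ψ φ * ee H Ψ φ) * φ s) * ee H Ψ φ := by simp only [mul_assoc]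
  rw [e1, d.sq, cyc tr d.sq, mul_ee, Finset.sum_mul, Finset.sum_mul, map_sum]
  refine Finset.sum_eq_zero fun p _ => ?_
  rw [smul_mul_assoc, smul_mul_assoc, ← map_mul, map_smul, reg_ee φ hΨ τ h,
    extendByZero_of_not_mem, mul_zero, smul_zero]
  intro hm
  exact hg ⟨_, hm, _, H.mul_mem (H.inv_mem hss) (H.inv_mem p.2), by group⟩

end H0

variable {G : Type*} [Group G] [Fintype G]

open H0 in
theorem hecke (H U L : Subgroup G) [Fintype H] [Fintype U] (hU : U ≤ H) (hL : L ≤ H) {Ψ : H → ℂ}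
    (hΨ : IsIrrCharacter H Ψ) (h2 : classInner (indFun H Ψ) (indFun H Ψ) = 2) {s : G} (hs : s ∉ H)
    (hUL : ∀ p ∈ H, ∃ u ∈ U, ∃ l ∈ L, p = u * l) (hk : ∀ u : U, Ψ ⟨u, hU u.2⟩ = Ψ 1)
    (hc : ∀ l ∈ L, ∃ z : H, Ψ z = Ψ 1 ∧ s⁻¹ * l * s = l * z)
    (hss : ∃ z : H, Ψ z = Ψ 1 ∧ s * s = z) (h1 : ∀ u ∈ U, s * u * s ∈ H → u = 1) (val : U → ℂ)
    (hv : ∀ u : U, (val u = 0 ∧ ¬ ∃ p ∈ H, ∃ p' ∈ H, s * u * s = p * s * p') ∨
      ∃ u1 ∈ U, ∃ u2 ∈ U, ∃ l : L, s * u * s = u1 * s * l * u2 ∧ val u = Ψ ⟨l, hL l.2⟩)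
    {a b : ℕ} (ha : 0 < a) (hb : 0 < b) (hab : Nat.card U = a * b ^ 2) {η : ℂ}
    (hη : η = 1 ∨ η = -1) (hsum : ∑ u, val u = η * (a - 1) * b * Ψ 1) :
    ∃ χ, IsIrrCharacter G χ ∧ classInner (indFun H Ψ) χ ≠ 0 ∧
      (a + 1) * χ 1 = a * (H.index * Ψ 1) := by
  have hΨ' := irr_isCharacter hΨ
  have hf := irr_one_ne_zero hΨ
  have d := dat (φ := MonoidAlgebra.of ℂ G) hU hL hΨ hUL hk hc
  obtain ⟨χ, ψ, hχ, hψ, o1, hπ⟩ := norm_two (char_indFun H hΨ') h2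
  have o2 : classInner ψ χ = 0 := (Char.inner_eq_zero_comm _ _).1 o1
  have i1 : classInner (indFun H Ψ) χ = 1 := by
    rw [hπ, Char.inner_add_left, inner_irr_self hχ, o2, add_zero]
  have i2 : classInner (indFun H Ψ) ψ = 1 := by
    rw [hπ, Char.inner_add_left, inner_irr_self hψ, o1, zero_add]
  have res : ∀ θ, IsCharacter G θ →
      classInner (fun y : H => θ y) Ψ = classInner (indFun H Ψ) θ := fun θ hθ => by
    rw [← inner_indFun_right H Ψ (char_isClassFunction hθ), inner_char_comm hθ (char_indFun H hΨ')]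
  have c1 := char_sub_inner_smul char_regChar hχ
  have c2 := char_sub_inner_smul c1 hψ
  rw [Char.inner_sub_left, Char.inner_smul_left, o1, mul_zero, sub_zero, inner_regChar_left,
    inner_regChar_left, conj_one (irr_isCharacter hχ), conj_one (irr_isCharacter hψ)] at c2
  have i3 : classInner (indFun H Ψ) (regChar G - χ 1 • χ - ψ 1 • ψ) = 0 := by
    rw [Char.inner_sub_right, Char.inner_sub_right, Char.inner_smul_right, Char.inner_smul_right,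
      i1, i2, inner_regChar_right, conj_one (irr_isCharacter hχ), conj_one (irr_isCharacter hψ), hπ,
      Pi.add_apply]
    ring
  generalize hθ : regChar G - χ 1 • χ - ψ 1 • ψ = θ at c2 i3
  have hreg : regChar G = χ 1 • χ + ψ 1 • ψ + θ := by rw [← hθ]; abel
  have tr := lin_comm (char_regChar (G := G))
  have hτ := lin_of (regChar G)
  have m1 : lin (regChar G) (ee H Ψ (MonoidAlgebra.of ℂ G) * MonoidAlgebra.of ℂ G s *
      ee H Ψ (MonoidAlgebra.of ℂ G)) = 0 := by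
    rw [cyc tr d.sq, reg_ee _ hΨ' _ hτ, extendByZero_of_not_mem H Ψ hs, mul_zero]
  have m2 := d.ltt hΨ' tr hτ hss
  have m3 := congrArg (fun x => (Nat.card U : ℂ) * lin (regChar G) (x *
    (ee H Ψ (MonoidAlgebra.of ℂ G) * MonoidAlgebra.of ℂ G s * ee H Ψ (MonoidAlgebra.of ℂ G)))) d.tt
  have m4 : ∀ u : U, (Nat.card U : ℂ) * lin (regChar G) (ee H Ψ (MonoidAlgebra.of ℂ G) *
      MonoidAlgebra.of ℂ G (s * u * s) * ee H Ψ (MonoidAlgebra.of ℂ G) *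
      (ee H Ψ (MonoidAlgebra.of ℂ G) * MonoidAlgebra.of ℂ G s * ee H Ψ (MonoidAlgebra.of ℂ G))) =
      H.index * Ψ 1 * val u := fun u => by
    rcases hv u with ⟨h0, hg⟩ | ⟨u1, hu1, u2, hu2, l, e, hl⟩
    · obtain ⟨z, -, hz⟩ := hss
      rw [d.off hΨ' tr hτ (hz ▸ z.2) hg, h0, mul_zero, mul_zero]
    · rw [e, d.big hu1 hu2 l.2, mul_assoc, hl]
      exact m2 h1 ⟨l, hL l.2⟩
  simp only [Finset.sum_mul, map_sum, Finset.mul_sum, m4, smul_mul_assoc, map_smul,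
    smul_eq_mul] at m3
  rw [← Finset.mul_sum, hsum] at m3
  have m5 := m2 h1 1
  rw [OneMemClass.coe_one, map_one, one_mul] at m5
  have et : ee H Ψ (MonoidAlgebra.of ℂ G) * (ee H Ψ (MonoidAlgebra.of ℂ G) *
      MonoidAlgebra.of ℂ G s * ee H Ψ (MonoidAlgebra.of ℂ G)) = ee H Ψ (MonoidAlgebra.of ℂ G) *
      MonoidAlgebra.of ℂ G s * ee H Ψ (MonoidAlgebra.of ℂ G) := by
    rw [← mul_assoc, ← mul_assoc, d.sq]
  have te : ee H Ψ (MonoidAlgebra.of ℂ G) * MonoidAlgebra.of ℂ G s *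
      ee H Ψ (MonoidAlgebra.of ℂ G) * ee H Ψ (MonoidAlgebra.of ℂ G) =
      ee H Ψ (MonoidAlgebra.of ℂ G) * MonoidAlgebra.of ℂ G s * ee H Ψ (MonoidAlgebra.of ℂ G) := by
    rw [mul_assoc, d.sq]
  have pt := fun p : H => d.pt p.2
  generalize ee H Ψ (MonoidAlgebra.of ℂ G) * MonoidAlgebra.of ℂ G s *
    ee H Ψ (MonoidAlgebra.of ℂ G) = t at m1 m3 m5 et te pt
  obtain ⟨x, x1, x2, x3⟩ := lin_one hΨ (irr_isCharacter hχ)
    ((res χ (irr_isCharacter hχ)).trans i1) pt et te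
  obtain ⟨y, y1, y2, y3⟩ := lin_one hΨ (irr_isCharacter hψ)
    ((res ψ (irr_isCharacter hψ)).trans i2) pt et te
  have z0 := lin_zero hΨ c2 ((res θ c2).trans i3)
  have z1 : lin θ t = 0 := by rw [← et, z0]
  have z2 : lin θ (t * t) = 0 := by nth_rewrite 1 [← et]; rw [mul_assoc, z0]
  have z3 : lin θ (t * t * t) = 0 := by nth_rewrite 1 [← et]; rw [mul_assoc, mul_assoc, z0]
  rw [hreg, lin_add3] at m1 m3 m5
  rw [x1, y1, z1] at m1
  rw [x2, y2, z2, hab] at m5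
  rw [x3, y3, z3, hab] at m3
  push_cast at m3 m5
  have hD : (H.index : ℂ) * Ψ 1 ≠ 0 :=
    mul_ne_zero (Nat.cast_ne_zero.2 Subgroup.index_ne_zero_of_finite) hf
  have h0 : χ 1 + ψ 1 = H.index * Ψ 1 := by rw [← indFun_one, hπ, Pi.add_apply]
  rcases solve (a := a) (x := x) (y := y) hD (Nat.cast_ne_zero.2 hb.ne') hη h0
    (mul_left_cancel₀ hf (by linear_combination m1))
    (mul_left_cancel₀ hf (by linear_combination m5))
    (mul_left_cancel₀ hf (by linear_combination m3)) with h | h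
  · exact ⟨χ, hχ, by rw [i1]; exact one_ne_zero, h⟩
  · exact ⟨ψ, hψ, by rw [i2]; exact one_ne_zero, h⟩

end CF.Hc
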