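import Cfsg.Agent.Hc.M1
import Cfsg.Agent.Hc.H0

/-!
# Irreducible induced characters, and the case of two constituents
-/

set_option autoImplicit false

open scoped ComplexConjugate MatrixGroups
open Cfsg Finset Matrix

namespace CF.Hc
open CF.Char CF.Geom CF.Cusp

variable {F : Type} [Field F] [Fintype F] [DecidableEq F] {k : ℕ}
variable {V : Type} [AddCommGroup V] [Module F V] [Fintype V] {P : Pol F V}

namespace M2
open Pol M1

theorem psi_lev (ψ : GL (Fin k) F → ℂ) (φ : P.G → ℂ) (x : GL (Fin k) F) (h : P.G) :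
    P.Psi k ψ φ ⟨_, lev_mem x h⟩ = ψ x * φ h := by rw [Psi, p1_lev, p2_lev]

theorem psi_one (ψ : GL (Fin k) F → ℂ) (φ : P.G → ℂ) : P.Psi k ψ φ 1 = ψ 1 * φ 1 := by
  rw [Psi, map_one, map_one]

/-- The Levi complement as an intersection. -/
noncomputable def levE : GL (Fin k) F × P.G ≃ {h : P.Par k // (P.sw k)⁻¹ * h * P.sw k ∈ P.Par k} :=
  Equiv.ofBijective (fun z => ⟨⟨_, lev_mem z.1 z.2⟩, by rw [sw_lev]; exact lev_mem _ _⟩)
    ⟨fun z w e => by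
      have := congrArg Subtype.val e
      exact Prod.ext (by simpa only [p1_lev] using congrArg (P.p1 k) this)
        (by simpa only [p2_lev] using congrArg (P.p2 k) this), fun h => by
      obtain ⟨x, y, e⟩ := lev_of h.1.2 h.2
      exact ⟨(x, y), Subtype.ext (Subtype.ext e.symm)⟩⟩

theorem norm (hk : 0 < k) {ψ : GL (Fin k) F → ℂ} (hψ : IsIrrCharacter _ ψ) (hc : IsCusp ψ)
    {φ : P.G → ℂ} (hφ : IsIrrCharacter _ φ) (iv : P.IV ψ φ) :
    classInner (indFun _ (P.Psi k ψ φ)) (indFun _ (P.Psi k ψ φ)) =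
      1 + classInner ψ fun x => conj (ψ x) := by
  classical
  rw [mackey _ (irr_Psi hψ hφ) (sw_not_mem hk) fun g hg h => ms_zero (irr_isCharacter hψ) hc
    (irr_isCharacter hφ) iv hg fun h' => h (opp h'), ← Nat.card_congr levE, MS,
    ← Fintype.sum_subtype_add_sum_subtype fun h : P.Par k => (P.sw k)⁻¹ * h * P.sw k ∈ P.Par k,
    sum_eq_zero (s := univ) (f := fun h : {h : P.Par k // ¬ (P.sw k)⁻¹ * h * P.sw k ∈ P.Par k} =>
      P.Psi k ψ φ h * conj (extendByZero _ (P.Psi k ψ φ) ((P.sw k)⁻¹ * h * P.sw k)))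
      fun h _ => by rw [ext_not _ _ h.2, map_zero, mul_zero], add_zero, ← Equiv.sum_comp levE,
    sum_congr rfl (g := fun z => ψ z.1 * conj (conj (ψ z.1)) * (φ z.2 * conj (φ z.2))) fun z _ => ?_,
    Fintype.sum_prod_type' fun x y => ψ x * conj (conj (ψ x)) * (φ y * conj (φ y)),
    ← sum_mul_sum, ← mul_one (classInner ψ _), ← inner_irr_self hφ,
    classInner, classInner, Nat.card_prod, Nat.cast_mul, div_eq_mul_inv, mul_inv]
  · ring
  · change P.Psi k ψ φ ⟨_, lev_mem z.1 z.2⟩ *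
      conj (extendByZero _ _ ((P.sw k)⁻¹ * P.lev z.1 z.2 * P.sw k)) = _
    rw [sw_lev, ext_mem _ _ (lev_mem _ _), psi_lev, psi_lev, chr_ti (irr_isCharacter hψ), map_mul]
    ring

theorem dg (hk : 0 < k) {ψ : GL (Fin k) F → ℂ} (hψ : IsIrrCharacter _ ψ) (hc : IsCusp ψ)
    {φ : P.G → ℂ} {n : ℕ} (hn : φ 1 = n) :
    (P.Par k).index * P.Psi k ψ φ 1 = (P.DD k * n : ℕ) := by
  rw [psi_one, deg_cu hk hψ hc, hn, DD]
  push_cast
  ring

theorem even {ψ : GL (Fin k) F → ℂ} (hψ : IsIrrCharacter _ ψ) {φ : P.G → ℂ}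
    (hφ : IsIrrCharacter _ φ) (e : ψ (-1) = ψ 1 ∧ φ P.neg = φ 1) {χ : (P.hyp k).G → ℂ}
    (hχ : IsIrrCharacter _ χ) (h : classInner (indFun _ (P.Psi k ψ φ)) χ ≠ 0) :
    χ (P.hyp k).neg = χ 1 := by
  rw [← lev_neg]
  exact even_of_ind _ (irr_isCharacter (irr_Psi hψ hφ)) (lev_neg (P := P) (k := k) ▸ neg_center)
    (lev_mem _ _) (by rw [psi_lev, psi_one, e.1, e.2]) hχ h

variable (P k) in
/-- The Levi complement as a homomorphism. -/
noncomputable def levH : GL (Fin k) F × P.G →* (P.hyp k).G where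
  toFun z := P.lev z.1 z.2
  map_one' := lev_one
  map_mul' _ _ := lev_mul _ _ _ _

open _root_.Classical in
/-- The values in the quadratic relation. -/
noncomputable def val (J : GL (Fin k) F) (ψ : GL (Fin k) F → ℂ) (φ : P.G → ℂ) (g : (P.hyp k).G) :
    ℂ := ∑ Y : Fin k → V, ∑ C : GL (Fin k) F,
  if ∃ h : P.Cd Y C.1, g = uu h then ψ (J⁻¹ * C) * φ (P.hY Y C) else 0

theorem sum_val (J : GL (Fin k) F) (ψ : GL (Fin k) F → ℂ) (φ : P.G → ℂ) :
    ∑ u : P.Un k, val J ψ φ u = P.cs J ψ φ := by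
  simp only [val, cs]
  rw [sum_comm]
  refine sum_congr rfl fun Y _ => ?_
  rw [sum_comm]
  refine sum_congr rfl fun C _ => ?_
  split_ifs with h
  · rw [Fintype.sum_eq_single ⟨_, uu_mem h⟩ fun u hu => if_neg fun ⟨_, e⟩ => hu (Subtype.ext e),
      if_pos ⟨h, rfl⟩]
  · exact sum_eq_zero fun u _ => if_neg fun ⟨h', _⟩ => h h'

theorem val_uu (J : GL (Fin k) F) (ψ : GL (Fin k) F → ℂ) (φ : P.G → ℂ) {Y : Fin k → V}
    {C : GL (Fin k) F} (h : P.Cd Y C.1) : val J ψ φ (uu h) = ψ (J⁻¹ * C) * φ (P.hY Y C) := by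
  rw [val, Fintype.sum_eq_single Y fun Y' hY => sum_eq_zero fun C' _ => if_neg fun ⟨_, e⟩ =>
    hY (uu_inj e).1.symm, Fintype.sum_eq_single C fun C' hC => if_neg fun ⟨_, e⟩ =>
    hC (Units.ext (uu_inj e).2.symm), if_pos ⟨h, rfl⟩]

theorem val_zero (J : GL (Fin k) F) (ψ : GL (Fin k) F → ℂ) (φ : P.G → ℂ) {Y : Fin k → V}
    {C : Matrix (Fin k) (Fin k) F} (h : P.Cd Y C) (hC : ¬ IsUnit C) : val J ψ φ (uu h) = 0 :=
  sum_eq_zero fun _ _ => sum_eq_zero fun C' _ => if_neg fun ⟨_, e⟩ =>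
    hC ((uu_inj e).2 ▸ C'.isUnit)

/-- Conjugation of the radical. -/
noncomputable def cjE {g : (P.hyp k).G} (hg : g ∈ P.Par k) : P.Un k ≃ P.Un k where
  toFun u := ⟨_, conj_Un u.2 hg⟩
  invFun u := ⟨_, conj_Un u.2 (inv_mem hg)⟩
  left_inv u := Subtype.ext (by simp only; group)
  right_inv u := Subtype.ext (by simp only; group)

end M2

namespace Pol
open M2

theorem dgI (hk : 0 < k) {ψ : GL (Fin k) F → ℂ} (hψ : IsIrrCharacter _ ψ) (hc : IsCusp ψ)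
    (hr : ∃ x, conj (ψ x) ≠ ψ x) {φ : P.G → ℂ} (hφ : IsIrrCharacter _ φ) (iv : P.IV ψ φ) {n : ℕ}
    (hn : φ 1 = n) {ev : Bool} (e : ev = true → ψ (-1) = ψ 1 ∧ φ P.neg = φ 1) :
    (P.hyp k).Dg ev (P.DD k * n) := by
  have h := norm hk hψ hc hφ iv
  obtain ⟨x, hx⟩ := hr
  rw [inner_irr_ne hψ (irr_conj hψ) fun e => hx (congrFun e x).symm, add_zero] at h
  have h1 := (irr_iff_inner_self (char_indFun _ (irr_isCharacter (irr_Psi hψ hφ)))).2 h
  exact ⟨_, h1, (indFun_one _ _).trans (dg hk hψ hc hn), fun h2 =>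
    even hψ hφ (e h2) h1 (h ▸ one_ne_zero)⟩

theorem dgII (hk : 0 < k) {ψ : GL (Fin k) F → ℂ} (hψ : IsIrrCharacter _ ψ) (hc : IsCusp ψ)
    (J : GL (Fin k) F) (h1 : ∀ x y, ψ (x * (J⁻¹ * ti y * J)) = ψ (x * y))
    (h2 : ∀ x, ψ (x * (ti J * J)) = ψ x) (h3 : P.o = false → ∀ x, ψ (-x) = ψ x) {φ : P.G → ℂ}
    (hφ : IsIrrCharacter _ φ) (iv : P.IV ψ φ) {n : ℕ} (hn : φ 1 = n) {ev : Bool}
    (e : ev = true → ψ (-1) = ψ 1 ∧ φ P.neg = φ 1) {a b : ℕ} (ha : 0 < a) (hb : 0 < b)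
    (hab : Nat.card F ^ P.ux k = a * b ^ 2) {η : ℂ} (hη : η = 1 ∨ η = -1)
    (hs : P.cs J ψ φ = η * (a - 1) * b * (ψ 1 * φ 1)) :
    ∃ m, (a + 1) * m = a * (P.DD k * n) ∧ (P.hyp k).Dg ev m := by
  have h := norm hk hψ hc hφ iv
  have hr : (fun x => conj (ψ x)) = ψ := funext fun x => by
    have := h1 1 x
    rw [one_mul, one_mul] at this
    rw [← chr_ti (irr_isCharacter hψ), ← irr_isClassFunction hψ (ti x) J⁻¹, inv_inv, this]
  rw [hr, inner_irr_self hψ, one_add_one_eq_two] at h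
  have hJ := lev_mem (P := P) J 1
  have hm := lev_mem (P := P) (ti J * J) 1
  have hsw : P.sw k * P.sw k ∈ P.Par k := sw_sq (P := P) (k := k) ▸ lev_mem _ _
  have hu : ∀ u, P.sw k * P.lev J 1 * u * (P.sw k * P.lev J 1) =
      P.sw k * (P.lev J 1 * u * (P.lev J 1)⁻¹) * P.sw k * P.lev (ti J * J) 1 := fun u => by
    have := lev_sw (P := P) J 1
    rw [← mul_one (1 : P.G), lev_mul, mul_one, ← mul_assoc _ (P.lev (ti J) 1), mul_assoc _ (P.sw k)
      (P.lev (ti J) 1), ← this]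
    group
  have hL : (levH k P).range ≤ P.Par k := fun _ ⟨z, e⟩ => e ▸ lev_mem z.1 z.2
  have hv : ∀ u : P.Un k, (val J ψ φ (cjE hJ u) = 0 ∧ ¬ ∃ p ∈ P.Par k, ∃ p' ∈ P.Par k,
      P.sw k * P.lev J 1 * u * (P.sw k * P.lev J 1) = p * (P.sw k * P.lev J 1) * p') ∨
      ∃ u1 ∈ P.Un k, ∃ u2 ∈ P.Un k, ∃ l : (levH k P).range,
        P.sw k * P.lev J 1 * u * (P.sw k * P.lev J 1) = u1 * (P.sw k * P.lev J 1) * l * u2 ∧
        val J ψ φ (cjE hJ u) = P.Psi k ψ φ ⟨l, hL l.2⟩ := fun u => by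
    obtain ⟨Y, C, hC, e⟩ := exists_uu (cjE hJ u).2
    rw [hu, e, show P.lev J 1 * u * (P.lev J 1)⁻¹ = uu hC from e]
    by_cases h7 : IsUnit C
    · obtain ⟨C, rfl⟩ := h7
      obtain ⟨u1, h8, u2, h9, e'⟩ := big hC
      refine Or.inr ⟨u1, h8, _, conj_Un h9 (inv_mem hm), ⟨_, (J⁻¹ * C * (ti J * J), P.hY Y C), rfl⟩,
        ?_, ?_⟩
      · change _ = _ * P.lev _ _ * _
        rw [e', show P.lev (J⁻¹ * C * (ti J * J)) (P.hY Y C) =
          (P.lev J 1)⁻¹ * P.lev C (P.hY Y C) * P.lev (ti J * J) 1 by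
            rw [← lev_inv, ← lev_mul, ← lev_mul, inv_one, one_mul, mul_one]]
        group
      · rw [val_uu, ← h2]
        exact (psi_lev ψ φ _ _).symm
    · refine Or.inl ⟨val_zero J ψ φ hC h7, fun ⟨p, hp, p', hp', e'⟩ => ?_⟩
      obtain ⟨v, hv, h8⟩ := exists_mulVec_eq_zero_iff.2
        (by simpa [isUnit_iff_isUnit_det] using h7 : C.det = 0)
      refine hv (opp_of hp (mul_mem (mul_mem hJ hp') (inv_mem hm)) v ?_)
      rw [show p * P.sw k * (P.lev J 1 * p' * (P.lev (ti J * J) 1)⁻¹) = P.sw k * uu hC * P.sw k by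
        rw [← mul_inv_eq_iff_eq_mul.2 e'.symm]; group]
      simp [mul_apply, sw_apply, uu_apply, h8]
  obtain ⟨χ, h4, h5, h6⟩ := hecke (P.Par k) (P.Un k) (levH k P).range Un_le hL (irr_Psi hψ hφ) h
    (s := P.sw k * P.lev J 1) (fun h => sw_not_mem hk ((mul_mem_cancel_right hJ).1 h))
    (fun p hp => by
      obtain ⟨u, hu, e⟩ := decomp ⟨p, hp⟩
      exact ⟨u, hu, _, ⟨(_, _), rfl⟩, e⟩)
    (fun u => by rw [Psi, (p_Un u.2).1, (p_Un u.2).2, psi_one])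
    (fun _ ⟨z, e⟩ => ⟨⟨_, lev_mem (z.1⁻¹ * (J⁻¹ * ti z.1 * J)) 1⟩, by
      rw [psi_lev, psi_one, h1, inv_mul_cancel], by
      subst e
      change _ * P.lev z.1 z.2 * _ = P.lev z.1 z.2 * P.lev _ _
      rw [← lev_mul, mul_inv_cancel_left, mul_one, show P.lev (J⁻¹ * ti z.1 * J) z.2 =
        (P.lev J 1)⁻¹ * P.lev (ti z.1) z.2 * P.lev J 1 by
          rw [← lev_inv, ← lev_mul, ← lev_mul, inv_one, one_mul, mul_one], ← sw_lev]
      group⟩)
    ⟨⟨_, lev_mem ((if P.o then 1 else -1) * (ti J * J)) 1⟩, by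
      rw [psi_lev, psi_one, h2]
      cases ho : P.o
      · simp [h3 ho]
      · simp, by
      have := hu 1
      rw [mul_one, mul_one, mul_inv_cancel, mul_one, sw_sq, ← lev_mul, mul_one] at this
      exact this⟩
    (fun u h7 h8 => by
      rw [hu, mul_mem_cancel_right hm] at h8
      have := un_sw (conj_Un h7 hJ) (by
        convert mul_mem (inv_mem hsw) h8 using 1
        group)
      simpa using this)
    (fun u => val J ψ φ (cjE hJ u)) hv ha hb (card_Un.trans hab) hη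
    (by rw [Equiv.sum_comp (cjE hJ) fun u => val J ψ φ u, M2.sum_val, hs, psi_one])
  obtain ⟨m, -, hm⟩ := irr_one_eq_nat h4
  refine ⟨m, ?_, χ, h4, hm, fun h => even hψ hφ (e h) h4 h5⟩
  rw [dg hk hψ hc hn, hm] at h6
  exact_mod_cast h6

end Pol
end CF.Hc
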