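import Cfsg.Agent.Hc.A
import Cfsg.Agent.Classical.GL2Char
import Cfsg.Agent.Classical.SL2Torus
import Cfsg.Agent.Char.More

/-!
# Cuspidal characters of `GL₁` and `GL₂`
-/

set_option autoImplicit false

open scoped ComplexConjugate MatrixGroups
open Cfsg Finset Matrix

namespace CF.Hc
open CF.Char CF.Geom CF.Cusp CF.Classical

variable {F : Type} [Field F] [Fintype F] [DecidableEq F]

namespace Z

theorem exists_pow_ne {A : Type*} [Group A] [Finite A] [IsCyclic A] {n : ℕ} (h0 : 0 < n)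
    (h : n < Nat.card A) : ∃ a : A, a ^ n ≠ 1 := by
  obtain ⟨a, ha⟩ := IsCyclic.exists_ofOrder_eq_natCard (α := A)
  exact ⟨a, fun e => (Nat.le_of_dvd h0 (ha ▸ orderOf_dvd_of_pow_eq_one e)).not_gt h⟩

theorem isCusp {ψ : GL (Fin 2) F → ℂ} (h : ∑ x, ψ (bor 1 1 x) = 0) : IsCusp ψ := by
  classical
  intro m h0 h1
  obtain rfl : m = 1 := by omega
  rw [← sum_filter]
  refine Eq.trans ?_ h
  refine (sum_of_injOn (fun x : F => bor 1 1 x) (fun x _ y _ e => ?_) (fun x _ => ?_)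
    (fun g hg h => (h ⟨g 0 1, by simp, ?_⟩).elim) fun _ _ => rfl).symm
  · simpa using congrArg (fun g : GL (Fin 2) F => g 0 1) e
  · refine mem_coe.2 (mem_filter.2 ⟨mem_univ _, fun i j e => ?_⟩)
    fin_cases i <;> fin_cases j <;> first | rfl | simp at e
  · have hg := (mem_filter.1 hg).2
    exact gl2_ext_iff.2 ⟨(hg 0 0 (by simp)).symm, rfl, (hg 1 0 (by simp)).symm,
      (hg 1 1 (by simp)).symm⟩

omit [Fintype F] [DecidableEq F] in
theorem neg_one : (-1 : GL (Fin 2) F) = scal (-1) := by simp [gl2_ext_iff]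

omit [Fintype F] [DecidableEq F] in
theorem conj_J (y : GL (Fin 2) F) :
    (J2 F)⁻¹ * ti y * J2 F = y * scal (GeneralLinearGroup.det y)⁻¹ := by
  obtain ⟨h1, h2, h3, h4⟩ := gl2_inv_apply y
  have e : ∀ i j, ti y i j = y⁻¹ j i := fun _ _ => rfl
  have e0 : ∀ i j, (J2 F)⁻¹ i j = !![0, -1; 1, 0] i j := fun _ _ => rfl
  have e1 : ∀ i j, J2 F i j = !![0, 1; -1, 0] i j := fun _ _ => rfl
  simp only [gl2_ext_iff, gl2_mul_apply, e, e0, e1, h1, h2, h3, h4, scal_00, scal_01, scal_10,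
    scal_11, Units.val_inv_eq_inv_val, ← dt2_eq_det]
  simp [mul_comm]

omit [Fintype F] [DecidableEq F] in
theorem ti_J : ti (J2 F) * J2 F = scal (-1) := by
  have e0 : ∀ i j, ti (J2 F) i j = !![0, -1; 1, 0] j i := fun _ _ => rfl
  have e1 : ∀ i j, J2 F i j = !![0, 1; -1, 0] i j := fun _ _ => rfl
  simp [gl2_ext_iff, gl2_mul_apply, e0, e1, -coe_mul]

variable {g₀ : GL (Fin 2) F} (h₀ : NoEig g₀)
include h₀

theorem isCusp_cusp (θ : nsT g₀ →* ℂˣ) : IsCusp (cusp θ) := by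
  refine isCusp ?_
  rw [← add_sum_erase _ _ (mem_univ 0), ← scal_eq_bor, h₀.cusp_scal,
    sum_congr rfl fun x hx => h₀.cusp_jor θ (hasEig_bor 1 1 x)
      (by simpa [isScal_bor] using ne_of_mem_erase hx), sum_const, card_erase_of_mem (mem_univ _),
    card_univ, nsmul_eq_mul, Nat.cast_pred Fintype.card_pos, Nat.card_eq_fintype_card]
  ring

theorem cusp_inv {θ : nsT g₀ →* ℂˣ} (h : θ.comp h₀.adjT ≠ θ) :
    (fun x => conj (cusp θ x)) = cusp θ⁻¹ := by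
  have e : ∀ t, conj (θ t : ℂ) = θ⁻¹ t := fun t => by
    rw [← char_inv (char_linear θ)]
    simp
  refine h₀.gl2_funext' (char_isClassFunction (char_conj (irr_isCharacter (h₀.irr_cusp h))))
    (gen_isClassFunction (gen_cusp _)) (fun a => ?_) (fun g a h1 h2 => ?_) (fun g a b h1 h2 => ?_)
    fun t ht => ?_
  · rw [h₀.cusp_scal, h₀.cusp_scal, map_mul, e]
    simp
  · rw [h₀.cusp_jor _ h2 h1, h₀.cusp_jor _ h2 h1, map_neg, e]
  · rw [h₀.cusp_split _ h2 h1, h₀.cusp_split _ h2 h1, map_zero]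
  · rw [h₀.cusp_mem _ ht, h₀.cusp_mem _ ht, map_neg, map_add, e, e]

theorem nonreal {γ : nsT g₀ →* ℂˣ} (hγ : Function.Injective γ) {n : ℕ} (h0 : 0 < n)
    (h : n + 1 < Nat.card F) : IsIrrCharacter _ (cusp (γ ^ n)) ∧
      ∃ x, conj (cusp (γ ^ n) x) ≠ cusp (γ ^ n) x := by
  have e : ∀ t, (γ ^ n) t = 1 → t ^ n = 1 := fun t e => hγ (by simpa using e)
  have h1 : (γ ^ n).comp h₀.adjT ≠ γ ^ n := fun a => by
    have := h₀.isCyclic_nsT1
    obtain ⟨u, hu⟩ := exists_pow_ne (A := nsT1 g₀) h0 (by rw [h₀.card_nsT1]; omega)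
    refine hu (inclT_injective g₀ ?_)
    rw [map_pow, map_one]
    exact e _ (DFunLike.congr_fun (h₀.comp_adjT_eq_iff.1 a) u)
  refine ⟨h₀.irr_cusp h1, by_contra fun a => ?_⟩
  push Not at a
  rcases h₀.cusp_eq_cusp_iff.1 ((funext a).symm.trans (cusp_inv h₀ h1)) with b | b
  · have := h₀.isCyclic_nsT
    obtain ⟨t, ht⟩ := exists_pow_ne (A := nsT g₀) (n := 2 * n) (by omega)
      (by rw [h₀.card_centralizer, Nat.lt_sub_iff_add_lt]; nlinarith)
    refine ht (pow_mul t 2 n ▸ e _ ?_)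
    rw [pow_two, map_mul]
    exact mul_eq_one_iff_eq_inv.2 (DFunLike.congr_fun b t)
  · obtain ⟨c, hc⟩ := exists_pow_ne (A := Fˣ) h0 (by rw [Nat.card_units]; omega)
    obtain ⟨t, rfl⟩ := h₀.detT_surjective c
    refine hc (scalT_injective g₀ ?_)
    rw [map_pow, map_one]
    refine e _ ?_
    rw [mul_inv_eq_iff_eq_mul.1 (h₀.adjT_eq t).symm, map_mul, mul_comm]
    exact mul_eq_one_iff_eq_inv.2 (DFunLike.congr_fun b t)

open _root_.Classical in
theorem weyl0 (θ : nsT g₀ →* ℂˣ) (hθ : ∀ a, θ (scalT g₀ a) = 1) :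
    2 * ∑ x : GL (Fin 2) F with x.1.trace = 0, cusp θ x =
      (if (2 : F) = 0 then -2 * (Nat.card F * (Nat.card F - 1) ^ 2 : ℂ) else 0) +
      Nat.card F * (Nat.card F - 1) *
        ∑ t : nsT g₀, if IsScal t.1 then 0 else if tr2 t.1 = 0 then cusp θ t else 0 := by
  have hf : IsClassFunction _ fun g => if tr2 g = 0 then cusp θ g else 0 := fun g c => by
    beta_reduce
    rw [gen_isClassFunction (gen_cusp θ) g c, ← tr2_of_isConj (isConj_iff.2 ⟨c, rfl⟩)]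
  have h1 : ∀ (a : Fˣ) x, tr2 (bor a a x) = 0 ↔ (2 : F) = 0 := fun a x => by
    simp [tr2, ← two_mul]
  have h2 := h₀.weyl_aux hf
  simp only [scal_eq_bor, h1] at h2
  simp only [← scal_eq_bor, h₀.cusp_scal, h₀.cusp_bor_jor, hθ, sum_const, card_univ,
    nsmul_eq_mul, ← Nat.card_eq_fintype_card, card_units_complex] at h2
  rw [sum_eq_zero (s := univ) fun a _ => sum_eq_zero fun b _ => by
    split_ifs with e1 e2
    exacts [rfl, h₀.cusp_split θ (hasEig_bor a b 0) (Units.val_injective.ne e1), rfl]] at h2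
  rw [sum_filter]
  simp only [trace_fin_two]
  refine h2.trans ?_
  split_ifs <;> simp
  ring

end Z

open Z

/-- Z -/
theorem nonreal2 (h : 3 ≤ Nat.card F) : ∃ ψ : GL (Fin 2) F → ℂ, IsIrrCharacter _ ψ ∧ IsCusp ψ ∧
    (∃ x, conj (ψ x) ≠ ψ x) ∧ (4 ≤ Nat.card F → ψ (-1) = ψ 1) := by
  obtain ⟨g₀, h₀⟩ := exists_noEig F
  have := h₀.isCyclic_nsT
  obtain ⟨γ, hγ⟩ := exists_linear_injective_of_isCyclic (G := nsT g₀)
  by_cases h4 : 4 ≤ Nat.card F
  · obtain ⟨h1, h2⟩ := nonreal h₀ hγ two_pos h4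
    refine ⟨_, h1, isCusp_cusp h₀ _, h2, fun _ => ?_⟩
    rw [neg_one, h₀.cusp_scal, h₀.cusp_one, MonoidHom.pow_apply, ← map_pow, ← map_pow]
    simp
  · obtain ⟨h1, h2⟩ := nonreal h₀ hγ one_pos h
    exact ⟨_, h1, isCusp_cusp h₀ _, h2, fun e => (h4 e).elim⟩

/-- Z -/
theorem nonreal1 (h : 4 ≤ Nat.card F) : ∃ ψ : GL (Fin 1) F → ℂ, IsIrrCharacter _ ψ ∧ IsCusp ψ ∧
    ∃ x, conj (ψ x) ≠ ψ x := by
  obtain ⟨γ, hγ⟩ := exists_linear_injective_of_isCyclic (G := Fˣ)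
  obtain ⟨c, hc⟩ := exists_pow_ne (A := Fˣ) two_pos (by rw [Nat.card_units]; omega)
  obtain ⟨x, rfl⟩ := GeneralLinearGroup.det_surjective (n := Fin 1) c
  refine ⟨_, irr_linear (γ.comp GeneralLinearGroup.det), fun m _ _ => by omega, x, fun e => hc ?_⟩
  rw [← char_inv (char_linear _), Units.val_inj, MonoidHom.comp_apply, MonoidHom.comp_apply,
    hγ.eq_iff, map_inv, inv_eq_iff_mul_eq_one] at e
  rw [pow_two, e]

/-- Z -/
theorem psi0 : ∃ ψ : GL (Fin 2) F → ℂ, IsIrrCharacter _ ψ ∧ IsCusp ψ ∧ ψ ≠ (fun _ => 1) ∧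
    (∀ x y, ψ (x * ((J2 F)⁻¹ * ti y * J2 F)) = ψ (x * y)) ∧
    (∀ x, ψ (x * (ti (J2 F) * J2 F)) = ψ x) ∧ (∀ x, ψ (-x) = ψ x) ∧ ∃ η : ℂ, (η = 1 ∨ η = -1) ∧
    ∑ x : GL (Fin 2) F with x.1.trace = 0, ψ x = η * Nat.card F * (Nat.card F - 1) ^ 2 := by
  classical
  obtain ⟨g₀, h₀, ht⟩ : ∃ g₀ : GL (Fin 2) F, NoEig g₀ ∧ ((2 : F) ≠ 0 → tr2 g₀ = 0) := by
    by_cases h2 : (2 : F) = 0
    · exact (exists_noEig F).imp fun _ h => ⟨h, fun e => (e h2).elim⟩
    · obtain ⟨d, hd⟩ := FiniteField.exists_nonsquare (F := F) fun e => h2 (by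
        simpa [e] using ringChar.Nat.cast_ringChar (R := F))
      refine ⟨gl2 0 d 1 0 (by rintro e; exact hd ⟨0, by simpa using e⟩), fun x e => hd ⟨x, ?_⟩,
        fun _ => by simp [tr2]⟩
      simp only [tr2, dt2, gl2_00, gl2_01, gl2_10, gl2_11] at e
      linear_combination -e
  have := h₀.isCyclic_nsT
  obtain ⟨γ, hγ⟩ := exists_linear_injective_of_isCyclic (G := nsT g₀)
  have hq : 1 < Nat.card F := Finite.one_lt_card
  set θ := γ ^ (Nat.card F - 1) with hθ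
  have h1 : ∀ a, θ (scalT g₀ a) = 1 := fun a => by
    rw [hθ, MonoidHom.pow_apply, ← map_pow, ← map_pow, ← Nat.card_units, pow_card_eq_one', map_one,
      map_one]
  have h2 : θ.comp h₀.adjT ≠ θ := fun a => by
    have := h₀.isCyclic_nsT1
    obtain ⟨u, hu⟩ := exists_pow_ne (A := nsT1 g₀) two_pos (by rw [h₀.card_nsT1]; omega)
    have e : u ^ (Nat.card F - 1) = 1 := inclT_injective g₀ (hγ (by
      simpa [hθ] using DFunLike.congr_fun (h₀.comp_adjT_eq_iff.1 a) u))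
    have e' := pow_card_eq_one' (x := u)
    rw [h₀.card_nsT1, show Nat.card F + 1 = Nat.card F - 1 + 2 by omega, pow_add, e, one_mul] at e'
    exact hu e'
  have h3 : ∀ x a, cusp θ (x * scal a) = cusp θ x := fun x a => by
    rw [← scal_comm]
    exact char_mul_of_eq_one (irr_isCharacter (h₀.irr_cusp h2))
      (by rw [h₀.cusp_scal, h₀.cusp_one, h1]; simp) x
  refine ⟨_, h₀.irr_cusp h2, isCusp_cusp h₀ θ, fun e => ?_, fun x y => ?_, fun x => ?_,
    fun x => ?_, ?_⟩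
  · have := h₀.cusp_bor_jor θ 1
    rw [e, h1] at this
    norm_num at this
  · rw [conj_J, ← mul_assoc, h3]
  · rw [ti_J, h3]
  · rw [← mul_neg_one, neg_one, h3]
  have h4 := weyl0 h₀ θ h1
  by_cases h5 : (2 : F) = 0
  · rw [if_pos h5, sum_eq_zero (s := (univ : Finset (nsT g₀))) fun t _ => ?_] at h4
    · exact ⟨-1, Or.inr rfl, by linear_combination h4 / 2⟩
    split_ifs with e1 e2
    exacts [rfl, by
      obtain ⟨s, hs⟩ := isSquare_of_two_eq_zero h5 (dt2 t.1)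
      exact (h₀.noEig_of_mem e1 s (by rw [e2, hs]; linear_combination s * s * h5)).elim, rfl]
  have ht := ht h5
  let t₀ : nsT g₀ := ⟨g₀, Subgroup.mem_centralizer_singleton_iff.2 rfl⟩
  have h6 : h₀.adjT t₀ = scalT g₀ (-1) * t₀ := by
    simp only [tr2, add_eq_zero_iff_eq_neg] at ht
    simp [t₀, Subtype.ext_iff, NoEig.coe_adjT, gl2_ext_iff, gl2_mul_apply, adj2, ht, -coe_mul]
  have h7 : cusp θ g₀ = -(2 * θ t₀) := by
    rw [h₀.cusp_mem θ (t := t₀) h₀.not_isScal, h6, map_mul, h1, one_mul, two_mul]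
  have h8 : (θ t₀ : ℂ) * θ t₀ = 1 := by
    have := congrArg θ (h6.symm.trans (h₀.adjT_eq t₀))
    rw [map_mul, map_mul, h1, h1, one_mul, one_mul, map_inv, ← mul_eq_one_iff_eq_inv] at this
    rw [← Units.val_mul, this, Units.val_one]
  rw [if_neg h5, ← sum_of_injOn (s := univ) (f := fun _ => cusp θ g₀) (fun a => scalT g₀ a * t₀)
    (fun a _ b _ e => scalT_injective g₀ (mul_right_cancel e)) (fun _ _ => mem_univ _)
    (fun t _ h => ?_) fun a _ => ?_, sum_const, card_univ, nsmul_eq_mul,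
    ← Nat.card_eq_fintype_card, card_units_complex, h7] at h4
  · refine ⟨-θ t₀, ?_, by linear_combination h4 / 2⟩
    rcases mul_self_eq_one_iff.1 h8 with e | e <;> simp [e]
  · split_ifs with e1 e2
    exacts [rfl, (h (by
      obtain ⟨s, u, a1, a2, a3, a4⟩ := (mem_centralizer_gl2 h₀.not_isScal).1 t.2
      have hs : s = 0 := (mul_eq_zero.1 (show 2 * s = 0 by
        simp only [tr2] at ht e2
        linear_combination e2 - a1 - a4 - u * ht)).resolve_left h5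
      have hu : u ≠ 0 := fun e => e1 ⟨by simp [a2, e], by simp [a3, e], by simp [a1, a4, e]⟩
      exact ⟨Units.mk0 u hu, by simp, Subtype.ext (gl2_ext_iff.2 (by
        simp [t₀, scal_mul_apply, a1, a2, a3, a4, hs, -coe_mul]))⟩)).elim, rfl]
  · change _ = if IsScal (scal a * g₀) then 0 else if tr2 (scal a * g₀) = 0 then cusp θ (scal a * g₀)
      else 0
    rw [if_neg (isScal_scal_mul.not.2 h₀.not_isScal), if_pos, scal_comm, h3]
    simp only [tr2, scal_mul_apply] at ht ⊢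
    rw [← mul_add, ht, mul_zero]

/-- The sign of `GL₂(2)`. -/
def Z.sg : GL (Fin 2) (ZMod 2) →* ℤˣ := MonoidHom.mk'
  (fun x => if x 0 0 = x 1 1 ∧ (x 0 1 ≠ 0 ∨ x 1 0 ≠ 0) then -1 else 1) fun x y => by
    have hx := dt2_ne_zero x
    have hy := dt2_ne_zero y
    simp only [gl2_mul_apply, dt2] at hx hy ⊢
    generalize x 0 0 = a, x 0 1 = b, x 1 0 = c, x 1 1 = d, y 0 0 = a', y 0 1 = b', y 1 0 = c',
      y 1 1 = d' at hx hy ⊢
    revert a b c d a' b' c' d'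
    decide +kernel

/-- Z -/
theorem psi02 : ∃ ψ : GL (Fin 2) (ZMod 2) → ℂ, IsIrrCharacter _ ψ ∧ IsCusp ψ ∧ ψ ≠ (fun _ => 1) ∧
    (∀ x y, ψ (x * ((J2 (ZMod 2))⁻¹ * ti y * J2 (ZMod 2))) = ψ (x * y)) ∧
    (∀ x, ψ (x * (ti (J2 (ZMod 2)) * J2 (ZMod 2))) = ψ x) ∧
    ∀ x, ψ x = if x.1 ≠ 1 ∧ x.1 0 0 = x.1 1 1 then -1 else 1 := by
  let s := (Units.map (Int.castRingHom ℂ).toMonoidHom).comp Z.sg
  have hs : ∀ x, (s x : ℂ) = if x 0 0 = x 1 1 ∧ (x 0 1 ≠ 0 ∨ x 1 0 ≠ 0) then -1 else 1 :=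
    fun x => by
      change (((if _ then -1 else 1 : ℤˣ) : ℤ) : ℂ) = _
      split_ifs <;> simp
  have h1 : ∀ a : (ZMod 2)ˣ, scal a = 1 := fun a => by rw [Subsingleton.elim a 1, scal_one]
  refine ⟨_, irr_linear s, isCusp ?_, fun e => ?_, fun x y => by rw [conj_J, h1, mul_one],
    fun x => by rw [ti_J, h1, mul_one], fun x => ?_⟩
  · rw [show (univ : Finset (ZMod 2)) = {0, 1} from rfl, sum_pair zero_ne_one]
    simp [hs]
  · have := congrFun e (bor 1 1 1)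
    simp [hs] at this
    norm_num at this
  · rw [hs]
    refine if_congr ?_ rfl rfl
    have hx := dt2_ne_zero x
    rw [ne_eq x.1, ← Matrix.ext_iff]
    simp only [Fin.forall_fin_two, dt2, one_apply_eq, one_apply_ne (show (0 : Fin 2) ≠ 1 by decide),
      one_apply_ne (show (1 : Fin 2) ≠ 0 by decide)] at hx ⊢
    generalize x 0 0 = a, x 0 1 = b, x 1 0 = c, x 1 1 = d at hx ⊢
    revert a b c d
    decide

end CF.Hc
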