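import Cfsg.Agent.Hc.Ca1
import Cfsg.Agent.Hc.N0
import Cfsg.Agent.Hc.M2
import Cfsg.Agent.Hc.Z
import Cfsg.Agent.Hc.K3

/-! The quadratic relation for `Sp` and a cuspidal character of `GL₂`. -/

set_option autoImplicit false

open scoped ComplexConjugate MatrixGroups
open Cfsg Finset Matrix

namespace CF.Hc
open CF.Char CF.Geom CF.Cusp

variable {F : Type} [Field F] [Fintype F] [DecidableEq F] {k : ℕ}
variable {V : Type} [AddCommGroup V] [Module F V] [Fintype V] {P : Pol F V}

/-- Ca (uses H1 Z K3) -/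
theorem ca (ho : P.o = false) :
    ∃ m, (Nat.card F + 1) * m = Nat.card F * P.DD 2 ∧ (P.hyp 2).Dg true m := by
  obtain ⟨ψ, h1, h2, h3, h4, h5, h6, η, h7, h8⟩ := psi0 (F := F)
  have := Pol.dgII (P := P) two_pos h1 h2 (J2 F) h4 h5 (fun _ => h6) irr_one (Pol.iv_one h1 h3) (n := 1)
    Nat.cast_one.symm (ev := true) (fun _ => ⟨h6 1, rfl⟩) (a := Nat.card F) (b := Nat.card F * Nat.card V)
    Nat.card_pos (Nat.mul_pos Nat.card_pos Nat.card_pos) (by
      rw [Pol.ux, ho, Module.natCard_eq_pow_finrank (K := F) (V := V)]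
      simp only [Bool.false_eq_true, if_false]
      ring) h7 (by
      rw [Ca.cs_eq ho h1 h3, h8, deg_cu two_pos h1 h2, show Ico 1 2 = {1} from rfl, prod_singleton,
        pow_one,
        Nat.cast_pred Nat.card_pos]
      push_cast
      ring)
  rwa [mul_one] at this

end CF.Hc
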