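import Cfsg.Agent.Hc.A

/-! The linear coefficient of the quadratic relation for `Sp` and a cuspidal character of `GL₂`. -/

set_option autoImplicit false

open scoped ComplexConjugate MatrixGroups
open Cfsg Finset Matrix

namespace CF.Hc.Ca
open CF.Char CF.Geom CF.Cusp

variable {F : Type} [Field F] [Fintype F] [DecidableEq F]
  {V : Type} [AddCommGroup V] [Module F V] [Fintype V] {P : Pol F V}

omit [DecidableEq F] in
theorem sum_f (S : F → ℂ) (hS : ∑ t, S t = 0) :
    ∑ Y : Fin 2 → V, S (P.f (Y 0) (Y 1)) = Nat.card V * S 0 := by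
  rw [← (finTwoArrowEquiv V).symm.sum_comp, Fintype.sum_prod_type, sum_eq_single 0 _ (by simp)]
  · simp
  intro u _ hu
  obtain ⟨w, hw⟩ : ∃ w, P.f u w ≠ 0 := not_forall.1 fun h => hu (P.nd u h)
  have h1 : ∀ c : F, ∑ v, S (P.f u v) = ∑ v, S (c + P.f u v) := fun c =>
    (Fintype.sum_equiv (Equiv.addLeft ((c / P.f u w) • w)) _ _ fun v => by simp [hw]).symm
  have h2 := sum_congr (s₁ := univ) rfl fun c _ => h1 c
  have h3 : ∀ t, ∑ c, S (c + t) = 0 := fun t => (Equiv.sum_comp (Equiv.addRight t) S).trans hS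
  rw [sum_const, sum_comm] at h2
  simpa [h3] using h2

omit [Fintype F] [DecidableEq F] [Fintype V] in
theorem cd_iff (ho : P.o = false) (Y : Fin 2 → V) (x : GL (Fin 2) F) :
    P.Cd Y (J2 F * x).1 ↔ x.1.trace = P.f (Y 0) (Y 1) := by
  obtain ⟨h1, h2⟩ := P.hs ho
  have h3 : P.f (Y 1) (Y 0) = - P.f (Y 0) (Y 1) := (h2.neg_eq _ _).symm
  simp only [Pol.Cd, Pol.e, Pol.d, ho, h1, Fin.forall_fin_two, h2.self_eq_zero, h3, trace_fin_two,
    Units.val_mul, mul_apply, Fin.sum_univ_two, J2]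
  simp
  constructor
  · intro h; linear_combination -h.1
  · intro h; exact ⟨by linear_combination -h, by linear_combination h⟩

theorem cs_eq (ho : P.o = false) {ψ : GL (Fin 2) F → ℂ} (hψ : IsIrrCharacter _ ψ) (h1 : ψ ≠ fun _ => 1) :
    P.cs (J2 F) ψ (fun _ => 1) = Nat.card V * ∑ x : GL (Fin 2) F with x.1.trace = 0, ψ x := by
  rw [sum_filter, ← sum_f (P := P) (fun t => ∑ x : GL (Fin 2) F, if x.1.trace = t then ψ x else 0)
    (by rw [sum_comm]; simpa using sum_irr_eq_zero hψ h1)]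
  refine sum_congr rfl fun Y _ => ?_
  refine (Fintype.sum_equiv (Equiv.mulLeft (J2 F)) _ _ fun x => ?_).symm
  simp only [Equiv.coe_mulLeft, cd_iff ho, inv_mul_cancel_left, mul_one]

end CF.Hc.Ca
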