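import Cfsg.Agent.Hc.A
import Cfsg.Agent.Char.More
import Cfsg.Agent.Char.FrobSchur

/-! Characters of rank two and rank three permutation groups. -/

set_option autoImplicit false

open scoped ComplexConjugate MatrixGroups
open Cfsg Finset Matrix

namespace CF.Hc
open CF.Char

variable {G : Type*} [Group G] [Fintype G]

namespace K0

variable {X : Type*} [Fintype X] [DecidableEq X] [MulAction G X]

/-- permutation matrices -/
def pm (X : Type*) [Fintype X] [DecidableEq X] [MulAction G X] : G →* Matrix X X ℂ where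
  toFun g := of fun x y => if x = g • y then 1 else 0
  map_one' := by ext; simp [one_apply]
  map_mul' g h := by ext; simp [mul_apply, mul_smul]

omit [Fintype G] in
theorem mul_pm (E : Matrix X X ℂ) (g : G) (x y : X) : (E * pm X g) x y = E x (g • y) := by simp [pm, mul_apply]

omit [Fintype G] in
theorem idem {E : Matrix X X ℂ} (e : E * E = E) (c : ∀ (g : G) x y, E (g • x) (g • y) = E x y) (n : E ≠ 0) :
    ∃ φ, IsCharacter G φ ∧ φ ≠ 0 ∧ ∀ g, φ g = ∑ x, E x (g • x) := by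
  have e' : toLin' E ∘ₗ toLin' E = toLin' E := by rw [← toLin'_mul, e]
  have := char_trace_idem ((toLinAlgEquiv' (R := ℂ) (n := X)).toMonoidHom.comp (pm X (G := G))) _ e' fun g => by
    refine (toLin'_mul E (pm X g)).symm.trans ((congrArg _ (Matrix.ext fun x y => ?_)).trans (toLin'_mul (pm X g) E))
    rw [mul_pm, ← c g⁻¹]
    simp [pm, mul_apply, ← inv_smul_eq_iff]
  refine ⟨_, this, fun z => n (toLin'.map_eq_zero_iff.1 ((LinearMap.IsIdempotentElem.trace_eq_zero_iff e').1 ?_)), fun g => ?_⟩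
  · simpa [-trace_toLin'_eq, Module.End.one_eq_id] using congrFun z 1
  · exact (congrArg _ (toLin'_mul E (pm X g)).symm).trans ((trace_toLin'_eq _).trans (sum_congr rfl fun x _ => mul_pm ..))

omit [Fintype G] in
theorem half (R : X → X → Prop) (hs : ∀ x y, R x y → R y x) (hi : ∀ x, ¬ R x x)
    (hG : ∀ (g : G) x y, R x y → R (g • x) (g • y))
    (t : ∀ x y x' y', x ≠ y → x' ≠ y' → (R x y ↔ R x' y') → ∃ g : G, g • x = x' ∧ g • y = y')
    (t1 : ∀ x y : X, ∃ g : G, g • x = y)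
    {x0 y0 z0 : X} (h1 : R x0 y0) (h2 : ¬ R x0 z0) (h3 : x0 ≠ z0) {k μ : ℕ} {r s : ℤ}
    (hk : Nat.card {y // R x0 y} = k) (hμ : Nat.card {y // R x0 y ∧ R z0 y} = μ) (hrs : r ≠ s)
    (e1 : r * s = μ - k) (e2 : (k : ℤ) * (k - 1 - μ - r - s) = μ * (Nat.card X - 1 - k)) :
    ∃ φ, IsCharacter G φ ∧ φ ≠ 0 ∧ ∀ g, ((r : ℂ) - s) * φ g =
      Nat.card {x // R x (g • x)} - s * Nat.card (MulAction.fixedBy X g) - (k - s) := by
  classical
  have hG' : ∀ (g : G) x y, R (g • x) (g • y) ↔ R x y := fun g x y => ⟨fun h => by simpa using hG g⁻¹ _ _ h, hG g x y⟩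
  have ne : ∀ {x y}, R x y → x ≠ y := fun h e => hi _ (e ▸ h)
  obtain ⟨A, hA⟩ : ∃ A : Matrix X X ℂ, ∀ x y, A x y = if R x y then 1 else 0 := ⟨of _, fun _ _ => rfl⟩
  obtain ⟨J, hJ⟩ : ∃ J : Matrix X X ℂ, ∀ x y, J x y = 1 := ⟨of _, fun _ _ => rfl⟩
  have sq : ∀ x y, (A * A) x y = Nat.card {z // R x z ∧ R y z} := fun x y => by
    rw [mul_apply, Nat.card_eq_fintype_card, Fintype.card_subtype, card_filter]
    push_cast
    exact sum_congr rfl fun z _ => by
      rw [hA, hA, show R z y ↔ R y z from ⟨hs _ _, hs _ _⟩]; by_cases R x z <;> simp [*]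
  have iv : ∀ (g : G) x y, (A * A) (g • x) (g • y) = (A * A) x y := fun g x y =>
    (Fintype.sum_equiv (MulAction.toPerm g) _ _ fun z => by simp [hA, hG']).symm
  have dg : ∀ x, (A * A) x x = k := fun x => by
    obtain ⟨g, rfl⟩ := t1 x0 x
    rw [iv, sq, ← hk]; simp
  have aj : A * J = (k : ℂ) • J := Matrix.ext fun x y => by
    rw [Matrix.smul_apply, hJ, smul_eq_mul, mul_one, ← dg x, mul_apply, mul_apply]
    exact sum_congr rfl fun z _ => by rw [hA, hA, hJ]; split_ifs with a b <;> simp_all [hs _ _]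
  have ja : J * A = (k : ℂ) • J := Matrix.ext fun x y => by
    rw [Matrix.smul_apply, hJ, smul_eq_mul, mul_one, ← dg y, mul_apply, mul_apply]
    exact sum_congr rfl fun z _ => by rw [hA, hA, hJ]; split_ifs with a b <;> simp_all [hs _ _]
  have jj : J * J = (Nat.card X : ℂ) • J := Matrix.ext fun x y => by simp [mul_apply, hJ]
  obtain ⟨l, hl⟩ : ∃ l, (A * A) x0 y0 = l := ⟨_, rfl⟩
  have aa : A * A = (k : ℂ) • 1 + l • A + (μ : ℂ) • (J - 1 - A) := Matrix.ext fun x y => by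
    by_cases a : x = y
    · simp [a, dg, hA, hJ, hi]
    by_cases b : R x y
    · obtain ⟨g, rfl, rfl⟩ := t x0 y0 x y (ne h1) a (by simp [*])
      simp [iv, hl, hA, hJ, a, b]
    · obtain ⟨g, rfl, rfl⟩ := t x0 z0 x y h3 a (by simp [*])
      rw [iv, sq, hμ]; simp [hA, hJ, a, b]
  have k0 : (k : ℂ) ≠ 0 := by
    have : Nonempty {y // R x0 y} := ⟨⟨_, h1⟩⟩
    exact_mod_cast hk ▸ Nat.card_pos.ne'
  have n0 : (Nat.card X : ℂ) ≠ 0 := by
    have : Nonempty X := ⟨x0⟩
    exact_mod_cast Nat.card_pos.ne'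
  have d0 : (r : ℂ) - s ≠ 0 := by exact_mod_cast sub_ne_zero.2 hrs
  replace e1 : (r : ℂ) * s = μ - k := by exact_mod_cast e1
  replace e2 : (k : ℂ) * (k - 1 - μ - r - s) = μ * (Nat.card X - 1 - k) := by exact_mod_cast e2
  obtain rfl : l = μ + r + s := mul_left_cancel₀ k0 (by
    have : (A * A * J) x0 x0 = (((k : ℂ) • 1 + l • A + (μ : ℂ) • (J - 1 - A)) * J) x0 x0 := by rw [aa]
    simp only [mul_assoc, aj, add_mul, sub_mul, smul_mul_assoc, mul_smul_comm, one_mul, jj, Matrix.add_apply, Matrix.sub_apply, Matrix.smul_apply, hJ,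
      smul_eq_mul] at this
    linear_combination e2 - this)
  obtain ⟨φ, p1, p2, p3⟩ := idem (G := G) (E := ((r : ℂ) - s)⁻¹ • (A - (s : ℂ) • 1 - ((k - s) / Nat.card X : ℂ) • J)) (by
    simp only [mul_sub, sub_mul, smul_mul_assoc, mul_smul_comm, one_mul, mul_one, aa, aj, ja, jj]
    match_scalars <;> field_simp
    · linear_combination e1
    · ring
    · linear_combination -e1 - e2) (fun g x y => by simp [hA, hJ, hG', one_apply]) fun z => by
      have a := congrFun₂ z x0 y0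
      have b := congrFun₂ z x0 z0
      simp only [Matrix.smul_apply, Matrix.sub_apply, hA, hJ, h1, h2, one_apply_ne h3, one_apply_ne (ne h1), if_true, if_false, smul_eq_mul,
        Matrix.zero_apply, mul_eq_zero, inv_eq_zero, d0, false_or] at a b
      exact one_ne_zero (by linear_combination a - b : (1 : ℂ) = 0)
  refine ⟨φ, p1, p2, fun g => ?_⟩
  simp only [p3, Matrix.smul_apply, Matrix.sub_apply, hA, hJ, smul_eq_mul, ← mul_sum, mul_inv_cancel_left₀ d0, sum_sub_distrib, one_apply,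
    sum_boole, sum_const, card_univ, nsmul_eq_mul, Nat.card_eq_fintype_card, Fintype.card_subtype, MulAction.mem_fixedBy,
    eq_comm (a := g • _)] at n0 ⊢
  field_simp

end K0

theorem rank3 {X : Type*} [Finite X] [MulAction G X] (R : X → X → Prop)
    (hs : ∀ x y, R x y → R y x) (hi : ∀ x, ¬ R x x) (hG : ∀ (g : G) x y, R x y → R (g • x) (g • y))
    (t : ∀ x y x' y', x ≠ y → x' ≠ y' → (R x y ↔ R x' y') → ∃ g : G, g • x = x' ∧ g • y = y')
    {x0 y0 z0 : X} (h1 : R x0 y0) (h2 : ¬ R x0 z0) (h3 : x0 ≠ z0) {k μ : ℕ} {r s : ℤ}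
    (hk : Nat.card {y // R x0 y} = k) (hμ : Nat.card {y // R x0 y ∧ R z0 y} = μ) (hrs : r ≠ s)
    (e1 : r * s = μ - k) (e2 : (k : ℤ) * (k - 1 - μ - r - s) = μ * (Nat.card X - 1 - k)) :
    ∃ φ, IsIrrCharacter G φ ∧ classInner (fun g => (Nat.card (MulAction.fixedBy X g) : ℂ)) φ ≠ 0 ∧
      ∀ g, ((r : ℂ) - s) * φ g =
        Nat.card {x // R x (g • x)} - s * Nat.card (MulAction.fixedBy X g) - (k - s) := by
  classical
  have := Fintype.ofFinite X
  have ne : ∀ {x y}, R x y → x ≠ y := fun h e => hi _ (e ▸ h)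
  have t2 : ∀ x y, x ≠ y → ∃ g : G, g • x0 = x ∧ (g • y0 = y ∨ g • z0 = y) := fun x y a => (em (R x y)).elim
    (fun b => (t x0 y0 x y (ne h1) a (by simp [*])).imp fun _ => And.imp_right .inl)
    fun b => (t x0 z0 x y h3 a (by simp [*])).imp fun _ => And.imp_right .inr
  have t1 : ∀ x, ∃ g : G, g • x0 = x := fun x =>
    (eq_or_ne x x0).elim (fun e => ⟨1, by simp [e]⟩) fun e => (t2 x x0 e).imp fun _ => And.left
  have t1' : ∀ x y : X, ∃ g : G, g • x = y := fun x y => by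
    obtain ⟨g, rfl⟩ := t1 x
    obtain ⟨h, rfl⟩ := t1 y
    exact ⟨h * g⁻¹, by simp [mul_smul]⟩
  obtain ⟨φ, p1, p2, p3⟩ := K0.half R hs hi hG t t1' h1 h2 h3 hk hμ hrs e1 e2
  obtain ⟨ψ, q1, q2, q3⟩ := K0.half R hs hi hG t t1' h1 h2 h3 hk hμ hrs.symm (mul_comm r s ▸ e1) (by linear_combination e2)
  have d0 : (r : ℂ) - s ≠ 0 := by exact_mod_cast sub_ne_zero.2 hrs
  have e : (fun g : G => (Nat.card (MulAction.fixedBy X g) : ℂ)) = (fun _ => 1) + φ + ψ := funext fun g =>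
    mul_left_cancel₀ d0 (by simp only [Pi.add_apply]; linear_combination q3 g - p3 g)
  have n := inner_fixedBy_fixedBy (G := G) X X
  have le := Nat.card_le_card_of_surjective (β := MulAction.orbitRel.Quotient G (X × X))
    ![.mk'' (x0, x0), .mk'' (x0, y0), .mk'' (x0, z0)] (by
      rintro ⟨x, y⟩
      by_cases a : x = y
      · obtain ⟨g, rfl⟩ := t1 x
        subst a
        exact ⟨0, (Quotient.sound' (MulAction.orbitRel_apply.2 ⟨g, rfl⟩)).symm⟩
      · obtain ⟨g, rfl, rfl | rfl⟩ := t2 x y a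
        exacts [⟨1, (Quotient.sound' (MulAction.orbitRel_apply.2 ⟨g, rfl⟩)).symm⟩, ⟨2, (Quotient.sound' (MulAction.orbitRel_apply.2 ⟨g, rfl⟩)).symm⟩])
  have o := char_const_one (G := G)
  obtain ⟨a1, b1⟩ := inner_char_eq_nat o p1
  obtain ⟨a2, b2⟩ := inner_char_eq_nat o q1
  obtain ⟨a3, b3⟩ := inner_char_eq_nat p1 p1
  obtain ⟨a4, b4⟩ := inner_char_eq_nat p1 q1
  obtain ⟨a5, b5⟩ := inner_char_eq_nat q1 q1
  have c3 : a3 ≠ 0 := fun z => p2 (Char.inner_self_eq_zero.1 (by simp [b3, z]))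
  have c5 : a5 ≠ 0 := fun z => q2 (Char.inner_self_eq_zero.1 (by simp [b5, z]))
  simp only [e, Char.inner_add_left, Char.inner_add_right, inner_one_one, inner_char_comm p1 o, inner_char_comm q1 o,
    inner_char_comm q1 p1, b1, b2, b3, b4, b5] at n ⊢
  norm_cast at n
  simp only [Nat.card_eq_fintype_card (α := Fin 3), Fintype.card_fin] at le
  refine ⟨φ, (irr_iff_inner_self p1).2 (by rw [b3, show a3 = 1 by omega, Nat.cast_one]), ?_, p3⟩
  rw [inner_char_comm q1 p1, b1, b3, b4]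
  norm_cast; omega

theorem rank2 {X : Type*} [Finite X] [Nontrivial X] [MulAction G X]
    (t : ∀ x y x' y' : X, x ≠ y → x' ≠ y' → ∃ g : G, g • x = x' ∧ g • y = y') :
    IsIrrCharacter G fun g => (Nat.card (MulAction.fixedBy X g) : ℂ) - 1 := by
  have : MulAction.IsPretransitive G X := ⟨fun x y => by
    obtain ⟨a, ha⟩ := exists_ne x
    obtain ⟨b, hb⟩ := exists_ne y
    exact (t x a y b ha.symm hb.symm).imp fun _ => And.left⟩
  exact (irr_fixedBy_sub_one_iff X).2 (MulAction.is_two_pretransitive_iff.2 fun a b => t _ _ _ _ a b)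

end CF.Hc
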