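import Cfsg.Agent.Hc.K1a
import Cfsg.Agent.Hc.K0

/-!
# Characters afforded by the action on the singular points
-/

set_option autoImplicit false

open scoped ComplexConjugate
open Cfsg Finset Matrix

namespace CF.Hc
open CF.Char CF.Geom

variable {F : Type} [Field F] [Fintype F] [DecidableEq F]
variable {V : Type} [AddCommGroup V] [Module F V] [Fintype V] {P : Pol F V}

namespace K1

omit [DecidableEq F] in
theorem q_pos : 1 < Nat.card F := Finite.one_lt_card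

omit [DecidableEq F] in
theorem q_ne : (Nat.card F : ℂ) - 1 ≠ 0 := by
  rw [sub_ne_zero]
  exact_mod_cast (q_pos (F := F)).ne'

omit [DecidableEq F] [Fintype V] in
theorem fx_cast (g : P.G) :
    (P.fx g : ℂ) = (Nat.card F - 1) * Nat.card (MulAction.fixedBy (Pt P) g) := by
  rw [fx_eq, Nat.cast_mul, Nat.cast_sub q_pos.le, Nat.cast_one]

omit [DecidableEq F] [Fintype V] in
theorem aj_cast (g : P.G) :
    (P.aj g : ℂ) = (Nat.card F - 1) * Nat.card {x : Pt P // R x (g • x)} := by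
  rw [aj_eq, Nat.cast_mul, Nat.cast_sub q_pos.le, Nat.cast_one]

omit [DecidableEq F] in
theorem nums : ∃ μ : ℕ, Nat.card {y // R (x0 P) y ∧ R (z0 P) y} = μ ∧
    Nat.card {y // R (x0 P) y} = Nat.card F * μ ∧ P.sv = (Nat.card F - 1) * μ + 1 ∧
    Nat.card (Pt (P.hyp 1)) = 1 + Nat.card F * μ +
      (if P.o then Nat.card V else Nat.card F * Nat.card V) := by
  have h1 := card_k (P := P)
  have h2 := card_mu (P := P)
  have h3 := card_ne (P := P)
  have h4 := card_Pt (P := P.hyp 1)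
  rw [sv1] at h4
  obtain ⟨m, hm⟩ : ∃ m, Nat.card F = m + 1 := ⟨Nat.card F - 1, by have := q_pos (F := F); omega⟩
  have hm0 : 0 < m := by have := q_pos (F := F); omega
  refine ⟨_, rfl, ?_, by rw [← h2, h3], ?_⟩
  · rw [h2] at h1
    rw [hm, Nat.add_sub_cancel] at h1
    refine Nat.eq_of_mul_eq_mul_left hm0 ?_
    rw [← h1, hm]; ring
  · rw [← h3, h2] at h4
    generalize (if P.o then Nat.card V else Nat.card F * Nat.card V) = N at h4 ⊢
    rw [hm, Nat.add_sub_cancel] at h4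
    refine Nat.eq_of_mul_eq_mul_left hm0 ?_
    rw [hm]
    nlinarith

omit [DecidableEq F] in
theorem pt3g {H : Type} [Group H] [Fintype H] (ι : H →* (P.hyp 1).G)
    (hι : ∀ (g : (P.hyp 1).G) u v, (P.hyp 1).Q u = 0 → (P.hyp 1).Q v = 0 →
      ∃ γ : H, (ι γ).1 u = g.1 u ∧ (ι γ).1 v = g.1 v) (h : 1 < P.sv) {r s : ℤ}
    (hrs : r ≠ s) (e1 : r * s = 1 - P.sv)
    (e2 : Nat.card F * (P.sv - 2 - r - s) =
      (if P.o then Nat.card V else Nat.card F * Nat.card V : ℕ)) :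
    ∃ φ : H → ℂ, IsIrrCharacter H φ ∧ classInner (fun g : H => ((P.hyp 1).fx (ι g) : ℂ)) φ ≠ 0 ∧
      ∀ g : H, ((r : ℂ) - s) * (Nat.card F - 1) * φ g = (P.hyp 1).aj (ι g) -
        s * (P.hyp 1).fx (ι g) - (Nat.card F * (P.sv - 1) - s * (Nat.card F - 1)) := by
  letI : MulAction H (Pt (P.hyp 1)) := MulAction.compHom _ ι
  obtain ⟨μ, h1, h2, h3, h4⟩ := nums (P := P)
  obtain ⟨y0, hy⟩ : Nonempty {y // R (x0 P) y} := by
    refine (Nat.card_ne_zero.1 ?_).1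
    rw [h2]
    rintro e
    rcases Nat.mul_eq_zero.1 e with e | e
    · exact Nat.card_pos.ne' e
    · simp [e] at h3; omega
  have h3' : (P.sv : ℤ) = (Nat.card F - 1) * μ + 1 := by
    rw [h3]; push_cast [Nat.cast_sub (q_pos (F := F)).le]; ring
  obtain ⟨φ, p1, p2, p3⟩ := rank3 (G := H) R R_symm R_irrefl (fun g => R_smul (ι g)) (trans ι hι)
    hy not_R x0_ne h2 h1 hrs (by rw [e1, h3']; push_cast; ring) (by
      rw [h4]
      generalize (if P.o then Nat.card V else Nat.card F * Nat.card V) = N at e2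
      rw [h3'] at e2
      push_cast
      linear_combination (μ : ℤ) * e2)
  refine ⟨φ, p1, fun e => p2 ?_, fun g => ?_⟩
  · simp only [classInner, fx_cast, mul_assoc, ← mul_sum] at e ⊢
    rw [mul_left_comm] at e
    exact (mul_eq_zero.1 e).resolve_left q_ne
  · have h3'' : (P.sv : ℂ) = (Nat.card F - 1) * μ + 1 := by exact_mod_cast h3'
    have := p3 g
    rw [fx_cast, aj_cast, h3'']
    push_cast at this
    exact (by linear_combination ((Nat.card F : ℂ) - 1) * this :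
      ((r : ℂ) - s) * (Nat.card F - 1) * φ g = (Nat.card F - 1) *
        Nat.card {x : Pt (P.hyp 1) // R x (g • x)} - s * ((Nat.card F - 1) *
        Nat.card (MulAction.fixedBy (Pt (P.hyp 1)) g)) -
        (Nat.card F * ((Nat.card F - 1) * μ + 1 - 1) - s * (Nat.card F - 1)))

end K1

namespace Pol
open K1

theorem char_pi : IsCharacter P.G fun g => (P.fx g : ℂ) / (Nat.card F - 1) := by
  simp only [fx_cast, mul_div_cancel_left₀ _ (q_ne (F := F))]
  exact char_fixedBy _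

theorem fx_neg : P.fx P.neg = P.fx 1 ∧ P.aj P.neg = 0 ∧ P.aj 1 = 0 ∧ P.fx 1 + 1 = P.sv := by
  have h : ∀ g : P.G, (∀ p : Pt P, g • p = p) →
      P.fx g = (Nat.card F - 1) * Nat.card (Pt P) ∧ P.aj g = 0 := fun g hg =>
    ⟨by rw [fx_eq, Nat.card_congr (Equiv.subtypeUnivEquiv (p := (· ∈ MulAction.fixedBy (Pt P) g)) hg)],
      by
        have : IsEmpty {x : Pt P // R x (g • x)} := ⟨fun x => x.2.1 (hg _).symm⟩
        rw [aj_eq, Nat.card_of_isEmpty (α := {x : Pt P // R x (g • x)}), mul_zero]⟩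
  have h1 := h 1 (one_smul _)
  have h2 := h _ neg_smul_pt
  exact ⟨h2.1.trans h1.1.symm, h2.2, h1.2, by rw [h1.1, card_Pt]⟩

theorem sv_hyp : (P.hyp 1).sv = Nat.card F * P.sv +
    (Nat.card F - 1) * (if P.o then Nat.card V else Nat.card F * Nat.card V) := sv1

theorem pt3 (Γ : Subgroup (P.hyp 1).G) [Fintype Γ] (hΓ : (P.hyp 1).Tr2 Γ) (h : 1 < P.sv) {r s : ℤ}
    (hrs : r ≠ s) (e1 : r * s = 1 - P.sv)
    (e2 : Nat.card F * (P.sv - 2 - r - s) = (if P.o then Nat.card V else Nat.card F * Nat.card V : ℕ)) :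
    ∃ φ : Γ → ℂ, IsIrrCharacter Γ φ ∧ classInner (fun g : Γ => ((P.hyp 1).fx g : ℂ)) φ ≠ 0 ∧
      ∀ g : Γ, ((r : ℂ) - s) * (Nat.card F - 1) * φ g = (P.hyp 1).aj g - s * (P.hyp 1).fx g -
        (Nat.card F * (P.sv - 1) - s * (Nat.card F - 1)) :=
  pt3g Γ.subtype (fun g u v hu hv => let ⟨γ, h1, h2⟩ := hΓ g u v hu hv; ⟨⟨γ, h1⟩, h2⟩) h hrs e1 e2

theorem pt3' (h : 1 < P.sv) {r s : ℤ} (hrs : r ≠ s) (e1 : r * s = 1 - P.sv)
    (e2 : Nat.card F * (P.sv - 2 - r - s) = (if P.o then Nat.card V else Nat.card F * Nat.card V : ℕ)) :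
    ∃ φ : (P.hyp 1).G → ℂ, IsIrrCharacter _ φ ∧
      classInner (fun g => ((P.hyp 1).fx g : ℂ)) φ ≠ 0 ∧ φ (P.hyp 1).neg = φ 1 ∧
      ∀ g, ((r : ℂ) - s) * (Nat.card F - 1) * φ g = (P.hyp 1).aj g - s * (P.hyp 1).fx g -
        (Nat.card F * (P.sv - 1) - s * (Nat.card F - 1)) := by
  obtain ⟨φ, h1, h2, h3⟩ := pt3g (MonoidHom.id _) (fun g _ _ _ _ => ⟨g, rfl, rfl⟩) h hrs e1 e2
  refine ⟨φ, h1, h2, mul_left_cancel₀ (mul_ne_zero (sub_ne_zero.2 (Int.cast_injective.ne hrs))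
    (q_ne (F := F))) ?_, h3⟩
  obtain ⟨a, b, c, -⟩ := fx_neg (P := P.hyp 1)
  rw [h3, h3, MonoidHom.id_apply, MonoidHom.id_apply, a, b, c]

theorem pt2 (h : P.Ani) :
    (P.hyp 1).Dg true (if P.o then Nat.card V else Nat.card F * Nat.card V) := by
  have h0 : ∀ y, ¬ R (x0 P) y := fun y hy => by
    obtain ⟨w, hw, h1, rfl⟩ := exists_pt y
    rw [R_x0] at hy
    exact hy.2 (h _ (by simpa [Q1, hy.1] using h1))
  have h1 : ∀ x y : Pt (P.hyp 1), ¬ R x y := fun x y hy => by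
    obtain ⟨w, hw, h1, rfl⟩ := exists_pt x
    obtain ⟨w', hw', h1', e⟩ := exists_pt (x0 P)
    obtain ⟨g, hg, e'⟩ := (P.hyp 1).wp.exists_isom_vec hw hw' (h1'.trans h1.symm)
    refine h0 ((⟨g, hg⟩ : (P.hyp 1).G) • y) ?_
    have := R_smul ⟨g, hg⟩ _ _ hy
    rwa [smul_pt, show pt (g w) _ _ = x0 P from e ▸ pt_eq.2 ⟨1, by rw [e', one_smul]⟩] at this
  have : Nontrivial (Pt (P.hyp 1)) := ⟨_, _, x0_ne⟩
  obtain ⟨μ, -, h2, -, h4⟩ := nums (P := P)
  have : IsEmpty {y // R (x0 P) y} := ⟨fun y => h0 _ y.2⟩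
  rw [Nat.card_of_isEmpty] at h2
  have h5 : ∀ g : (P.hyp 1).G, (∀ p : Pt (P.hyp 1), g • p = p) →
      Nat.card (MulAction.fixedBy (Pt (P.hyp 1)) g) = Nat.card (Pt (P.hyp 1)) := fun g hg =>
    Nat.card_congr (Equiv.subtypeUnivEquiv (p := (· ∈ MulAction.fixedBy _ g)) hg)
  refine ⟨_, rank2 (X := Pt (P.hyp 1)) fun x y x' y' a b => trans (MonoidHom.id _)
    (fun g _ _ _ _ => ⟨g, rfl, rfl⟩) x y x' y' a b (iff_of_false (h1 _ _) (h1 _ _)), ?_, fun _ => ?_⟩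
  · rw [h5 1 (one_smul _), h4, ← h2]
    push_cast
    ring
  · rw [h5 1 (one_smul _), h5 _ neg_smul_pt]

end Pol
end CF.Hc
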