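import Cfsg.Agent.Hc.B
import Cfsg.Agent.Geom.Orders

/-!
# Transport along isometries, orders and numbers of singular vectors
-/

set_option autoImplicit false

open scoped ComplexConjugate MatrixGroups
open Cfsg Finset Matrix

namespace CF.Hc
open CF.Char CF.Geom

namespace T

theorem quo {G H : Type*} [Group G] [Group H] (e : G ≃* H) :
    Nonempty (G ⧸ Subgroup.center G ≃* H ⧸ Subgroup.center H) :=
  ⟨QuotientGroup.congr _ _ e (by
    ext y
    obtain ⟨x, rfl⟩ := e.surjective y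
    simp only [Subgroup.mem_map, MonoidHom.coe_coe, EmbeddingLike.apply_eq_iff_eq, exists_eq_right,
      Subgroup.mem_center_iff, e.surjective.forall, ← map_mul])⟩

theorem com {G H : Type*} [Group G] [Group H] (e : G ≃* H) :
    Nonempty (commutator G ≃* commutator H) :=
  ⟨(e.subgroupMap (commutator G)).trans (MulEquiv.subgroupCongr (by
    rw [_root_.commutator_def, Subgroup.map_commutator,
      Subgroup.map_top_of_surjective _ e.surjective, _root_.commutator_def]))⟩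

variable {F V F' V' : Type} [Field F] [AddCommGroup V] [Module F V] [Field F'] [AddCommGroup V']
  [Module F' V'] {P : Pol F V} {P' : Pol F' V'}

/-- Transport of an isometry along a semilinear isometry. -/
def tr (σ : F ≃+* F') (e : V ≃+ V') (h : ∀ c v, e (c • v) = σ c • e v)
    (h1 : ∀ x y, P'.f (e x) (e y) = σ (P.f x y)) (h2 : ∀ x, P'.Q (e x) = σ (P.Q x)) (g : P.G) :
    P'.G :=
  ⟨{ (e.symm.trans g.1.toAddEquiv).trans e with
      map_smul' := fun c v => by
        obtain ⟨c, rfl⟩ := σ.surjective c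
        obtain ⟨v, rfl⟩ := e.surjective v
        change e (g.1 (e.symm (σ c • e v))) = σ c • e (g.1 (e.symm (e v)))
        rw [← h, e.symm_apply_apply, e.symm_apply_apply, map_smul, h] },
    fun u v => by
      obtain ⟨u, rfl⟩ := e.surjective u
      obtain ⟨v, rfl⟩ := e.surjective v
      change P'.f (e (g.1 (e.symm (e u)))) (e (g.1 (e.symm (e v)))) = _
      rw [e.symm_apply_apply, e.symm_apply_apply, h1, h1, P.G_f],
    fun v => by
      obtain ⟨v, rfl⟩ := e.surjective v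
      change P'.Q (e (g.1 (e.symm (e v)))) = _
      rw [e.symm_apply_apply, h2, h2, P.G_Q]⟩

theorem ex (σ : F ≃+* F') (e : V ≃+ V') (h : ∀ c v, e (c • v) = σ c • e v)
    (h1 : ∀ x y, P'.f (e x) (e y) = σ (P.f x y)) (h2 : ∀ x, P'.Q (e x) = σ (P.Q x)) :
    ∃ ε : P.G ≃* P'.G, (∀ g v, (ε g).1 (e v) = e (g.1 v)) ∧ ε P.neg = P'.neg := by
  have k : ∀ c v, e.symm (c • v) = σ.symm c • e.symm v := fun c v => by
    rw [AddEquiv.symm_apply_eq, h, σ.apply_symm_apply, e.apply_symm_apply]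
  have k1 : ∀ x y, P.f (e.symm x) (e.symm y) = σ.symm (P'.f x y) := fun x y => by
    rw [eq_comm, RingEquiv.symm_apply_eq, ← h1, e.apply_symm_apply, e.apply_symm_apply]
  have k2 : ∀ x, P.Q (e.symm x) = σ.symm (P'.Q x) := fun x => by
    rw [eq_comm, RingEquiv.symm_apply_eq, ← h2, e.apply_symm_apply]
  refine ⟨⟨⟨tr σ e h h1 h2, tr σ.symm e.symm k k1 k2, fun g => Pol.ext_G fun v => ?_,
    fun g => Pol.ext_G fun v => ?_⟩, fun g g' => Pol.ext_G fun v => ?_⟩, fun g v => ?_,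
    Pol.ext_G fun v => ?_⟩
  · change e.symm (e (g.1 (e.symm (e v)))) = _
    rw [e.symm_apply_apply, e.symm_apply_apply]
  · change e (e.symm (g.1 (e (e.symm v)))) = _
    rw [e.apply_symm_apply, e.apply_symm_apply]
  · change e (g.1 (g'.1 (e.symm v))) = e (g.1 (e.symm (e (g'.1 (e.symm v)))))
    rw [e.symm_apply_apply]
  · change e (g.1 (e.symm (e v))) = _
    rw [e.symm_apply_apply]
  · change e (-(e.symm v)) = -v
    rw [map_neg, e.apply_symm_apply]

theorem dg (ε : P.G ≃* P'.G) (h : ε P.neg = P'.neg) {ev : Bool} {n : ℕ} (hd : P.Dg ev n) :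
    P'.Dg ev n := by
  obtain ⟨χ, a, b, c⟩ := hd
  refine ⟨_, irr_comp_equiv a ε.symm, by simpa using b, fun e => ?_⟩
  simpa [← h] using c e

end T

variable {F : Type} [Field F] [Fintype F] [DecidableEq F] {k : ℕ}
variable {V : Type} [AddCommGroup V] [Module F V] [Fintype V] {P : Pol F V}

set_option linter.unusedSectionVars false

namespace Pol

theorem Dg.weak {ev : Bool} {n : ℕ} (h : P.Dg ev n) : P.Dg false n :=
  let ⟨χ, a, b, _⟩ := h
  ⟨χ, a, b, fun e => nomatch e⟩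

theorem Dg.one : P.Dg true 1 := ⟨_, irr_one, Nat.cast_one.symm, fun _ => rfl⟩

theorem Dg.semi {F' V' : Type} [Field F'] [Finite F'] [AddCommGroup V'] [Module F' V'] [Finite V']
    {P' : Pol F' V'} (σ : F ≃+* F') (e : V ≃+ V') (h : ∀ c v, e (c • v) = σ c • e v)
    (h1 : ∀ x y, P'.f (e x) (e y) = σ (P.f x y)) (h2 : ∀ x, P'.Q (e x) = σ (P.Q x)) {ev : Bool}
    {n : ℕ} (hd : P.Dg ev n) : P'.Dg ev n :=
  let ⟨ε, _, b⟩ := T.ex σ e h h1 h2
  T.dg ε b hd

theorem Iso.ex {V' : Type} [AddCommGroup V'] [Module F V'] {P' : Pol F V'} (h : P.Iso P') :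
    ∃ (e : V ≃ₗ[F] V') (ε : P.G ≃* P'.G), (∀ x y, P'.f (e x) (e y) = P.f x y) ∧
      (∀ x, P'.Q (e x) = P.Q x) ∧ (∀ g v, (ε g).1 (e v) = e (g.1 v)) ∧ ε P.neg = P'.neg :=
  let ⟨e, a, b⟩ := h
  let ⟨ε, c, d⟩ := T.ex (RingEquiv.refl F) e.toAddEquiv e.map_smul a b
  ⟨e, ε, a, b, c, d⟩

theorem Iso.symm {V' : Type} [AddCommGroup V'] [Module F V'] {P' : Pol F V'} (h : P.Iso P') :
    P'.Iso P :=
  let ⟨e, a, b⟩ := h
  ⟨e.symm, fun x y => by rw [← a, e.apply_symm_apply, e.apply_symm_apply],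
    fun x => by rw [← b, e.apply_symm_apply]⟩

theorem Iso.trans {V' V'' : Type} [AddCommGroup V'] [Module F V'] [AddCommGroup V'']
    [Module F V''] {P' : Pol F V'} {P'' : Pol F V''} (h : P.Iso P') (h' : P'.Iso P'') :
    P.Iso P'' :=
  let ⟨e, a, b⟩ := h
  let ⟨e', a', b'⟩ := h'
  ⟨e.trans e', fun x y => (a' _ _).trans (a x y), fun x => (b' _).trans (b x)⟩

theorem Iso.hyp {V' : Type} [AddCommGroup V'] [Module F V'] {P' : Pol F V'} (h : P.Iso P')
    (ho : P.o = P'.o) (k : ℕ) : (P.hyp k).Iso (P'.hyp k) :=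
  let ⟨e, a, b⟩ := h
  ⟨(LinearEquiv.refl F _).prodCongr (e.prodCongr (LinearEquiv.refl F _)),
    fun x y => by simp [hyp_f, a, Pol.e, ho], fun x => by simp [hyp_Q, b, Pol.d, ho]⟩

theorem Iso.dg {V' : Type} [AddCommGroup V'] [Module F V'] [Finite V'] {P' : Pol F V'}
    (h : P.Iso P') {ev : Bool} {n : ℕ} (hd : P.Dg ev n) : P'.Dg ev n :=
  let ⟨_, ε, _, _, _, d⟩ := h.ex
  T.dg ε d hd

theorem Iso.sv {V' : Type} [AddCommGroup V'] [Module F V'] {P' : Pol F V'} (h : P.Iso P') :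
    P.sv = P'.sv :=
  let ⟨e, _, b⟩ := h
  Nat.card_congr (e.toEquiv.subtypeEquiv fun x => by rw [← b]; rfl)

theorem Iso.card {V' : Type} [AddCommGroup V'] [Module F V'] {P' : Pol F V'} (h : P.Iso P') :
    Nat.card P.G = Nat.card P'.G :=
  let ⟨_, ε, _⟩ := h.ex
  Nat.card_congr ε.toEquiv

theorem Iso.po {V' : Type} [AddCommGroup V'] [Module F V'] {P' : Pol F V'} (h : P.Iso P') :
    Nonempty (P.PO ≃* P'.PO) ∧ Nonempty (P.PS ≃* P'.PS) :=
  let ⟨_, ε, _⟩ := h.ex
  let ⟨γ⟩ := T.com ε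
  ⟨T.quo γ, T.quo ε⟩

theorem Iso.finrank {V' : Type} [AddCommGroup V'] [Module F V'] {P' : Pol F V'} (h : P.Iso P') :
    Module.finrank F V = Module.finrank F V' :=
  let ⟨e, _⟩ := h
  e.finrank_eq

theorem G_pos : 0 < Nat.card P.G := Nat.card_pos

theorem Iso.DD {V' : Type} [AddCommGroup V'] [Module F V'] [Fintype V'] {P' : Pol F V'}
    (h : P.Iso P') (ho : P.o = P'.o) (hk : 0 < k) : P.DD k = P'.DD k := by
  have h1 := DD_mul (P := P) hk
  have h2 := DD_mul (P := P') hk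
  have hq : 1 < Nat.card F := Finite.one_lt_card
  rw [(h.hyp ho k).card, ← h2, h.card, show P.ux k = P'.ux k by rw [ux, ux, h.finrank, ho]] at h1
  exact Nat.eq_of_mul_eq_mul_right (Nat.sub_pos_of_lt (Nat.one_lt_pow hk.ne' hq))
    (Nat.eq_of_mul_eq_mul_right (Nat.mul_pos (by positivity) G_pos) h1)

theorem hyp_add (P : Pol F V) {j k m : ℕ} (h : j + k = m) :
    ((P.hyp j).hyp k).Iso (P.hyp m) := by
  subst h
  refine Iso.symm ⟨
    { toFun := fun x => (fun i => x.1 (Fin.natAdd j i), (fun i => x.1 (Fin.castAdd k i), x.2.1,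
        fun i => x.2.2 (Fin.castAdd k i)), fun i => x.2.2 (Fin.natAdd j i))
      invFun := fun x => (Fin.append x.2.1.1 x.1, x.2.1.2.1, Fin.append x.2.1.2.2 x.2.2)
      map_add' := fun _ _ => rfl
      map_smul' := fun _ _ => rfl
      left_inv := fun x => by simp [Fin.append_castAdd_natAdd]
      right_inv := fun x => by simp }, fun x y => ?_, fun x => ?_⟩
  · simp [hyp_f, dotProduct, Fin.sum_univ_add]
    ring
  · simp [hyp_Q, dotProduct, Fin.sum_univ_add]
    ring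

theorem hyp_zero (P : Pol F V) : (P.hyp 0).Iso P :=
  Iso.symm ⟨
    { toFun := fun x => (0, x, 0)
      invFun := fun x => x.2.1
      map_add' := fun _ _ => by simp
      map_smul' := fun _ _ => by simp
      left_inv := fun _ => rfl
      right_inv := fun _ => Prod.ext (Subsingleton.elim _ _) (Prod.ext rfl (Subsingleton.elim _ _)) },
    fun x y => by simp [hyp_f], fun x => by simp [hyp_Q]⟩

theorem finrank_hyp (k : ℕ) : Module.finrank F (HV F k V) = 2 * k + Module.finrank F V := by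
  simp [Module.finrank_prod]
  ring

theorem G_eq_O (ho : P.o = true) : P.G = OG P.Q := by rw [G, P.ho ho]

theorem nondeg_O (ho : P.o = true) : (QuadraticMap.polarBilin P.Q).Nondegenerate :=
  P.ho ho ▸ P.nondeg

theorem polar_eq (ho : P.o = true) (x y : V) : QuadraticMap.polar P.Q x y = P.f x y := by
  rw [P.ho ho]; rfl

theorem qFrame (ho : P.o = true) (k : ℕ) : QFrame (P.hyp k).Q
    (fun i : Fin k => ((Pi.single i 1, 0, 0) : HV F k V)) fun i => (0, 0, Pi.single i 1) :=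
  qFrame_of (fun i => by simp [hyp_Q]) (fun i => by simp [hyp_Q])
    (fun i j => by simp [polar_eq (P := P.hyp k) ho, hyp_f])
    (fun i j => by simp [polar_eq (P := P.hyp k) ho, hyp_f])
    fun i j => by simp [polar_eq (P := P.hyp k) ho, hyp_f, Pi.single_apply, eq_comm]

theorem not_plus (ho : P.o = true) (h : P.Ani) (h0 : 0 < Module.finrank F V) (k : ℕ) :
    ¬ IsPlus (P.hyp k).Q := by
  refine not_isPlus_of_aniso (nondeg_O (P := P.hyp k) ho) (qFrame ho k) (fun w hw hq => ?_)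
    (by rw [finrank_hyp, Fintype.card_fin]; omega)
  rw [mem_perp_qFrame] at hw
  have h3 : w.2.2 = 0 := funext fun i => by
    simpa [polar_eq (P := P.hyp k) ho, hyp_f] using hw.1 i
  have h1 : w.1 = 0 := funext fun i => by
    simpa [polar_eq (P := P.hyp k) ho, hyp_f, e_ne] using hw.2 i
  exact Prod.ext h1 (Prod.ext (h _ (by simpa [hyp_Q, h1] using hq)) h3)

end Pol

theorem ani0 (o : Bool) : (z0 F o).Ani := fun _ _ => Subsingleton.elim _ _

theorem ani1 (h2 : (2 : F) ≠ 0) : (z1 h2).Ani := fun _ h => mul_self_eq_zero.1 h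

theorem ani2 {a b : F} (h : An a b) : (z2 h).Ani := fun v hv => by
  have := h _ _ ((q2_apply a b v).symm.trans hv)
  ext i
  fin_cases i
  exacts [this.1, this.2]

theorem plus0 (m : ℕ) : IsPlus ((z0 F true).hyp m).Q :=
  (Pol.qFrame rfl m).isPlus (Pol.nondeg_O (P := (z0 F true).hyp m) rfl) (by
    rw [Pol.finrank_hyp]; simp)

theorem card_S (m : ℕ) : Nat.card ((z0 F false).hyp m).G =
    Nat.card F ^ (m ^ 2) * ∏ i ∈ range m, (Nat.card F ^ (2 * (i + 1)) - 1) := by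
  have h := ((z0 F false).hyp m).hs rfl
  rw [← card_SpG ((z0 F false).hyp m).nondeg h.2 (by rw [Pol.finrank_hyp]; simp), Pol.G, h.1]
  rfl

theorem card_B (h2 : (2 : F) ≠ 0) (m : ℕ) : Nat.card ((z1 h2).hyp m).G =
    2 * Nat.card F ^ (m ^ 2) * ∏ i ∈ range m, (Nat.card F ^ (2 * (i + 1)) - 1) := by
  rw [Pol.G_eq_O rfl]
  exact card_OG_odd (Pol.nondeg_O (P := (z1 h2).hyp m) rfl) (by rw [Pol.finrank_hyp]; simp)

theorem card_P0 : Nat.card ((z0 F true).hyp 0).G = 1 :=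
  Nat.card_eq_one_iff_unique.2 ⟨⟨fun _ _ => Pol.ext_G fun _ => Subsingleton.elim _ _⟩, ⟨1⟩⟩

theorem card_P (m : ℕ) : Nat.card ((z0 F true).hyp (m + 1)).G = 2 * Nat.card F ^ ((m + 1) * m) *
    (Nat.card F ^ (m + 1) - 1) * ∏ i ∈ range m, (Nat.card F ^ (2 * (i + 1)) - 1) := by
  rw [Pol.G_eq_O rfl]
  exact card_OG_plus (Pol.nondeg_O (P := (z0 F true).hyp (m + 1)) rfl) (plus0 _)
    (by rw [Pol.finrank_hyp]; simp)

theorem card_M {a b : F} (h : An a b) (m : ℕ) : Nat.card ((z2 h).hyp m).G =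
    2 * Nat.card F ^ ((m + 1) * m) * (Nat.card F ^ (m + 1) + 1) *
      ∏ i ∈ range m, (Nat.card F ^ (2 * (i + 1)) - 1) := by
  rw [Pol.G_eq_O rfl]
  exact card_OG_minus (Pol.nondeg_O (P := (z2 h).hyp m) rfl)
    (Pol.not_plus rfl (ani2 h) (by simp) m) (by rw [Pol.finrank_hyp]; simp)

theorem sv_S (m : ℕ) : ((z0 F false).hyp m).sv = Nat.card F ^ (2 * m) := by
  have h := ((z0 F false).hyp m).hs rfl
  rw [Pol.sv, Nat.card_congr (Equiv.subtypeUnivEquiv fun _ => by rw [h.1]; rfl),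
    Module.natCard_eq_pow_finrank (K := F), Pol.finrank_hyp]
  simp

theorem sv_B (h2 : (2 : F) ≠ 0) (m : ℕ) : ((z1 h2).hyp m).sv = Nat.card F ^ (2 * m) :=
  card_singular_odd (Pol.nondeg_O (P := (z1 h2).hyp m) rfl) (by rw [Pol.finrank_hyp]; simp)

theorem sv_P (m : ℕ) : ((z0 F true).hyp (m + 1)).sv =
    (Nat.card F ^ (m + 1) - 1) * (Nat.card F ^ m + 1) + 1 :=
  card_singular_plus (Pol.nondeg_O (P := (z0 F true).hyp (m + 1)) rfl) (plus0 _)
    (by rw [Pol.finrank_hyp]; simp)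

theorem sv_M {a b : F} (h : An a b) (m : ℕ) : ((z2 h).hyp m).sv =
    (Nat.card F ^ (m + 1) + 1) * (Nat.card F ^ m - 1) + 1 :=
  card_singular_minus (Pol.nondeg_O (P := (z2 h).hyp m) rfl)
    (Pol.not_plus rfl (ani2 h) (by simp) m) (by rw [Pol.finrank_hyp]; simp)

namespace T

theorem tri (k : ℕ) : k * (k - 1) / 2 + k * (k - 1) / 2 + k = k * k ∧
    k * (k + 1) / 2 + k * (k - 1) / 2 = k * k := by
  have h1 := Nat.two_mul_div_two_of_even (Nat.even_mul_pred_self k)
  have h2 := Nat.two_mul_div_two_of_even (Nat.even_mul_succ_self k)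
  rcases k with _ | k
  · simp
  · simp only [Nat.add_sub_cancel] at *
    constructor <;> nlinarith

theorem canc {q D a b u e e' c X Y : ℕ} (hq : 0 < q) (hc : 0 < c)
    (h : D * a * (q ^ u * b) = c * q ^ e' * Y) (hb : b = c * q ^ e * X) (he : u + e = e') :
    D * a * X = Y := by
  subst hb he
  refine Nat.eq_of_mul_eq_mul_left (show 0 < c * q ^ (u + e) by positivity) ?_
  rw [← h]
  ring

theorem dd {j m : ℕ} (hk : 0 < k) (h : j + k = m) : (P.hyp j).DD k * (Nat.card F ^ k - 1) *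
    (Nat.card F ^ ((P.hyp j).ux k + k * (k - 1) / 2) * Nat.card (P.hyp j).G) =
    Nat.card (P.hyp m).G := by
  rw [Pol.DD_mul hk, (P.hyp_add h).card]

theorem uxO (ho : P.o = true) (j : ℕ) : (P.hyp j).ux k + k * (k - 1) / 2 + k =
    k * (2 * j + Module.finrank F V) + k * k := by
  rw [Pol.ux, Pol.finrank_hyp, Pol.hyp_o, ho, if_pos rfl, ← (tri k).1]
  ring

end T

theorem DD_S (hk : 0 < k) (j : ℕ) : ((z0 F false).hyp j).DD k * (Nat.card F ^ k - 1) *
    ∏ i ∈ range j, (Nat.card F ^ (2 * (i + 1)) - 1) =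
    ∏ i ∈ range (j + k), (Nat.card F ^ (2 * (i + 1)) - 1) := by
  refine T.canc Nat.card_pos one_pos ((T.dd hk rfl).trans ((card_S _).trans (by rw [one_mul])))
    ((card_S _).trans (by rw [one_mul])) ?_
  rw [Pol.ux, Pol.finrank_hyp, if_neg (by simp [z0]), add_assoc (k * _), (T.tri k).2]
  simp
  ring

theorem DD_B (h2 : (2 : F) ≠ 0) (hk : 0 < k) (j : ℕ) :
    ((z1 h2).hyp j).DD k * (Nat.card F ^ k - 1) *
    ∏ i ∈ range j, (Nat.card F ^ (2 * (i + 1)) - 1) =
    ∏ i ∈ range (j + k), (Nat.card F ^ (2 * (i + 1)) - 1) := by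
  refine T.canc Nat.card_pos two_pos ((T.dd hk rfl).trans (card_B h2 _)) (card_B h2 _) ?_
  have := T.uxO (P := z1 h2) (k := k) rfl j
  rw [Module.finrank_self] at this
  nlinarith

theorem DD_P0 (k : ℕ) : ((z0 F true).hyp 0).DD (k + 1) =
    2 * ∏ i ∈ range k, (Nat.card F ^ (2 * (i + 1)) - 1) := by
  have hq : 1 < Nat.card F := Finite.one_lt_card
  have h := T.canc (X := 1) (c := 1) (e := 0) (e' := (k + 1) * k)
    (Y := (2 * ∏ i ∈ range k, (Nat.card F ^ (2 * (i + 1)) - 1)) * (Nat.card F ^ (k + 1) - 1))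
    Nat.card_pos one_pos ((T.dd k.succ_pos (zero_add _)).trans ((card_P k).trans (by ring)))
    (card_P0.trans (by simp)) (by
      have := T.uxO (P := z0 F true) (k := k + 1) rfl 0
      simp only [Module.finrank_fin_fun] at this
      simp only [Nat.succ_eq_add_one]
      nlinarith)
  rw [mul_one] at h
  exact Nat.eq_of_mul_eq_mul_right (Nat.sub_pos_of_lt (Nat.one_lt_pow k.succ_ne_zero hq)) h

theorem DD_P (hk : 0 < k) (j : ℕ) : ((z0 F true).hyp (j + 1)).DD k * (Nat.card F ^ k - 1) *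
    ((Nat.card F ^ (j + 1) - 1) * ∏ i ∈ range j, (Nat.card F ^ (2 * (i + 1)) - 1)) =
    (Nat.card F ^ (j + k + 1) - 1) * ∏ i ∈ range (j + k), (Nat.card F ^ (2 * (i + 1)) - 1) := by
  refine T.canc Nat.card_pos two_pos ((T.dd hk (add_right_comm j 1 k)).trans
    ((card_P _).trans (mul_assoc _ _ _))) ((card_P _).trans (mul_assoc _ _ _)) ?_
  have := T.uxO (P := z0 F true) (k := k) rfl (j + 1)
  simp only [Module.finrank_fin_fun] at this
  nlinarith

theorem DD_M {a b : F} (h : An a b) (hk : 0 < k) (j : ℕ) : ((z2 h).hyp j).DD k *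
    (Nat.card F ^ k - 1) *
    ((Nat.card F ^ (j + 1) + 1) * ∏ i ∈ range j, (Nat.card F ^ (2 * (i + 1)) - 1)) =
    (Nat.card F ^ (j + k + 1) + 1) * ∏ i ∈ range (j + k), (Nat.card F ^ (2 * (i + 1)) - 1) := by
  refine T.canc Nat.card_pos two_pos ((T.dd hk rfl).trans
    ((card_M h _).trans (mul_assoc _ _ _))) ((card_M h _).trans (mul_assoc _ _ _)) ?_
  have := T.uxO (P := z2 h) (k := k) rfl j
  simp only [Module.finrank_fin_fun] at this
  nlinarith

end CF.Hc
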