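import Cfsg.Agent.Hc.Cb2
import Cfsg.Agent.Hc.M2
import Cfsg.Agent.Hc.K1
import Cfsg.Agent.Hc.K3
import Cfsg.Agent.Hc.T
import Cfsg.Agent.Hc.Z

/-! A character of `O₁₀⁺(2)` of degree divisible by `28`. -/

set_option autoImplicit false

open scoped MatrixGroups
open Cfsg Finset Matrix

namespace CF.Hc
open CF.Char CF.Cusp

variable {F : Type} [Field F] [Fintype F] [DecidableEq F]

theorem Cb.semi {V : Type} [AddCommGroup V] [Module F V] [Fintype V] {P : Pol F V} {F' V' : Type} [Field F']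
    [Finite F'] [AddCommGroup V'] [Module F' V'] [Finite V'] {P' : Pol F' V'} (σ : F ≃+* F') (e : V ≃+ V')
    (h : ∀ c v, e (c • v) = σ c • e v) (ho : P'.o = P.o) (h1 : ∀ x y, P'.f (e x) (e y) = σ (P.f x y))
    (h2 : ∀ x, P'.Q (e x) = σ (P.Q x)) {ev : Bool} {m n : ℕ} (hd : (P.hyp m).Dg ev n) : (P'.hyp m).Dg ev n := by
  have a : P'.e = σ P.e := by rw [Pol.e, Pol.e, ho]; split_ifs <;> simp
  have b : P'.d = σ P.d := by rw [Pol.d, Pol.d, ho]; split_ifs <;> simp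
  refine hd.semi σ ((AddEquiv.piCongrRight fun _ => σ.toAddEquiv).prodCongr
    (e.prodCongr (AddEquiv.piCongrRight fun _ => σ.toAddEquiv))) (fun c v => ?_) (fun x y => ?_) fun x => ?_
  · exact Prod.ext (funext fun i => map_mul σ _ _) (Prod.ext (h _ _) (funext fun i => map_mul σ _ _))
  · simp [Pol.hyp_f, ← h1, a, dotProduct]
    rfl
  · simp [Pol.hyp_Q, ← h2, b, dotProduct]
    rfl

theorem Cb.neg {V : Type} [AddCommGroup V] [Module (ZMod 2) V] (P : Pol (ZMod 2) V) : P.neg = 1 :=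
  Subtype.ext (LinearEquiv.ext fun v => ZModModule.neg_eq_self v)

theorem Cb.two : ∃ n, 28 ∣ n ∧ ((z0 (ZMod 2) true).hyp 5).Dg true n := by
  obtain ⟨ψ, i, cu, n1, h1, h2, h3⟩ := psi02
  have h : Nat.card (ZMod 2) = 2 := Nat.card_zmod 2
  have sv := sv_P (F := ZMod 2) 1
  rw [h] at sv
  obtain ⟨φ, a1, a2, a3, a4⟩ := Pol.pt3' (P := (z0 (ZMod 2) true).hyp 2) (by rw [sv]; norm_num) (r := 3) (s := -3)
    (by norm_num) (by rw [sv]; norm_num)
    (by rw [sv, if_pos (show ((z0 (ZMod 2) true).hyp 2).o = true from rfl)]; simp)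
  have iso := Pol.hyp_add (z0 (ZMod 2) true) (j := 2) (k := 1) (m := 3) rfl
  have k : ∀ g (t : ℕ → ℕ), (∀ n < 2 ^ 6, t n < 2 ^ 6 ∧ g.1 (Cb.d6 n) = Cb.d6 (t n)) → 6 * φ g = Cb.F6 t :=
    fun g t e => by
      have := a4 g
      rw [sv, h] at this
      rw [Cb.F6, show 64 = 2 ^ 6 from rfl, ← Cb.cod6.fx g e, ← Cb.cod6.aj g e]
      push_cast at this ⊢
      linear_combination this
  have e1 : φ 1 = (14 : ℕ) := by
    have := k 1 id fun n a => ⟨a, rfl⟩
    rw [show Cb.F6 id = 84 by decide +kernel] at this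
    push_cast at this ⊢
    linear_combination this / 6
  obtain ⟨m, m1, m2⟩ := Pol.dgII (P := ((z0 (ZMod 2) true).hyp 2).hyp 1) two_pos i cu (J2 _) h1 h2
    (fun c => nomatch c) a1 (Pol.iv_pi i cu n1 a1 a2) e1 (ev := true)
    (fun _ => ⟨congrArg ψ (by decide), a3⟩) (a := 2) (b := 64) two_pos (by norm_num)
    (by rw [h, Pol.ux, Pol.finrank_hyp, Pol.finrank_hyp]; simp [z0]) (Or.inl rfl) (by
      have := Cb.cod6.cs h3 k
      rw [show 2 ^ 6 = 64 from rfl, Cb.tot6] at this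
      rw [e1, h3, if_neg (by simp)]
      push_cast at this ⊢
      linear_combination this / 6)
  have d := DD_P (F := ZMod 2) two_pos 2
  rw [← iso.DD rfl two_pos, h] at d
  simp only [prod_range_succ, prod_range_zero] at d
  exact ⟨m, by omega, (Pol.hyp_add _ (j := 3) (k := 2) rfl).dg ((iso.hyp rfl 2).dg m2)⟩

theorem cb (h : Nat.card F = 2) : ∃ n, 28 ∣ n ∧ ((z0 F true).hyp 5).Dg true n := by
  obtain ⟨n, a, b⟩ := Cb.two
  let σ := ZMod.ringEquivOfPrime F Nat.prime_two (Nat.card_eq_fintype_card.symm.trans h)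
  exact ⟨n, a, Cb.semi σ (AddEquiv.piCongrRight fun _ => σ.toAddEquiv) (fun _ _ => Subsingleton.elim _ _) rfl
    (fun _ _ => (map_zero σ).symm) (fun _ => (map_zero σ).symm) b⟩

end CF.Hc
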