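import Cfsg.Agent.Hc.A

/-! Orthogonal spaces over `𝔽₂` in binary code: the linear coefficient of the quadratic relation. -/

set_option autoImplicit false

open scoped MatrixGroups
open Cfsg Finset Matrix

namespace CF.Hc.Cb

/-- sums -/
def sm (f : ℕ → ℤ) (n : ℕ) : ℤ := Nat.rec 0 (fun i s => s + f i) n

theorem sm_eq (f : ℕ → ℤ) (n : ℕ) : sm f n = ∑ i ∈ range n, f i := by
  induction n with
  | zero => rfl
  | succ n ih => rw [sum_range_succ, ← ih]; rfl

/-- bits as scalars -/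
def bz (b : Bool) : ZMod 2 := bif b then 1 else 0

/-- the polar form -/
def fb (q : ℕ → Bool) (i j : ℕ) : Bool := q (i ^^^ j) ^^ q i ^^ q j

/-- the isometry `hY` -/
def hb (q : ℕ → Bool) (a b c d : Bool) (i j n : ℕ) : ℕ :=
  n ^^^ (bif (d && fb q n i) ^^ (b && fb q n j) then i else 0) ^^^
    (bif (c && fb q n i) ^^ (a && fb q n j) then j else 0)

/-- one term -/
def tm (q : ℕ → Bool) (Φ : (ℕ → ℕ) → ℤ) (s : ℤ) (a b c d : Bool) (i j : ℕ) : ℤ :=
  bif a == q i && d == q j && (b ^^ c) == fb q i j then s * Φ (hb q a b c d i j) else 0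

/-- the whole sum -/
def tot (N : ℕ) (q : ℕ → Bool) (Φ : (ℕ → ℕ) → ℤ) : ℤ :=
  sm (fun i => sm (fun j => tm q Φ (-1) true false false true i j + (tm q Φ 1 false true true false i j +
    (tm q Φ 1 true true false true i j + (tm q Φ 1 true false true true i j +
    (tm q Φ (-1) false true true true i j + tm q Φ (-1) true true true false i j))))) N) N

/-- counting -/
def cnt (N : ℕ) (p : ℕ → Bool) : ℤ := sm (fun n => bif p n then 1 else 0) N

variable {V : Type} [AddCommGroup V] [Module (ZMod 2) V] {P : Pol (ZMod 2) V} {k : ℕ} {dec : ℕ → V}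
  {q : ℕ → Bool}

/-- a code -/
structure Cod (P : Pol (ZMod 2) V) (k : ℕ) (dec : ℕ → V) (q : ℕ → Bool) : Prop where
  o : P.o = true
  inj : ∀ i < 2 ^ k, dec i = 0 → i = 0
  surj : ∀ v, ∃ i < 2 ^ k, dec i = v
  xor : ∀ i j, dec (i ^^^ j) = dec i + dec j
  Q : ∀ i < 2 ^ k, P.Q (dec i) = bz (q i)

theorem Cod.zero (c : Cod P k dec q) : dec 0 = 0 := by simpa using c.xor 0 0

theorem Cod.eq_iff (c : Cod P k dec q) {i j : ℕ} (hi : i < 2 ^ k) (hj : j < 2 ^ k) : dec i = dec j ↔ i = j :=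
  ⟨fun e => Nat.eq_of_xor_eq_zero (c.inj _ (Nat.xor_lt_two_pow hi hj) (by
    rw [c.xor, e, ← c.xor, Nat.xor_self, c.zero])), fun e => by rw [e]⟩

theorem Cod.eq_zero (c : Cod P k dec q) {i : ℕ} (hi : i < 2 ^ k) : dec i = 0 ↔ i = 0 :=
  ⟨c.inj i hi, fun e => by rw [e, c.zero]⟩

theorem Cod.sum [Fintype V] (c : Cod P k dec q) {M : Type*} [AddCommMonoid M] (F : V → M) :
    ∑ v, F v = ∑ i ∈ range (2 ^ k), F (dec i) :=
  (sum_nbij dec (fun _ _ => mem_univ _) (fun _ a _ b e => (c.eq_iff (by simpa using a) (by simpa using b)).1 e)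
    (fun v _ => by simpa using c.surj v) fun _ _ => rfl).symm

theorem Cod.card [Fintype V] (c : Cod P k dec q) {p : V → Prop} {pb : ℕ → Bool}
    (h : ∀ n < 2 ^ k, p (dec n) ↔ pb n = true) : (Nat.card {v // p v} : ℤ) = cnt (2 ^ k) pb := by
  classical
  rw [Nat.card_eq_fintype_card, Fintype.card_subtype, card_filter, c.sum, cnt, sm_eq, Nat.cast_sum]
  refine sum_congr rfl fun n hn => ?_
  rw [if_congr (h n (mem_range.1 hn)) rfl rfl]
  cases pb n <;> rfl

theorem Cod.f (c : Cod P k dec q) {i j : ℕ} (hi : i < 2 ^ k) (hj : j < 2 ^ k) :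
    P.f (dec i) (dec j) = bz (fb q i j) := by
  have := P.add (dec i) (dec j)
  rw [← c.xor, c.Q _ hi, c.Q _ hj, c.Q _ (Nat.xor_lt_two_pow hi hj), Pol.d, if_pos c.o, one_mul] at this
  rw [fb]
  revert this
  generalize P.f (dec i) (dec j) = x
  generalize q (i ^^^ j) = u
  generalize q i = v
  generalize q j = w
  revert x u v w
  decide

theorem Cod.ite (c : Cod P k dec q) (b : Bool) (i : ℕ) : dec (bif b then i else 0) = bz b • dec i := by
  cases b <;> simp [bz, c.zero]

theorem hb_lt {a b c d : Bool} {i j n : ℕ} (hi : i < 2 ^ k) (hj : j < 2 ^ k) (hn : n < 2 ^ k) :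
    hb q a b c d i j n < 2 ^ k := by
  have : ∀ (b : Bool) i, i < 2 ^ k → (bif b then i else 0) < 2 ^ k := fun b i h => by
    cases b
    exacts [Nat.two_pow_pos k, h]
  exact Nat.xor_lt_two_pow (Nat.xor_lt_two_pow hn (this _ _ hi)) (this _ _ hj)

/-- the invertible matrices -/
def gl (a b c d : Bool) (h : ((a && d) ^^ (b && c)) = true) : GL (Fin 2) (ZMod 2) :=
  ⟨!![bz a, bz b; bz c, bz d], !![bz d, bz b; bz c, bz a], by revert a b c d; decide, by revert a b c d; decide⟩

theorem sum_gl (F : GL (Fin 2) (ZMod 2) → ℂ) : ∑ C, F C = F (gl true false false true rfl) +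
    (F (gl false true true false rfl) + (F (gl true true false true rfl) + (F (gl true false true true rfl) +
    (F (gl false true true true rfl) + F (gl true true true false rfl))))) := by
  rw [show (univ : Finset (GL (Fin 2) (ZMod 2))) = {gl true false false true rfl, gl false true true false rfl,
    gl true true false true rfl, gl true false true true rfl, gl false true true true rfl,
    gl true true true false rfl} by decide, sum_insert (by decide), sum_insert (by decide), sum_insert (by decide),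
    sum_insert (by decide), sum_insert (by decide), sum_singleton]

theorem Cod.cd (h : Cod P k dec q) {a b c d : Bool} (e : ((a && d) ^^ (b && c)) = true) {i j : ℕ} (hi : i < 2 ^ k)
    (hj : j < 2 ^ k) : P.Cd ![dec i, dec j] (gl a b c d e).1 ↔
      (a == q i && d == q j && (b ^^ c) == fb q i j) = true := by
  have e1 : P.f (dec j) (dec i) = bz (fb q i j) := by rw [P.symm, Pol.e, if_pos h.o, one_mul, h.f hi hj]
  simp only [Pol.Cd, Fin.forall_fin_two, gl, of_apply, cons_val', cons_val_zero, cons_val_one, cons_val_fin_one,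
    P.self, h.Q _ hi, h.Q _ hj, e1, h.f hi hj, Pol.e, Pol.d, if_pos h.o]
  clear e1
  generalize fb q i j = u
  generalize q i = v
  generalize q j = w
  revert a b c d u v w
  decide

theorem Cod.hY [Finite V] (h : Cod P k dec q) {a b c d : Bool} (e : ((a && d) ^^ (b && c)) = true) {i j n : ℕ}
    (hi : i < 2 ^ k) (hj : j < 2 ^ k) (hn : n < 2 ^ k) (hc : P.Cd ![dec i, dec j] (gl a b c d e).1) :
    (P.hY ![dec i, dec j] (gl a b c d e)).1 (dec n) = dec (hb q a b c d i j n) := by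
  have x : ∀ a b c d : Bool, bz ((a && b) ^^ (c && d)) = bz a * bz b + bz c * bz d := by decide
  rw [Pol.hY_apply hc, hb, h.xor, h.xor, h.ite, h.ite, Pol.cmb_apply, Fin.sum_univ_two, add_assoc, x, x,
    ← h.f hn hi, ← h.f hn hj]
  simp [gl, mulVec, dotProduct, Pol.shp_apply]

theorem Cod.cs [Fintype V] (h : Cod P k dec q) {ψ : GL (Fin 2) (ZMod 2) → ℂ}
    (hψ : ∀ x, ψ x = if x.1 ≠ 1 ∧ x.1 0 0 = x.1 1 1 then -1 else 1) {φ : P.G → ℂ} {D : ℂ} {Φ : (ℕ → ℕ) → ℤ}
    (hφ : ∀ (g : P.G) (t : ℕ → ℕ), (∀ n < 2 ^ k, t n < 2 ^ k ∧ g.1 (dec n) = dec (t n)) → D * φ g = Φ t) :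
    D * P.cs (J2 (ZMod 2)) ψ φ = tot (2 ^ k) q Φ := by
  classical
  have key : ∀ {a b c d : Bool} (e : ((a && d) ^^ (b && c)) = true) (s : ℤ),
      ψ ((J2 (ZMod 2))⁻¹ * gl a b c d e) = s → ∀ i < 2 ^ k, ∀ j < 2 ^ k,
      D * (if P.Cd ![dec i, dec j] (gl a b c d e).1 then
        ψ ((J2 (ZMod 2))⁻¹ * gl a b c d e) * φ (P.hY ![dec i, dec j] (gl a b c d e)) else 0) =
      tm q Φ s a b c d i j := fun e s hs i hi j hj => by
    rw [tm]
    split_ifs with c
    · rw [(h.cd e hi hj).1 c, cond_true, hs, mul_left_comm,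
        hφ _ _ fun n hn => ⟨hb_lt hi hj hn, h.hY e hi hj hn c⟩, Int.cast_mul]
    · rw [Bool.eq_false_iff.2 ((h.cd e hi hj).not.1 c), cond_false, mul_zero, Int.cast_zero]
  rw [Pol.cs, ← (finTwoArrowEquiv V).symm.sum_comp, Fintype.sum_prod_type, h.sum, tot, sm_eq, Int.cast_sum,
    mul_sum]
  refine sum_congr rfl fun i hi => ?_
  rw [h.sum, sm_eq, Int.cast_sum, mul_sum]
  refine sum_congr rfl fun j hj => ?_
  rw [mem_range] at hi hj
  simp only [sum_gl, mul_add, Int.cast_add, finTwoArrowEquiv_symm_apply]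
  rw [key _ (-1) (by rw [hψ, if_pos (by decide)]; simp) i hi j hj,
    key _ 1 (by rw [hψ, if_neg (by decide)]; simp) i hi j hj,
    key _ 1 (by rw [hψ, if_neg (by decide)]; simp) i hi j hj,
    key _ 1 (by rw [hψ, if_neg (by decide)]; simp) i hi j hj,
    key _ (-1) (by rw [hψ, if_pos (by decide)]; simp) i hi j hj,
    key _ (-1) (by rw [hψ, if_pos (by decide)]; simp) i hi j hj]

/-- bits -/
def bt (n i : ℕ) : ZMod 2 := bz (n.testBit i)

theorem bt_xor (n m i : ℕ) : bt (n ^^^ m) i = bt n i + bt m i := by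
  rw [bt, bt, bt, Nat.testBit_xor]
  cases n.testBit i <;> cases m.testBit i <;> rfl

theorem bz_zero {b : Bool} : bz b = 0 ↔ b = false := by cases b <;> decide

theorem bz_one {b : Bool} : bz b = 1 ↔ b = true := by cases b <;> decide

end CF.Hc.Cb
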