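import Cfsg.Agent.Hc.Cb1

/-! The quadratic relation for `O₁₀⁺(2)` and `O₈⁻(2)`: the computations. -/

set_option autoImplicit false

open scoped MatrixGroups
open Cfsg Finset Matrix

namespace CF.Hc.Cb

section
variable {V : Type} [AddCommGroup V] [Module (ZMod 2) V] [Fintype V] {P : Pol (ZMod 2) V} {k : ℕ} {dec : ℕ → V}
  {q : ℕ → Bool}

omit [Fintype V] in
theorem ex_smul (g : P.G) {v : V} (h : v ≠ 0) : (∃ c : ZMod 2, g.1 v = c • v) ↔ g.1 v = v := by
  refine ⟨fun ⟨c, e⟩ => ?_, fun e => ⟨1, by rw [one_smul, e]⟩⟩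
  rcases (by decide : ∀ c : ZMod 2, c = 0 ∨ c = 1) c with rfl | rfl
  · exact absurd (g.1.map_eq_zero_iff.1 (by rw [e, zero_smul])) h
  · rw [e, one_smul]

theorem Cod.fx (c : Cod P k dec q) (g : P.G) {t : ℕ → ℕ} (h : ∀ n < 2 ^ k, t n < 2 ^ k ∧ g.1 (dec n) = dec (t n)) :
    (P.fx g : ℤ) = cnt (2 ^ k) fun n => !q n && (t n == n && n != 0) := by
  refine c.card fun n hn => ?_
  by_cases e : n = 0
  · simp [e, c.zero]
  · have e' := (c.eq_zero hn).not.2 e
    rw [ex_smul g e', (h n hn).2, c.eq_iff (h n hn).1 hn, c.Q n hn, bz_zero]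
    simp [e, e']

theorem Cod.aj (c : Cod P k dec q) (g : P.G) {t : ℕ → ℕ} (h : ∀ n < 2 ^ k, t n < 2 ^ k ∧ g.1 (dec n) = dec (t n)) :
    (P.aj g : ℤ) = cnt (2 ^ k) fun n => !q n && (t n != n && !fb q n (t n)) := by
  refine c.card fun n hn => ?_
  by_cases e : n = 0
  · have := (h n hn).2
    rw [e, c.zero, map_zero, eq_comm, c.eq_zero (e ▸ (h n hn).1)] at this
    simp [e, c.zero, this]
  · have e' := (c.eq_zero hn).not.2 e
    rw [ex_smul g e', (h n hn).2, c.eq_iff (h n hn).1 hn, c.Q n hn, bz_zero, c.f hn (h n hn).1, bz_zero]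
    simp [e']

end

/-- the code of `O₆⁺(2)` -/
def d6 (n : ℕ) : HV (ZMod 2) 1 (HV (ZMod 2) 2 (Fin 0 → ZMod 2)) :=
  (![bt n 0], (![bt n 1, bt n 2], ![], ![bt n 3, bt n 4]), ![bt n 5])

/-- the quadratic form -/
def q6 (n : ℕ) : Bool := Nat.testBit 10834084734946036736 n

set_option synthInstance.maxSize 1000 in
theorem cod6 : Cod (((z0 (ZMod 2) true).hyp 2).hyp 1) 6 d6 q6 where
  o := rfl
  inj := by decide +kernel
  surj := by decide +kernel
  xor := fun i j => by simp [d6, bt_xor]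
  Q := by
    simp only [Pol.hyp_Q, d6, z0, Pol.d]
    decide +kernel

/-- six times the character of degree `14` -/
def F6 (t : ℕ → ℕ) : ℤ :=
  cnt 64 (fun n => !q6 n && (t n != n && !fb q6 n (t n))) + 3 * cnt 64 (fun n => !q6 n && (t n == n && n != 0)) - 21

theorem tot6 : tot 64 q6 F6 = 5376 := by decide +kernel

theorem an11 : An (1 : ZMod 2) 1 := by unfold An; decide

/-- the code of `O₄⁻(2)` -/
def d4 (n : ℕ) : HV (ZMod 2) 1 (Fin 2 → ZMod 2) := (![bt n 0], ![bt n 1, bt n 2], ![bt n 3])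

/-- the quadratic form -/
def q4 (n : ℕ) : Bool := Nat.testBit 22268 n

theorem cod4 : Cod ((z2 an11).hyp 1) 4 d4 q4 where
  o := rfl
  inj := by decide +kernel
  surj := by decide +kernel
  xor := fun i j => by simp [d4, bt_xor]
  Q := by
    simp only [Pol.hyp_Q, d4, z2, Pol.d, q2_apply]
    decide +kernel

/-- three times the character of degree `5` -/
def F4 (t : ℕ → ℕ) : ℤ :=
  cnt 16 (fun n => q4 n && (t n != n && !fb q4 n (t n))) + 2 * cnt 16 (fun n => q4 n && t n == n) - 5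

theorem tot4 : tot 16 q4 F4 = -840 := by decide +kernel

end CF.Hc.Cb
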