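import Cfsg.Agent.Hc.Cb2
import Cfsg.Agent.Hc.K0

/-! The character of degree `5` of `O₄⁻(2)` (Petersen graph). -/

set_option autoImplicit false

open scoped MatrixGroups
open Cfsg Finset Matrix

namespace CF.Hc.Cb

variable {V : Type} [AddCommGroup V] [Module (ZMod 2) V] (P : Pol (ZMod 2) V)

/-- non-singular vectors -/
abbrev NS : Type := {v : V // P.Q v = 1}

instance instMulActionNS : MulAction P.G (NS P) where
  smul g v := ⟨g.1 v.1, (P.G_Q g v.1).trans v.2⟩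
  one_smul _ := rfl
  mul_smul _ _ _ := rfl

variable {P}

theorem NS.ne (x : NS P) : x.1 ≠ 0 := fun e => by simpa [e] using x.2

theorem NS.li {x y : NS P} (h : x ≠ y) : LinearIndependent (ZMod 2) ![x.1, y.1] := by
  refine LinearIndependent.pair_iff' x.ne |>.2 fun c e => ?_
  rcases (by decide : ∀ c : ZMod 2, c = 0 ∨ c = 1) c with rfl | rfl
  · exact y.ne (by rw [← e, zero_smul])
  · exact h (Subtype.ext (by rw [← e, one_smul]))

theorem NS.tr [Finite V] {x y x' y' : NS P} (h : x ≠ y) (h' : x' ≠ y') (e : P.f x.1 y.1 = P.f x'.1 y'.1) :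
    ∃ g : P.G, g • x = x' ∧ g • y = y' := by
  obtain ⟨g, a, b, c⟩ := P.wp.frame_fin 2 _ _ (NS.li h) (NS.li h')
    (by simp [Fin.forall_fin_two, P.self, x.2, y.2, x'.2, y'.2, e, P.symm y.1 x.1, P.symm y'.1 x'.1])
    (by simp [Fin.forall_fin_two, x.2, y.2, x'.2, y'.2])
  exact ⟨⟨g, a, b⟩, Subtype.ext (c 0), Subtype.ext (c 1)⟩

theorem NS.card (p : V → Prop) : Nat.card {x : NS P // p x.1} = Nat.card {v // P.Q v = 1 ∧ p v} :=
  Nat.card_congr (Equiv.subtypeSubtypeEquivSubtypeInter (fun v => P.Q v = 1) p)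

theorem five : ∃ φ : ((z2 an11).hyp 1).G → ℂ, IsIrrCharacter _ φ ∧ ∀ g (t : ℕ → ℕ),
    (∀ n < 2 ^ 4, t n < 2 ^ 4 ∧ g.1 (d4 n) = d4 (t n)) → 3 * φ g = F4 t := by
  have q : ∀ n < 2 ^ 4, q4 n = true → ((z2 an11).hyp 1).Q (d4 n) = 1 := fun n a b => by rw [cod4.Q n a, b]; rfl
  let x0 : NS ((z2 an11).hyp 1) := ⟨d4 2, q 2 (by norm_num) rfl⟩
  let y0 : NS ((z2 an11).hyp 1) := ⟨d4 3, q 3 (by norm_num) rfl⟩
  let z0 : NS ((z2 an11).hyp 1) := ⟨d4 4, q 4 (by norm_num) rfl⟩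
  have : Finite (NS ((z2 an11).hyp 1)) := Subtype.finite
  have z2' : ∀ a b : ZMod 2, (a = 0 ↔ b = 0) → a = b := by decide
  have R : ∀ i < 2 ^ 4, ∀ j < 2 ^ 4, (d4 i ≠ d4 j ∧ ((z2 an11).hyp 1).f (d4 i) (d4 j) = 0) ↔
      (j != i && !fb q4 i j) = true := fun i a j b => by
    rw [Ne, cod4.eq_iff a b, cod4.f a b, bz_zero, eq_comm]
    simp
  have Q : ∀ n < 2 ^ 4, ((z2 an11).hyp 1).Q (d4 n) = 1 ↔ q4 n = true := fun n a => by rw [cod4.Q n a, bz_one]
  obtain ⟨φ, a1, -, a3⟩ := rank3 (G := ((z2 an11).hyp 1).G) (X := NS ((z2 an11).hyp 1))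
    (fun x y => x.1 ≠ y.1 ∧ ((z2 an11).hyp 1).f x.1 y.1 = 0) (fun x y h => ⟨h.1.symm, Pol.refl _ h.2⟩)
    (fun x h => h.1 rfl) (fun g x y h => ⟨g.1.injective.ne h.1, (Pol.G_f _ g _ _).trans h.2⟩)
    (fun x y x' y' a b c => NS.tr a b (z2' _ _ (by simpa [Subtype.coe_ne_coe.2 a, Subtype.coe_ne_coe.2 b] using c)))
    (x0 := x0) (y0 := y0) (z0 := z0) ((R 2 (by norm_num) 3 (by norm_num)).2 rfl)
    ((R 2 (by norm_num) 4 (by norm_num)).not.2 (by decide))
    (fun e => by simpa using (cod4.eq_iff (by norm_num) (by norm_num)).1 (congrArg Subtype.val e))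
    (k := 3) (μ := 1) (r := 1) (s := -2)
    (by
      rw [NS.card fun v => d4 2 ≠ v ∧ ((z2 an11).hyp 1).f (d4 2) v = 0, ← Nat.cast_inj (R := ℤ),
        cod4.card (pb := fun n => q4 n && (n != 2 && !fb q4 2 n)) fun n a => by
          rw [Q n a, R 2 (by norm_num) n a]; simp only [Bool.and_eq_true]]
      decide)
    (by
      rw [NS.card fun v => (d4 2 ≠ v ∧ ((z2 an11).hyp 1).f (d4 2) v = 0) ∧
        d4 4 ≠ v ∧ ((z2 an11).hyp 1).f (d4 4) v = 0, ← Nat.cast_inj (R := ℤ),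
        cod4.card (pb := fun n => q4 n && ((n != 2 && !fb q4 2 n) && (n != 4 && !fb q4 4 n))) fun n a => by
          rw [Q n a, R 2 (by norm_num) n a, R 4 (by norm_num) n a]; simp only [Bool.and_eq_true]]
      decide)
    (by norm_num) (by norm_num) (by rw [NS, cod4.card Q]; decide)
  refine ⟨φ, a1, fun g t h => ?_⟩
  have e1 : (Nat.card {x : NS ((z2 an11).hyp 1) // x.1 ≠ (g • x).1 ∧ ((z2 an11).hyp 1).f x.1 (g • x).1 = 0} : ℤ) =
      cnt 16 fun n => q4 n && (t n != n && !fb q4 n (t n)) := by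
    exact (congrArg _ (NS.card fun v => v ≠ g.1 v ∧ ((z2 an11).hyp 1).f v (g.1 v) = 0)).trans
      (cod4.card fun n a => by rw [Q n a, (h n a).2, R n a _ (h n a).1]; simp only [Bool.and_eq_true])
  have e2 : (Nat.card (MulAction.fixedBy (NS ((z2 an11).hyp 1)) g) : ℤ) = cnt 16 fun n => q4 n && t n == n := by
    exact (congrArg _ ((Nat.card_congr (Equiv.subtypeEquivRight fun x => Subtype.ext_iff)).trans
      (NS.card fun v => g.1 v = v))).trans
      (cod4.card fun n a => by rw [Q n a, (h n a).2, cod4.eq_iff (h n a).1 a]; simp)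
  have := a3 g
  rw [F4, ← e1, ← e2]
  push_cast at this ⊢
  linear_combination this

end CF.Hc.Cb
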