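import Cfsg.Agent.Hc.Cb
import Cfsg.Agent.Hc.Cc1

/-! A character of `O₈⁻(2)` of degree divisible by `2380`. -/

set_option autoImplicit false

open scoped MatrixGroups
open Cfsg Finset Matrix

namespace CF.Hc
open CF.Char CF.Cusp

variable {F : Type} [Field F] [Fintype F] [DecidableEq F]

theorem Cb.two' : ∃ n, 2380 ∣ n ∧ ((z2 Cb.an11).hyp 3).Dg true n := by
  obtain ⟨ψ, i, cu, n1, h1, h2, h3⟩ := psi02
  have h : Nat.card (ZMod 2) = 2 := Nat.card_zmod 2
  obtain ⟨φ, a1, k⟩ := Cb.five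
  have e1 : φ 1 = (5 : ℕ) := by
    have := k 1 id fun n a => ⟨a, rfl⟩
    rw [show Cb.F4 id = 15 by decide +kernel] at this
    push_cast at this ⊢
    linear_combination this / 3
  obtain ⟨m, m1, m2⟩ := Pol.dgII (P := (z2 Cb.an11).hyp 1) two_pos i cu (J2 _) h1 h2
    (fun c => nomatch c) a1 (Pol.iv_vac (ani2 _) one_lt_two _ _) e1 (ev := true)
    (fun _ => ⟨congrArg ψ (by decide), congrArg φ (Cb.neg _)⟩) (a := 8) (b := 8) (by norm_num) (by norm_num)
    (by rw [h, Pol.ux, Pol.finrank_hyp]; simp [z2]) (Or.inr rfl) (by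
      have := Cb.cod4.cs h3 k
      rw [show 2 ^ 4 = 16 from rfl, Cb.tot4] at this
      rw [e1, h3, if_neg (by simp)]
      push_cast at this ⊢
      linear_combination this / 3)
  have d := DD_M Cb.an11 two_pos 1
  rw [h] at d
  norm_num [prod_range_succ] at d
  exact ⟨m, by omega, (Pol.hyp_add _ (j := 1) (k := 2) rfl).dg m2⟩

theorem cc (h : Nat.card F = 2) {a b : F} (hab : An a b) :
    ∃ n, 2380 ∣ n ∧ ((z2 hab).hyp 3).Dg true n := by
  obtain ⟨n, c, d⟩ := Cb.two'
  let σ := ZMod.ringEquivOfPrime F Nat.prime_two (Nat.card_eq_fintype_card.symm.trans h)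
  have h01 : ∀ x : F, x = 0 ∨ x = 1 := fun x => by
    obtain ⟨x, rfl⟩ := σ.surjective x
    rcases (by decide : ∀ c : ZMod 2, c = 0 ∨ c = 1) x with rfl | rfl <;> simp
  have h2 : (2 : F) = 0 := by
    rw [← map_ofNat σ 2, show (2 : ZMod 2) = 0 from rfl, map_zero]
  obtain rfl : b = 1 := (h01 b).resolve_left fun e => one_ne_zero (hab 0 1 (by simp [e])).2
  obtain rfl : a = 1 := (h01 a).resolve_left fun e => hab.disc (by rw [e]; linear_combination -2 * h2)
  have q : ∀ x, q2 (1 : F) 1 (fun i => σ (x i)) = σ (q2 1 1 x) := fun x => by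
    simp only [q2_apply, map_add, map_mul, map_pow, map_one]
  refine ⟨n, c, Cb.semi σ (AddEquiv.piCongrRight fun _ => σ.toAddEquiv)
    (fun c v => funext fun i => map_mul σ _ _) rfl (fun x y => ?_) q d⟩
  change q2 1 1 ((fun i => σ (x i)) + fun i => σ (y i)) - q2 1 1 (fun i => σ (x i)) - q2 1 1 (fun i => σ (y i)) =
    σ (q2 1 1 (x + y) - q2 1 1 x - q2 1 1 y)
  rw [map_sub, map_sub, ← q, ← q, ← q]
  congr 3
  exact funext fun i => (map_add σ _ _).symm

end CF.Hc
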