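import Cfsg.Agent.Hc.M2
import Cfsg.Agent.Hc.K1
import Cfsg.Agent.Hc.K3
import Cfsg.Agent.Hc.T
import Cfsg.Agent.Classical.MinIdxO1

/-!
# The Hecke computation for `O₈⁻(3)`
-/

set_option autoImplicit false

open scoped ComplexConjugate MatrixGroups
open Cfsg Finset Matrix

namespace CF.Hc
open CF.Char CF.Geom CF.Cusp

variable {F : Type} [Field F] [Fintype F] [DecidableEq F]

namespace Cd
open Pol
variable {V : Type} [AddCommGroup V] [Module F V] [Fintype V] {P : Pol F V}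

/-- The orthogonal complement of a vector. -/
noncomputable def sub (P : Pol F V) {y : V} (hy : P.f y y ≠ 0) : Pol F (LinearMap.ker (P.f y)) where
  o := P.o
  f := P.f.restrict _
  Q := P.Q.comp (Submodule.subtype _)
  nd := fun x h => Subtype.ext (P.nd _ fun v => by
    have := h ⟨v - (P.f y v / P.f y y) • y, by simp [hy]⟩
    simpa [P.refl x.2] using this)
  ho := fun h => LinearMap.ext₂ fun x y => by simp [P.ho h, QuadraticMap.polar]
  hs := fun h => ⟨by ext; simp [(P.hs h).1], fun x => (P.hs h).2 x⟩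

theorem card_perp (ho : P.o = true) {m : ℕ} (hm : Module.finrank F V = 2 * m + 2) {y : V}
    (hy : P.f y y ≠ 0) :
    Nat.card {v // v ≠ 0 ∧ P.Q v = 0 ∧ P.f y v = 0} + 1 = Nat.card F ^ (2 * m) := by
  have h1 := Module.Dual.finrank_ker_add_one_of_ne_zero (f := P.f y) fun h => hy (by simp [h])
  have := Fintype.ofFinite (LinearMap.ker (P.f y))
  rw [← card_singular_odd (nondeg_O (P := sub P hy) ho) (m := m) (by omega), ← sv,
    ← (fx_neg (P := sub P hy)).2.2.2, fx]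
  congr 1
  exact Nat.card_congr ⟨fun v => ⟨⟨v.1, v.2.2.2⟩, fun h => v.2.1 (congrArg Subtype.val h), v.2.2.1,
    1, (one_smul _ _).symm⟩, fun v => ⟨v.1.1, fun h => v.2.1 (Subtype.ext h), v.2.2.1, v.1.2⟩,
    fun _ => rfl, fun _ => rfl⟩

theorem refl_eq {Y : Fin 1 → V} {C : GL (Fin 1) F} (h : P.Cd Y C.1) : ∃ c : F, c ≠ 0 ∧
    ∀ v, (P.hY Y C).1 v = v + (c * P.f v (Y 0)) • Y 0 :=
  ⟨C⁻¹.1 0 0, fun e => C⁻¹.det_ne_zero (by rw [det_fin_one, e]), fun v => by
    simp [hY_apply h, cmb_apply, mulVec, dotProduct, shp_apply, -coe_units_inv]⟩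

theorem refl_val (ho : P.o = true) (h2 : (2 : F) ≠ 0) {m : ℕ}
    (hm : Module.finrank F V = 2 * m + 2) {Y : Fin 1 → V} {C : GL (Fin 1) F} (h : P.Cd Y C.1) :
    P.aj (P.hY Y C) = 0 ∧ P.fx (P.hY Y C) + 1 = Nat.card F ^ (2 * m) := by
  obtain ⟨c, hc, e⟩ := refl_eq h
  have hQ : P.Q (Y 0) ≠ 0 := fun e => C.det_ne_zero (by
    simpa [e, d, ho] using h.2 0)
  have h1 : ∀ v, P.f v (Y 0) = 0 → ∃ c : F, (P.hY Y C).1 v = c • v := fun v h =>
    ⟨1, by simp [e, h]⟩
  refine ⟨Nat.card_eq_zero.2 (Or.inl ⟨fun ⟨v, _, h3, h4, h5⟩ => h4 (h1 v ?_)⟩), ?_⟩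
  · simpa [e, P.self v, h3, hc] using h5
  · rw [← card_perp ho hm (y := Y 0) (by rw [P.self]; exact mul_ne_zero h2 hQ), fx]
    congr 1
    refine Nat.card_congr (Equiv.subtypeEquivRight fun v => and_congr_right fun _ =>
      and_congr_right fun h3 => ⟨fun ⟨t, ht⟩ => P.refl ?_, fun h => h1 v (P.refl h)⟩)
    have := congrArg P.Q (show (c * P.f v (Y 0)) • Y 0 = (t - 1) • v by
      rw [sub_smul, ← ht, e, one_smul, add_sub_cancel_left])
    simpa [P.smul, h3, hc, hQ] using this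

theorem cs_zero (ho : P.o = true) (h2 : (2 : F) ≠ 0) {m : ℕ}
    (hm : Module.finrank F V = 2 * m + 2) {ψ : GL (Fin 1) F → ℂ}
    (h : ∑ x, ψ x = 0) {φ : P.G → ℂ} {c s t : ℂ} (hc : c ≠ 0)
    (e : ∀ g, c * φ g = P.aj g - s * P.fx g - t) : P.cs 1 ψ φ = 0 := by
  classical
  obtain ⟨N, hN⟩ : ∃ N, ∀ c : F, c ≠ 0 → Nat.card {v // P.Q v = c} = N := by
    by_cases hp : IsPlus P.Q
    · exact ⟨_, fun c => Classical.card_quad_plus (nondeg_O ho) hp (m := m) (by omega)⟩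
    · exact ⟨_, fun c => Classical.card_quad_minus (nondeg_O ho) hp hm⟩
  refine Eq.trans ?_ ((congrArg (· * ((N : ℂ) *
    ((-s * (Nat.card F ^ (2 * m) - 1) - t) / c))) h).trans (zero_mul _))
  rw [cs, sum_comm, sum_mul]
  refine sum_congr rfl fun C _ => ?_
  rw [← hN (-C.1 0 0) (neg_ne_zero.2 fun e => C.det_ne_zero (by rw [det_fin_one, e])), ← sum_filter,
    sum_congr rfl (g := fun _ => ψ C * ((-s * (Nat.card F ^ (2 * m) - 1) - t) / c)) fun Y hY => ?_,
    sum_const, nsmul_eq_mul, mul_left_comm, ← Fintype.card_subtype, ← Nat.card_eq_fintype_card]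
  · congr 3
    refine Nat.card_congr ((Equiv.funUnique (Fin 1) V).subtypeEquiv fun Y => ?_)
    simp only [Pol.Cd, Fin.forall_fin_one, P.self, Pol.e, d, ho, if_true, Equiv.funUnique_apply,
      Fin.default_eq_zero]
    exact ⟨fun h => by linear_combination h.2, fun h => ⟨by linear_combination 2 * h,
      by linear_combination h⟩⟩
  · obtain ⟨h3, h4⟩ := refl_val ho h2 hm (mem_filter.1 hY).2
    rw [inv_one, one_mul, eq_div_of_mul_eq hc ((mul_comm _ _).trans (e _)), h3, ← Nat.cast_pow,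
      ← h4]
    simp

theorem lam (h : Nat.card F = 3) : ∃ ψ : GL (Fin 1) F → ℂ, IsIrrCharacter _ ψ ∧ ψ 1 = 1 ∧
    (ψ ≠ fun _ => 1) ∧ ∀ y : GL (Fin 1) F, ti y = y := by
  have hc : ∀ a b : GL (Fin 1) F, a * b = b * a := fun a b => Units.ext (by
    ext i j
    simp [Subsingleton.elim i 0, Subsingleton.elim j 0, Matrix.mul_apply, mul_comm])
  have h2 : Nat.card (GL (Fin 1) F) = 2 := by rw [card_GL, h]; rfl
  obtain ⟨g, hg⟩ := (Finite.one_lt_card_iff_nontrivial.1 (h2 ▸ one_lt_two)).exists_pair_ne.imp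
    fun a (h : ∃ b, a ≠ b) => h
  obtain ⟨g', hg⟩ := hg
  obtain ⟨ψ, h3, h4⟩ := exists_irr_not_mem_charKer (mul_inv_eq_one.not.2 hg)
  refine ⟨ψ, h3, irr_one_eq_one_of_comm hc h3, fun e => h4 (by simp [e, charKer_one]), fun y => ?_⟩
  have : y⁻¹ = y := inv_eq_of_mul_eq_one_right (by rw [← sq, ← h2, pow_card_eq_one'])
  refine Units.ext ?_
  rw [ti_val, this]
  ext i j
  rw [Subsingleton.elim i j, transpose_apply]

end Cd
open Pol

theorem cd (h : Nat.card F = 3) {a b : F} (hab : An a b) :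
    ∃ n, 195 ∣ n ∧ ((z2 hab).hyp 3).Dg false n := by
  have h2 : (2 : F) ≠ 0 := Ring.two_ne_zero fun e => by
    have := FiniteField.even_card_of_char_two e
    rw [← Nat.card_eq_fintype_card, h] at this
    omega
  have i1 := hyp_add (z2 hab) (j := 1) (k := 1) (m := 2) rfl
  have hf : Module.finrank F (HV F 1 (HV F 1 (Fin 2 → F))) = 2 * 2 + 2 := by
    simp [finrank_hyp]
  obtain ⟨ψ, h3, h4, h5, h6⟩ := Cd.lam h
  obtain ⟨φ, h7, h8, -, h9⟩ := pt3' (P := (z2 hab).hyp 1) (r := 2) (s := -10)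
    (by rw [sv_M, h]; norm_num) (by simp) (by rw [sv_M, h]; norm_num)
    (by rw [sv_M, Nat.card_prod, Nat.card_prod, Nat.card_fun, Nat.card_fun, h]; simp [z2])
  have hc : IsCusp ψ := fun m h1 h2 => by omega
  have h90 : φ 1 = (90 : ℕ) := by
    have := h9 1
    obtain ⟨-, -, e1, e2⟩ := fx_neg (P := ((z2 hab).hyp 1).hyp 1)
    rw [i1.sv, sv_M, h] at e2
    rw [e1, show (((z2 hab).hyp 1).hyp 1).fx 1 = 224 by omega, sv_M, h] at this
    push_cast at this ⊢
    linear_combination this / 24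
  obtain ⟨m, e1, e2⟩ := dgII (P := ((z2 hab).hyp 1).hyp 1) one_pos h3 hc 1 (by simp [h6])
    (by simp [ti_one]) (fun h => nomatch h) h7 (iv_pi h3 hc h5 h7 h8) h90 (ev := false)
    (fun h => nomatch h) (a := 1) (b := 27) one_pos (by norm_num) (by rw [h]; simp [ux, hf, z2])
    (Or.inl rfl) (by
      rw [Cd.cs_zero rfl h2 hf (sum_irr_eq_zero h3 h5) _ h9]
      · simp
      · rw [h]
        norm_num)
  have e3 := DD_M hab one_pos 2
  rw [i1.DD rfl one_pos] at e1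
  refine ⟨m, ?_, (hyp_add _ rfl).dg ((i1.hyp rfl 1).dg e2)⟩
  simp only [h, prod_range_succ, prod_range_zero] at e3
  omega

end CF.Hc
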