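import Cfsg.Agent.Hc.A

/-! Degree graphs of classical groups: arithmetic used in the four families. -/

set_option autoImplicit false

open Cfsg Finset

namespace CF.Hc.F0

/-- The primes satisfying `S` divide one character degree. -/
def Cv (X : Type*) [Group X] (S : ℕ → Prop) : Prop :=
  ∃ d ∈ charDegrees X, ∀ r : ℕ, r.Prime → S r → r ∣ d

variable {X : Type*} [Group X] {q r n : ℕ}

theorem Cv.two {S : ℕ → Prop} (h : Cv X S) {r s : ℕ} (hr : r.Prime) (hs : s.Prime) (e : r ≠ s) (a : S r)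
    (b : S s) : ∃ d ∈ charDegrees X, r * s ∣ d := by
  obtain ⟨d, hd, k⟩ := h
  exact ⟨d, hd, ((Nat.coprime_primes hr hs).2 e).mul_dvd_of_dvd_of_dvd (k r hr a) (k s hs b)⟩

theorem cov3 {S1 S2 S3 : ℕ → Prop} (h1 : Cv X S1) (h2 : Cv X S2) (h3 : Cv X S3)
    (h : ∀ r : ℕ, r.Prime → r ∣ Nat.card X → S1 r ∧ S2 r ∨ S1 r ∧ S3 r ∨ S2 r ∧ S3 r) : Cov X := by
  intro r s hr hs e a b
  rcases h r hr a with a | a | a <;> rcases h s hs b with b | b | b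
  exacts [h1.two hr hs e a.1 b.1, h1.two hr hs e a.1 b.1, h2.two hr hs e a.2 b.1, h1.two hr hs e a.1 b.1,
    h1.two hr hs e a.1 b.1, h3.two hr hs e a.2 b.2, h2.two hr hs e a.1 b.2, h3.two hr hs e a.2 b.2,
    h2.two hr hs e a.1 b.1]

theorem cov1 {S : ℕ → Prop} (h1 : Cv X S) (h : ∀ r : ℕ, r.Prime → r ∣ Nat.card X → S r) : Cov X :=
  cov3 h1 h1 h1 fun r hr a => .inl ⟨h r hr a, h r hr a⟩

theorem cv_mem (h : n ∈ charDegrees X) {N : ℤ} (e : (n : ℤ) = N) : Cv X fun r => (r : ℤ) ∣ N :=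
  ⟨n, h, fun _ _ k => Int.natCast_dvd_natCast.1 (e ▸ k)⟩

/-- The `2`-part survives the passage to the simple group. -/
def G8 (q : ℕ) (N : ℤ) : Prop := 8 ∣ N ∨ Even q ∧ 4 ∣ N

/-- `r` divides the degree of a constituent. -/
def Gd (q : ℕ) (N : ℤ) (r : ℕ) : Prop := (r : ℤ) ∣ N ∧ (r = 2 → G8 q N)

theorem cv_loss (h : ∃ d ∈ charDegrees X, n ∣ (if Even q then 2 else 4) * d) {N : ℤ} (e : N ∣ (n : ℤ)) :
    Cv X (Gd q N) := by
  obtain ⟨d, hd, h⟩ := h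
  refine ⟨d, hd, fun r hr ⟨k1, k2⟩ => ?_⟩
  have h' := e.trans (Int.natCast_dvd_natCast.2 h)
  by_cases c : r = 2
  · subst c
    rcases k2 rfl with k | ⟨k0, k⟩ <;> have := k.trans h' <;> split_ifs at this <;> omega
  · have h4 : (if Even q then 2 else 4) * d ∣ 2 ^ 2 * d := mul_dvd_mul_right (by split_ifs <;> norm_num) _
    refine ((Nat.Prime.dvd_mul hr).1 ((Int.natCast_dvd_natCast.1 (k1.trans h')).trans h4)).resolve_left fun k => ?_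
    exact c ((Nat.prime_dvd_prime_iff_eq hr Nat.prime_two).1 (hr.dvd_of_dvd_pow k))

theorem eight (h : ¬ Even q) : (8 : ℤ) ∣ (q : ℤ) ^ 2 - 1 :=
  Int.eight_dvd_sq_sub_one_of_odd (by simpa using h)

theorem g8_odd {N : ℤ} (h : ¬ Even q) (k : (q : ℤ) ^ 2 - 1 ∣ N) : G8 q N := .inl ((eight h).trans k)

theorem g8 {N : ℤ} (k : (q : ℤ) ^ 2 - 1 ∣ N) (k' : (q : ℤ) ^ 2 ∣ N) : G8 q N := by
  by_cases h : Even q
  · obtain ⟨a, rfl⟩ := h
    exact .inr ⟨⟨a, rfl⟩, dvd_trans ⟨a * a, by push_cast; ring⟩ k'⟩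
  · exact g8_odd h k

theorem odd_of (h : ¬ (r : ℤ) ∣ q) (e : r = 2) : ¬ Even q := fun k =>
  h (e ▸ Int.natCast_dvd_natCast.2 (even_iff_two_dvd.1 k))

theorem dT (x : ℤ) {a b : ℕ} (h : a ∣ b) : x ^ a - 1 ∣ x ^ b - 1 := by
  obtain ⟨c, rfl⟩ := h
  simpa [pow_mul] using sub_dvd_pow_sub_pow (x ^ a) 1 c

theorem dP (x : ℤ) {a b c : ℕ} (h : b = a * c) (hc : Odd c) : x ^ a + 1 ∣ x ^ b + 1 := by
  simpa [h, pow_mul] using hc.add_dvd_pow_add_pow (x ^ a) 1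

theorem sT (x : ℤ) {a b : ℕ} (h : b = 2 * a) : x ^ b - 1 = (x ^ a - 1) * (x ^ a + 1) := by
  rw [h]; ring

theorem sp {x y : ℤ} (p : Prime y) (a : ℕ) {b : ℕ} (h : b = 2 * a) (k : y ∣ x ^ b - 1) :
    y ∣ x ^ a - 1 ∨ y ∣ x ^ a + 1 := p.dvd_or_dvd (by rwa [← sT x h])

theorem cT (hq : 0 < q) (k : ℕ) : ((q ^ k - 1 : ℕ) : ℤ) = (q : ℤ) ^ k - 1 := by
  rw [Nat.cast_sub (Nat.one_le_pow _ _ hq)]; simp

theorem T_ne (hq : 1 < q) {k : ℕ} (hk : 0 < k) : (q : ℤ) ^ k - 1 ≠ 0 :=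
  sub_ne_zero.2 (one_lt_pow₀ (by exact_mod_cast hq) hk.ne').ne'

theorem P_ne (q k : ℕ) : (q : ℤ) ^ k + 1 ≠ 0 := by positivity

/-- primes dividing the order -/
theorem primes (hq : 0 < q) (hr : r.Prime) (hn : 0 < n) {a c : ℕ}
    (h : r ∣ 2 * q ^ a * c * ∏ i ∈ range n, (q ^ (2 * (i + 1)) - 1)) :
    (r : ℤ) ∣ q ∨ ¬ (r : ℤ) ∣ q ∧ ((r : ℤ) ∣ c ∨ ∃ i < n, (r : ℤ) ∣ (q : ℤ) ^ (2 * (i + 1)) - 1) := by
  refine or_iff_not_imp_left.2 fun k => ⟨k, ?_⟩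
  rw [hr.dvd_mul, hr.dvd_mul, hr.dvd_mul, hr.prime.dvd_finsetProd_iff] at h
  rcases h with ((h | h) | h) | ⟨i, hi, h⟩
  · have e := (Nat.prime_dvd_prime_iff_eq hr Nat.prime_two).1 h
    exact .inr ⟨0, hn, dvd_trans (by rw [e]; norm_num) (eight (odd_of k e))⟩
  · exact absurd (Int.natCast_dvd_natCast.2 (hr.dvd_of_dvd_pow h)) k
  · exact .inl (Int.natCast_dvd_natCast.2 h)
  · exact .inr ⟨i, mem_range.1 hi, cT hq _ ▸ Int.natCast_dvd_natCast.2 h⟩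

theorem small (hr : r.Prime) {N : ℕ} (h : r ∣ N) (l : List ℕ) (hl : ∀ x ∈ l, x.Prime) (k : ℕ)
    (e : N ∣ l.prod ^ k) : r ∈ l :=
  mem_list_primes_of_dvd_prod hr.prime (fun x hx => (hl x hx).prime) (hr.dvd_of_dvd_pow (h.trans e))

/-- cancellation in a product -/
theorem dd {T : ℕ → ℤ} {s : Finset ℕ} (hs : s ⊆ range n) {D Y Z c : ℤ} (hY : Y ≠ 0)
    (h : D * Y = c * ∏ i ∈ range n, T i) (hZ : Y * Z = ∏ i ∈ s, T i) :
    c ∣ D ∧ Z ∣ D ∧ ∀ i < n, i ∉ s → T i ∣ D := by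
  have : D = c * Z * ∏ i ∈ range n \ s, T i := mul_right_cancel₀ hY (by rw [h, ← prod_sdiff hs, ← hZ]; ring)
  rw [this]
  exact ⟨(dvd_mul_right _ _).mul_right _, (dvd_mul_left _ _).mul_right _,
    fun i hi k => (dvd_prod_of_mem T (mem_sdiff.2 ⟨mem_range.2 hi, k⟩)).mul_left _⟩

theorem card_PO {F V : Type} [Field F] [AddCommGroup V] [Module F V] (P : Pol F V) :
    Nat.card P.PO ∣ Nat.card P.G :=
  (Subgroup.card_quotient_dvd_card _).trans (Subgroup.card_subgroup_dvd_card _)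

theorem card_PS {F V : Type} [Field F] [AddCommGroup V] [Module F V] (P : Pol F V) :
    Nat.card P.PS ∣ Nat.card P.G := Subgroup.card_quotient_dvd_card _

theorem two_ne {F : Type} [Field F] [Fintype F] (h : ¬ Even (Nat.card F)) : (2 : F) ≠ 0 :=
  Ring.two_ne_zero fun c => h (by
    rw [Nat.card_eq_fintype_card, Nat.even_iff]; exact FiniteField.even_card_of_char_two c)

theorem four_dvd {F : Type} [Field F] [Fintype F] (h : Even (Nat.card F)) (h2 : Nat.card F ≠ 2) :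
    (4 : ℤ) ∣ Nat.card F := by
  obtain ⟨p, k, hp, hk, e⟩ := (isPrimePow_nat_iff _).1 (FiniteField.isPrimePow_card F)
  rw [Nat.card_eq_fintype_card, ← e] at h h2 ⊢
  obtain rfl := hp.even_iff.1 (Nat.even_pow.1 h).1
  exact_mod_cast pow_dvd_pow 2 (show 2 ≤ k by by_contra! c; interval_cases k; omega)

theorem phi3_odd (x : ℤ) : ¬ ((2 : ℕ) : ℤ) ∣ x ^ 2 + x + 1 := fun h => by
  obtain ⟨a, ha⟩ := Int.even_mul_succ_self x
  rw [show x ^ 2 + x + 1 = a + a + 1 by linear_combination ha] at h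
  omega

end CF.Hc.F0
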