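import Cfsg.Agent.Hc.FS

/-! The prime graph condition for the odd-dimensional orthogonal groups. -/

set_option autoImplicit false

open scoped ComplexConjugate MatrixGroups
open Cfsg Finset Matrix

namespace CF.Hc
open CF.Char CF.Geom CF.Cusp FS

variable {F : Type} [Field F] [Fintype F] [DecidableEq F]

namespace FB

omit [DecidableEq F] in
theorem odd (h2 : (2 : F) ≠ 0) : Odd (Nat.card F) := by
  rw [Nat.card_eq_fintype_card, Nat.odd_iff]
  exact FiniteField.odd_card_of_char_ne_two fun e => h2 (by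
    have := ringChar.Nat.cast_ringChar (R := F)
    rwa [e, Nat.cast_ofNat] at this)

theorem cPO (h2 : (2 : F) ≠ 0) {m r : ℕ} (hr : r.Prime)
    (h : r ∣ Nat.card ((z1 h2).hyp (m + 1)).PO) : r ∣ Nat.card F ∨ Dv (Nat.card F) (m + 1) r := by
  have := (h.trans (Subgroup.card_quotient_dvd_card _)).trans (Subgroup.card_subgroup_dvd_card _)
  rw [card_B, mul_assoc] at this
  refine (hr.dvd_mul.1 this).elim (fun e => .inr ⟨0, m.succ_pos, e.trans ?_⟩) (dv_of hr)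
  exact Dvd.dvd.trans (by norm_num) (eight (odd h2) _)

theorem cd (h2 : (2 : F) ≠ 0) {m n r s : ℕ} {ev : Bool} (h : ((z1 h2).hyp (m + 3)).Dg ev n)
    (hr : r.Prime) (hs : s.Prime) (hne : r ≠ s) (a : r ∣ n) (b : s ∣ n)
    (h8 : 8 ∣ n ∨ r ≠ 2 ∧ s ≠ 2) : ∃ d ∈ charDegrees ((z1 h2).hyp (m + 3)).PO, r * s ∣ d := by
  obtain ⟨d, hd, e⟩ := Pol.cd_O rfl (by rw [Pol.finrank_hyp]; omega) h fun _ => neg_B h2 _
  rw [if_neg (Nat.not_even_iff_odd.2 (odd h2))] at e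
  exact ⟨d, hd, four hr hs hne a b e h8⟩

theorem d0 (h2 : (2 : F) ≠ 0) (n : ℕ) : ((z1 h2).hyp (n + 3)).Dg true ((Nat.card F ^ (n + 3) + 1) *
    ∏ i ∈ range (n + 2), (Nat.card F ^ (2 * (i + 1)) - 1)) := by
  rw [← D0 hq (DD_B h2 (n + 2).succ_pos 0)]
  exact Pol.dg1 (zero_add _) (by omega)

theorem d1 (h2 : (2 : F) ≠ 0) (n : ℕ) : ((z1 h2).hyp (n + 3)).Dg false ((Nat.card F ^ (n + 2) + 1) *
    (Nat.card F ^ (2 * (n + 3)) - 1) * (∏ i ∈ range n, (Nat.card F ^ (2 * (i + 2)) - 1)) *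
    Nat.card F) := by
  rw [← D1 hq (DD_B h2 (k := n + 2) (by omega) 1)]
  have := hq (F := F)
  have := Nat.odd_iff.1 (odd h2)
  exact Pol.dgV (ani1 h2) (by omega) (by omega) (by simp only [and_true]; omega)
    (Pol.pt2 (ani1 h2)).weak

theorem d3 (h2 : (2 : F) ≠ 0) {j a b : ℕ} (hj : j ≠ 0) (ha : Nat.card F ^ j - 1 = (Nat.card F - 1) * a)
    (hb : Nat.card F ^ (j + 1) + 1 = 2 * b) : ((z1 h2).hyp (j + 1)).Dg true (Nat.card F * a * b) := by
  have q := hq (F := F)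
  have p := Nat.one_lt_pow hj q
  refine Pol.dg3 ⟨?_, -Nat.card F ^ j - 1, Nat.card F ^ j - 1, ?_, ?_, ?_, ?_⟩
  · rw [sv_B]; exact Nat.one_lt_pow (by omega) hq
  · zify at p; omega
  · rw [sv_B]; push_cast; ring
  · rw [sv_B]; simp [z1]; ring
  · rw [sv_B, sv_B]
    zify [p.le, show 1 ≤ Nat.card F by omega] at ha hb ⊢
    linear_combination (Nat.card F ^ (j + 1) * 2 * b : ℤ) * ha +
      (Nat.card F ^ (j + 1) * (Nat.card F ^ j - 1) : ℤ) * hb

end FB
open FB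

theorem cov_B (h2 : (2 : F) ≠ 0) {m : ℕ} (hm : 3 ≤ m) : Cov ((z1 h2).hyp m).PO := by
  obtain ⟨n, rfl⟩ : ∃ n, m = n + 3 := ⟨m - 3, by omega⟩
  have e := eight (odd h2)
  have h8 := (((e (n + 3)).mul_left (Nat.card F ^ (n + 2) + 1)).mul_right
    (∏ i ∈ range n, (Nat.card F ^ (2 * (i + 2)) - 1))).mul_right (Nat.card F)
  refine glue (fun r => cPO h2) (fun r s hr hs hne a b => ?_) fun r s hr hs hne a b => ?_
  · rcases Nat.even_or_odd n with o | o
    · have k := fun t ht (a : Dv (Nat.card F) (n + 3) t) =>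
        ((cov1 ht a).resolve_right fun h => Nat.not_odd_iff_even.2 o h.1).mul_right (Nat.card F)
      exact FB.cd h2 (FB.d1 h2 n) hr hs hne (k r hr a) (k s hs b) (.inl h8)
    · exact FB.cd h2 (FB.d0 h2 n) hr hs hne (cov0 hr (o.add_even even_two) a)
        (cov0 hs (o.add_even even_two) b) (.inl (((e 1).trans (dvd_prod_of_mem
          (fun i => Nat.card F ^ (2 * (i + 1)) - 1) (mem_range.2 (n + 1).succ_pos))).mul_left _))
  rcases b.imp_right (cov1 hs) with b | b | ⟨-, b, b'⟩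
  · exact FB.cd h2 (FB.d1 h2 n) hr hs hne (a.mul_left _) (b.mul_left _) (.inl h8)
  · exact FB.cd h2 (FB.d1 h2 n) hr hs hne (a.mul_left _) (b.mul_right _) (.inl h8)
  obtain ⟨x, hx⟩ := Nat.sub_one_dvd_pow_sub_one (Nat.card F) (n + 2)
  obtain ⟨y, hy⟩ := ((odd h2).pow (n := n + 2 + 1)).add_one.two_dvd
  refine FB.cd h2 (FB.d3 h2 (by omega) hx hy) hr hs hne ((a.mul_right _).mul_right _)
    (.mul_right (.mul_left ((hs.dvd_mul.1 (hx ▸ b)).resolve_left fun c =>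
      b' (c.trans (Nat.sub_one_dvd_pow_sub_one _ _))) _) _) (.inr ⟨?_, ?_⟩)
  · rintro rfl
    exact (odd h2).not_two_dvd_nat a
  · rintro rfl
    exact b' (Dvd.dvd.trans (by norm_num) (e 1))

end CF.Hc
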