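import Cfsg.Agent.Hc.I
import Cfsg.Agent.Hc.Cc
import Cfsg.Agent.Hc.Cd
import Cfsg.Agent.Hc.F0

/-! The degree graph of `PΩ⁻`. -/

set_option autoImplicit false

open Cfsg Finset

namespace CF.Hc
open F0

variable {F : Type} [Field F] [Fintype F] [DecidableEq F] {a b : F} (h : An a b)

namespace FM

omit [DecidableEq F] in
theorem q1 : 1 < Nat.card F := Finite.one_lt_card

theorem sv (m : ℕ) : (((z2 h).hyp m).sv : ℤ) =
    ((Nat.card F : ℤ) ^ (m + 1) + 1) * (Nat.card F ^ m - 1) + 1 := by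
  rw [sv_M]; push_cast [cT (zero_lt_one.trans q1)]; rfl

omit [Field F] [DecidableEq F] in
theorem cV : Nat.card (Fin 2 → F) = Nat.card F ^ 2 := by simp

theorem r3 {j n : ℕ} (r s : ℤ) (k : r ≠ s) {q : ℤ} (hq : q = Nat.card F)
    (e1 : r * s = -((q ^ (j + 2) + 1) * (q ^ (j + 1) - 1)))
    (e2 : q * ((q ^ (j + 2) + 1) * (q ^ (j + 1) - 1) - 1 - r - s) = q ^ (2 * (j + 2)))
    (e3 : (r - s) * (q - 1) * n = -s * ((q ^ (j + 3) + 1) * (q ^ (j + 2) - 1)) -
      (q * ((q ^ (j + 2) + 1) * (q ^ (j + 1) - 1)) - s * (q - 1))) : (z2 h).R3 (j + 1) n := by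
  subst hq
  refine ⟨?_, r, s, k, by rw [sv, e1]; ring, ?_, by rw [sv, sv, e3]; ring⟩
  · rw [sv_M]
    exact Nat.lt_add_of_pos_left (Nat.mul_pos (by positivity) (Nat.sub_pos_of_lt (Nat.one_lt_pow (by omega) q1)))
  · rw [sv, cV]; simp only [z2, if_true]; push_cast; linear_combination e2

theorem r2 : (z2 h).R3 1 (Nat.card F ^ 2 * (Nat.card F ^ 2 + 1)) :=
  r3 h (j := 0) (Nat.card F - 1) (-Nat.card F ^ 2 - 1) (by have := q1 (F := F); nlinarith) rfl (by ring) (by ring)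
    (by push_cast; ring)

theorem p2 : ((z2 h).hyp 1).Dg true (Nat.card F ^ 2) := by
  have := Pol.pt2 (ani2 h)
  rwa [if_pos (show (z2 h).o = true from rfl), cV] at this

theorem cv {m n : ℕ} (hm : 3 ≤ m) {ev : Bool} (c : ((z2 h).hyp m).Dg ev n)
    (e : ev = false → ((z2 h).hyp m).neg ∉ commutator ((z2 h).hyp m).G) {N : ℤ} (k : N ∣ (n : ℤ)) :
    Cv ((z2 h).hyp m).PO (Gd (Nat.card F) N) :=
  cv_loss (Pol.cd_O rfl (by rw [Pol.finrank_hyp]; omega) c e) k

theorem pr {m r : ℕ} (hm : 0 < m) (hr : r.Prime) (c : r ∣ Nat.card ((z2 h).hyp m).PO) :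
    (r : ℤ) ∣ Nat.card F ∨ ¬ (r : ℤ) ∣ Nat.card F ∧ ((r : ℤ) ∣ (Nat.card F : ℤ) ^ (m + 1) + 1 ∨
      ∃ i < m, (r : ℤ) ∣ (Nat.card F : ℤ) ^ (2 * (i + 1)) - 1) := by
  have := primes (zero_lt_one.trans q1) hr hm (card_M h m ▸ c.trans (card_PO _))
  push_cast at this
  exact this

theorem dd' {k : ℕ} (hk : 0 < k) (j : ℕ) : (((z2 h).hyp j).DD k : ℤ) * (((Nat.card F : ℤ) ^ k - 1) *
    (((Nat.card F : ℤ) ^ (j + 1) + 1) * ∏ i ∈ range j, ((Nat.card F : ℤ) ^ (2 * (i + 1)) - 1))) =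
    ((Nat.card F : ℤ) ^ (j + k + 1) + 1) * ∏ i ∈ range (j + k), ((Nat.card F : ℤ) ^ (2 * (i + 1)) - 1) := by
  have := congrArg (Nat.cast : ℕ → ℤ) (DD_M h hk j)
  push_cast [cT (zero_lt_one.trans q1)] at this
  rw [← mul_assoc, this]

/-- odd Witt index -/
theorem od (t : ℕ) : Cov ((z2 h).hyp (2 * t + 5)).PO := by
  have q1 := q1 (F := F)
  have d := dd' h (k := 2 * t + 4) (by omega) 1
  rw [show 1 + (2 * t + 4) = 2 * t + 5 by omega, prod_range_one] at d
  obtain ⟨d1, d2, d3⟩ := dd (s := {1, 2 * t + 3}) (Z := Nat.card F ^ (2 * t + 4) + 1)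
    (by simp [insert_subset_iff]) (mul_ne_zero (T_ne q1 (by omega)) (mul_ne_zero (P_ne _ _)
      (T_ne q1 (by omega)))) d (by rw [prod_pair (by omega)]; ring)
  have t2 := d3 0 (by omega) (by simp)
  refine cov1 (cv h (by omega) (Pol.dgV (ani2 h) (j := 1) (k := 2 * t + 4) (by omega) (by omega) (by omega)
    (p2 h)) (by simp) dvd_rfl) fun r hr c => ⟨?_, fun _ => ?_⟩ <;> push_cast
  swap; · exact g8 (t2.mul_right _) (dvd_mul_left _ _)
  have p := (Nat.prime_iff_prime_int.1 hr)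
  rcases pr h (by omega) hr c with c | ⟨-, c⟩
  · exact (c.pow two_ne_zero).mul_left _
  refine Dvd.dvd.mul_right ?_ _
  have t4 : (r : ℤ) ∣ (Nat.card F : ℤ) ^ (2 * (1 + 1)) - 1 → (r : ℤ) ∣ ((z2 h).hyp 1).DD (2 * t + 4) := fun k => by
    rcases t with _ | t
    · exact (sp p 2 rfl k).elim (·.trans t2) (·.trans ((dP _ (c := 3) rfl (by decide)).trans d1))
    · exact k.trans ((dT _ (by omega)).trans (d3 3 (by omega) (by simp)))
  rcases c with c | ⟨i, hi, c⟩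
  · exact c.trans d1
  by_cases k : i ∈ ({1, 2 * t + 3} : Finset ℕ)
  swap; · exact c.trans (d3 i hi k)
  simp only [mem_insert, mem_singleton] at k
  rcases k with rfl | rfl
  · exact t4 c
  rcases sp p (2 * (t + 1 + 1)) (by omega) c with c | c
  · rcases t with _ | t
    exacts [t4 c, c.trans (d3 (t + 1 + 1) (by omega) (by simp; omega))]
  · exact c.trans d2

/-- even Witt index -/
theorem ev (t : ℕ) : Cov ((z2 h).hyp (2 * t + 6)).PO := by
  have q1 := q1 (F := F)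
  have d := dd' h (k := 2 * t + 4) (by omega) 2
  rw [show 2 + (2 * t + 4) = 2 * t + 6 by omega, prod_range_succ, prod_range_one] at d
  obtain ⟨d1, d2, d3⟩ := dd (s := {0, 1, 2, 2 * t + 3})
    (Z := (Nat.card F ^ 3 - 1) * (Nat.card F ^ (2 * t + 4) + 1))
    (by simp [insert_subset_iff]) (mul_ne_zero (T_ne q1 (by omega)) (mul_ne_zero (P_ne _ _)
      (mul_ne_zero (T_ne q1 (by omega)) (T_ne q1 (by omega))))) d
    (by rw [prod_insert (by simp), prod_insert (by simp), prod_pair (by omega)]; ring)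
  have t2 := (dT _ (dvd_mul_right 2 _)).trans (d3 (2 * t + 5) (by omega) (by simp))
  refine cov1 (cv h (by omega) (Pol.dgV (ani2 h) (j := 2) (k := 2 * t + 4) (by omega) (by omega) (by omega)
    (Pol.dg3 (r2 h))) (by simp) dvd_rfl) fun r hr c => ⟨?_, fun _ => ?_⟩ <;> push_cast
  swap; · exact g8 (t2.mul_right _) ((dvd_mul_right _ _).mul_left _)
  have p := (Nat.prime_iff_prime_int.1 hr)
  rcases pr h (by omega) hr c with c | ⟨-, c⟩
  · exact ((c.pow two_ne_zero).mul_right _).mul_left _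
  have t4 : (r : ℤ) ∣ (Nat.card F : ℤ) ^ (2 * (1 + 1)) - 1 → _ := fun c =>
    (sp p 2 rfl c).elim (fun c => (c.trans t2).mul_right _)
      fun c => (c.mul_left ((Nat.card F : ℤ) ^ 2)).mul_left _
  have t3 : (Nat.card F : ℤ) ^ 3 + 1 ∣ (((z2 h).hyp 2).DD (2 * t + 4) : ℤ) := by
    by_cases c : t = 1
    · exact (dP _ (a := 3) (c := 3) (by omega) (by decide)).trans d1
    · exact ((sT _ (a := 3) rfl ▸ dvd_mul_left _ _ : _ ∣ (Nat.card F : ℤ) ^ 6 - 1).trans (dT _ (by omega))).trans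
        (d3 5 (by omega) (by simp; omega))
  have t6 : (r : ℤ) ∣ (Nat.card F : ℤ) ^ (2 * (2 + 1)) - 1 → _ := fun c =>
    (sp p 3 rfl c).elim (·.trans ((dvd_mul_right _ _).trans d2)) (·.trans t3)
  rcases c with c | ⟨i, hi, c⟩
  · exact (c.trans d1).mul_right _
  by_cases k : i ∈ ({0, 1, 2, 2 * t + 3} : Finset ℕ)
  swap; · exact (c.trans (d3 i hi k)).mul_right _
  simp only [mem_insert, mem_singleton] at k
  rcases k with rfl | rfl | rfl | rfl
  · exact (c.trans t2).mul_right _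
  · exact t4 c
  · exact (t6 c).mul_right _
  rcases sp p (2 * (t + 1 + 1)) (by omega) c with c | c
  · rcases t with _ | _ | t
    exacts [t4 c, (t6 c).mul_right _, (c.trans (d3 (t + 1 + 1 + 1) (by omega) (by simp; omega))).mul_right _]
  · exact (c.trans ((dvd_mul_left _ _).trans d2)).mul_right _

theorem four : Cov ((z2 h).hyp 4).PO := by
  have q1 := q1 (F := F)
  have d1 := dd' h (k := 4) (by omega) 0
  have d2 := dd' h (k := 3) (by omega) 1
  simp only [prod_range_succ, prod_range_zero] at d1 d2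
  have e1 : (((z2 h).hyp 0).DD 4 : ℤ) = (Nat.card F - 1) * (Nat.card F ^ 5 + 1) *
      (Nat.card F ^ 6 - 1) * (Nat.card F ^ 8 - 1) :=
    mul_right_cancel₀ (mul_ne_zero (T_ne q1 four_pos) (P_ne (Nat.card F) 1)) (by linear_combination d1)
  have e2 : (((z2 h).hyp 1).DD 3 : ℤ) = (Nat.card F ^ 2 - 1) * (Nat.card F ^ 5 + 1) *
      (Nat.card F ^ 3 + 1) * (Nat.card F ^ 8 - 1) :=
    mul_right_cancel₀ (mul_ne_zero (T_ne q1 three_pos) (T_ne q1 four_pos)) (by linear_combination d2)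
  have c1 := cv h (by omega) (Pol.dg1 (P := z2 h) (j := 0) (k := 4) (m := 4) rfl (by omega)) (by simp) e1.symm.dvd
  have c2 := cv h (by omega) (Pol.dgV (ani2 h) (j := 1) (k := 3) (m := 4) rfl (by omega) (by omega) (p2 h))
    (by simp) (N := _ * (Nat.card F : ℤ) ^ 2) (by push_cast; rw [e2])
  obtain ⟨t, ht⟩ := Nat.exists_eq_add_of_le q1.le
  have c3 : Cv ((z2 h).hyp 4).PO fun r => (r : ℤ) ∣ Nat.card F * (Nat.card F ^ 2 + Nat.card F + 1) *
      (t ^ 4 + 3 * t ^ 3 + 4 * t ^ 2 + 2 * t + 1) := cv_mem (Pol.cd3 rfl (by omega) (r3 h (j := 2)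
    (n := Nat.card F * (Nat.card F ^ 2 + Nat.card F + 1) * (t ^ 4 + 3 * t ^ 3 + 4 * t ^ 2 + 2 * t + 1))
    (-Nat.card F ^ 4 - 1) (Nat.card F ^ 3 - 1) (by nlinarith [pow_pos (show (0 : ℤ) < Nat.card F by omega) 3, sq_nonneg ((Nat.card F : ℤ) ^ 2)]) rfl (by ring) (by ring)
    (by rw [ht]; push_cast; ring))) (by push_cast; rfl)
  have t2 := dT (Nat.card F) (a := 2) (b := 8) (by omega)
  have t4 := dT (Nat.card F) (a := 4) (b := 8) (by omega)
  refine cov3 c1 c2 c3 fun r hr c => ?_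
  have p := (Nat.prime_iff_prime_int.1 hr)
  have g2 := g8 ((t2.mul_left ((Nat.card F ^ 2 - 1) * (Nat.card F ^ 5 + 1) * (Nat.card F ^ 3 + 1))).mul_right _)
    (dvd_mul_left _ _)
  rcases pr h (by omega) hr c with c | ⟨k, c⟩
  · exact .inr (.inr ⟨⟨(c.pow two_ne_zero).mul_left _, fun _ => g2⟩, (c.mul_right _).mul_right _⟩)
  have g1 := fun c => g8_odd (odd_of k c) (t2.mul_left ((Nat.card F - 1) * (Nat.card F ^ 5 + 1) * (Nat.card F ^ 6 - 1)))
  have t8 : (r : ℤ) ∣ (Nat.card F : ℤ) ^ 8 - 1 → Gd _ _ r ∧ Gd _ _ r := fun c =>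
    ⟨⟨c.mul_left _, g1⟩, (c.mul_left _).mul_right _, fun _ => g2⟩
  rcases c with c | ⟨i, hi, c⟩
  · exact .inl ⟨⟨((c.mul_left _).mul_right _).mul_right _, g1⟩,
      (((c.mul_left _).mul_right _).mul_right _).mul_right _, fun _ => g2⟩
  interval_cases i
  · exact .inl (t8 (c.trans t2))
  · exact .inl (t8 (c.trans t4))
  swap; · exact .inl (t8 c)
  have s1 : Gd _ _ r := ⟨(c.mul_left _).mul_right _, g1⟩
  rcases sp p 3 rfl c with c | c
  swap; · exact .inl ⟨s1, ((c.mul_left _).mul_right _).mul_right _, fun _ => g2⟩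
  rcases p.dvd_or_dvd (show (r : ℤ) ∣ (Nat.card F ^ 1 - 1) * (Nat.card F ^ 2 + Nat.card F + 1) by
    convert c using 1; ring) with c | c
  · exact .inl (t8 (c.trans (dT _ (one_dvd _))))
  exact .inr (.inl ⟨s1, (c.mul_left _).mul_right _⟩)

theorem three2 (hq : Nat.card F = 2) : Cov ((z2 h).hyp 3).PO := by
  have d1 := dd' h (k := 3) (by omega) 0
  simp only [prod_range_succ, prod_range_zero, hq] at d1
  have c1 := cv h (by omega) (Pol.dg1 (P := z2 h) (j := 0) (k := 3) (m := 3) rfl (by omega)) (by simp)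
    (N := 255) (by omega)
  obtain ⟨n, hn, c⟩ := cc hq h
  have c2 := cv h (by omega) c (by simp) (N := 2380) (by exact_mod_cast hn)
  have c3 : Cv ((z2 h).hyp 3).PO fun r => (r : ℤ) ∣ 84 := cv_mem (Pol.cd3 rfl (by simp) (r3 h (j := 1) (n := 84)
    3 (-9) (by omega) (q := 2) (by rw [hq]; rfl) (by norm_num) (by norm_num) (by norm_num))) rfl
  refine cov3 c1 c2 c3 fun r hr c => ?_
  have := small hr (c.trans ((card_PO _).trans (card_M h 3).dvd)) [2, 3, 5, 7, 17] (by norm_num) 13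
    (by rw [hq]; decide)
  simp only [List.mem_cons, List.not_mem_nil, or_false] at this
  rw [hq]
  rcases this with rfl | rfl | rfl | rfl | rfl <;> norm_num [Gd, G8]

theorem three (hq : 3 ≤ Nat.card F) : Cov ((z2 h).hyp 3).PO := by
  have q1 := q1 (F := F)
  have d1 := dd' h (k := 3) (by omega) 0
  have d2 := dd' h (k := 2) (by omega) 1
  have d3 := dd' h (k := 1) (by omega) 2
  simp only [prod_range_succ, prod_range_zero] at d1 d2 d3
  have e1 : (((z2 h).hyp 0).DD 3 : ℤ) = (Nat.card F - 1) * (Nat.card F ^ 3 + 1) *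
      (Nat.card F ^ 4 + 1) * (Nat.card F ^ 4 - 1) :=
    mul_right_cancel₀ (mul_ne_zero (T_ne q1 three_pos) (P_ne (Nat.card F) 1)) (by linear_combination d1)
  have e2 : (((z2 h).hyp 1).DD 2 : ℤ) = (Nat.card F ^ 4 + 1) * (Nat.card F ^ 6 - 1) :=
    mul_right_cancel₀ (mul_ne_zero (T_ne q1 two_pos) (T_ne q1 four_pos)) (by linear_combination d2)
  have e3 : (((z2 h).hyp 2).DD 1 : ℤ) = (Nat.card F ^ 4 + 1) * (Nat.card F ^ 2 + Nat.card F + 1) :=
    mul_right_cancel₀ (mul_ne_zero (mul_ne_zero (T_ne q1 one_pos) (P_ne (Nat.card F) 3))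
      (mul_ne_zero (T_ne q1 two_pos) (T_ne q1 four_pos))) (by linear_combination d3)
  have ng : ∀ {ev : Bool}, (ev = false → ¬ Even (Nat.card F)) →
      ev = false → ((z2 h).hyp 3).neg ∉ commutator ((z2 h).hyp 3).G := fun k c => neg_M (two_ne (k c)) h
  have c1 := cv h (by omega) (Pol.dg1 (P := z2 h) (j := 0) (k := 3) (m := 3) rfl (by omega)) (by simp) e1.symm.dvd
  have c2 : Cv ((z2 h).hyp 3).PO (Gd (Nat.card F) ((Nat.card F ^ 4 + 1) * (Nat.card F ^ 6 - 1) * Nat.card F ^ 2)) := by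
    by_cases c : Nat.card F = 3
    · exact cv h (by omega) (Pol.dgV (ani2 h) (j := 1) (k := 2) (m := 3) rfl (by omega)
        (.inr ⟨rfl, .inr ⟨hq, rfl⟩⟩) (p2 h).weak) (ng fun _ => by rw [c]; decide) (by push_cast; rw [e2])
    · exact cv h (by omega) (Pol.dgV (ani2 h) (j := 1) (k := 2) (m := 3) rfl (by omega)
        (.inr ⟨rfl, .inl (by omega)⟩) (p2 h)) (by simp) (by push_cast; rw [e2])
  obtain ⟨S, c3, n1, n2⟩ : ∃ S, Cv ((z2 h).hyp 3).PO S ∧ (∀ r : ℕ, r.Prime → (r : ℤ) ∣ Nat.card F → S r) ∧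
      ∀ r : ℕ, r.Prime → r ≠ 2 → (r : ℤ) ∣ Nat.card F ^ 2 + 1 ∨ (r : ℤ) ∣ Nat.card F ^ 2 + Nat.card F + 1 → S r := by
    by_cases c : Nat.card F = 3
    · obtain ⟨n, hn, k⟩ := cd c h
      refine ⟨_, cv h (by omega) k (ng fun _ => by rw [c]; decide) (N := 195) (by exact_mod_cast hn), ?_⟩
      rw [c]
      refine ⟨fun r hr e => ⟨e.trans (by norm_num), fun k => by subst k; omega⟩, fun r hr k e => ⟨?_, (absurd · k)⟩⟩
      rcases e with e | e
      · rcases (Nat.prime_iff_prime_int.1 hr).dvd_or_dvd (show (r : ℤ) ∣ 2 * 5 from e) with e | e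
        · exact absurd ((Nat.prime_dvd_prime_iff_eq hr Nat.prime_two).1 (by exact_mod_cast e)) k
        · exact e.trans (by norm_num)
      · exact e.trans (by norm_num)
    · refine ⟨_, cv h (by omega) (Pol.dgP (j := 1) (k := 1) (ev := decide (Even (Nat.card F))) rfl (r2 h)
        (.inr ⟨rfl, by omega, by simp [Nat.even_or_odd]⟩)) (ng (by simp)) (N := _ * ((Nat.card F : ℤ) ^ 2 * (Nat.card F ^ 2 + 1)))
        (by push_cast; rw [e3]), fun r _ e => ⟨((e.pow two_ne_zero).mul_right _).mul_left _, fun k => ?_⟩,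
        fun r _ k e => ⟨?_, (absurd · k)⟩⟩
      · have : Even (Nat.card F) := even_iff_two_dvd.2 (Int.natCast_dvd_natCast.1 (k ▸ e))
        exact .inr ⟨this, (((four_dvd this (by omega)).pow two_ne_zero).mul_right _).mul_left _⟩
      · exact e.elim (fun e => (e.mul_left _).mul_left _) fun e => (e.mul_left _).mul_right _
  have t2 := dT (Nat.card F) (a := 2) (b := 6) (by omega)
  have t4 := dT (Nat.card F) (a := 2) (b := 4) (by omega)
  refine cov3 c1 c2 c3 fun r hr c => ?_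
  have p := (Nat.prime_iff_prime_int.1 hr)
  have g2 := g8 ((t2.mul_left (Nat.card F ^ 4 + 1)).mul_right _) (dvd_mul_left _ _)
  rcases pr h (by omega) hr c with c | ⟨k, c⟩
  · exact .inr (.inr ⟨⟨(c.pow two_ne_zero).mul_left _, fun _ => g2⟩, n1 r hr c⟩)
  have g1 := fun c => g8_odd (odd_of k c) (t4.mul_left ((Nat.card F - 1) * (Nat.card F ^ 3 + 1) * (Nat.card F ^ 4 + 1)))
  have s2 : (r : ℤ) ∣ (Nat.card F : ℤ) ^ 2 - 1 → Gd _ _ r ∧ Gd _ _ r := fun c =>
    ⟨⟨(c.trans t4).mul_left _, g1⟩, ((c.trans t2).mul_left _).mul_right _, fun _ => g2⟩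
  by_cases r2 : r = 2
  · exact .inl (s2 (dvd_trans (by rw [r2]; norm_num) (eight (odd_of k r2))))
  rcases c with c | ⟨i, hi, c⟩
  · exact .inl ⟨⟨(c.mul_left _).mul_right _, g1⟩, (c.mul_right _).mul_right _, fun _ => g2⟩
  interval_cases i
  · exact .inl (s2 c)
  · exact (sp p 2 rfl c).elim (fun c => .inl (s2 c)) fun c' => .inr (.inl ⟨⟨c.mul_left _, g1⟩, n2 r hr r2 (.inl c')⟩)
  have s6 : Gd _ _ r := ⟨(c.mul_left _).mul_right _, fun _ => g2⟩
  rcases sp p 3 rfl c with c | c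
  swap; · exact .inl ⟨⟨((c.mul_left _).mul_right _).mul_right _, g1⟩, s6⟩
  rcases p.dvd_or_dvd (show (r : ℤ) ∣ (Nat.card F ^ 1 - 1) * (Nat.card F ^ 2 + Nat.card F + 1) by
    convert c using 1; ring) with c | c
  · exact .inl (s2 (c.trans (dT _ (one_dvd _))))
  exact .inr (.inr ⟨s6, n2 r hr r2 (.inr c)⟩)

end FM

theorem cov_M {a b : F} (h : An a b) {m : ℕ} (hm : 3 ≤ m) : Cov ((z2 h).hyp m).PO := by
  have q1 := FM.q1 (F := F)
  rcases (by omega : m = 3 ∨ m = 4 ∨ m = 2 * ((m - 5) / 2) + 5 ∨ m = 2 * ((m - 6) / 2) + 6) with c | c | c | c <;>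
    rw [c]
  · exact (le_or_gt 3 (Nat.card F)).elim (FM.three h) fun c => FM.three2 h (by omega)
  exacts [FM.four h, FM.od h _, FM.ev h _]

end CF.Hc
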