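import Cfsg.Agent.Hc.I
import Cfsg.Agent.Hc.Cb
import Cfsg.Agent.Hc.F0

/-! The degree graph of `PΩ⁺`. -/

set_option autoImplicit false

open Cfsg Finset

namespace CF.Hc
open F0

variable {F : Type} [Field F] [Fintype F] [DecidableEq F]

namespace FP

omit [DecidableEq F] in
theorem q1 : 1 < Nat.card F := Finite.one_lt_card

theorem sv (m : ℕ) : (((z0 F true).hyp (m + 1)).sv : ℤ) =
    ((Nat.card F : ℤ) ^ (m + 1) - 1) * (Nat.card F ^ m + 1) + 1 := by
  rw [sv_P]; push_cast [cT (zero_lt_one.trans q1)]; rfl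

theorem r3 {j n : ℕ} (r s : ℤ) (h : r ≠ s) {q : ℤ} (hq : q = Nat.card F)
    (e1 : r * s = -((q ^ (j + 1) - 1) * (q ^ j + 1)))
    (e2 : q * ((q ^ (j + 1) - 1) * (q ^ j + 1) - 1 - r - s) = q ^ (2 * (j + 1)))
    (e3 : (r - s) * (q - 1) * n = -s * ((q ^ (j + 2) - 1) * (q ^ (j + 1) + 1)) -
      (q * ((q ^ (j + 1) - 1) * (q ^ j + 1)) - s * (q - 1))) : (z0 F true).R3 (j + 1) n := by
  subst hq
  refine ⟨?_, r, s, h, by rw [sv, e1]; ring, ?_, by rw [sv, sv, e3]; ring⟩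
  · rw [sv_P]
    exact Nat.lt_add_of_pos_left (Nat.mul_pos (Nat.sub_pos_of_lt (Nat.one_lt_pow (by omega) q1)) (by positivity))
  · rw [sv, show Nat.card (Fin 0 → F) = 1 by simp]; simp only [z0, if_true]; push_cast; linear_combination e2

theorem r2 : (z0 F true).R3 1 (Nat.card F ^ 2) :=
  r3 (j := 0) (-2) (Nat.card F - 1) (by omega) rfl (by ring) (by ring) (by push_cast; ring)

theorem r3a : (z0 F true).R3 2 (Nat.card F * (Nat.card F ^ 2 + Nat.card F + 1)) :=
  r3 (j := 1) (Nat.card F ^ 2 - 1) (-Nat.card F - 1) (by have := q1 (F := F); nlinarith) rfl (by ring) (by ring)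
    (by push_cast; ring)

theorem r3b : (z0 F true).R3 2 (Nat.card F ^ 2 * (Nat.card F ^ 2 + 1)) :=
  r3 (j := 1) (-Nat.card F - 1) (Nat.card F ^ 2 - 1) (by have := q1 (F := F); nlinarith) rfl (by ring) (by ring)
    (by push_cast; ring)

theorem cv {m n : ℕ} (hm : 3 ≤ m) {ev : Bool} (h : ((z0 F true).hyp m).Dg ev n)
    (e : ev = false → ((z0 F true).hyp m).neg ∉ commutator ((z0 F true).hyp m).G) {N : ℤ} (k : N ∣ (n : ℤ)) :
    Cv ((z0 F true).hyp m).PO (Gd (Nat.card F) N) :=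
  cv_loss (Pol.cd_O rfl (by rw [Pol.finrank_hyp]; omega) h e) k

theorem pr {m r : ℕ} (hm : 0 < m) (hr : r.Prime) (h : r ∣ Nat.card ((z0 F true).hyp (m + 1)).PO) :
    (r : ℤ) ∣ Nat.card F ∨ ¬ (r : ℤ) ∣ Nat.card F ∧ ((r : ℤ) ∣ (Nat.card F : ℤ) ^ (m + 1) - 1 ∨
      ∃ i < m, (r : ℤ) ∣ (Nat.card F : ℤ) ^ (2 * (i + 1)) - 1) := by
  have := primes (zero_lt_one.trans q1) hr hm (card_P (F := F) m ▸ h.trans (card_PO _))
  rwa [cT (zero_lt_one.trans q1)] at this

theorem dd' {k : ℕ} (hk : 0 < k) (j : ℕ) : (((z0 F true).hyp (j + 1)).DD k : ℤ) * (((Nat.card F : ℤ) ^ k - 1) *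
    (((Nat.card F : ℤ) ^ (j + 1) - 1) * ∏ i ∈ range j, ((Nat.card F : ℤ) ^ (2 * (i + 1)) - 1))) =
    ((Nat.card F : ℤ) ^ (j + k + 1) - 1) * ∏ i ∈ range (j + k), ((Nat.card F : ℤ) ^ (2 * (i + 1)) - 1) := by
  have := congrArg (Nat.cast : ℕ → ℤ) (DD_P (F := F) hk j)
  push_cast [cT (zero_lt_one.trans q1)] at this
  rw [← mul_assoc, this]

/-- even Witt index -/
theorem ev (h : ℕ) : Cov ((z0 F true).hyp (2 * h + 5 + 1)).PO := by
  have q1 := q1 (F := F)
  have d := dd' (F := F) (k := 2 * h + 4) (by omega) 1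
  rw [show 1 + (2 * h + 4) = 2 * h + 5 by omega, prod_range_one] at d
  obtain ⟨d1, d2, d3⟩ := dd (s := {0, 1, 2 * h + 3}) (Z := (Nat.card F ^ 2 + 1) * (Nat.card F ^ (2 * h + 4) + 1))
    (by simp [insert_subset_iff]) (mul_ne_zero (T_ne q1 (by omega)) (mul_ne_zero (T_ne q1 (by omega))
      (T_ne q1 (by omega)))) d (by
      rw [prod_insert (by simp), prod_pair (by omega)]; ring)
  have t2 := (dT _ (dvd_mul_right 2 _)).trans (d3 (2 * h + 4) (by omega) (by simp))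
  refine cov1 (cv (by omega) (Pol.dgV (ani0 true) (j := 2) (k := 2 * h + 4) (by omega) (by omega) (by omega)
    (Pol.dg3 r2)) (by simp) dvd_rfl) fun r hr a => ⟨?_, fun _ => ?_⟩ <;> push_cast
  swap; · exact g8 (t2.mul_right _) (dvd_mul_left _ _)
  have p := (Nat.prime_iff_prime_int.1 hr)
  rcases pr (by omega) hr a with a | ⟨-, a⟩
  · exact (a.pow two_ne_zero).mul_left _
  refine Dvd.dvd.mul_right ?_ _
  have t4 : (r : ℤ) ∣ (Nat.card F : ℤ) ^ (2 * (1 + 1)) - 1 → _ := fun a =>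
    (sp p 2 rfl a).elim (·.trans t2) (·.trans ((dvd_mul_right _ _).trans d2))
  rcases a with a | ⟨i, hi, a⟩
  · exact a.trans d1
  by_cases c : i ∈ ({0, 1, 2 * h + 3} : Finset ℕ)
  swap; · exact a.trans (d3 i hi c)
  simp only [mem_insert, mem_singleton] at c
  rcases c with rfl | rfl | rfl
  · exact a.trans t2
  · exact t4 a
  rcases sp p (2 * (h + 1 + 1)) (by omega) a with a | a
  · rcases h with _ | h
    exacts [t4 a, a.trans (d3 (h + 1 + 1) (by omega) (by simp; omega))]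
  · exact a.trans ((dvd_mul_left _ _).trans d2)

/-- odd Witt index -/
theorem od (h : ℕ) : Cov ((z0 F true).hyp (2 * h + 6 + 1)).PO := by
  have q1 := q1 (F := F)
  have d := dd' (F := F) (k := 2 * h + 4) (by omega) 2
  rw [show 2 + (2 * h + 4) = 2 * h + 6 by omega, prod_range_succ, prod_range_one] at d
  obtain ⟨d1, d2, d3⟩ := dd (s := {0, 1, 2, 2 * h + 3})
    (Z := (Nat.card F ^ 3 + 1) * (Nat.card F ^ (2 * h + 4) + 1))
    (by simp [insert_subset_iff]) (mul_ne_zero (T_ne q1 (by omega)) (mul_ne_zero (T_ne q1 (by omega))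
      (mul_ne_zero (T_ne q1 (by omega)) (T_ne q1 (by omega))))) d
    (by rw [prod_insert (by simp), prod_insert (by simp), prod_pair (by omega)]; ring)
  have t2 := (dT _ (dvd_mul_right 2 _)).trans (d3 (2 * h + 5) (by omega) (by simp))
  refine cov1 (cv (by omega) (Pol.dgV (ani0 true) (j := 3) (k := 2 * h + 4) (by omega) (by omega) (by omega)
    (Pol.dg3 r3b)) (by simp) dvd_rfl) fun r hr a => ⟨?_, fun _ => ?_⟩ <;> push_cast
  swap; · exact g8 (t2.mul_right _) ((dvd_mul_right _ _).mul_left _)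
  have p := (Nat.prime_iff_prime_int.1 hr)
  rcases pr (by omega) hr a with a | ⟨-, a⟩
  · exact ((a.pow two_ne_zero).mul_right _).mul_left _
  have t4 : (r : ℤ) ∣ (Nat.card F : ℤ) ^ (2 * (1 + 1)) - 1 → _ := fun a =>
    (sp p 2 rfl a).elim (fun a => (a.trans t2).mul_right _)
      fun a => (a.mul_left ((Nat.card F : ℤ) ^ 2)).mul_left _
  have t3 : (Nat.card F : ℤ) ^ 3 - 1 ∣ (((z0 F true).hyp (2 + 1)).DD (2 * h + 4) : ℤ) := by
    by_cases c : h = 1
    · exact (dT _ (a := 3) (by omega)).trans d1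
    · exact (dT _ (a := 3) (by omega)).trans (d3 5 (by omega) (by simp; omega))
  have t6 : (r : ℤ) ∣ (Nat.card F : ℤ) ^ (2 * (2 + 1)) - 1 → _ := fun a =>
    (sp p 3 rfl a).elim (·.trans t3) (·.trans ((dvd_mul_right _ _).trans d2))
  rcases a with a | ⟨i, hi, a⟩
  · exact (a.trans d1).mul_right _
  by_cases c : i ∈ ({0, 1, 2, 2 * h + 3} : Finset ℕ)
  swap; · exact (a.trans (d3 i hi c)).mul_right _
  simp only [mem_insert, mem_singleton] at c
  rcases c with rfl | rfl | rfl | rfl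
  · exact (a.trans t2).mul_right _
  · exact t4 a
  · exact (t6 a).mul_right _
  rcases sp p (2 * (h + 1 + 1)) (by omega) a with a | a
  · rcases h with _ | _ | h
    exacts [t4 a, (t6 a).mul_right _, (a.trans (d3 (h + 1 + 1 + 1) (by omega) (by simp; omega))).mul_right _]
  · exact (a.trans ((dvd_mul_left _ _).trans d2)).mul_right _

/-- the degree `q ^ 2 (q ^ 2 + 1) ^ 2 (q ^ 6 - 1)` -/
theorem four (h : 4 ≤ Nat.card F) : Cov ((z0 F true).hyp 4).PO := by
  have q1 := q1 (F := F)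
  have d := dd' (F := F) (k := 2) (by omega) 1
  simp only [prod_range_succ, prod_range_zero] at d
  have e : (((z0 F true).hyp (1 + 1)).DD 2 : ℤ) = (Nat.card F ^ 2 + 1) ^ 2 * (Nat.card F ^ 6 - 1) :=
    mul_right_cancel₀ (pow_ne_zero 3 (T_ne q1 two_pos)) (by linear_combination d)
  have t2 := dT (Nat.card F) (a := 2) (b := 6) (by omega)
  refine cov1 (cv (by omega) (Pol.dgP (j := 1) (k := 2) (ev := true) rfl r2 (.inl ⟨rfl, .inl h⟩)) (by simp) dvd_rfl)
    fun r hr a => ⟨?_, fun _ => ?_⟩ <;> push_cast <;> rw [e]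
  swap; · exact g8 ((t2.mul_left _).mul_right _) (dvd_mul_left _ _)
  have p := (Nat.prime_iff_prime_int.1 hr)
  rcases pr (m := 3) (by omega) hr a with a | ⟨-, a⟩
  · exact (a.pow two_ne_zero).mul_left _
  refine Dvd.dvd.mul_right ?_ _
  have t4 : (r : ℤ) ∣ (Nat.card F : ℤ) ^ 4 - 1 → _ := fun a =>
    (sp p 2 rfl a).elim (fun a => (a.trans t2).mul_left _) fun a => (a.pow two_ne_zero).mul_right _
  rcases a with a | ⟨i, hi, a⟩
  · exact t4 a
  interval_cases i
  exacts [(a.trans t2).mul_left _, t4 a, a.mul_left _]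

theorem four' (h : Nat.card F = 2 ∨ Nat.card F = 3) : Cov ((z0 F true).hyp 4).PO := by
  have c1 := cv (by omega) (Pol.dg1 (P := z0 F true) (j := 0) (k := 4) (m := 4) rfl (by omega)) (by simp) dvd_rfl
  rw [DD_P0] at c1
  have c : ∀ (n : ℕ) (r s : ℤ), r ≠ s → ∀ q : ℤ, q = Nat.card F → _ → _ → _ →
      Cv ((z0 F true).hyp 4).PO fun r => (r : ℤ) ∣ n := fun n r s h q hq e1 e2 e3 =>
    cv_mem (Pol.cd3 rfl (by omega) (r3 (j := 2) (n := n) r s h hq e1 e2 e3)) rfl
  have k : ∀ r : ℕ, r ∣ Nat.card ((z0 F true).hyp 4).PO → r ∣ _ := fun r a =>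
    a.trans ((card_PO _).trans (card_P (F := F) 3).dvd)
  rcases h with h | h <;> rw [h] at c1 k
  · refine cov3 c1 (c 50 7 (-5) (by omega) 2 (by rw [h]; rfl) (by norm_num) (by norm_num) (by norm_num))
      (c 84 (-5) 7 (by omega) 2 (by rw [h]; rfl) (by norm_num) (by norm_num) (by norm_num)) fun r hr a => ?_
    have := small hr (k r a) [2, 3, 5, 7] (by norm_num) 13 (by decide)
    simp only [List.mem_cons, List.not_mem_nil, or_false] at this
    rcases this with rfl | rfl | rfl | rfl <;> norm_num [Gd, G8, prod_range_succ]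
  · refine cov3 c1 (c 300 26 (-10) (by omega) 3 (by rw [h]; rfl) (by norm_num) (by norm_num) (by norm_num))
      (c 819 (-10) 26 (by omega) 3 (by rw [h]; rfl) (by norm_num) (by norm_num) (by norm_num)) fun r hr a => ?_
    have := small hr (k r a) [2, 3, 5, 7, 13] (by norm_num) 15 (by decide)
    simp only [List.mem_cons, List.not_mem_nil, or_false] at this
    rcases this with rfl | rfl | rfl | rfl | rfl <;> norm_num [Gd, G8, prod_range_succ]

theorem five : Cov ((z0 F true).hyp 5).PO := by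
  have q1 := q1 (F := F)
  have d1 := dd' (F := F) (k := 4) (by omega) 0
  have d2 := dd' (F := F) (k := 3) (by omega) 1
  simp only [prod_range_succ, prod_range_zero] at d1 d2
  have e1 : (((z0 F true).hyp 1).DD 4 : ℤ) = (Nat.card F + 1) * (Nat.card F ^ 5 - 1) *
      (Nat.card F ^ 6 - 1) * (Nat.card F ^ 8 - 1) :=
    mul_right_cancel₀ (mul_ne_zero (T_ne q1 four_pos) (T_ne q1 one_pos)) (by linear_combination d1)
  have e2 : (((z0 F true).hyp 2).DD 3 : ℤ) = (Nat.card F ^ 2 + 1) * (Nat.card F ^ 5 - 1) *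
      (Nat.card F ^ 3 + 1) * (Nat.card F ^ 8 - 1) :=
    mul_right_cancel₀ (mul_ne_zero (T_ne q1 three_pos) (pow_ne_zero 2 (T_ne q1 two_pos))) (by linear_combination d2)
  have c1 := cv (by omega) (Pol.dg1 (P := z0 F true) (j := 1) (k := 4) (m := 5) rfl (by omega)) (by simp) e1.symm.dvd
  have c2 := cv (by omega) (Pol.dgV (ani0 true) (j := 2) (k := 3) (m := 5) rfl (by omega) (by omega) (Pol.dg3 r2))
    (by simp) (N := _ * (Nat.card F : ℤ) ^ 2) (by push_cast; rw [e2])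
  obtain ⟨N, c3, n1, n2, n3⟩ : ∃ N, Cv ((z0 F true).hyp 5).PO (Gd (Nat.card F) N) ∧ (Nat.card F : ℤ) ∣ N ∧
      (Nat.card F : ℤ) ^ 2 + Nat.card F + 1 ∣ N ∧ (Even (Nat.card F) → 4 ∣ N) := by
    by_cases h : Nat.card F = 2
    · obtain ⟨n, hn, c⟩ := cb h
      exact ⟨28, cv (by omega) c (by simp) (by exact_mod_cast hn), by rw [h]; norm_num⟩
    refine ⟨_, cv (by omega) (Pol.dgP (j := 2) (k := 2) (ev := decide (Nat.card F ≠ 3)) rfl r3a
      (.inl ⟨rfl, by simp only [decide_eq_false_iff_not]; omega⟩)) (fun c => neg_P (by simpa using c)) dvd_rfl, ?_⟩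
    push_cast
    exact ⟨(dvd_mul_right _ _).mul_left _, (dvd_mul_left _ _).mul_left _,
      fun c => ((four_dvd c h).mul_right _).mul_left _⟩
  have t2 := dT (Nat.card F) (a := 2) (b := 8) (by omega)
  have t4 := dT (Nat.card F) (a := 4) (b := 8) (by omega)
  refine cov3 c1 c2 c3 fun r hr a => ?_
  have p := (Nat.prime_iff_prime_int.1 hr)
  have g2 := g8 ((t2.mul_left ((Nat.card F ^ 2 + 1) * (Nat.card F ^ 5 - 1) * (Nat.card F ^ 3 + 1))).mul_right _)
    (dvd_mul_left _ _)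
  rcases pr (m := 4) (by omega) hr a with a | ⟨b, a⟩
  · refine .inr (.inr ⟨⟨(a.pow two_ne_zero).mul_left _, fun _ => g2⟩, a.trans n1, fun c => ?_⟩)
    have : Even (Nat.card F) := even_iff_two_dvd.2 (Int.natCast_dvd_natCast.1 (c ▸ a))
    exact .inr ⟨this, n3 this⟩
  have g1 := fun c => g8_odd (odd_of b c) (t2.mul_left ((Nat.card F + 1) * (Nat.card F ^ 5 - 1) * (Nat.card F ^ 6 - 1)))
  have t8 : (r : ℤ) ∣ (Nat.card F : ℤ) ^ 8 - 1 → Gd _ _ r ∧ Gd _ _ r := fun a =>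
    ⟨⟨a.mul_left _, g1⟩, (a.mul_left _).mul_right _, fun _ => g2⟩
  rcases a with a | ⟨i, hi, a⟩
  · exact .inl ⟨⟨((a.mul_left _).mul_right _).mul_right _, g1⟩,
      (((a.mul_left _).mul_right _).mul_right _).mul_right _, fun _ => g2⟩
  interval_cases i
  · exact .inl (t8 (a.trans t2))
  · exact .inl (t8 (a.trans t4))
  swap; · exact .inl (t8 a)
  have s1 : Gd _ _ r := ⟨(a.mul_left _).mul_right _, g1⟩
  rcases sp p 3 rfl a with a | a
  swap; · exact .inl ⟨s1, ((a.mul_left _).mul_right _).mul_right _, fun _ => g2⟩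
  rcases p.dvd_or_dvd (show (r : ℤ) ∣ (Nat.card F ^ 1 - 1) * (Nat.card F ^ 2 + Nat.card F + 1) by
    convert a using 1; ring) with a | a
  · exact .inl (t8 (a.trans (dT _ (one_dvd _))))
  exact .inr (.inl ⟨s1, a.trans n2, fun c => absurd (c ▸ a) (phi3_odd _)⟩)

end FP

theorem cov_P {m : ℕ} (hm : 4 ≤ m) : Cov ((z0 F true).hyp m).PO := by
  have q1 := FP.q1 (F := F)
  rcases (by omega : m = 4 ∨ m = 5 ∨ m = 2 * ((m - 6) / 2) + 5 + 1 ∨ m = 2 * ((m - 7) / 2) + 6 + 1) with h | h | h | h <;>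
    rw [h]
  · exact (le_or_gt 4 (Nat.card F)).elim FP.four fun c => FP.four' (by omega)
  exacts [FP.five, FP.ev _, FP.od _]

end CF.Hc
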