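import Cfsg.Agent.Hc.A
import Cfsg.Agent.Geom.Omega

/-!
# The derived group of an orthogonal group moves pairs of vectors like the full group
-/

set_option autoImplicit false

open Module QuadraticMap

namespace CF.Hc
open CF.Geom

namespace K2
variable {F V : Type*} [Field F] [AddCommGroup V] [Module F V] {Q : QuadraticForm F V}

theorem exists_perp [Finite F] [FiniteDimensional F V] (hQ : (polarBilin Q).Nondegenerate)
    (h6 : 6 ≤ finrank F V) (u v : V) {c : F} (hc : c ≠ 0) :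
    ∃ z, Q z = c ∧ polar Q z u = 0 ∧ polar Q z v = 0 := by
  have hw := isWittPair_quad Q hQ
  set W : Submodule F V := Submodule.span F {u, v} with hW
  have hW2 : finrank F W ≤ 2 := by
    classical
    have := finrank_span_finset_le_card (R := F) ({u, v} : Finset V)
    rw [Set.finrank, Finset.coe_pair] at this
    exact this.trans Finset.card_le_two
  obtain ⟨U, hU1, hU2, hU3⟩ : ∃ U : Submodule F V, U ≤ perp (polarBilin Q) W ∧
      Disjoint (W ⊓ perp (polarBilin Q) W) U ∧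
      W ⊓ perp (polarBilin Q) W ⊔ U = perp (polarBilin Q) W := by
    obtain ⟨U, h1, h2⟩ := Submodule.exists_isCompl (W ⊓ perp (polarBilin Q) W)
    refine ⟨U ⊓ perp (polarBilin Q) W, inf_le_right, h1.mono_right inf_le_left, ?_⟩
    rw [← sup_inf_assoc_of_le _ inf_le_right, codisjoint_iff.1 h2, top_inf_eq]
  have hd : Disjoint U (perp (polarBilin Q) U) := by
    rw [Submodule.disjoint_def]
    intro x hx hx'
    refine Submodule.disjoint_def.1 hU2 x ⟨?_, hU1 hx⟩ hx
    rw [← hw.perp_perp W, ← hU3, perp_sup]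
    exact ⟨perp_anti inf_le_left (hU1 hx), hx'⟩
  have h2 : 2 ≤ finrank F U := by
    have e1 := hw.finrank_perp W
    have e2 := Submodule.finrank_sup_add_finrank_inf_eq (W ⊓ perp (polarBilin Q) W) U
    rw [hU3, hU2.eq_bot, finrank_bot] at e2
    have e3 : finrank F ↥(W ⊓ perp (polarBilin Q) W) ≤ finrank F W :=
      Submodule.finrank_mono inf_le_left
    omega
  obtain ⟨z, hz, hz'⟩ := exists_quad_eq_mem hd h2 hc
  have := mem_perp_pair.1 (hU1 hz)
  exact ⟨z, hz', by rw [polar_comm]; exact this.1, by rw [polar_comm]; exact this.2⟩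

theorem main [Finite F] [FiniteDimensional F V] (hQ : (polarBilin Q).Nondegenerate)
    (h6 : 6 ≤ finrank F V) (g : OG Q) (u v : V) :
    ∃ γ ∈ commutator (OG Q), γ.1 u = g.1 u ∧ γ.1 v = g.1 v := by
  have hg : g ∈ reflSub Q := (reflSub_eq_top hQ (Or.inr (by omega))).symm ▸ Subgroup.mem_top g
  suffices h : ∀ u v : V, ∃ γ ∈ commutator (OG Q), γ.1 u = g.1 u ∧ γ.1 v = g.1 v from h u v
  clear u v
  induction hg using Subgroup.closure_induction'' with
  | one => exact fun u v => ⟨1, one_mem _, rfl, rfl⟩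
  | mem x hx =>
    obtain ⟨y, hy, rfl⟩ := hx
    intro u v
    obtain ⟨z, hz, h1, h2⟩ := exists_perp hQ h6 u v hy
    refine ⟨_, oRefl_mul_mem_commutator hQ hy (hz ▸ hy : Q z ≠ 0) ⟨Q y, by rw [hz]⟩, ?_, ?_⟩
    · change (oRefl Q y).1 ((oRefl Q z).1 u) = _
      rw [oRefl_of_polar_eq_zero h1]
    · change (oRefl Q y).1 ((oRefl Q z).1 v) = _
      rw [oRefl_of_polar_eq_zero h2]
  | inv_mem x hx =>
    obtain ⟨y, hy, rfl⟩ := hx
    rw [oRefl_inv]
    intro u v
    obtain ⟨z, hz, h1, h2⟩ := exists_perp hQ h6 u v hy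
    refine ⟨_, oRefl_mul_mem_commutator hQ hy (hz ▸ hy : Q z ≠ 0) ⟨Q y, by rw [hz]⟩, ?_, ?_⟩
    · change (oRefl Q y).1 ((oRefl Q z).1 u) = _
      rw [oRefl_of_polar_eq_zero h1]
    · change (oRefl Q y).1 ((oRefl Q z).1 v) = _
      rw [oRefl_of_polar_eq_zero h2]
  | mul x y _ _ hx hy =>
    intro u v
    obtain ⟨b, hb, b1, b2⟩ := hy u v
    obtain ⟨a, ha, a1, a2⟩ := hx (y.1 u) (y.1 v)
    refine ⟨a * b, mul_mem ha hb, ?_, ?_⟩
    · change a.1 (b.1 u) = x.1 (y.1 u)
      rw [b1, a1]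
    · change a.1 (b.1 v) = x.1 (y.1 v)
      rw [b2, a2]
end K2

variable {F : Type} [Field F] [Fintype F] [DecidableEq F]
variable {V : Type} [AddCommGroup V] [Module F V] [Fintype V] {P : Pol F V}

namespace Pol

theorem tr2_comm (ho : P.o = true) (h6 : 6 ≤ Module.finrank F V) : P.Tr2 (commutator P.G) := by
  have hn := P.nondeg
  obtain ⟨o, f, Q, nd, h1, h2⟩ := P
  obtain rfl := h1 ho
  exact fun g u v _ _ => K2.main hn h6 g u v

end Pol
end CF.Hc
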