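import Cfsg.Agent.Hc.A
import Cfsg.Agent.Cusp.K

/-! Cuspidal supports of generic characters: complex conjugation and the value at `-1`. -/

set_option autoImplicit false
set_option linter.unusedSectionVars false

open scoped ComplexConjugate MatrixGroups
open Cfsg Finset Matrix

namespace CF.Hc
open CF.Char CF.Geom CF.Cusp

variable {F : Type} [Field F] [Fintype F] [DecidableEq F] {k : ℕ}

namespace N2

/-- `S` is the cuspidal support of `χ` -/
def Rel (S : Multiset (CC F)) (χ : IrrCharacter (GL (Fin k) F)) : Prop :=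
  ip (Fin k → F) (piL S.toList) (fam k χ.1) ≠ 0

theorem rel_iff {L : List (CC F)} {S : Multiset (CC F)} (h : (L : Multiset (CC F)) = S)
    {χ : IrrCharacter (GL (Fin k) F)} : Rel S χ ↔ ip (Fin k → F) (piL L) (fam k χ.1) ≠ 0 := by
  rw [Rel, ← h, piL_perm (Multiset.coe_eq_coe.1 (Multiset.coe_toList _))]

theorem Rel.uniq {S S' : Multiset (CC F)} (hS : (S.map CC.deg).sum = k)
    {χ : IrrCharacter (GL (Fin k) F)} (h : Rel S χ) (h' : Rel S' χ) : S = S' := by
  have := ip_pos (Module.finrank_fin_fun F) (piL_chr _) (piL_chr _) _ h h'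
  rw [ip_piL _ _ (adjL_all _) _ (by simp [hS]), Nat.cast_ne_zero] at this
  simpa using Multiset.coe_eq_coe.2 (perm_of_nn _ _ this)

theorem exists_E {θ : AddChar F ℂ} (hθ : θ ≠ 1) [Fintype (Uni k F)] :
    ∃ E : {χ : IrrCharacter (GL (Fin k) F) // gam (Uni k F) (psi k θ) χ = 1} ≃
      {S : Multiset (CC F) // (S.map CC.deg).sum = k}, ∀ χ S, E χ = S ↔ Rel S.1 χ.1 := by
  choose L h1 h2 using exists_list (F := F) k
  let g : {χ : IrrCharacter (GL (Fin k) F) // gam (Uni k F) (psi k θ) χ = 1} →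
      {S : Multiset (CC F) // (S.map CC.deg).sum = k} := fun χ => ⟨L χ.1, by simpa using h1 χ.1⟩
  have h3 : ∀ χ S, g χ = S ↔ Rel S.1 χ.1 := fun χ S =>
    ⟨fun e => e ▸ (rel_iff rfl).2 (h2 χ.1),
      fun e => Subtype.ext (Rel.uniq (g χ).2 ((rel_iff rfl).2 (h2 χ.1)) e)⟩
  have hs : Function.Surjective g := fun S => by
    by_contra hn
    have h := piL_chr S.1.toList
    have h4 := gm_piL hθ S.1.toList
    rw [Multiset.sum_map_toList, S.2] at h4
    refine one_ne_zero (h4.symm.trans ?_)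
    simp only [gm, gs, expand h.cl h.onU (Module.finrank_fin_fun F), sum_mul]
    rw [sum_comm, mul_sum]
    refine sum_eq_zero fun χ _ => ?_
    have := gm_fam (θ := θ) (irr_isClassFunction χ.2)
    simp only [mul_assoc, ← mul_sum]
    rw [mul_left_comm]
    rcases gam_le_one hθ χ.2 with e | e
    · exact mul_eq_zero_of_right _ (this.trans e)
    · exact mul_eq_zero_of_left (of_not_not fun e' => hn ⟨⟨χ, e⟩, (h3 _ _).2 e'⟩) _
  exact ⟨Equiv.ofBijective g (hs.bijective_of_nat_card_le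
    ((card_generic hθ).trans (card_multiset hθ k).symm).le), h3⟩

/-- the conjugate character -/
def cI {G : Type*} [Group G] [Finite G] (χ : IrrCharacter G) : IrrCharacter G :=
  ⟨fun g => conj (χ.1 g), irr_conj χ.2⟩

/-- the conjugate cuspidal character -/
noncomputable def cC (c : CC F) : CC F := ⟨c.deg, cI c.chi, c.pos, fun m h1 h2 => by
  have := congrArg conj (c.isC m h1 h2)
  rw [map_sum, map_zero] at this
  exact (sum_congr rfl fun g _ => by split_ifs <;> simp [cI]).trans this⟩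

theorem fam_cj (χ : GL (Fin k) F → ℂ) : fam k (fun g => conj (χ g)) = cj (fam k χ) := by
  funext V _ _ _ g
  simp only [fam, cj]
  split_ifs <;> simp

theorem hall_cj (a b : Fam F) : hall (cj a) (cj b) = cj (hall a b) := by
  funext V _ _ _ g
  simp only [hall, cj, map_sum, map_mul, RR, QQ]
  exact sum_congr rfl fun W _ => by split_ifs <;> simp

theorem piL_cj : ∀ L : List (CC F), piL (L.map cC) = cj (piL L)
  | [] => by rw [List.map_nil, piL, ← fam_cj]; simp
  | c :: L => by rw [List.map_cons, piL, piL, piL_cj L, ← hall_cj]; exact congrArg (hall · _) (fam_cj _)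

theorem Rel.cj {S : Multiset (CC F)} {χ : IrrCharacter (GL (Fin k) F)} (h : Rel S χ) :
    Rel (S.map cC) (cI χ) := by
  rw [rel_iff (L := S.toList.map cC) (by rw [← Multiset.map_coe, Multiset.coe_toList]), piL_cj]
  intro e
  refine h ((map_eq_zero_iff conj (RingHom.injective _)).1 (Eq.trans ?_ e))
  simp [ip, cI, fam_cj, Cusp.cj]

theorem alt_apply (u : GL (Fin k) F) (i j : Fin k) :
    (diagGL (fun i => (-1) ^ i.1) * u * (diagGL fun i => (-1) ^ i.1)⁻¹).1 i j =
      (-1) ^ (i.1 + j.1) * u.1 i j := by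
  change (diagonal _ * u.1 * diagonal _ : Matrix (Fin k) (Fin k) F) i j = _
  rw [mul_diagonal, diagonal_mul]
  simp only [← inv_pow, inv_neg, inv_one, Units.val_pow_eq_pow_val, Units.val_neg, Units.val_one]
  ring

theorem gam_cj {θ : AddChar F ℂ} [Fintype (Uni k F)] {χ : GL (Fin k) F → ℂ} (h : IsClassFunction _ χ) :
    gam (Uni k F) (psi k θ) (fun g => conj (χ g)) = conj (gam (Uni k F) (psi k θ) χ) := by
  let t : GL (Fin k) F := diagGL fun i => (-1) ^ i.1
  let f : Uni k F → Uni k F := fun u => ⟨t * u * t⁻¹, fun i j e => by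
    rw [alt_apply, u.2 i j e, one_apply]
    split_ifs with a
    · rw [a, ← two_mul, pow_mul, neg_one_sq, one_pow, one_mul]
    · rw [mul_zero]⟩
  have hf : Function.Injective f := fun u v e =>
    Subtype.ext (mul_left_cancel (mul_right_cancel (congrArg Subtype.val e :)))
  simp only [gam, inner_def, map_mul, map_sum, map_inv₀, map_natCast, Complex.conj_conj]
  congr 1
  refine Fintype.sum_bijective f (Finite.injective_iff_bijective.1 hf) _ _ fun u => ?_
  rw [show χ (f u) = χ u from h _ _, psi_val, psi_val, ← AddChar.map_neg_eq_conj]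
  congr 2
  simp only [sd, ← sum_neg_distrib]
  refine sum_congr rfl fun i _ => sum_congr rfl fun j _ => ?_
  split_ifs with a
  · rw [show (f u).1.1 i j = _ from alt_apply _ i j, a.1, ← add_assoc, ← two_mul, pow_succ, pow_mul]
    simp
  · rw [neg_zero]

open _root_.Classical in
/-- the value of the central character at `-1` -/
noncomputable def sg (χ : GL (Fin k) F → ℂ) : ℂ := if χ (-1) ≠ χ 1 then -1 else 1

theorem irr_neg {χ : GL (Fin k) F → ℂ} (h : IsIrrCharacter _ χ) (g : GL (Fin k) F) :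
    χ (-g) = sg χ * χ g := by
  have h0 := irr_one_ne_zero h
  obtain ⟨n, ρ, hρ, rfl⟩ := h
  obtain ⟨c, hc⟩ := schur ρ (ρ (-1)) fun g => by
    rw [← Module.End.mul_eq_comp, ← Module.End.mul_eq_comp, ← map_mul, ← map_mul]; simp
  have h1 : ∀ g, ρ.character (-g) = c * ρ.character g := fun g => by
    rw [← neg_one_mul g, Representation.character, map_mul, hc, smul_mul_assoc, map_smul]; rfl
  have h2 := h1 (-1)
  rw [neg_neg, h1, ← mul_assoc] at h2
  rw [h1, sg, h1]
  rcases mul_self_eq_one_iff.1 (mul_right_cancel₀ h0 (h2.symm.trans (one_mul _).symm)) with rfl | rfl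
  · simp
  · rw [if_pos fun e => h0 (by linear_combination -e / 2)]

/-- families on which `-1` acts by `s` -/
def Sg (φ : Fam F) (s : ℂ) : Prop :=
  ∀ (V : Type) [AddCommGroup V] [Module F V] [FiniteDimensional F V] (g : Module.End F V),
    φ V (-g) = s * φ V g

theorem sg_fam {χ : GL (Fin k) F → ℂ} {s : ℂ} (h : ∀ g, χ (-g) = s * χ g) : Sg (fam k χ) s := by
  intro V _ _ _ g
  by_cases a : Module.finrank F V = k ∧ IsUnit g
  · rw [fam, fam, dif_pos a, dif_pos ⟨a.1, a.2.neg⟩, ← h]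
    congr 1
    ext i j
    simp [glE_val]
  · rw [fam, fam, dif_neg a, dif_neg fun e => a ⟨e.1, (IsUnit.neg_iff _).1 e.2⟩, mul_zero]

theorem sg_hall {a b : Fam F} {s t : ℂ} (h : Sg a s) (h' : Sg b t) : Sg (hall a b) (s * t) := by
  intro V _ _ _ g
  simp only [hall, mul_sum]
  refine sum_congr rfl fun W _ => ?_
  by_cases e : Cusp.Inv W g
  · have e' : Cusp.Inv W (-g) := fun x hx => W.neg_mem (e x hx)
    rw [RR, RR, QQ, QQ, dif_pos e, dif_pos e, dif_pos e', dif_pos e', mul_mul_mul_comm, ← h, ← h']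
    congr 2
    ext x
    simp
  · rw [RR_of_not e, RR_of_not fun e' => e fun x hx => W.neg_mem_iff.1 (e' x hx)]
    simp

open _root_.Classical in
theorem sg_piL : ∀ L : List (CC F),
    Sg (piL L) ((-1) ^ (L : Multiset (CC F)).countP fun c => c.chi.1 (-1) ≠ c.chi.1 1)
  | [] => sg_fam fun _ => by simp
  | c :: L => by
    have := sg_hall (sg_fam (irr_neg c.chi.2)) (sg_piL L)
    rwa [← Multiset.cons_coe, Multiset.countP_cons, pow_add, mul_comm,
      show (-1 : ℂ) ^ (if c.chi.1 (-1) ≠ c.chi.1 1 then 1 else 0) = sg c.chi.1 by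
        unfold sg; split_ifs <;> simp]

open _root_.Classical in
theorem Rel.sg {S : Multiset (CC F)} {χ : IrrCharacter (GL (Fin k) F)} (h : Rel S χ) :
    (-1) ^ (S.countP fun c => c.chi.1 (-1) ≠ c.chi.1 1) = sg χ.1 := by
  have h1 := sg_piL S.toList
  rw [Multiset.coe_toList] at h1
  have h2 := sg_fam (irr_neg χ.2)
  have h3 : N2.sg χ.1 * N2.sg χ.1 = 1 ∧ conj (N2.sg χ.1) = N2.sg χ.1 := by
    rw [N2.sg]; split_ifs <;> simp
  have h4 : ip (Fin k → F) (piL S.toList) (fam k χ.1) =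
      ((-1) ^ (S.countP fun c => c.chi.1 (-1) ≠ c.chi.1 1) * N2.sg χ.1) *
        ip (Fin k → F) (piL S.toList) (fam k χ.1) := by
    rw [ip, mul_left_comm]
    congr 1
    rw [mul_sum]
    refine (Fintype.sum_equiv (Equiv.neg _) _ _ fun g => ?_).symm
    rw [Equiv.neg_apply, h1, h2, map_mul, h3.2]
    ring
  have h5 := mul_right_cancel₀ h ((one_mul _).trans h4)
  linear_combination (-N2.sg χ.1) * h5 - (-1) ^ (S.countP fun c => c.chi.1 (-1) ≠ c.chi.1 1) * h3.1

theorem not_conj (h2 : (2 : F) ≠ 0) (hk : 0 < k) (u v : Uni k F) : ¬ IsConj (-u.1) v.1 := fun h => by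
  obtain ⟨g, hg⟩ := isConj_iff.1 h
  obtain ⟨a1, a2⟩ := inU_zero.1 u.2
  obtain ⟨b1, b2⟩ := inU_zero.1 v.2
  have e : v.1.1 - 1 = g.1 * (-u.1.1 - 1) * g⁻¹.1 := by
    rw [← hg, mul_sub, sub_mul, mul_one, g.mul_inv]; rfl
  have e1 := congrArg det e
  rw [det_units_conj, det_of_isUpperTriangular (b1.sub blockTriangular_one),
    det_of_isUpperTriangular (a1.neg.sub blockTriangular_one),
    prod_eq_zero (mem_univ ⟨0, hk⟩) (by simp [b2]), eq_comm, prod_eq_zero_iff] at e1
  obtain ⟨i, -, hi⟩ := e1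
  simp only [Matrix.sub_apply, Matrix.neg_apply, a2, one_apply_eq] at hi
  exact h2 (by linear_combination -hi)

theorem sum_sg (h2 : (2 : F) ≠ 0) (hk : 0 < k) [Fintype (Uni k F)] (ψ : Uni k F →* ℂˣ) :
    ∑ χ : IrrCharacter (GL (Fin k) F), sg χ.1 * gam (Uni k F) ψ χ * conj (gam (Uni k F) ψ χ) = 0 := by
  have : ∀ χ : IrrCharacter (GL (Fin k) F), sg χ.1 * gam (Uni k F) ψ χ * conj (gam (Uni k F) ψ χ) =
      ∑ u : Uni k F, ∑ v : Uni k F, ((Nat.card (Uni k F) : ℂ)⁻¹ * (Nat.card (Uni k F) : ℂ)⁻¹ *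
        conj (ψ u : ℂ) * ψ v) * (χ.1 (-u.1) * conj (χ.1 v.1)) := fun χ => by
    simp only [gam, inner_def, map_mul, map_sum, map_inv₀, map_natCast, Complex.conj_conj,
      irr_neg χ.2, mul_sum, sum_mul]
    rw [sum_comm]
    exact sum_congr rfl fun u _ => sum_congr rfl fun v _ => by ring
  simp only [this]
  rw [sum_comm]
  refine sum_eq_zero fun u _ => ?_
  rw [sum_comm]
  refine sum_eq_zero fun v _ => ?_
  rw [← mul_sum, sum_irr_mul_conj_of_not_isConj (not_conj h2 hk u v), mul_zero]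

end N2

open N2

/-- N2 (real multisets; `cj` is the complex conjugate) -/
theorem card_real_ms {θ : AddChar F ℂ} (hθ : θ ≠ 1) [Fintype (Uni k F)] : ∃ cj : CC F → CC F,
    (∀ c, @Eq (Fam F) (cj c).fm fun V _ _ _ g => conj (c.fm V g)) ∧
    (∀ c : CC F, (∀ g, conj (c.chi.1 g) = c.chi.1 g) → cj c = c) ∧ (∀ c, (cj c).deg = c.deg) ∧
    Nat.card {S : Multiset (CC F) // (S.map CC.deg).sum = k ∧ S.map cj = S} ≤
      Nat.card {χ : IrrCharacter (GL (Fin k) F) //
        gam (Uni k F) (psi k θ) χ = 1 ∧ ∀ g, conj (χ.1 g) = χ.1 g} := by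
  obtain ⟨E, hE⟩ := exists_E (k := k) hθ
  refine ⟨cC, fun c => fam_cj _, fun c h => ?_, fun _ => rfl, Nat.card_le_card_of_injective
    (fun S => ⟨(E.symm ⟨S.1, S.2.1⟩).1, (E.symm ⟨S.1, S.2.1⟩).2, ?_⟩) fun S S' e => ?_⟩
  · obtain ⟨d, χ, h1, h2⟩ := c
    have : cI χ = χ := Subtype.ext (funext h)
    simp only [cC, this]
  · set χ := E.symm ⟨S.1, S.2.1⟩
    have h1 : E χ = ⟨S.1, S.2.1⟩ := E.apply_symm_apply _
    have h2 := ((hE _ _).1 h1).cj
    rw [S.2.2] at h2
    have h3 : gam (Uni k F) (psi k θ) (cI χ.1) = 1 :=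
      (gam_cj (irr_isClassFunction χ.1.2)).trans (by rw [χ.2, map_one])
    have h4 : cI χ.1 = χ.1 :=
      congrArg Subtype.val (E.injective (((hE ⟨_, h3⟩ ⟨S.1, S.2.1⟩).2 h2).trans h1.symm))
    exact congrFun (congrArg Subtype.val h4)
  · have h1 : (E.symm ⟨S.1, S.2.1⟩).1 = (E.symm ⟨S'.1, S'.2.1⟩).1 := (congrArg Subtype.val e :)
    exact Subtype.ext (congrArg Subtype.val (E.symm.injective (Subtype.ext h1)) :)

open _root_.Classical in
/-- N2 (as many even as odd multisets) -/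
theorem card_even_ms (h2 : (2 : F) ≠ 0) (hk : 0 < k) :
    Nat.card {S : Multiset (CC F) // (S.map CC.deg).sum = k ∧
      Even (S.countP fun c => c.chi.1 (-1) ≠ c.chi.1 1)} =
    Nat.card {S : Multiset (CC F) // (S.map CC.deg).sum = k ∧
      Odd (S.countP fun c => c.chi.1 (-1) ≠ c.chi.1 1)} := by
  obtain ⟨θ, hθ⟩ : ∃ θ : AddChar F ℂ, θ ≠ 1 := by
    obtain ⟨θ, h⟩ := (AddChar.exists_apply_ne_zero (α := F) (a := 1)).2 one_ne_zero
    exact ⟨θ, fun e => h (by simp [e])⟩
  obtain ⟨E, hE⟩ := exists_E (k := k) hθ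
  let _ := Fintype.ofEquiv _ E
  have h1 : ∑ S : {S : Multiset (CC F) // (S.map CC.deg).sum = k},
      (-1 : ℂ) ^ (S.1.countP fun c => c.chi.1 (-1) ≠ c.chi.1 1) = 0 := by
    rw [← E.sum_comp, ← sum_sg h2 hk (psi k θ), sum_congr rfl fun χ _ => ((hE χ _).1 rfl).sg,
      ← sum_subtype (s := univ.filter fun χ : IrrCharacter (GL (Fin k) F) =>
        gam (Uni k F) (psi k θ) χ = 1) (by simp) fun χ => sg χ.1, sum_filter]
    exact sum_congr rfl fun χ _ => by rcases gam_le_one hθ χ.2 with e | e <;> simp [e]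
  simp only [neg_one_pow_eq_ite, sum_ite, sum_const, nsmul_eq_mul, mul_one, mul_neg,
    add_neg_eq_zero, Nat.cast_inj, Nat.not_even_iff_odd] at h1
  rw [← Nat.card_congr (Equiv.subtypeSubtypeEquivSubtypeInter _ _),
    ← Nat.card_congr (Equiv.subtypeSubtypeEquivSubtypeInter _ _), Nat.card_eq_fintype_card,
    Nat.card_eq_fintype_card, Fintype.card_subtype, Fintype.card_subtype, h1]

end CF.Hc
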