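import Cfsg.Agent.Hc.N1a
import Cfsg.Agent.Hc.N2

/-!
# Real generic characters of `GL_k(q)`
-/

set_option autoImplicit false

open scoped ComplexConjugate MatrixGroups
open Cfsg Finset Matrix

namespace CF.Hc
open CF.Char CF.Geom CF.Cusp

variable {F : Type} [Field F] [Fintype F] [DecidableEq F] {k : ℕ}

set_option linter.unusedSectionVars false

namespace N1

/-- Symmetric monomial data. -/
def Sy (w : Equiv.Perm (Fin k)) (c : Fin k → Fˣ) : Prop :=
  ∀ j, w (w j) = j ∧ (-1) ^ ((w j).1 + j.1) * c j = (c (w j))⁻¹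

theorem sy_of {w : Equiv.Perm (Fin k)} {c : Fin k → Fˣ} {a b : Uni k F}
    (e : diagGL (fun i => (-1) ^ i.1) * mono w c * (diagGL fun i => (-1) ^ i.1)⁻¹ =
      a.1 * (mono w c)⁻¹ * b.1) : Sy w c := by
  have h1 : (mono w c)⁻¹ = mono w⁻¹ fun j => (c (w⁻¹ j))⁻¹ :=
    inv_eq_of_mul_eq_one_right (Units.ext (by
      ext i j
      rw [Units.val_mul, mul_mono, mono_apply]
      simp [one_apply]))
  have h2 : diagGL (fun i => (-1) ^ i.1) * mono w c * (diagGL fun i => (-1) ^ i.1)⁻¹ =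
      mono w fun j => (-1) ^ ((w j).1 + j.1) * c j := Units.ext (by
    ext i j
    rw [N2.alt_apply, mono_apply, mono_apply]
    split_ifs with h
    · simp [h]
    · rw [mul_zero])
  rw [h1, h2] at e
  obtain ⟨e1, e2⟩ := bruhat_uniq e
  intro j
  refine ⟨?_, ?_⟩
  · conv_lhs => enter [1]; rw [← e1]
    simp
  · rw [← congrFun e2 j, e1]

theorem Sy.rev {w : Equiv.Perm (Fin k)} {c : Fin k → Fˣ} (h : Sy w c) (h' : RelM w c) (j : Fin k) :
    w j.rev = (w j).rev ∧ c j = (-1) ^ (j.rev.1 + (w j).rev.1) * (c j.rev)⁻¹ := by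
  obtain ⟨a, b⟩ := h'.inv j
  obtain ⟨a', b'⟩ := h (w j).rev
  rw [a] at a' b'
  refine ⟨a', ?_⟩
  rw [← b', b, ← mul_assoc, ← mul_pow]
  simp

theorem zero_iff {d : Fin k → F} (h0 : Brk d 0) {j j' : Fin k} (e : j'.1 = j.1 + 1) :
    d j' = 0 ↔ (wOf h0 j').1 = (wOf h0 j).1 + 1 := by
  refine ⟨fun h => ((wOf_step h0 e).2 h).1, fun h => by_contra fun h2 => ?_⟩
  have := ((wOf_step h0 e).1 h2).1
  rw [Fin.lt_def] at this
  omega

theorem zero_rev {d : Fin k → F} (h0 : Brk d 0) (h : Sy (wOf h0) (cOf h0)) {j j' : Fin k}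
    (e : j'.1 = j.1 + 1) : d j' = 0 ↔ d j.rev = 0 := by
  rw [zero_iff h0 e, zero_iff h0 (j := j'.rev) (by simp only [Fin.val_rev]; omega),
    (h.rev (relM_of h0) j).1, (h.rev (relM_of h0) j').1]
  simp only [Fin.val_rev]
  omega

theorem inj {d d' : Fin k → F} (h0 : Brk d 0) (h0' : Brk d' 0) (h : Sy (wOf h0) (cOf h0))
    (h' : Sy (wOf h0') (cOf h0')) (e : ∀ i : Fin k, 2 * i.1 < k → d i = d' i)
    (e' : ∀ i : Fin k, 2 * i.1 = k → (d i = 0 ↔ d' i = 0)) : d = d' := by
  have h1 : ∀ j j' : Fin k, j'.1 = j.1 + 1 → (d j' = 0 ↔ d' j' = 0) := fun j j' a => by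
    rcases lt_trichotomy (2 * j'.1) k with b | b | b
    · rw [e _ b]
    · exact e' _ b
    · rw [zero_rev h0 h a, zero_rev h0' h' a, e _ (by simp only [Fin.val_rev]; omega)]
  have h2 : wOf h0 = wOf h0' := (relM_of h0).relP.ext (relM_of h0').relP fun j j' a => by
    rw [← zero_iff h0 a, ← zero_iff h0' a, h1 j j' a]
  have h3 : ∀ (m : ℕ) (j : Fin k), j.1 = m → 2 * m < k → cOf h0 j = cOf h0' j := by
    intro m
    induction m with
    | zero => exact fun j a b => Units.ext (by rw [cOf_zero h0 a, cOf_zero h0' a, e j (by omega)])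
    | succ m ih =>
      intro j' a b
      let j : Fin k := ⟨m, by omega⟩
      by_cases c : d j' = 0
      · rw [← ((wOf_step h0 (j := j) a).2 c).2,
          ← ((wOf_step h0' (j := j) a).2 ((h1 j j' a).1 c)).2, ih j rfl (by omega)]
      · exact Units.ext (by
          rw [((wOf_step h0 (j := j) a).1 c).2,
            ((wOf_step h0' (j := j) a).1 (mt (h1 j j' a).2 c)).2, e j' (by omega)])
  refine code_inj h0 h0' h2 (funext fun j => ?_)
  by_cases a : 2 * j.1 < k
  · exact h3 _ j rfl a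
  · rw [(h.rev (relM_of h0) j).2, (h'.rev (relM_of h0') j).2, h2,
      h3 _ j.rev rfl (by simp only [Fin.val_rev]; omega)]

theorem card_sy (hk : 0 < k) :
    Nat.card {d : {d : Fin k → F // Brk d 0} // Sy (wOf d.2) (cOf d.2)} ≤
      if Even k then 2 * ((Nat.card F - 1) * Nat.card F ^ (k / 2 - 1))
      else (Nat.card F - 1) * Nat.card F ^ (k / 2) := by
  classical
  have hm : (k + 1) / 2 ≤ k := by omega
  let f : {d : {d : Fin k → F // Brk d 0} // Sy (wOf d.2) (cOf d.2)} →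
      {d : Fin ((k + 1) / 2) → F // Brk d 0} := fun d =>
    ⟨fun i => d.1.1 (i.castLE hm), fun _ => d.1.2 hk⟩
  have hf : ∀ d d', f d = f d' → ∀ i : Fin k, 2 * i.1 < k → d.1.1 i = d'.1.1 i :=
    fun d d' e i hi => congrFun (congrArg Subtype.val e) ⟨i, by omega⟩
  split_ifs with h
  · obtain ⟨m, rfl⟩ := h
    refine (Nat.card_le_card_of_injective
      (fun d => ((decide (d.1.1 ⟨m, by omega⟩ = 0), f d) : Bool × _)) fun d d' e => ?_).trans ?_
    · refine Subtype.ext (Subtype.ext (inj _ _ d.2 d'.2 (hf _ _ (congrArg Prod.snd e))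
        fun i hi => ?_))
      rw [show i = ⟨m, by omega⟩ from Fin.ext (by simp only; omega)]
      exact decide_eq_decide.1 (congrArg Prod.fst e)
    · rw [Nat.card_prod, card_code, show (m + m + 1) / 2 = (m + m) / 2 - 1 + 1 by omega, aN]
      simp
  · rw [Nat.not_even_iff_odd] at h
    obtain ⟨m, rfl⟩ := h
    refine (Nat.card_le_card_of_injective f fun d d' e => Subtype.ext (Subtype.ext
      (inj _ _ d.2 d'.2 (hf _ _ e) fun i hi => by omega))).trans ?_
    rw [card_code, show (2 * m + 1 + 1) / 2 = (2 * m + 1) / 2 + 1 by omega, aN]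
    simp

end N1

open N1 in
theorem card_real_gen {θ : AddChar F ℂ} (hθ : θ ≠ 1) (hk : 0 < k) [Fintype (Uni k F)] :
    Nat.card {χ : IrrCharacter (GL (Fin k) F) //
      gam (Uni k F) (psi k θ) χ = 1 ∧ ∀ g, conj (χ.1 g) = χ.1 g} ≤
      if Even k then 2 * ((Nat.card F - 1) * Nat.card F ^ (k / 2 - 1))
      else (Nat.card F - 1) * Nat.card F ^ (k / 2) := by
  classical
  let f : {d : Fin k → F // Brk d 0} → GL (Fin k) F := fun d => mono (wOf d.2) (cOf d.2)
  refine (card_real _ _ (fun _ h => gam_le_one hθ h) (diagGL fun i => (-1) ^ i.1)⁻¹ (fun u => ?_)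
    (univ.image f) fun g => ?_).trans (le_trans ?_ (card_sy hk))
  · rw [inv_inv]
    refine ⟨⟨_, fun i j e => ?_⟩, rfl, Units.ext ?_⟩
    · rw [N2.alt_apply, u.2 i j e, one_apply]
      split_ifs with a
      · rw [a, ← two_mul, pow_mul, neg_one_sq, one_pow, one_mul]
      · rw [mul_zero]
    · rw [Units.val_inv_eq_inv_val, psi_val, psi_val, ← AddChar.map_neg_eq_inv]
      congr 1
      simp only [sd, ← sum_neg_distrib]
      refine sum_congr rfl fun i _ => sum_congr rfl fun j _ => ?_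
      split_ifs with a
      · rw [N2.alt_apply, a.1, ← add_assoc, ← two_mul, pow_succ, pow_mul]
        simp
      · rw [neg_zero]
  · obtain ⟨a, b, w, c, rfl⟩ := bruhat g
    by_cases h : RelM w c
    · obtain ⟨d, h0, rfl, rfl⟩ := h.exists_code
      exact Or.inr ⟨f ⟨d, h0⟩, mem_image_of_mem f (mem_univ _), a, b, rfl⟩
    · exact Or.inl ((irrel_of hθ h).mul a b)
  · have : ∀ r : {r : univ.image f // ∃ a b : Uni k F, (diagGL fun i => (-1) ^ i.1)⁻¹⁻¹ * r.1 *
        (diagGL fun i => (-1) ^ i.1)⁻¹ = a.1 * r.1⁻¹ * b.1},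
        ∃ d : {d : {d : Fin k → F // Brk d 0} // Sy (wOf d.2) (cOf d.2)}, f d = r := by
      rintro ⟨⟨r, hr⟩, a, b, e⟩
      obtain ⟨d, -, rfl⟩ := mem_image.1 hr
      exact ⟨⟨d, sy_of e⟩, rfl⟩
    choose g hg using this
    exact Nat.card_le_card_of_injective g fun r r' e =>
      Subtype.ext (Subtype.ext (by rw [← hg, e, hg]))

end CF.Hc
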