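import Cfsg.Agent.Hc.N4a
import Cfsg.Agent.Hc.N1
import Cfsg.Agent.Hc.N2

/-!
# Non-real cuspidal characters of `GL_k(q)`, `k ≥ 3`
-/

set_option autoImplicit false

open scoped ComplexConjugate MatrixGroups
open Cfsg Finset Matrix

namespace CF.Hc
open CF.Char CF.Geom CF.Cusp

variable {F : Type} [Field F] [Fintype F] [DecidableEq F] {k : ℕ}

open _root_.Classical in
/-- N4 -/
theorem nonreal (hk : 3 ≤ k) : ∃ ψ : GL (Fin k) F → ℂ, IsIrrCharacter _ ψ ∧ IsCusp ψ ∧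
    (∃ x, conj (ψ x) ≠ ψ x) ∧ ψ (-1) = ψ 1 := by
  obtain ⟨θ, hθ⟩ := N4.ex_add (F := F)
  have : Fintype (Uni k F) := Fintype.ofFinite _
  obtain ⟨cj, -, c1, c2, c3⟩ := card_real_ms (k := k) hθ
  exact N4.nonreal_of hk cj c1 c2 (c3.trans (card_real_gen hθ (by omega)))
    fun h2 _ hn => card_even_ms h2 hn

end CF.Hc
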