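import Cfsg.Agent.Hc.A
import Cfsg.Agent.Block.Deg
import Cfsg.Agent.Geom.Simple
import Cfsg.Agent.Classical.Transport
import Cfsg.Prelude.Def_Classical

/-! Passing from the isometry group to the simple group. -/

set_option autoImplicit false
set_option linter.unusedSectionVars false

open scoped ComplexConjugate MatrixGroups
open Cfsg Finset Matrix

namespace CF.Hc
open CF.Char CF.Geom

variable {F : Type} [Field F] [Fintype F] [DecidableEq F] {k : ℕ}
variable {V : Type} [AddCommGroup V] [Module F V] [Fintype V] {P : Pol F V}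

namespace R

theorem cd_quot {G : Type*} [Group G] [Finite G] {χ : G → ℂ} (h : IsIrrCharacter G χ) {n : ℕ} (hn : χ 1 = n)
    (e : ∀ z ∈ Subgroup.center G, χ z = χ 1) : n ∈ charDegrees (G ⧸ Subgroup.center G) := by
  obtain ⟨ψ, a, b⟩ := exists_irr_quotient h (Subgroup.center G) fun z hz =>
    (mem_charKer_iff (irr_isCharacter h)).2 (e z hz)
  exact ⟨⟨ψ, a⟩, by
    have : ψ 1 = n := by rw [← hn, b]; rfl
    simp [charDegree, this]⟩

theorem pm (g : P.G) {c : F} (h : ∀ v, g.1 v = c • v) : g = 1 ∨ g = P.neg := by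
  by_cases z : ∀ v : V, v = 0
  · exact .inl (Subtype.ext (LinearEquiv.ext fun v => (z _).trans (z _).symm))
  obtain ⟨u, hu⟩ := not_forall.1 z
  obtain ⟨v, hv⟩ := not_forall.1 (mt (P.nd u) hu)
  have := P.G_f g u v
  rw [h, h, map_smul, map_smul, LinearMap.smul_apply, smul_eq_mul, smul_eq_mul, ← mul_assoc] at this
  exact (mul_self_eq_one_iff.1 (mul_right_cancel₀ hv (this.trans (one_mul _).symm))).imp
    (fun e => Subtype.ext (LinearEquiv.ext fun v => by simp [h, e])) fun e => Subtype.ext (LinearEquiv.ext fun v => by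
      simp [h, e])

theorem index_O (ho : P.o = true) (h5 : 5 ≤ Module.finrank F V) :
    (commutator P.G).index = if Even (Nat.card F) then 2 else 4 := by
  have nd := P.nondeg
  obtain ⟨o, f, Q, n, a, b⟩ := P
  obtain rfl : f = _ := a ho
  by_cases h2 : (2 : F) = 0
  · haveI : Nontrivial V := Module.nontrivial_of_finrank_pos (R := F) (by omega)
    rw [if_pos (by
      rw [Nat.card_eq_fintype_card, Nat.even_iff, ← FiniteField.even_card_iff_char_two]
      exact CharP.ringChar_of_prime_eq_zero Nat.prime_two (by exact_mod_cast h2))]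
    exact index_commutator_even nd h2 (reflSub_eq_top nd (.inr (by omega)))
  · rw [if_neg fun e => h2 (by
      rw [Nat.card_eq_fintype_card, Nat.even_iff, ← FiniteField.even_card_iff_char_two] at e
      have := ringChar.Nat.cast_ringChar (R := F)
      rw [e] at this
      exact_mod_cast this)]
    exact index_commutator_odd nd h2 (by omega)

theorem center_O (ho : P.o = true) (h5 : 5 ≤ Module.finrank F V) {z : commutator P.G}
    (hz : z ∈ Subgroup.center (commutator P.G)) : z.1 = 1 ∨ z.1 = P.neg := by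
  have nd := P.nondeg
  suffices ∃ c : F, ∀ v, z.1.1 v = c • v from this.elim fun c => pm z.1
  obtain ⟨o, f, Q, n, a, b⟩ := P
  obtain rfl : f = _ := a ho
  exact center_omega_scalar nd (by omega) (ρ := (commutator (OG Q)).subtype) (by
    rw [Subgroup.range_subtype]; exact eichlerSub_le_commutator nd (.inr (by omega))) z hz

/-- commutator subgroups of isomorphic groups -/
def cmEquiv {G H : Type*} [Group G] [Group H] (e : G ≃* H) : commutator G ≃* commutator H :=
  (e.subgroupMap _).trans (MulEquiv.subgroupCongr (by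
    rw [map_commutator_eq, MonoidHom.range_eq_top.2 e.surjective]; rfl))

theorem mem_cm {G H : Type*} [Group G] [Group H] (e : G ≃* H) {g : G} (h : g ∈ commutator G) :
    e g ∈ commutator H := (cmEquiv e ⟨g, h⟩).2

variable {ι : Type} [Fintype ι] [DecidableEq ι] {Q : QuadraticForm F (ι → F)}

/-- an isometry with a standard form -/
noncomputable def og (ho : P.o = true) (e : V ≃ₗ[F] (ι → F)) (h : ∀ v, Q (e v) = P.Q v) : P.G ≃* OG Q :=
  isomCongr e (fun x y => by simp [P.ho ho, QuadraticMap.polar, ← map_add, h]) h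

theorem iso_O (ho : P.o = true) (e : V ≃ₗ[F] (ι → F)) (h : ∀ v, Q (e v) = P.Q v) : Nonempty (POmega F Q ≃* P.PO) :=
  ⟨Classical.quotientCenterEquiv ((omegaEquiv Q).trans (cmEquiv (og ho e h)).symm)⟩

theorem neg_O (ho : P.o = true) (e : V ≃ₗ[F] (ι → F)) (h : ∀ v, Q (e v) = P.Q v) (n : oNeg Q ∉ commutator (OG Q)) :
    P.neg ∉ commutator P.G := fun c => n (by
  convert mem_cm (og ho e h) c
  exact Subtype.ext (LinearEquiv.ext fun v => by simp [og, isomCongr, oNeg]))

/-- coordinates, zero space -/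
def e0 (F : Type) [Field F] (m : ℕ) : HV F m (Fin 0 → F) ≃ₗ[F] (Fin m ⊕ Fin m → F) where
  toFun x := Sum.elim x.1 x.2.2
  map_add' x y := by ext (i | i) <;> rfl
  map_smul' c x := by ext (i | i) <;> rfl
  invFun v := (fun i => v (.inl i), 0, fun i => v (.inr i))
  left_inv x := Prod.ext rfl (Prod.ext (Subsingleton.elim _ _) rfl)
  right_inv v := by ext (i | i) <;> rfl

/-- coordinates, line -/
def e1 (F : Type) [Field F] (m : ℕ) : HV F m F ≃ₗ[F] (Unit ⊕ (Fin m ⊕ Fin m) → F) where
  toFun x := Sum.elim (fun _ => x.2.1) (Sum.elim x.1 x.2.2)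
  map_add' x y := by ext (i | i | i) <;> rfl
  map_smul' c x := by ext (i | i | i) <;> rfl
  invFun v := (fun i => v (.inr (.inl i)), v (.inl ()), fun i => v (.inr (.inr i)))
  left_inv x := rfl
  right_inv v := by ext (i | i | i) <;> rfl

/-- coordinates, plane -/
def e2 (F : Type) [Field F] (m : ℕ) : HV F m (Fin 2 → F) ≃ₗ[F] ((Fin m ⊕ Fin m) ⊕ Fin 2 → F) where
  toFun x := Sum.elim (Sum.elim x.1 x.2.2) x.2.1
  map_add' x y := by ext ((i | i) | i) <;> rfl
  map_smul' c x := by ext ((i | i) | i) <;> rfl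
  invFun v := (fun i => v (.inl (.inl i)), fun i => v (.inr i), fun i => v (.inl (.inr i)))
  left_inv x := rfl
  right_inv v := by ext ((i | i) | i) <;> rfl

theorem e0_apply (m : ℕ) (x : HV F m (Fin 0 → F)) : e0 F m x = Sum.elim x.1 x.2.2 := rfl
theorem e1_apply (m : ℕ) (x : HV F m F) : e1 F m x = Sum.elim (fun _ => x.2.1) (Sum.elim x.1 x.2.2) := rfl
theorem e2_apply (m : ℕ) (x : HV F m (Fin 2 → F)) : e2 F m x = Sum.elim (Sum.elim x.1 x.2.2) x.2.1 := rfl

theorem q0 (m : ℕ) (v : HV F m (Fin 0 → F)) : qPlus m F (e0 F m v) = ((z0 F true).hyp m).Q v := by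
  simp [qPlus_apply, Pol.hyp_Q, e0_apply, z0, Pol.d, dotProduct]

theorem q1 (h2 : (2 : F) ≠ 0) (m : ℕ) (v : HV F m F) : qOdd m F (e1 F m v) = ((z1 h2).hyp m).Q v := by
  simp [qOdd_apply, Pol.hyp_Q, e1_apply, z1, Pol.d, dotProduct, sq, add_comm]

theorem q2' {a b : F} (h : An a b) (m : ℕ) (v : HV F m (Fin 2 → F)) :
    qMinus m F a b (e2 F m v) = ((z2 h).hyp m).Q v := by
  simp [qMinus_apply, Pol.hyp_Q, e2_apply, z2, Pol.d, dotProduct, q2_apply]

end R

open R

namespace Pol

theorem cd_S (ho : P.o = false) {n : ℕ} (h : P.Dg true n) : n ∈ charDegrees P.PS := by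
  obtain ⟨χ, a, b, c⟩ := h
  refine cd_quot a b fun z hz => ?_
  suffices ∃ c : F, ∀ v, z.1 v = c • v by
    obtain ⟨d, hd⟩ := this
    rcases pm z hd with e | e <;> rw [e]
    exact c rfl
  rcases subsingleton_or_nontrivial V with s | s
  · exact ⟨1, fun v => Subsingleton.elim _ _⟩
  have nd := P.nondeg
  obtain ⟨o, f, Q, n', a', b'⟩ := P
  obtain ⟨rfl, al⟩ : Q = 0 ∧ _ := b' ho
  exact center_sp_scalar nd al (ρ := MonoidHom.id (SpG f)) (MonoidHom.range_eq_top.2 Function.surjective_id) z hz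

theorem cd_O' (ho : P.o = true) (h5 : 5 ≤ Module.finrank F V) {θ : commutator P.G → ℂ}
    (hθ : IsIrrCharacter _ θ) (e : ∀ z : commutator P.G, z.1 = P.neg → θ z = θ 1) {n : ℕ}
    (hn : θ 1 = n) : n ∈ charDegrees P.PO :=
  cd_quot hθ hn fun z hz => (center_O ho h5 hz).elim (fun k => by rw [show z = 1 from Subtype.ext k]) (e z)

theorem cd_O (ho : P.o = true) (h5 : 5 ≤ Module.finrank F V) {ev : Bool} {n : ℕ} (h : P.Dg ev n)
    (e : ev = false → P.neg ∉ commutator P.G) :
    ∃ d ∈ charDegrees P.PO, n ∣ (if Even (Nat.card F) then 2 else 4) * d := by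
  obtain ⟨χ, a, b, c⟩ := h
  haveI := Fintype.ofFinite (commutator P.G)
  obtain ⟨θ, hθ, i⟩ := exists_irr_under (H := commutator P.G) a
  obtain ⟨m, hm, d⟩ := Block.exists_deg_eq _ a hθ i
  refine ⟨charDegree θ, cd_O' ho h5 hθ (fun z hz => ?_) (BlockB.charDegree_eq (irr_isCharacter hθ)).symm, ?_⟩
  · cases ev
    · exact (e rfl (hz ▸ z.2)).elim
    have r := char_restrict (irr_isCharacter a) (commutator P.G)
    exact (mem_charKer_iff (irr_isCharacter hθ)).1 (charKer_le_of_inner_ne_zero r hθ i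
      ((mem_charKer_iff r).2 (by simpa [hz] using c rfl)))
  rw [← index_O ho h5, ← Subgroup.relIndex_mul_index (fun x hx => (Clifford.NormalEmb.sub (commutator P.G)).ι_mem_inertia
    (irr_isClassFunction hθ) ⟨x, hx⟩), show n = charDegree χ by simp [charDegree, b], d, ← mul_assoc, mul_comm _ m]
  exact mul_dvd_mul (mul_dvd_mul hm dvd_rfl) dvd_rfl

end Pol

theorem iso_S (m : ℕ) : Nonempty (PSp m F ≃* ((z0 F false).hyp m).PS) :=
  ⟨Classical.quotientCenterEquiv ((spEquiv m F).trans (isomCongr ((e0 F m).trans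
    (LinearEquiv.funCongrLeft F F (Equiv.sumComm _ _))) (fun x y => by
      simp [sympBilin_apply, sympForm_eq_sum, Pol.hyp_f, e0_apply, z0, Pol.e, dotProduct, sub_eq_add_neg, sum_add_distrib])
    fun x => by simp [Pol.hyp_Q, z0, Pol.d]).symm)⟩

theorem iso_B (h2 : (2 : F) ≠ 0) (m : ℕ) :
    Nonempty (POmega F (quadFormOdd m F) ≃* ((z1 h2).hyp m).PO) := coe_qOdd (F := F) m ▸ iso_O rfl _ (q1 h2 m)

theorem iso_P (m : ℕ) : Nonempty (POmega F (quadFormPlus m F) ≃* ((z0 F true).hyp m).PO) :=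
  coe_qPlus (F := F) m ▸ iso_O rfl _ (q0 m)

theorem iso_M {a b : F} (h : An a b) (m : ℕ) :
    Nonempty (POmega F (quadFormMinus m F a b) ≃* ((z2 h).hyp m).PO) := coe_qMinus m a b ▸ iso_O rfl _ (q2' h m)

theorem neg_B (h2 : (2 : F) ≠ 0) (m : ℕ) :
    ((z1 h2).hyp m).neg ∉ commutator ((z1 h2).hyp m).G :=
  neg_O rfl _ (q1 h2 m) fun c => by
    have := ((oNeg_mem_commutator_iff h2 (qOdd_nondegenerate h2 m) (Pi.basisFun F _)).1 c).1
    simp [← two_mul, Nat.even_add] at this

theorem neg_P (h3 : Nat.card F = 3) : ((z0 F true).hyp 5).neg ∉ commutator ((z0 F true).hyp 5).G := by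
  rw [Nat.card_eq_fintype_card] at h3
  refine neg_O rfl _ (q0 5) fun c => ?_
  have := (oNeg_mem_commutator_iff_isPlus (two_ne_zero_of_odd_card (by rw [h3]; decide)) (qPlus_nondegenerate 5)
    (m := 5) (by simp)).1 c
  simp [isPlus_qPlus, h3] at this

theorem neg_M (h2 : (2 : F) ≠ 0) {a b : F} (h : An a b) :
    ((z2 h).hyp 3).neg ∉ commutator ((z2 h).hyp 3).G := by
  refine neg_O rfl _ (q2' h 3) fun c => ?_
  have := (oNeg_mem_commutator_iff_isPlus h2 (qMinus_nondegenerate 3 h) (m := 4) (by simp)).1 c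
  have k := card_pow_mod_four h2 2
  rw [show 4 = 2 * 2 from rfl, pow_mul', sq, Nat.mul_mod] at this
  simp only [not_isPlus_qMinus 3 h, false_iff] at this
  rcases k with k | k <;> simp [k] at this

end CF.Hc
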