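import Cfsg.Agent.Hc.M2
import Cfsg.Agent.Hc.K1
import Cfsg.Agent.Hc.K2
import Cfsg.Agent.Hc.K3
import Cfsg.Agent.Hc.T
import Cfsg.Agent.Hc.R
import Cfsg.Agent.Hc.Z
import Cfsg.Agent.Hc.N4

/-!
# Packaged constructions of characters
-/

set_option autoImplicit false

open scoped ComplexConjugate MatrixGroups
open Cfsg Finset Matrix

namespace CF.Hc
open CF.Char CF.Geom CF.Cusp

variable {F : Type} [Field F] [Fintype F] [DecidableEq F] {k : ℕ}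

theorem I.ex {ev : Bool} (hk : 3 ≤ k ∨ k = 2 ∧ (4 ≤ Nat.card F ∨ 3 ≤ Nat.card F ∧ ev = false) ∨
    k = 1 ∧ 4 ≤ Nat.card F ∧ (Even (Nat.card F) ∨ ev = false)) :
    0 < k ∧ ∃ ψ : GL (Fin k) F → ℂ, IsIrrCharacter _ ψ ∧ IsCusp ψ ∧ (∃ x, conj (ψ x) ≠ ψ x) ∧
      (ψ ≠ fun _ => 1) ∧ (ev = true → ψ (-1) = ψ 1) := by
  suffices h : ∃ ψ : GL (Fin k) F → ℂ, IsIrrCharacter _ ψ ∧ IsCusp ψ ∧ (∃ x, conj (ψ x) ≠ ψ x) ∧
      (ev = true → ψ (-1) = ψ 1) by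
    obtain ⟨ψ, h1, h2, ⟨x, h3⟩, h4⟩ := h
    exact ⟨by omega, ψ, h1, h2, ⟨x, h3⟩, fun e => h3 (by simp [e]), h4⟩
  rcases hk with h | ⟨rfl, h⟩ | ⟨rfl, h, h'⟩
  · obtain ⟨ψ, h1, h2, h3, h4⟩ := nonreal (F := F) h
    exact ⟨ψ, h1, h2, h3, fun _ => h4⟩
  · obtain ⟨ψ, h1, h2, h3, h4⟩ := nonreal2 (F := F) (by omega)
    exact ⟨ψ, h1, h2, h3, fun e => h4 (h.resolve_right fun h => by simp [e] at h)⟩
  · obtain ⟨ψ, h1, h2, h3⟩ := nonreal1 (F := F) h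
    refine ⟨ψ, h1, h2, h3, fun e => ?_⟩
    have h4 := h'.resolve_right (by simp [e])
    rw [Nat.card_eq_fintype_card, Nat.even_iff, ← FiniteField.even_card_iff_char_two] at h4
    have : CharP F 2 := ringChar.of_eq h4
    congr 1
    ext i j
    simp [CharTwo.neg_eq]

theorem I.cd_equiv {G H : Type*} [Group G] [Group H] (e : G ≃* H) {n : ℕ}
    (h : n ∈ charDegrees G) : n ∈ charDegrees H := by
  obtain ⟨χ, rfl⟩ := h
  exact ⟨⟨_, irr_comp_equiv χ.2 e.symm⟩, by simp [charDegree]⟩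

variable {V : Type} [AddCommGroup V] [Module F V] [Fintype V] {P : Pol F V}

namespace Pol

theorem dg1 {j m : ℕ} (hm : j + k = m) (hk : 3 ≤ k ∨ k = 2 ∧ 4 ≤ Nat.card F) :
    (P.hyp m).Dg true ((P.hyp j).DD k) := by
  obtain ⟨h0, ψ, h1, h2, h3, h4, h5⟩ := I.ex (F := F) (ev := true) (k := k) (by tauto)
  simpa using (hyp_add P hm).dg (dgI (n := 1) h0 h1 h2 h3 irr_one (iv_one h1 h4) (by simp)
    fun e => ⟨h5 e, rfl⟩)

theorem dgV (hA : P.Ani) {j m n : ℕ} (hm : j + k = m) (hj : j < k) {ev : Bool}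
    (hk : 3 ≤ k ∨ k = 2 ∧ (4 ≤ Nat.card F ∨ 3 ≤ Nat.card F ∧ ev = false))
    (h : (P.hyp j).Dg ev n) : (P.hyp m).Dg ev ((P.hyp j).DD k * n) := by
  obtain ⟨h0, ψ, h1, h2, h3, -, h5⟩ := I.ex (F := F) (ev := ev) (k := k) (by tauto)
  obtain ⟨φ, h6, h7, h8⟩ := h
  exact (hyp_add P hm).dg (dgI h0 h1 h2 h3 h6 (iv_vac hA hj ψ φ) h7 fun e => ⟨h5 e, h8 e⟩)

/-- the numerical data of a rank 3 character of degree `n` of `(P.hyp (j + 1)).G` -/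
def R3 (P : Pol F V) (j n : ℕ) : Prop := 1 < (P.hyp j).sv ∧ ∃ r s : ℤ, r ≠ s ∧
  r * s = 1 - (P.hyp j).sv ∧ Nat.card F * ((P.hyp j).sv - 2 - r - s) =
    (Nat.card F ^ (2 * j + if P.o then 0 else 1) * Nat.card V : ℕ) ∧
  (r - s) * (Nat.card F - 1) * n = -s * ((P.hyp (j + 1)).sv - 1) -
    (Nat.card F * ((P.hyp j).sv - 1) - s * (Nat.card F - 1))

omit [Fintype F] [DecidableEq F] [Fintype V] in
theorem card_HV (j : ℕ) : Nat.card F ^ (2 * j + if P.o then 0 else 1) * Nat.card V =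
    if (P.hyp j).o then Nat.card (HV F j V) else Nat.card F * Nat.card (HV F j V) := by
  simp only [hyp_o, Nat.card_prod, Nat.card_fun, Nat.card_eq_fintype_card (α := Fin j),
    Fintype.card_fin]
  split_ifs <;> ring

theorem r3_deg {j n : ℕ} {r s : ℤ} (hrs : r ≠ s)
    (h : (r - s) * (Nat.card F - 1) * n = -s * ((P.hyp (j + 1)).sv - 1) -
      (Nat.card F * ((P.hyp j).sv - 1) - s * (Nat.card F - 1))) {z : ℂ}
    (e : ((r : ℂ) - s) * (Nat.card F - 1) * z = ((P.hyp j).hyp 1).aj 1 -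
      s * ((P.hyp j).hyp 1).fx 1 - (Nat.card F * ((P.hyp j).sv - 1) - s * (Nat.card F - 1))) :
    z = n := by
  obtain ⟨-, -, h1, h2⟩ := fx_neg (P := (P.hyp j).hyp 1)
  rw [(hyp_add P rfl).sv] at h2
  have h3 := congrArg (Int.cast : ℤ → ℂ) h
  rw [← h2] at h3
  push_cast at h3
  refine mul_left_cancel₀ (mul_ne_zero (sub_ne_zero.2 (Int.cast_injective.ne hrs))
    (sub_ne_zero.2 (Nat.cast_ne_one.2 (Finite.one_lt_card (α := F)).ne'))) ?_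
  rw [e, h3, h1]
  push_cast
  ring

theorem R3.ex {j n : ℕ} (h : P.R3 j n) : ∃ φ : ((P.hyp j).hyp 1).G → ℂ, IsIrrCharacter _ φ ∧
    classInner (fun g => (((P.hyp j).hyp 1).fx g : ℂ)) φ ≠ 0 ∧
    φ ((P.hyp j).hyp 1).neg = φ 1 ∧ φ 1 = n := by
  obtain ⟨h0, r, s, h1, h2, h3, h4⟩ := h
  obtain ⟨φ, h5, h6, h7, h8⟩ := pt3' h0 h1 h2 (card_HV (P := P) j ▸ h3)
  exact ⟨φ, h5, h6, h7, r3_deg h1 h4 (h8 1)⟩

theorem dg3 {j n : ℕ} (h : P.R3 j n) : (P.hyp (j + 1)).Dg true n := by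
  obtain ⟨φ, h1, -, h2, h3⟩ := h.ex
  exact (hyp_add P rfl).dg ⟨φ, h1, h3, fun _ => h2⟩

theorem cd3 (ho : P.o = true) {j n : ℕ} (h6 : 6 ≤ 2 * (j + 1) + Module.finrank F V) (h : P.R3 j n) :
    n ∈ charDegrees (P.hyp (j + 1)).PO := by
  obtain ⟨h0, r, s, h1, h2, h3, h4⟩ := h
  have h7 : 6 ≤ Module.finrank F (HV F 1 (HV F j V)) := by
    rw [finrank_hyp, finrank_hyp]
    omega
  have := Fintype.ofFinite (commutator ((P.hyp j).hyp 1).G)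
  obtain ⟨φ, h5, -, h8⟩ := pt3 _ (tr2_comm (P := (P.hyp j).hyp 1) ho h7) h0 h1 h2
    (card_HV (P := P) j ▸ h3)
  obtain ⟨e⟩ := (hyp_add P (rfl : j + 1 = j + 1)).po.1
  refine I.cd_equiv e <| cd_O' (P := (P.hyp j).hyp 1) ho (by omega) h5 (fun z hz => by
    obtain ⟨a1, a2, a3, -⟩ := fx_neg (P := (P.hyp j).hyp 1)
    have := h8 z
    rw [hz, a1, a2, ← a3] at this
    rw [r3_deg h1 h4 this, r3_deg h1 h4 (h8 1)]) (r3_deg h1 h4 (h8 1))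

theorem dgP {j m n : ℕ} (hm : j + 1 + k = m) (h : P.R3 j n) {ev : Bool}
    (hk : k = 2 ∧ (4 ≤ Nat.card F ∨ 3 ≤ Nat.card F ∧ ev = false) ∨
      k = 1 ∧ 4 ≤ Nat.card F ∧ (Even (Nat.card F) ∨ ev = false)) :
    (P.hyp m).Dg ev ((P.hyp (j + 1)).DD k * n) := by
  obtain ⟨h0, ψ, h1, h2, h3, h4, h5⟩ := I.ex (F := F) (ev := ev) (k := k) (Or.inr hk)
  obtain ⟨φ, h6, h7, h8, h9⟩ := h.ex
  rw [← (hyp_add P (rfl : j + 1 = j + 1)).DD rfl h0]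
  exact (hyp_add P hm).dg (((hyp_add P (rfl : j + 1 = j + 1)).hyp rfl k).dg
    (dgI h0 h1 h2 h3 h6 (iv_pi h1 h2 h4 h6 h7) h9 fun e => ⟨h5 e, h8⟩))

end Pol
end CF.Hc
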