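import Cfsg.Agent.Hc.FS0
import Cfsg.Agent.Hc.T
import Cfsg.Agent.Hc.I
import Cfsg.Agent.Hc.Ca

/-! The prime graph condition for the symplectic groups. -/

set_option autoImplicit false

open scoped ComplexConjugate MatrixGroups
open Cfsg Finset Matrix

namespace CF.Hc
open CF.Char CF.Geom CF.Cusp

variable {F : Type} [Field F] [Fintype F] [DecidableEq F]

namespace FS

omit [DecidableEq F] in
theorem hq : 2 ≤ Nat.card F := Finite.one_lt_card

omit [DecidableEq F] in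
theorem four_dvd (h : 2 ∣ Nat.card F) (h3 : 3 ≤ Nat.card F) : 4 ∣ Nat.card F := by
  obtain ⟨p, -, n, hp, e⟩ := FiniteField.card' F
  rw [Nat.card_eq_fintype_card, e] at h h3 ⊢
  obtain rfl := (Nat.prime_dvd_prime_iff_eq Nat.prime_two hp).1 (Nat.prime_two.dvd_of_dvd_pow h)
  refine pow_dvd_pow 2 (show 2 ≤ (n : ℕ) from ?_)
  by_contra c
  have := Nat.pow_le_pow_right two_pos (show (n : ℕ) ≤ 1 by omega)
  omega

theorem cPS {m r : ℕ} (hr : r.Prime) (h : r ∣ Nat.card ((z0 F false).hyp m).PS) :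
    r ∣ Nat.card F ∨ Dv (Nat.card F) m r :=
  dv_of hr (card_S (F := F) m ▸ h.trans (Subgroup.card_quotient_dvd_card _))

theorem d0 {n : ℕ} (h : 2 ≤ n ∨ n = 1 ∧ 4 ≤ Nat.card F) : (Nat.card F ^ (n + 1) + 1) *
    ∏ i ∈ range n, (Nat.card F ^ (2 * (i + 1)) - 1) ∈ charDegrees ((z0 F false).hyp (n + 1)).PS := by
  rw [← D0 hq (DD_S (F := F) n.succ_pos 0)]
  exact Pol.cd_S rfl (Pol.dg1 (zero_add _) (by omega))

theorem d1 {n : ℕ} (h : 1 ≤ n ∨ 4 ≤ Nat.card F) : (Nat.card F ^ (n + 2) + 1) *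
    (Nat.card F ^ (2 * (n + 3)) - 1) * (∏ i ∈ range n, (Nat.card F ^ (2 * (i + 2)) - 1)) *
    Nat.card F ∈ charDegrees ((z0 F false).hyp (n + 3)).PS := by
  rw [← D1 hq (DD_S (F := F) (k := n + 2) (by omega) 1)]
  refine Pol.cd_S rfl (Pol.dgV (ani0 false) (by omega) (by omega) (by omega) ?_)
  simpa [z0] using Pol.pt2 (ani0 (F := F) false)

theorem d2 (n : ℕ) : ∃ d ∈ charDegrees ((z0 F false).hyp (n + 2)).PS,
    (Nat.card F + 1) * (Nat.card F ^ 2 - 1) * d = Nat.card F *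
      ((Nat.card F ^ (2 * (n + 1)) - 1) * (Nat.card F ^ (2 * (n + 2)) - 1)) := by
  obtain ⟨d, e, h⟩ := ca (P := (z0 F false).hyp n) rfl
  refine ⟨d, Pol.cd_S rfl ((Pol.hyp_add _ rfl).dg h), ?_⟩
  rw [← D2 hq (DD_S (F := F) two_pos n), mul_right_comm, e, mul_assoc]

theorem d3 {n : ℕ} (h : 2 * n = Nat.card F * (Nat.card F + 1) ^ 2) :
    n ∈ charDegrees ((z0 F false).hyp 2).PS := by
  refine Pol.cd_S rfl (Pol.dg3 (j := 1) ⟨?_, Nat.card F - 1, -Nat.card F - 1, ?_, ?_, ?_, ?_⟩)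
  · rw [sv_S]; exact Nat.one_lt_pow two_ne_zero hq
  · have := hq (F := F); omega
  · rw [sv_S]; push_cast; ring
  · rw [sv_S]; simp [z0]; ring
  · rw [sv_S, sv_S]
    zify at h ⊢
    linear_combination (Nat.card F * (Nat.card F - 1) : ℤ) * h

theorem all {X : Type*} [Group X] {q m d : ℕ}
    (hc : ∀ r, r.Prime → r ∣ Nat.card X → r ∣ q ∨ Dv q m r) (hd : d ∈ charDegrees X)
    (h : q ∣ d ∧ ∀ i < m, q ^ (2 * (i + 1)) - 1 ∣ d ^ 2) : Cov X := by
  have k : ∀ r, r.Prime → r ∣ Nat.card X → r ∣ d := fun r hr a =>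
    (hc r hr a).elim (·.trans h.1) fun ⟨i, hi, e⟩ => hr.dvd_of_dvd_pow (e.trans (h.2 i hi))
  exact fun r s hr hs hne a b => ⟨d, hd, mul_dvd hr hs hne (k r hr a) (k s hs b)⟩

theorem of_d2 {q r d c : ℕ} (hr : r.Prime) (h : ¬ r ∣ q ^ 2 - 1) (e : (q + 1) * (q ^ 2 - 1) * d = c)
    (a : r ∣ c) : r ∣ d := by
  refine (hr.dvd_mul.1 (e ▸ a)).resolve_left fun a => h ((hr.dvd_mul.1 a).elim (fun a => ?_) id)
  have := sq_sub q 1
  rw [pow_one, mul_one] at this
  exact this ▸ a.mul_right _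

theorem cov2 (h : 3 ≤ Nat.card F) : Cov ((z0 F false).hyp 2).PS := by
  obtain ⟨d, hd, e⟩ := d2 (F := F) 0
  rcases h.eq_or_lt with h3 | h4
  · refine all (fun r => cPS) hd ?_
    rw [← h3] at e ⊢
    obtain rfl : d = 60 := by omega
    decide
  have e1 := sq_sub (Nat.card F) 1
  have e2 := sq_sub (Nat.card F) 2
  rw [pow_one, mul_one] at e1
  obtain rfl : d = Nat.card F * ((Nat.card F ^ 2 + 1) * (Nat.card F - 1)) := by
    refine Nat.eq_of_mul_eq_mul_left (mul_pos (Nat.add_one_pos _) (pos hq two_ne_zero)) (e.trans ?_)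
    rw [zero_add, zero_add, mul_one, e2, e1]; ring
  refine glue (fun r => cPS) (fun r s hr hs hne a b => ⟨_, d0 (.inr ⟨rfl, h4⟩),
    mul_dvd hr hs hne (cov0 hr odd_one a) (cov0 hs odd_one b)⟩) fun r s hr hs hne a b => ?_
  by_cases c : s ∣ Nat.card F * ((Nat.card F ^ 2 + 1) * (Nat.card F - 1))
  · exact ⟨_, hd, mul_dvd hr hs hne (a.mul_right _) c⟩
  have b : s ∣ Nat.card F + 1 := by
    have := cov0 hs odd_one (b.resolve_left fun b => c (b.mul_right _))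
    rw [prod_range_one, zero_add, mul_one, e1, mul_left_comm] at this
    exact (hs.dvd_mul.1 this).resolve_right fun b => c (b.mul_left _)
  rcases Nat.even_or_odd' (Nat.card F) with ⟨t, ht | ht⟩
  · obtain ⟨u, hu⟩ := four_dvd ⟨t, ht⟩ h
    exact ⟨2 * u * (Nat.card F + 1) ^ 2, d3 (by rw [hu]; ring), mul_dvd hr hs hne (.mul_right
      (hr.dvd_of_dvd_pow (n := 2) (a.trans ⟨u, by rw [hu]; ring⟩)) _)
      ((dvd_pow b two_ne_zero).mul_left _)⟩
  · exact ⟨Nat.card F * ((t + 1) * (Nat.card F + 1)), d3 (by rw [ht]; ring),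
      mul_dvd hr hs hne (a.mul_right _) ((b.mul_left _).mul_left _)⟩

end FS
open FS

theorem cov_S {m : ℕ} (hm : 2 ≤ m) (h : m = 2 → 3 ≤ Nat.card F) : Cov ((z0 F false).hyp m).PS := by
  rcases hm.eq_or_lt with rfl | hm
  · exact cov2 (h rfl)
  obtain ⟨n, rfl⟩ : ∃ n, m = n + 3 := ⟨m - 3, by omega⟩
  obtain ⟨d, hd, e⟩ := d2 (F := F) (n + 1)
  by_cases c : 1 ≤ n ∨ 4 ≤ Nat.card F
  swap
  · obtain rfl : n = 0 := by omega
    refine all (fun r => cPS) hd ?_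
    obtain h3 | h3 : 2 = Nat.card F ∨ 3 = Nat.card F := by have := hq (F := F); omega
    · rw [← h3] at e ⊢
      obtain rfl : d = 210 := by omega
      decide
    · rw [← h3] at e ⊢
      obtain rfl : d = 5460 := by omega
      decide
  refine glue (fun r => cPS) (fun r s hr hs hne a b => ?_) fun r s hr hs hne a b => ?_
  · rcases Nat.even_or_odd n with o | o
    · have k := fun t ht (a : Dv (Nat.card F) (n + 3) t) =>
        ((cov1 ht a).resolve_right fun h => Nat.not_odd_iff_even.2 o h.1).mul_right (Nat.card F)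
      exact ⟨_, d1 c, mul_dvd hr hs hne (k r hr a) (k s hs b)⟩
    · exact ⟨_, d0 (.inl (by omega)), mul_dvd hr hs hne (cov0 hr (o.add_even even_two) a)
        (cov0 hs (o.add_even even_two) b)⟩
  rcases b.imp_right (cov1 hs) with b | b | ⟨-, b, b'⟩
  · exact ⟨_, d1 c, mul_dvd hr hs hne (a.mul_left _) (b.mul_left _)⟩
  · exact ⟨_, d1 c, mul_dvd hr hs hne (a.mul_left _) (b.mul_right _)⟩
  · refine ⟨d, hd, mul_dvd hr hs hne (of_d2 hr (not_dvd hq hr a two_ne_zero) e (a.mul_right _))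
      (of_d2 hs b' e (.mul_left (.mul_right ?_ _) _))⟩
    rw [sq_sub]
    exact b.mul_left _

end CF.Hc
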