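import Cfsg.Agent.Hc.A

/-! Arithmetic for the symplectic and odd-dimensional orthogonal groups. -/

set_option autoImplicit false

open Finset

namespace CF.Hc.FS

variable {q : ℕ}

/-- `r` divides one of the first `m` factors of the order -/
def Dv (q m r : ℕ) : Prop := ∃ i < m, r ∣ q ^ (2 * (i + 1)) - 1

theorem pos (hq : 2 ≤ q) {k : ℕ} (hk : k ≠ 0) : 0 < q ^ k - 1 :=
  Nat.sub_pos_of_lt (Nat.one_lt_pow hk hq)

theorem ppos (hq : 2 ≤ q) (m : ℕ) : 0 < ∏ i ∈ range m, (q ^ (2 * (i + 1)) - 1) :=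
  prod_pos fun _ _ => pos hq (by omega)

theorem sq_sub (q k : ℕ) : q ^ (2 * k) - 1 = (q ^ k + 1) * (q ^ k - 1) := by
  rw [mul_comm 2, pow_mul, ← Nat.sq_sub_sq, one_pow]

theorem two_dvd (q k : ℕ) : q ^ 2 - 1 ∣ q ^ (2 * k) - 1 := by
  rw [pow_mul]; exact Nat.sub_one_dvd_pow_sub_one _ _

theorem dv_of {r a m : ℕ} (hr : r.Prime) (h : r ∣ q ^ a * ∏ i ∈ range m, (q ^ (2 * (i + 1)) - 1)) :
    r ∣ q ∨ Dv q m r := by
  refine (hr.dvd_mul.1 h).imp hr.dvd_of_dvd_pow fun h => ?_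
  obtain ⟨i, hi, h⟩ := (Prime.dvd_finset_prod_iff hr.prime _).1 h
  exact ⟨i, mem_range.1 hi, h⟩

theorem not_dvd (hq : 2 ≤ q) {r k : ℕ} (hr : r.Prime) (h : r ∣ q) (hk : k ≠ 0) : ¬ r ∣ q ^ k - 1 :=
  fun e => hr.one_lt.ne' (Nat.dvd_one.1 ((Nat.dvd_sub_iff_right (Nat.one_le_pow _ _ (by omega))
    (dvd_pow h hk)).1 e))

theorem D0 (hq : 2 ≤ q) {D n : ℕ} (h : D * (q ^ (n + 1) - 1) * ∏ i ∈ range 0, (q ^ (2 * (i + 1)) - 1) =
    ∏ i ∈ range (0 + (n + 1)), (q ^ (2 * (i + 1)) - 1)) :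
    D = (q ^ (n + 1) + 1) * ∏ i ∈ range n, (q ^ (2 * (i + 1)) - 1) := by
  rw [zero_add, prod_range_succ, sq_sub q (n + 1), prod_range_zero, mul_one] at h
  exact Nat.eq_of_mul_eq_mul_right (pos hq n.succ_ne_zero) (h.trans (by ring))

theorem D1 (hq : 2 ≤ q) {D n : ℕ} (h : D * (q ^ (n + 2) - 1) * ∏ i ∈ range 1, (q ^ (2 * (i + 1)) - 1) =
    ∏ i ∈ range (1 + (n + 2)), (q ^ (2 * (i + 1)) - 1)) :
    D = (q ^ (n + 2) + 1) * (q ^ (2 * (n + 3)) - 1) * ∏ i ∈ range n, (q ^ (2 * (i + 2)) - 1) := by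
  rw [add_comm 1, prod_range_one, prod_range_succ, prod_range_succ, prod_range_succ',
    sq_sub q (n + 1 + 1)] at h
  exact Nat.eq_of_mul_eq_mul_right (mul_pos (pos hq (k := n + 2) (by omega))
    (pos hq (k := 2 * (0 + 1)) (by omega))) ((mul_assoc _ _ _).symm.trans (h.trans (by ring)))

theorem D2 (hq : 2 ≤ q) {D n : ℕ} (h : D * (q ^ 2 - 1) * ∏ i ∈ range n, (q ^ (2 * (i + 1)) - 1) =
    ∏ i ∈ range (n + 2), (q ^ (2 * (i + 1)) - 1)) :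
    D * (q ^ 2 - 1) = (q ^ (2 * (n + 1)) - 1) * (q ^ (2 * (n + 2)) - 1) := by
  rw [prod_range_succ, prod_range_succ] at h
  exact Nat.eq_of_mul_eq_mul_right (ppos hq n) (h.trans (by ring))

theorem cov0 {r n : ℕ} (hr : r.Prime) (hn : Odd n) (h : Dv q (n + 1) r) :
    r ∣ (q ^ (n + 1) + 1) * ∏ i ∈ range n, (q ^ (2 * (i + 1)) - 1) := by
  obtain ⟨i, hi, h⟩ := h
  have key : ∀ j < n, r ∣ q ^ (2 * (j + 1)) - 1 → r ∣ (q ^ (n + 1) + 1) *
      ∏ i ∈ range n, (q ^ (2 * (i + 1)) - 1) := fun j hj h =>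
    (h.trans (dvd_prod_of_mem (fun i => q ^ (2 * (i + 1)) - 1) (mem_range.2 hj))).mul_left _
  rcases (Nat.lt_succ_iff.1 hi).eq_or_lt with rfl | hi
  · rw [sq_sub] at h
    obtain ⟨a, rfl⟩ := hn
    exact (hr.dvd_mul.1 h).elim (·.mul_right _) (key a (by omega))
  · exact key i hi h

theorem cov1 {r n : ℕ} (hr : r.Prime) (h : Dv q (n + 3) r) :
    r ∣ (q ^ (n + 2) + 1) * (q ^ (2 * (n + 3)) - 1) * ∏ i ∈ range n, (q ^ (2 * (i + 2)) - 1) ∨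
      (Odd n ∧ r ∣ q ^ (n + 2) - 1 ∧ ¬ r ∣ q ^ 2 - 1) := by
  by_cases h2 : r ∣ q ^ 2 - 1
  · exact .inl (((h2.trans (two_dvd q _)).mul_left _).mul_right _)
  have key : ∀ j < n + 1, r ∣ q ^ (2 * (j + 1)) - 1 → r ∣ (q ^ (n + 2) + 1) *
      (q ^ (2 * (n + 3)) - 1) * ∏ i ∈ range n, (q ^ (2 * (i + 2)) - 1) := by
    rintro (_ | j) hj h
    · exact absurd h h2
    · exact (h.trans (dvd_prod_of_mem (fun i => q ^ (2 * (i + 2)) - 1)
        (mem_range.2 (by omega)))).mul_left _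
  obtain ⟨i, hi, h⟩ := h
  obtain rfl | rfl | hi : i = n + 2 ∨ i = n + 1 ∨ i < n + 1 := by omega
  · exact .inl ((h.mul_left _).mul_right _)
  · rw [sq_sub] at h
    rcases hr.dvd_mul.1 h with h | h
    · exact .inl ((h.mul_right _).mul_right _)
    · rcases Nat.even_or_odd' n with ⟨a, rfl | rfl⟩
      · exact .inl (key a (by omega) h)
      · exact .inr ⟨odd_two_mul_add_one a, h, h2⟩
  · exact .inl (key i hi h)

theorem glue {X : Type*} [Group X] {A : ℕ → Prop}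
    (hc : ∀ r, r.Prime → r ∣ Nat.card X → r ∣ q ∨ A r)
    (h0 : ∀ r s, r.Prime → s.Prime → r ≠ s → A r → A s → ∃ d ∈ Cfsg.charDegrees X, r * s ∣ d)
    (h1 : ∀ r s, r.Prime → s.Prime → r ≠ s → r ∣ q → s ∣ q ∨ A s →
      ∃ d ∈ Cfsg.charDegrees X, r * s ∣ d) : Cov X := by
  intro r s hr hs hne a b
  rcases hc r hr a with a | a
  · exact h1 r s hr hs hne a (hc s hs b)
  rcases hc s hs b with b | b
  · rw [mul_comm]; exact h1 s r hs hr hne.symm b (.inr a)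
  · exact h0 r s hr hs hne a b

theorem mul_dvd {r s n : ℕ} (hr : r.Prime) (hs : s.Prime) (h : r ≠ s) (a : r ∣ n) (b : s ∣ n) :
    r * s ∣ n := ((Nat.coprime_primes hr hs).2 h).mul_dvd_of_dvd_of_dvd a b

theorem four {r s n d : ℕ} (hr : r.Prime) (hs : s.Prime) (hne : r ≠ s) (a : r ∣ n) (b : s ∣ n)
    (h : n ∣ 4 * d) (h8 : 8 ∣ n ∨ r ≠ 2 ∧ s ≠ 2) : r * s ∣ d := by
  have key : ∀ t, t.Prime → t ∣ n → 8 ∣ n ∨ t ≠ 2 → t ∣ d := by
    intro t ht a h8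
    by_cases e : t = 2
    · have := (h8.resolve_right (not_not.2 e)).trans h
      subst e; omega
    · refine ((Nat.coprime_primes ht Nat.prime_two).2 e |>.pow_right 2).dvd_of_dvd_mul_left ?_
      exact a.trans h
  exact mul_dvd hr hs hne (key r hr a (h8.imp_right And.left)) (key s hs b (h8.imp_right And.right))

theorem eight (h : Odd q) (k : ℕ) : 8 ∣ q ^ (2 * k) - 1 := by
  refine Dvd.dvd.trans ?_ (two_dvd q k)
  obtain ⟨a, rfl⟩ := h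
  obtain ⟨b, hb⟩ := Nat.even_mul_succ_self a
  exact ⟨b, Nat.sub_eq_of_eq_add (by nlinarith)⟩

end CF.Hc.FS
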