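import Cfsg.Agent.Hc.A
import Mathlib.LinearAlgebra.Projectivization.Action
import Mathlib.LinearAlgebra.Projectivization.Cardinality

/-!
# The singular points of a polar space: action, counting, transitivity
-/

set_option autoImplicit false

open scoped LinearAlgebra.Projectivization
open Cfsg Matrix Projectivization

namespace CF.Hc
open CF.Char CF.Geom

variable {F : Type} [Field F] {V : Type} [AddCommGroup V] [Module F V]

namespace K1

/-- The singular points. -/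
def Pt (P : Pol F V) : Type := {p : ℙ F V // P.Q p.rep = 0}

variable {P : Pol F V}

instance [Finite V] : Finite (Pt P) := inferInstanceAs (Finite {p : ℙ F V // P.Q p.rep = 0})

theorem rep_mk {v : V} (hv : v ≠ 0) : ∃ c : F, c ≠ 0 ∧ (mk F v hv).rep = c • v := by
  obtain ⟨a, ha⟩ := exists_smul_eq_mk_rep F v hv
  exact ⟨a, a.ne_zero, ha.symm⟩

/-- The point of a singular vector. -/
def pt (v : V) (hv : v ≠ 0) (h : P.Q v = 0) : Pt P :=
  ⟨mk F v hv, by obtain ⟨c, -, e⟩ := rep_mk (F := F) hv; rw [e, P.smul, h, mul_zero]⟩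

theorem pt_rep (p : Pt P) : pt p.1.rep p.1.rep_nonzero p.2 = p := Subtype.ext (mk_rep p.1)

theorem exists_pt (p : Pt P) : ∃ v hv h, p = pt v hv h := ⟨_, _, _, (pt_rep p).symm⟩

theorem pt_eq {v w : V} {hv : v ≠ 0} {hw : w ≠ 0} {h : P.Q v = 0} {h' : P.Q w = 0} :
    pt v hv h = pt w hw h' ↔ ∃ c : F, v = c • w := by
  refine Subtype.ext_iff.trans ((mk_eq_mk_iff' F v w hv hw).trans ?_)
  exact exists_congr fun _ => eq_comm

theorem G_ne (g : P.G) {v : V} (hv : v ≠ 0) : g.1 v ≠ 0 := fun e => hv (g.1.map_eq_zero_iff.1 e)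

instance : MulAction P.G (Pt P) where
  smul g p := ⟨g.1 • p.1, by
    rw [← mk_rep p.1, smul_mk]
    obtain ⟨c, -, e⟩ := rep_mk (F := F) ((smul_ne_zero_iff_ne g.1).mpr p.1.rep_nonzero)
    rw [e, P.smul, LinearEquiv.smul_def, P.G_Q, p.2, mul_zero]⟩
  one_smul p := Subtype.ext (one_smul (V ≃ₗ[F] V) p.1)
  mul_smul g h p := Subtype.ext (mul_smul g.1 h.1 p.1)

theorem smul_pt (g : P.G) {v : V} (hv : v ≠ 0) (h : P.Q v = 0) :
    g • pt v hv h = pt (g.1 v) (G_ne g hv) ((P.G_Q g v).trans h) := rfl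

/-- Collinearity. -/
def R (x y : Pt P) : Prop := x ≠ y ∧ P.f x.1.rep y.1.rep = 0

theorem R_pt {v w : V} {hv : v ≠ 0} {hw : w ≠ 0} {h : P.Q v = 0} {h' : P.Q w = 0} :
    R (pt v hv h) (pt w hw h') ↔ (¬ ∃ c : F, w = c • v) ∧ P.f v w = 0 := by
  obtain ⟨c, hc, e⟩ := rep_mk (F := F) hv
  obtain ⟨c', hc', e'⟩ := rep_mk (F := F) hw
  rw [R, ne_comm, Ne, pt_eq]
  refine and_congr_right fun _ => ?_
  change P.f (mk F v hv).rep (mk F w hw).rep = 0 ↔ _
  simp [e, e', hc, hc']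

theorem R_symm (x y : Pt P) (h : R x y) : R y x := ⟨h.1.symm, P.refl h.2⟩

theorem R_irrefl (x : Pt P) : ¬ R x x := fun h => h.1 rfl

theorem R_smul (g : P.G) (x y : Pt P) (h : R x y) : R (g • x) (g • y) := by
  obtain ⟨v, hv, h1, rfl⟩ := exists_pt x
  obtain ⟨w, hw, h2, rfl⟩ := exists_pt y
  rw [smul_pt, smul_pt, R_pt, P.G_f]
  rw [R_pt] at h
  exact ⟨fun ⟨c, e⟩ => h.1 ⟨c, g.1.injective (by rw [e, map_smul])⟩, h.2⟩

theorem card_vec (Φ : Pt P → Prop) (Ψ : V → Prop)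
    (h : ∀ v, Ψ v ↔ ∃ hv h, Φ (pt v hv h)) :
    Nat.card {v // Ψ v} = (Nat.card F - 1) * Nat.card {p // Φ p} := by
  rw [← Nat.card_units, ← Nat.card_prod]
  have e : ∀ (c : Fˣ) (p : Pt P), ∃ hv h, pt (c.1 • p.1.rep) hv h = p := fun c p =>
    ⟨smul_ne_zero c.ne_zero p.1.rep_nonzero, by rw [P.smul, p.2, mul_zero],
      (pt_eq.2 ⟨c.1, rfl⟩).trans (pt_rep p)⟩
  refine (Nat.card_eq_of_bijective (fun z : Fˣ × {p // Φ p} =>
    (⟨z.1.1 • z.2.1.1.rep, (h _).2 (by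
      obtain ⟨a, b, c⟩ := e z.1 z.2.1
      exact ⟨a, b, c.symm ▸ z.2.2⟩)⟩ : {v // Ψ v})) ⟨?_, ?_⟩).symm
  · rintro ⟨c, p, hp⟩ ⟨c', p', hp'⟩ e'
    have e1 : c.1 • p.1.rep = c'.1 • p'.1.rep := congrArg Subtype.val e'
    obtain ⟨a, b, h1⟩ := e c p
    obtain ⟨a', b', h2⟩ := e c' p'
    obtain rfl : p = p' := by rw [← h1, ← h2]; exact pt_eq.2 ⟨1, by rw [e1, one_smul]⟩
    obtain rfl : c = c' := Units.ext (smul_left_injective F p.1.rep_nonzero e1)
    rfl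
  · rintro ⟨v, hv⟩
    obtain ⟨a, b, c⟩ := (h v).1 hv
    obtain ⟨d, hd, e1⟩ := rep_mk (F := F) a
    refine ⟨(Units.mk0 d⁻¹ (inv_ne_zero hd), ⟨_, c⟩), Subtype.ext ?_⟩
    change d⁻¹ • (mk F v a).rep = v
    rw [e1, inv_smul_smul₀ hd]

theorem fx_eq (g : P.G) :
    P.fx g = (Nat.card F - 1) * Nat.card (MulAction.fixedBy (Pt P) g) :=
  card_vec (fun p => g • p = p) _ fun v => by simp only [smul_pt, pt_eq, exists_prop]

theorem aj_eq (g : P.G) :
    P.aj g = (Nat.card F - 1) * Nat.card {x : Pt P // R x (g • x)} :=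
  card_vec (fun p => R p (g • p)) _ fun v => by simp only [smul_pt, R_pt, exists_prop]

theorem neg_smul_pt (p : Pt P) : P.neg • p = p := by
  obtain ⟨v, hv, h, rfl⟩ := exists_pt p
  rw [smul_pt, pt_eq]
  exact ⟨-1, by simp⟩

theorem card_ne [Finite V] : Nat.card {v // v ≠ 0 ∧ P.Q v = 0} + 1 = P.sv := by
  classical
  rw [Pol.sv, ← Nat.card_congr (Equiv.optionSubtypeNe (⟨0, map_zero _⟩ : {v // P.Q v = 0})),
    Finite.card_option]
  congr 1
  exact Nat.card_congr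
    { toFun := fun v => ⟨⟨v.1, v.2.2⟩, fun e => v.2.1 (congrArg Subtype.val e)⟩
      invFun := fun v => ⟨v.1.1, fun e => v.2 (Subtype.ext e), v.1.2⟩
      left_inv := fun _ => rfl
      right_inv := fun _ => rfl }

theorem card_Pt [Finite V] : (Nat.card F - 1) * Nat.card (Pt P) + 1 = P.sv := by
  rw [← card_ne, card_vec (P := P) (fun _ => True) _ fun v => by simp only [exists_prop, and_true],
    Nat.card_congr (Equiv.subtypeUnivEquiv fun _ => trivial)]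

theorem trans [Finite V] {H : Type*} [Group H] (ι : H →* P.G)
    (hι : ∀ (g : P.G) u v, P.Q u = 0 → P.Q v = 0 →
      ∃ γ : H, (ι γ).1 u = g.1 u ∧ (ι γ).1 v = g.1 v)
    (x y x' y' : Pt P) (h : x ≠ y) (h' : x' ≠ y') (e : R x y ↔ R x' y') :
    ∃ g : H, ι g • x = x' ∧ ι g • y = y' := by
  obtain ⟨u, hu, u1, rfl⟩ := exists_pt x
  obtain ⟨v, hv, v1, rfl⟩ := exists_pt y
  obtain ⟨u', hu', u2, rfl⟩ := exists_pt x'
  obtain ⟨v', hv', v2, rfl⟩ := exists_pt y'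
  rw [ne_comm, Ne, pt_eq] at h h'
  simp only [R_pt, h, h', not_false_eq_true, true_and] at e
  obtain ⟨c, hc, hc'⟩ : ∃ c : F, c ≠ 0 ∧ P.f u' (c • v') = P.f u v := by
    by_cases h0 : P.f u v = 0
    · exact ⟨1, one_ne_zero, by rw [one_smul, h0, e.1 h0]⟩
    · have h1 : P.f u' v' ≠ 0 := fun h1 => h0 (e.2 h1)
      exact ⟨P.f u v / P.f u' v', div_ne_zero h0 h1, by rw [map_smul, smul_eq_mul]; field_simp⟩
  have li : ∀ {a b : V}, a ≠ 0 → (¬ ∃ c : F, b = c • a) → LinearIndependent F ![a, b] :=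
    fun ha hb => (LinearIndependent.pair_iff' ha).2 fun c e => hb ⟨c, e.symm⟩
  obtain ⟨g, hg, g1, g2⟩ := P.wp.exists_isom_pair (li hu h) (li (b := c • v') hu' fun ⟨d, e⟩ =>
    h' ⟨c⁻¹ * d, by rw [mul_smul, ← e, inv_smul_smul₀ hc]⟩) (u2.trans u1.symm)
    (by rw [P.smul, v2, v1, mul_zero]) hc'
  obtain ⟨γ, h1, h2⟩ := hι ⟨g, hg⟩ u v u1 v1
  exact ⟨γ, by rw [smul_pt, pt_eq]; exact ⟨1, by rw [h1, one_smul]; exact g1⟩,
    by rw [smul_pt, pt_eq]; exact ⟨c, h2.trans g2⟩⟩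

/-! ### The hyperbolic extension -/

theorem f1_eq (a : Fin 1 → F) : a = a 0 • fun _ => (1 : F) := by
  funext i; rw [Subsingleton.elim i 0]; simp

theorem f1_zero {a : Fin 1 → F} : a = 0 ↔ a 0 = 0 :=
  ⟨fun e => by rw [e]; rfl, fun e => by rw [f1_eq a, e, zero_smul]⟩

theorem card_b0 (Φ : V → Prop) :
    Nat.card {w : HV F 1 V // w.2.2 = 0 ∧ Φ w.2.1} = Nat.card F * Nat.card {v // Φ v} := by
  rw [← Nat.card_prod]
  exact Nat.card_congr
    { toFun := fun w => (w.1.1 0, ⟨w.1.2.1, w.2.2⟩)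
      invFun := fun z => ⟨(fun _ => z.1, z.2.1, 0), rfl, z.2.2⟩
      left_inv := fun w => Subtype.ext (Prod.ext (funext fun i => by rw [Subsingleton.elim i 0])
        (Prod.ext rfl w.2.1.symm))
      right_inv := fun _ => rfl }

theorem card_ab0 (Φ : V → Prop) :
    Nat.card {w : HV F 1 V // w.1 = 0 ∧ w.2.2 = 0 ∧ Φ w.2.1} = Nat.card {v // Φ v} :=
  Nat.card_congr
    { toFun := fun w => ⟨w.1.2.1, w.2.2.2⟩
      invFun := fun z => ⟨(0, z.1, 0), rfl, rfl, z.2⟩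
      left_inv := fun w => Subtype.ext (Prod.ext w.2.1.symm (Prod.ext rfl w.2.2.1.symm))
      right_inv := fun _ => rfl }

theorem Q1 (w : HV F 1 V) : (P.hyp 1).Q w = P.d * (w.1 0 * w.2.2 0) + P.Q w.2.1 := by
  simp [Pol.hyp_Q, dotProduct]

theorem f1 (w w' : HV F 1 V) :
    (P.hyp 1).f w w' = w.1 0 * w'.2.2 0 + P.f w.2.1 w'.2.1 + P.e * (w.2.2 0 * w'.1 0) := by
  simp [Pol.hyp_f, dotProduct]

theorem card_b1 : Nat.card {w : HV F 1 V // w.2.2 ≠ 0 ∧ (P.hyp 1).Q w = 0} =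
    (Nat.card F - 1) * (if P.o then Nat.card V else Nat.card F * Nat.card V) := by
  rw [← Nat.card_units]
  rcases P.cases with h | h
  · rw [if_pos h.1, ← Nat.card_prod]
    refine (Nat.card_eq_of_bijective (fun z : Fˣ × V => (⟨(fun _ => -P.Q z.2 / z.1, z.2, fun _ => z.1),
      fun e => z.1.ne_zero (congrFun e 0), by rw [Q1, h.2.2.1]; simp⟩ :
      {w : HV F 1 V // w.2.2 ≠ 0 ∧ (P.hyp 1).Q w = 0})) ⟨?_, ?_⟩).symm
    · intro z z' e
      have e' := congrArg Subtype.val e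
      exact Prod.ext (Units.ext (congrFun (congrArg (·.2.2) e') 0)) (congrArg (·.2.1) e')
    · rintro ⟨w, h1, h2⟩
      rw [Ne, f1_zero] at h1
      rw [Q1, h.2.2.1] at h2
      refine ⟨(Units.mk0 _ h1, w.2.1), Subtype.ext (Prod.ext (funext fun i => ?_)
        (Prod.ext rfl (funext fun i => ?_)))⟩
      · rw [Subsingleton.elim i 0]
        change -P.Q w.2.1 / w.2.2 0 = w.1 0
        field_simp
        linear_combination -h2
      · rw [Subsingleton.elim i 0]; rfl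
  · rw [if_neg (by simp [h.1]), ← Nat.card_prod, ← Nat.card_prod]
    refine (Nat.card_eq_of_bijective (fun z : Fˣ × F × V => (⟨(fun _ => z.2.1, z.2.2, fun _ => z.1),
      fun e => z.1.ne_zero (congrFun e 0), by rw [Q1, h.2.2.1, h.2.2.2.1]; simp⟩ :
      {w : HV F 1 V // w.2.2 ≠ 0 ∧ (P.hyp 1).Q w = 0})) ⟨?_, ?_⟩).symm
    · intro z z' e
      have e' := congrArg Subtype.val e
      exact Prod.ext (Units.ext (congrFun (congrArg (·.2.2) e') 0))
        (Prod.ext (congrFun (congrArg (·.1) e') 0) (congrArg (·.2.1) e'))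
    · rintro ⟨w, h1, h2⟩
      rw [Ne, f1_zero] at h1
      refine ⟨(Units.mk0 _ h1, w.1 0, w.2.1), Subtype.ext (Prod.ext (funext fun i => ?_)
        (Prod.ext rfl (funext fun i => ?_)))⟩ <;> rw [Subsingleton.elim i 0] <;> rfl

theorem sv1 [Finite F] [Finite V] : (P.hyp 1).sv = Nat.card F * P.sv +
    (Nat.card F - 1) * (if P.o then Nat.card V else Nat.card F * Nat.card V) := by
  classical
  rw [← card_b1, Pol.sv, Pol.sv, ← card_b0, ← Nat.card_sum]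
  refine Nat.card_congr ((Equiv.sumCompl fun w : {w // (P.hyp 1).Q w = 0} => w.1.2.2 = 0).symm.trans
    (Equiv.sumCongr ((Equiv.subtypeSubtypeEquivSubtypeInter _ (fun w : HV F 1 V => w.2.2 = 0)).trans
      (Equiv.subtypeEquivRight fun w => ?_))
      ((Equiv.subtypeSubtypeEquivSubtypeInter _ (fun w : HV F 1 V => ¬ w.2.2 = 0)).trans
      (Equiv.subtypeEquivRight fun w => and_comm))))
  rw [and_comm]
  refine and_congr_right fun e => ?_
  rw [Q1, e]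
  simp

variable (P) in
/-- The first base point. -/
noncomputable def x0 : Pt (P.hyp 1) := pt (fun _ => 1, 0, 0) (fun e => one_ne_zero (congrFun (congrArg (·.1) e) 0))
  (by simp [Q1])

variable (P) in
/-- The second base point. -/
noncomputable def z0 : Pt (P.hyp 1) := pt (0, 0, fun _ => 1)
  (fun e => one_ne_zero (congrFun (congrArg (·.2.2) e) 0)) (by simp [Q1])

theorem R_x0 {w : HV F 1 V} {hw : w ≠ 0} {h : (P.hyp 1).Q w = 0} :
    R (x0 P) (pt w hw h) ↔ w.2.2 = 0 ∧ w.2.1 ≠ 0 := by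
  rw [x0, R_pt, f1, and_comm, f1_zero]
  simp only [one_mul, map_zero, LinearMap.zero_apply, Pi.zero_apply, zero_mul, mul_zero, add_zero]
  refine and_congr_right fun e => not_congr ⟨fun ⟨c, e'⟩ => by rw [e']; simp, fun e' => ⟨w.1 0, ?_⟩⟩
  exact Prod.ext (f1_eq _) (Prod.ext (by simp [e']) (by simp [f1_zero, e]))

theorem R_z0 {w : HV F 1 V} {hw : w ≠ 0} {h : (P.hyp 1).Q w = 0} :
    R (z0 P) (pt w hw h) ↔ w.1 = 0 ∧ w.2.1 ≠ 0 := by
  have he : P.e ≠ 0 := left_ne_zero_of_mul_eq_one P.e_sq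
  rw [z0, R_pt, f1, and_comm, f1_zero]
  simp only [one_mul, map_zero, LinearMap.zero_apply, Pi.zero_apply, zero_mul, zero_add,
    mul_eq_zero, he, false_or]
  refine and_congr_right fun e => not_congr ⟨fun ⟨c, e'⟩ => by rw [e']; simp, fun e' => ⟨w.2.2 0, ?_⟩⟩
  exact Prod.ext (by simp [f1_zero, e]) (Prod.ext (by simp [e']) (f1_eq _))

theorem x0_ne : x0 P ≠ z0 P := fun e => by
  obtain ⟨c, e⟩ := pt_eq.1 e
  simpa using congrFun (congrArg (·.1) e) 0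

theorem not_R : ¬ R (x0 P) (z0 P) := fun h => (R_x0.1 h).2 rfl

theorem card_k : Nat.card F * Nat.card {v // v ≠ 0 ∧ P.Q v = 0} =
    (Nat.card F - 1) * Nat.card {y // R (x0 P) y} := by
  rw [← card_b0 fun v => v ≠ 0 ∧ P.Q v = 0]
  refine card_vec _ _ fun w => ?_
  simp only [R_x0, exists_prop]
  refine ⟨fun ⟨h1, h2, h3⟩ => ⟨fun e => h2 (by rw [e]; rfl), by simp [Q1, h1, h3], h1, h2⟩,
    fun ⟨_, h2, h3, h4⟩ => ⟨h3, h4, by simpa [Q1, h3] using h2⟩⟩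

theorem card_mu : Nat.card {v // v ≠ 0 ∧ P.Q v = 0} =
    (Nat.card F - 1) * Nat.card {y // R (x0 P) y ∧ R (z0 P) y} := by
  rw [← card_ab0 (F := F) fun v => v ≠ 0 ∧ P.Q v = 0]
  refine card_vec _ _ fun w => ?_
  simp only [R_x0, R_z0, exists_prop]
  refine ⟨fun ⟨h0, h1, h2, h3⟩ => ⟨fun e => h2 (by rw [e]; rfl), by simp [Q1, h1, h3], ⟨h1, h2⟩, h0, h2⟩,
    fun ⟨_, h2, ⟨h3, h4⟩, h5, _⟩ => ⟨h5, h3, h4, by simpa [Q1, h3] using h2⟩⟩

end K1
end CF.Hc
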