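import Cfsg.Agent.Hc.A
import Cfsg.Agent.Char.Kernel

/-!
# The Mackey formula with one relevant double coset
-/

set_option autoImplicit false

open scoped ComplexConjugate MatrixGroups
open Cfsg Finset Matrix

namespace CF.Hc
open CF.Char CF.Geom CF.Cusp

variable {G : Type*} [Group G] [Fintype G]

omit [Fintype G] in
theorem MS_mul (H : Subgroup G) [Fintype H] {Ψ : H → ℂ} (hΨ : IsClassFunction H Ψ) {p p' : G}
    (hp : p ∈ H) (hp' : p' ∈ H) (g : G) : MS H Ψ (p * g * p') = MS H Ψ g := by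
  unfold MS
  refine (Fintype.sum_equiv (MulAut.conj (⟨p, hp⟩ : H)).toEquiv _ _ fun h => ?_).symm
  have e1 : Ψ ((MulAut.conj (⟨p, hp⟩ : H)).toEquiv h) = Ψ h := hΨ h ⟨p, hp⟩
  have e2 : (p * g * p')⁻¹ * (((MulAut.conj (⟨p, hp⟩ : H)).toEquiv h : H) : G) * (p * g * p') =
      p'⁻¹ * (g⁻¹ * h * g) * p'⁻¹⁻¹ := by
    change (p * g * p')⁻¹ * (p * h * p⁻¹) * (p * g * p') = _
    group
  rw [e1, e2, extendByZero_conj_of_mem H hΨ (H.inv_mem hp')]

namespace M0

theorem inner_eq (H : Subgroup G) [Fintype H] (Ψ : H → ℂ) :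
    (Nat.card H : ℂ) ^ 2 * classInner (indFun H Ψ) (indFun H Ψ) = ∑ x, MS H Ψ x := by
  have h0 : (Nat.card H : ℂ) ≠ 0 := card_ne_zero_complex
  rw [inner_indFun_left H Ψ (indFun_isClassFunction H Ψ), pow_two, mul_assoc, card_mul_inner,
    Finset.mul_sum]
  unfold MS
  rw [Finset.sum_comm]
  refine Finset.sum_congr rfl fun h _ => ?_
  rw [indFun_apply, map_mul, map_sum, map_inv₀, map_natCast, ← Finset.mul_sum]
  field_simp

omit [Fintype G] in
theorem MS_mem (H : Subgroup G) [Fintype H] {Ψ : H → ℂ} (hΨ : IsIrrCharacter H Ψ) {x : G}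
    (hx : x ∈ H) : MS H Ψ x = Nat.card H := by
  have e : x = x * 1 * 1 := by group
  rw [e, MS_mul H (irr_isClassFunction hΨ) hx H.one_mem]
  have := card_mul_inner Ψ Ψ
  rw [inner_irr_self hΨ, mul_one] at this
  rw [this]
  unfold MS
  refine Finset.sum_congr rfl fun h _ => ?_
  rw [inv_one, one_mul, mul_one, extendByZero_coe]

open _root_.Classical in
/-- The size of a double coset. -/
theorem card_dc (H : Subgroup G) (s : G) :
    #{g : G | ∃ p ∈ H, ∃ p' ∈ H, g = p * s * p'} * Nat.card {h : H // s⁻¹ * h * s ∈ H} =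
      Nat.card H ^ 2 := by
  have key := Finset.card_eq_sum_card_fiberwise (s := (univ : Finset (H × H)))
    (t := ({g : G | ∃ p ∈ H, ∃ p' ∈ H, g = p * s * p'} : Finset G))
    (f := fun x => (x.1 : G) * s * x.2) (fun x _ => by
      simp only [Finset.coe_filter, mem_univ, true_and, Set.mem_ofPred_eq]
      exact ⟨_, x.1.2, _, x.2.2, rfl⟩)
  rw [Finset.card_univ, Fintype.card_prod, ← Nat.card_eq_fintype_card, ← pow_two] at key
  rw [key, ← smul_eq_mul, ← Finset.sum_const]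
  refine Finset.sum_congr rfl fun g hg => ?_
  obtain ⟨p, hp, p', hp', rfl⟩ := (Finset.mem_filter.1 hg).2
  rw [← Fintype.card_coe, ← Nat.card_eq_fintype_card]
  refine Nat.card_congr ⟨fun h => ⟨(⟨p, hp⟩ * h.1, (⟨_, h.2⟩ : H)⁻¹ * ⟨p', hp'⟩), ?_⟩,
    fun x => ⟨(⟨p, hp⟩ : H)⁻¹ * x.1.1, ?_⟩, fun h => ?_, fun x => ?_⟩
  · simp only [Finset.mem_filter, mem_univ, true_and, Subgroup.coe_mul, Subgroup.coe_inv]
    group
  · have e := (Finset.mem_filter.1 x.2).2
    have e2 : s⁻¹ * (((⟨p, hp⟩ : H)⁻¹ * x.1.1 : H) : G) * s = p' * (x.1.2 : G)⁻¹ := by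
      simp only [Subgroup.coe_mul, Subgroup.coe_inv]
      calc _ = s⁻¹ * p⁻¹ * ((x.1.1 : G) * s * x.1.2) * (x.1.2 : G)⁻¹ := by group
        _ = _ := by rw [e]; group
    rw [e2]
    exact H.mul_mem hp' (H.inv_mem x.1.2.2)
  · ext; simp
  · have e := (Finset.mem_filter.1 x.2).2
    ext
    · simp
    · simp only [Subgroup.coe_mul, Subgroup.coe_inv]
      calc _ = s⁻¹ * (x.1.1 : G)⁻¹ * (p * s * p') := by group
        _ = s⁻¹ * (x.1.1 : G)⁻¹ * ((x.1.1 : G) * s * x.1.2) :=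
          congrArg (fun y => s⁻¹ * (x.1.1 : G)⁻¹ * y) e.symm
        _ = _ := by group

end M0

theorem mackey (H : Subgroup G) [Fintype H] {Ψ : H → ℂ} (hΨ : IsIrrCharacter H Ψ) {s : G}
    (hs : s ∉ H) (h0 : ∀ g, g ∉ H → (¬ ∃ p ∈ H, ∃ p' ∈ H, g = p * s * p') → MS H Ψ g = 0) :
    classInner (indFun H Ψ) (indFun H Ψ) =
      1 + MS H Ψ s / Nat.card {h : H // s⁻¹ * h * s ∈ H} := by
  classical
  have hH : (Nat.card H : ℂ) ≠ 0 := card_ne_zero_complex
  have hc : (Nat.card {h : H // s⁻¹ * h * s ∈ H} : ℂ) ≠ 0 := by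
    haveI : Nonempty {h : H // s⁻¹ * h * s ∈ H} := ⟨⟨1, by simp⟩⟩
    exact_mod_cast Nat.card_pos.ne'
  have e1 : ∀ x, MS H Ψ x = (if x ∈ H then (Nat.card H : ℂ) else 0) +
      if ∃ p ∈ H, ∃ p' ∈ H, x = p * s * p' then MS H Ψ s else 0 := by
    intro x
    by_cases h2 : ∃ p ∈ H, ∃ p' ∈ H, x = p * s * p'
    · have h1 : x ∉ H := by
        obtain ⟨p, hp, p', hp', rfl⟩ := h2
        intro h
        exact hs ((H.mul_mem_cancel_left hp).1 ((H.mul_mem_cancel_right hp').1 h))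
      rw [if_neg h1, if_pos h2, zero_add]
      obtain ⟨p, hp, p', hp', rfl⟩ := h2
      exact MS_mul H (irr_isClassFunction hΨ) hp hp' s
    · by_cases h1 : x ∈ H
      · rw [if_pos h1, if_neg h2, add_zero, M0.MS_mem H hΨ h1]
      · rw [if_neg h1, if_neg h2, add_zero, h0 x h1 h2]
  have e2 := M0.inner_eq H Ψ
  rw [Finset.sum_congr rfl fun x _ => e1 x, Finset.sum_add_distrib, ← Finset.sum_filter,
    ← Finset.sum_filter, Finset.sum_const, Finset.sum_const, nsmul_eq_mul, nsmul_eq_mul] at e2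
  have e3 : (#{x : G | x ∈ H} : ℂ) = Nat.card H := by
    rw [Nat.card_eq_fintype_card, Fintype.card_of_subtype ({x : G | x ∈ H} : Finset G) (by simp)]
  have e4 := congrArg (Nat.cast : ℕ → ℂ) (M0.card_dc H s)
  push_cast at e4
  rw [e3] at e2
  apply mul_left_cancel₀ (pow_ne_zero 2 hH)
  rw [e2, mul_add, ← e4]
  field_simp
  rw [← e4]
  ring_nf

theorem even_of_ind (H : Subgroup G) [Fintype H] {Ψ : H → ℂ} (hΨ : IsCharacter H Ψ) {z : G}
    (hz : z ∈ Subgroup.center G) (hH : z ∈ H) (e : Ψ ⟨z, hH⟩ = Ψ 1) {χ : G → ℂ}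
    (hχ : IsIrrCharacter G χ) (h : classInner (indFun H Ψ) χ ≠ 0) : χ z = χ 1 := by
  have hi := char_indFun H hΨ
  refine (mem_charKer_iff (irr_isCharacter hχ)).1
    (charKer_le_of_inner_ne_zero hi hχ h ((mem_charKer_iff hi).2 ?_))
  rw [indFun_apply, indFun_apply]
  congr 1
  refine Finset.sum_congr rfl fun x _ => ?_
  have e1 : x⁻¹ * z * x = z := by
    rw [mul_assoc, ← Subgroup.mem_center_iff.1 hz x, inv_mul_cancel_left]
  rw [e1, mul_one, inv_mul_cancel, extendByZero_of_mem H Ψ hH, e,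
    extendByZero_of_mem H Ψ H.one_mem]
  rfl

end CF.Hc
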