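import Cfsg.Agent.Hc.M0
import Cfsg.Agent.Hc.N0
import Cfsg.Agent.Hc.B

/-!
# Vanishing of the Mackey terms
-/

set_option autoImplicit false

open scoped ComplexConjugate MatrixGroups
open Cfsg Finset Matrix

namespace CF.Hc
open CF.Char CF.Geom CF.Cusp

namespace M1

theorem ext_mem {G : Type*} [Group G] (H : Subgroup G) (θ : H → ℂ) {g : G} (hg : g ∈ H) :
    extendByZero H θ g = θ ⟨g, hg⟩ := Subtype.val_injective.extend_apply θ 0 ⟨g, hg⟩

theorem ext_not {G : Type*} [Group G] (H : Subgroup G) (θ : H → ℂ) {g : G} (hg : g ∉ H) :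
    extendByZero H θ g = 0 :=
  Function.extend_apply' _ _ _ fun ⟨a, e⟩ => hg (e ▸ a.2)

theorem shift {G K : Type*} [Group G] [Fintype K] [Nonempty K] (H : Subgroup G) [Fintype H]
    (Ψ : H → ℂ) (g : G) (ρ ρ' : K → H) (e : ∀ z, (ρ' z : G) = g⁻¹ * ρ z * g)
    (h : ∀ x x' : H, ∑ z, Ψ (x * ρ z) * conj (Ψ (x' * ρ' z)) = 0) : MS H Ψ g = 0 := by
  have h1 : ∀ z, MS H Ψ g =
      ∑ x : H, Ψ (x * ρ z) * conj (extendByZero H Ψ (g⁻¹ * x * g * ρ' z)) := fun z => by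
    rw [MS, ← Equiv.sum_comp (Equiv.mulRight (ρ z))]
    refine sum_congr rfl fun x _ => ?_
    simp only [Equiv.coe_mulRight, Subgroup.coe_mul, e, mul_assoc, mul_inv_cancel_left]
  have h2 : ∑ _z : K, MS H Ψ g = 0 := by
    rw [sum_congr rfl fun z _ => h1 z, sum_comm]
    refine sum_eq_zero fun x _ => ?_
    by_cases hx : g⁻¹ * x * g ∈ H
    · rw [← h x ⟨_, hx⟩]
      exact sum_congr rfl fun z _ => by rw [ext_mem H Ψ (mul_mem hx (ρ' z).2)]; rfl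
    · exact sum_eq_zero fun z _ => by
        rw [ext_not H Ψ fun h => hx ((mul_mem_cancel_right (ρ' z).2).1 h), map_zero, mul_zero]
  simpa using h2

variable {F : Type} [Field F] {k : ℕ}

theorem mem_range {E : Type} [AddCommGroup E] [Module F E] (D : E →ₗ[F] (Fin k → F))
    {l : Fin k → F} (h : ∀ w, (∀ a, w ⬝ᵥ D a = 0) → l ⬝ᵥ w = 0) : ∃ a, D a = l := by
  by_contra hl
  obtain ⟨f, h1, h2⟩ := (LinearMap.range D).exists_dual_map_eq_bot_of_notMem hl inferInstance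
  have hf : ∀ v, f v = (fun i => f (Pi.single i 1)) ⬝ᵥ v := fun v => by
    rw [LinearMap.pi_apply_eq_sum_univ f v, dotProduct]
    refine sum_congr rfl fun i _ => ?_
    rw [smul_eq_mul, mul_comm]
    congr 2
    ext j
    simp [Pi.single_apply, eq_comm]
  refine h1 ?_
  rw [hf, dotProduct_comm]
  refine h _ fun a => ?_
  rw [← hf, ← Submodule.mem_bot F, ← h2]
  exact Submodule.mem_map_of_mem ⟨a, rfl⟩

variable [Fintype F] [DecidableEq F] {V : Type} [AddCommGroup V] [Module F V] [Fintype V]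
  {P : Pol F V}
open Pol

omit [Fintype F] [DecidableEq F] [Fintype V] in
theorem conj_eq {g r : P.G} {v w : V} (h : r.1 (g.1 v) = g.1 w) : (g⁻¹ * r * g).1 v = w :=
  inv_eq h.symm

/-- The group over which the Mackey term is averaged. -/
noncomputable def KK (g : (P.hyp k).G) : Subgroup (P.Par k) :=
  (P.p2 k).ker ⊓ (P.Un k).comap ((MulAut.conj g⁻¹).toMonoidHom.comp (P.Par k).subtype)

theorem mem_KK {g : (P.hyp k).G} {z : P.Par k} :
    z ∈ KK g ↔ P.p2 k z = 1 ∧ g⁻¹ * z * g ∈ P.Un k := by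
  simp [KK, Subgroup.mem_comap]

theorem key {g : (P.hyp k).G} {a : Fin k → F} {y : HV F k V} (h0 : a ⬝ᵥ y.2.2 = 0)
    (h1 : ∀ c, (P.hyp k).f (g.1 (c, 0)) (a, 0) = 0) (h2 : ∀ c, (P.hyp k).f (g.1 (c, 0)) y = 0)
    (h3 : ∀ v, ∃ c, (P.hyp k).f (g.1 (0, v, 0)) (a, 0) • y -
      (P.e * (P.hyp k).f (g.1 (0, v, 0)) y) • ((a, 0) : HV F k V) -
      ((P.hyp k).Q y * (P.hyp k).f (g.1 (0, v, 0)) (a, 0)) • ((a, 0) : HV F k V) = g.1 (c, 0)) :
    ∃ z : KK g, ((P.p1 k).comp (KK g).subtype z).1 = 1 + vecMulVec a (-P.e • y.2.2) := by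
  obtain ⟨r, hr⟩ := (P.hyp k).eich (a := (a, 0)) (y := y) (by simp [hyp_Q]) (by simpa [hyp_f])
  have h4 : ∀ c v, r.1 (c, v, 0) = (c - (P.e * (P.hyp k).f (c, v, 0) y) • a, v, 0) := fun c v => by
    rw [hr, show (P.hyp k).f (c, v, 0) (a, 0) = 0 by simp [hyp_f]]
    simp
  have hp : r ∈ P.Par k := fun c => congrArg Prod.snd (h4 c 0)
  refine ⟨⟨⟨r, hp⟩, mem_KK.2 ⟨p2_eq fun v => congrArg (·.2.1) (h4 0 v), mem_Un.2 ⟨fun c => ?_,
    fun v => ?_⟩⟩⟩, ?_⟩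
  · refine conj_eq ?_
    rw [hr, h1, h2]
    simp
  · obtain ⟨c, hc⟩ := h3 v
    have : (g⁻¹ * r * g).1 (0, v, 0) = (0, v, 0) + (c, 0) := by
      refine conj_eq ?_
      rw [map_add, ← hc, hr, hyp_e]
      abel
    rw [this]
    simp
  · refine toLin'.injective (LinearMap.ext fun c => ?_)
    have := (p1_spec ⟨r, hp⟩ c).symm.trans (h4 c 0)
    refine (congrArg Prod.fst this).trans ?_
    simp [hyp_f, add_mulVec, vecMulVec_mulVec, sub_eq_add_neg, dotProduct_comm c, mul_smul]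

theorem van1 {ψ : GL (Fin k) F → ℂ} (hψ : IsCharacter _ ψ) (hc : IsCusp ψ) (φ : P.G → ℂ)
    {g : (P.hyp k).G} {X : Submodule F (Fin k → F)} (h0 : X ≠ ⊥) (h1 : X ≠ ⊤)
    (h : ∀ a ∈ X, ∀ l : Fin k → F, (∀ w ∈ X, l ⬝ᵥ w = 0) →
      ∃ z : KK g, ((P.p1 k).comp (KK g).subtype z).1 = 1 + vecMulVec a l) :
    MS (P.Par k) (P.Psi k ψ φ) g = 0 := by
  have := Fintype.ofFinite (KK g)
  refine shift _ _ g (fun z : KK g => z.1) (fun z => ⟨_, Un_le (mem_KK.1 z.2).2⟩) (fun _ => rfl)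
    fun x x' => ?_
  have e := fun z : KK g => p_Un (g := ⟨_, Un_le (mem_KK.1 z.2).2⟩) (mem_KK.1 z.2).2
  simp only [Psi, map_mul, e, (mem_KK.1 (Subtype.prop _)).1, mul_one]
  rw [← sum_mul, ← sum_mul]
  exact mul_eq_zero_of_left (mul_eq_zero_of_left (cu_sum hψ hc h0 h1 _ h _) _) _

theorem van2 {ψ : GL (Fin k) F → ℂ} (hψ : IsCharacter _ ψ) {φ : P.G → ℂ}
    (hφ : IsCharacter _ φ) (iv : P.IV ψ φ) {g : (P.hyp k).G} (β : (Fin k → F) →ₗ[F] V)
    (h : ∀ a, g.1 (a, 0) = (0, β a, 0)) : MS (P.Par k) (P.Psi k ψ φ) g = 0 := by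
  have h0 := iv β ((injective_iff_map_eq_zero _).2 fun a ha => (Prod.ext_iff.1
      (g.1.injective (a₁ := (a, 0)) (a₂ := 0) (by rw [h, ha, map_zero]; rfl))).1)
    (fun a => by simpa [hyp_Q, h] using (P.hyp k).G_Q g (a, 0))
    fun a b => by simpa [hyp_f, h] using (P.hyp k).G_f g (a, 0) (b, 0)
  have h1 : ∀ (z : P.QS β) a, (g⁻¹ * P.lev 1 z.1.1 * g).1 (a, 0) = (z.1.2.1 *ᵥ a, 0) := fun z a => by
    refine conj_eq ?_
    simp [h, lev_apply, z.2.1]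
  have h2 : ∀ z : P.QS β, g⁻¹ * P.lev 1 z.1.1 * g ∈ P.Par k := fun z a => congrArg Prod.snd (h1 z a)
  have h3 : ∀ z : P.QS β, P.p1 k ⟨_, h2 z⟩ = z.1.2 := fun z =>
    p1_eq fun a => congrArg Prod.fst (h1 z a)
  have h4 : ∀ z : P.QS β, P.p2 k ⟨_, h2 z⟩ = 1 := fun z => p2_eq fun v => by
    obtain ⟨a, ha⟩ := z.2.2 (g.1 (0, v, 0)).2.1 fun a => by
      simpa [hyp_f, h] using (P.hyp k).G_f g (a, 0) (0, v, 0)
    have : (g⁻¹ * P.lev 1 z.1.1 * g).1 (0, v, 0) = (0, v, 0) + (a, 0) := by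
      refine conj_eq ?_
      rw [map_add, h, lev_apply, ha]
      simp [Prod.ext_iff]
    rw [this]
    simp [Pol.one_apply]
  refine shift _ _ g (fun z : P.QS β => ⟨_, lev_mem 1 z.1.1⟩) (fun z => ⟨_, h2 z⟩) (fun _ => rfl)
    fun x x' => ?_
  have h5 := van (P.QS β).subtype (char_prod hφ (char_conj hψ)) h0 (P.p2 k x, P.p1 k x')
  simp only [Psi, map_mul, h3, h4, p1_lev, p2_lev, mul_one]
  rw [← mul_zero (ψ (P.p1 k x) * conj (φ (P.p2 k x'))), ← h5, mul_sum]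
  refine sum_congr rfl fun z _ => ?_
  simp only [Subgroup.coe_subtype, Prod.fst_mul, Prod.snd_mul]
  ring

end M1

variable {F : Type} [Field F] [Fintype F] [DecidableEq F] {k : ℕ}
variable {V : Type} [AddCommGroup V] [Module F V] [Fintype V] {P : Pol F V}

namespace Pol
open M1

theorem char_Psi {ψ : GL (Fin k) F → ℂ} (hψ : IsCharacter _ ψ) {φ : P.G → ℂ}
    (hφ : IsCharacter _ φ) : IsCharacter _ (P.Psi k ψ φ) :=
  char_comp (char_prod hψ hφ) ((P.p1 k).prod (P.p2 k))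

theorem ms_zero {ψ : GL (Fin k) F → ℂ} (hψ : IsCharacter _ ψ) (hc : IsCusp ψ) {φ : P.G → ℂ}
    (hφ : IsCharacter _ φ) (iv : P.IV ψ φ) {g : (P.hyp k).G} (h : g ∉ P.Par k)
    (h' : ¬ ∀ a, (g.1 (a, 0)).2.2 = 0 → a = 0) : MS (P.Par k) (P.Psi k ψ φ) g = 0 := by
  have hee : ∀ l : Fin k → F, -P.e • -P.e • l = l := fun l => by
    rw [smul_smul, neg_mul_neg, P.e_sq, one_smul]
  let T : HV F k V →ₗ[F] (Fin k → F) :=
    LinearMap.snd F _ _ ∘ₗ LinearMap.snd F _ _ ∘ₗ g.1.toLinearMap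
  let D := T ∘ₗ LinearMap.inl F (Fin k → F) (V × (Fin k → F))
  let B : Submodule F (Fin k → F) := ⨅ a, LinearMap.ker ((dotProductBilin F F).flip (D a))
  have hB : ∀ w, w ∈ B ↔ ∀ a, w ⬝ᵥ (g.1 (a, 0)).2.2 = 0 := fun w => by
    simp only [B, Submodule.mem_iInf, LinearMap.mem_ker]
    rfl
  have hf : ∀ c c' v, (P.hyp k).f (g.1 (c, 0)) (g.1 (c', v, 0)) = 0 := fun c c' v => by
    simp [G_f, hyp_f]
  by_cases h1 : B = ⊤
  swap
  · refine van1 hψ hc φ (X := B) (fun h0 => h' ((injective_iff_map_eq_zero D).1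
      (Finite.injective_iff_surjective.2 fun l => mem_range D fun w hw => ?_))) h1 fun a ha l hl => ?_
    · rw [(Submodule.eq_bot_iff _).1 h0 w ((hB w).2 hw), dotProduct_zero]
    · obtain ⟨c, hc⟩ := mem_range D (l := -P.e • l) fun w hw => by
        rw [smul_dotProduct, hl w ((hB w).2 hw), smul_zero]
      rw [← hee l, ← hc]
      refine key (y := g.1 (c, 0)) ((hB a).1 ha c) (fun c => ?_) (fun c' => hf _ _ 0) fun v =>
        ⟨(P.hyp k).f (g.1 (0, v, 0)) (a, 0) • c, ?_⟩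
      · simp [hyp_f, dotProduct_comm _ a, (hB a).1 ha]
      · rw [(P.hyp k).refl (hf c 0 v), G_Q, ← map_smul]
        simp [hyp_Q]
  have h3 : ∀ a, (g.1 (a, 0)).2.2 = 0 := fun a => dot_ext fun w => by
    rw [(hB w).1 (h1 ▸ Submodule.mem_top), dotProduct_zero]
  let A : Submodule F (Fin k → F) := (LinearMap.range (g.1.toLinearMap ∘ₗ
    LinearMap.inl F (Fin k → F) (V × (Fin k → F)))).comap (LinearMap.inl F _ _)
  have hA : ∀ w, w ∈ A ↔ ∃ a, g.1 (a, 0) = (w, 0) := fun _ => Iff.rfl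
  by_cases h2 : A = ⊥
  swap
  · refine van1 hψ hc φ h2 (fun h0 => h (inv_mem_iff.1 fun w => ?_)) fun a ha l hl => ?_
    · obtain ⟨a, ha⟩ := (hA w).1 (h0 ▸ Submodule.mem_top)
      rw [inv_eq ha]
    · obtain ⟨c, hc⟩ := mem_range (T ∘ₗ (LinearMap.id.prodMap (LinearMap.inl F V (Fin k → F))))
        (l := -P.e • l) fun w hw => by
        have e : ∀ c v, (P.hyp k).f (g⁻¹.1 (w, 0)) (c, v, 0) = 0 := fun c v => by
          rw [← (P.hyp k).G_f g, apply_inv]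
          simpa [hyp_f, T] using hw (c, v)
        have e' : (g⁻¹.1 (w, 0)).2 = 0 := Prod.ext (P.nd _ fun v => by simpa [hyp_f] using e 0 v)
          (dot_ext fun c => by simpa [hyp_f, e_ne, dotProduct_comm c] using e c 0)
        rw [smul_dotProduct, hl w ((hA w).2 ⟨(g⁻¹.1 (w, 0)).1,
          by rw [show ((g⁻¹.1 (w, 0)).1, 0) = g⁻¹.1 (w, 0) from Prod.ext rfl e'.symm, apply_inv]⟩), smul_zero]
      rw [← hee l, ← hc]
      obtain ⟨a', ha'⟩ := (hA a).1 ha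
      refine key (y := g.1 (c.1, c.2, 0)) ?_ (fun c => ha' ▸ hf _ _ 0) (fun c' => hf _ _ _) fun v =>
        ⟨-(P.e * (P.hyp k).f (g.1 (0, v, 0)) (g.1 (c.1, c.2, 0))) • a', ?_⟩
      · simpa [ha', hyp_f] using hf a' c.1 c.2
      · rw [← ha', (P.hyp k).refl (hf a' 0 v), zero_smul, mul_zero, zero_smul, sub_zero, zero_sub,
          ← map_smul, ← map_neg]
        simp
  let β : (Fin k → F) →ₗ[F] V := LinearMap.fst F _ _ ∘ₗ LinearMap.snd F _ _ ∘ₗ g.1.toLinearMap ∘ₗ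
    LinearMap.inl F (Fin k → F) (V × (Fin k → F))
  have hβ : ∀ a, β a = 0 → a = 0 := fun a ha => by
    have e : g.1 (a, 0) = ((g.1 (a, 0)).1, 0) := Prod.ext rfl (Prod.ext ha (h3 a))
    rw [(Submodule.eq_bot_iff _).1 h2 _ ((hA _).2 ⟨a, e⟩)] at e
    exact (Prod.ext_iff.1 (g.1.injective (a₂ := 0) (e.trans (map_zero _).symm))).1
  have hY : ∀ i, ∃ y, ∀ a, P.f (β a) y = (g.1 (a, 0)).1 i := fun i => by
    obtain ⟨y, hy⟩ := mem_range (P.shp fun j => β (Pi.single j 1))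
      (l := fun j => (g.1 (Pi.single j 1, 0)).1 i) fun w hw => by
      have : cmb (fun j => β (Pi.single j 1)) = β :=
        (Pi.basisFun F _).ext fun j => by simp [cmb_single]
      rw [hβ w (P.nd _ fun v => P.refl (by rw [← this, f_cmb, dotProduct_comm, hw])),
        dotProduct_zero]
    refine ⟨P.e • y, fun a => ?_⟩
    have : P.f.flip (P.e • y) ∘ₗ β = LinearMap.proj i ∘ₗ LinearMap.fst F _ _ ∘ₗ g.1.toLinearMap ∘ₗ
        LinearMap.inl F (Fin k → F) (V × (Fin k → F)) := (Pi.basisFun F _).ext fun j => by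
      simpa [P.symm (β _), ← mul_assoc, P.e_sq, shp_apply] using congrFun hy j
    exact LinearMap.congr_fun this a
  choose Y hY using hY
  obtain ⟨C, hC⟩ := P.exists_Cd Y
  rw [← MS_mul _ (char_isClassFunction (char_Psi hψ hφ)) (Un_le (uu_mem hC)) (one_mem _), mul_one]
  refine van2 hψ hφ iv β fun a => ?_
  rw [mul_apply, uu_apply, h3, show P.shp Y (g.1 (a, 0)).2.1 = (g.1 (a, 0)).1 from funext (hY · a)]
  simp [β]

end Pol
end CF.Hc
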