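import Cfsg.Agent.Cusp.A

/-!
# Real constituents of a multiplicity free induced linear character
-/

set_option autoImplicit false

open scoped ComplexConjugate
open Cfsg Finset

namespace CF.Hc
open CF.Char CF.Cusp

namespace N1

theorem rk1 {V : Type*} [AddCommGroup V] [Module ℂ V] [FiniteDimensional ℂ V]
    {E : Module.End ℂ V} (hE : E * E = E)
    (h : LinearMap.trace ℂ V E = 0 ∨ LinearMap.trace ℂ V E = 1) (X Y : Module.End ℂ V) :
    LinearMap.trace ℂ V (E * X * E * Y) =
      LinearMap.trace ℂ V (E * X) * LinearMap.trace ℂ V (E * Y) := by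
  rcases h with h | h
  · rw [LinearMap.IsIdempotentElem.eq_zero_of_trace_eq_zero hE h]
    simp
  · have h1 := (LinearMap.IsIdempotentElem.isProj_range E hE).trace
    rw [h] at h1
    obtain ⟨b, hb⟩ : ∃ b : Module.Basis Unit ℂ (LinearMap.range E), True :=
      ⟨Module.basisUnique Unit (by exact_mod_cast h1.symm), trivial⟩
    obtain ⟨f, w, rfl⟩ : ∃ (f : V →ₗ[ℂ] ℂ) (w : V), E = f.smulRight w :=
      ⟨b.coord () ∘ₗ E.rangeRestrict, b (), LinearMap.ext fun x => by
        have := congrArg Subtype.val (b.sum_repr (E.rangeRestrict x))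
        simpa using this.symm⟩
    have e : ∀ Z : Module.End ℂ V, f.smulRight w * Z = (f ∘ₗ Z).smulRight w := fun _ => rfl
    rw [mul_assoc, mul_assoc, e, e, e]
    simp [mul_comm]

variable {G : Type*} [Group G] {U : Subgroup G} [Fintype U] (ψ : U →* ℂˣ)

/-- The spherical function. -/
noncomputable def om (χ : G → ℂ) (g : G) : ℂ := ∑ u : U, ψ u⁻¹ * χ (u * g)

theorem om_one (χ : G → ℂ) : om ψ χ 1 = Fintype.card U * gam U ψ χ := by
  have hU : (Fintype.card U : ℂ) ≠ 0 := by exact_mod_cast Fintype.card_ne_zero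
  rw [gam, inner_def, Nat.card_eq_fintype_card, mul_inv_cancel_left₀ hU]
  exact sum_congr rfl fun u _ => by rw [conj_lin, mul_one, mul_comm]

theorem om_mul (χ : G → ℂ) (v : U) (g : G) : om ψ χ (v * g) = ψ v * om ψ χ g := by
  rw [om, om, mul_sum]
  refine Fintype.sum_equiv (Equiv.mulRight v) _ _ fun u => ?_
  simp only [Equiv.coe_mulRight, mul_inv_rev, map_mul, map_inv, Units.val_mul,
    Units.val_inv_eq_inv_val, Subgroup.coe_mul, mul_assoc]
  field_simp

theorem om_om {χ : G → ℂ} (hχ : IsCharacter G χ) (h : gam U ψ χ = 0 ∨ gam U ψ χ = 1) (g g' : G) :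
    om ψ χ g * om ψ χ g' = ∑ u : U, ∑ v : U, ψ u⁻¹ * ψ v⁻¹ * χ (u * g * v * g') := by
  obtain ⟨n, ρ, rfl⟩ := hχ
  have hU : (Fintype.card U : ℂ) ≠ 0 := by exact_mod_cast Fintype.card_ne_zero
  set N : ℂ := (Fintype.card U : ℂ)
  set E : Module.End ℂ (Fin n → ℂ) := ∑ u : U, (ψ u⁻¹ : ℂ) • ρ u with hE
  have htr : ∀ g, LinearMap.trace ℂ _ (E * ρ g) = om ψ ρ.character g := fun g => by
    rw [hE, sum_mul, map_sum]
    exact sum_congr rfl fun u _ => by rw [smul_mul_assoc, map_smul, ← map_mul]; rfl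
  have hl : ∀ v : U, ρ v * E = (ψ v : ℂ) • E := fun v => by
    rw [hE, mul_sum, smul_sum]
    refine Fintype.sum_equiv (Equiv.mulLeft v) _ _ fun l => ?_
    simp only [Equiv.coe_mulLeft, mul_smul_comm, smul_smul, ← map_mul, Subgroup.coe_mul]
    congr 1
    simp only [mul_inv_rev, map_mul, map_inv, Units.val_mul, Units.val_inv_eq_inv_val]
    field_simp
  have hEE : E * E = N • E := by
    have : E * E = ∑ u : U, (ψ u⁻¹ : ℂ) • (ρ u * E) := by
      conv_lhs => enter [1]; rw [hE]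
      simp only [sum_mul, smul_mul_assoc]
    simp only [this, hl, smul_smul, ← sum_smul]
    simp [N]
  have k := rk1 (E := N⁻¹ • E) (by
      rw [smul_mul_smul_comm, hEE, smul_smul, mul_assoc, inv_mul_cancel₀ hU, mul_one])
    (by
      have := htr 1
      rw [map_one, mul_one, om_one] at this
      rwa [map_smul, this, smul_eq_mul, inv_mul_cancel_left₀ hU]) (ρ g) (ρ g')
  simp only [smul_mul_assoc, mul_smul_comm, map_smul, smul_eq_mul, htr] at k
  have k2 : om ψ ρ.character g * om ψ ρ.character g' =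
      LinearMap.trace ℂ _ (E * ρ g * E * ρ g') := by
    field_simp at k
    exact k.symm
  rw [k2, hE]
  simp only [sum_mul, mul_sum, map_sum, smul_mul_assoc, mul_smul_comm, map_smul, ← map_mul,
    smul_eq_mul]
  rw [sum_comm]
  refine sum_congr rfl fun u _ => sum_congr rfl fun v _ => ?_
  rw [mul_left_comm, mul_assoc (ψ u⁻¹ : ℂ)]
  rfl

open _root_.Classical in
theorem sum_om [Fintype G] {t : G}
    (ht : ∀ u : U, ∃ v : U, (v : G) = t⁻¹ * u * t ∧ ψ v = (ψ u)⁻¹) {χ : G → ℂ}
    (hχ : IsIrrCharacter G χ) : χ 1 * ∑ g, om ψ χ g * om ψ χ (t⁻¹ * g * t) =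
      if ∀ g, conj (χ g) = χ g then
        Nat.card G * (Fintype.card U * (Fintype.card U * gam U ψ χ)) else 0 := by
  choose σ h1 h2 using ht
  have hσ : Function.Bijective σ := Finite.injective_iff_bijective.1 fun a b e => by
    have := h1 a
    rw [e, h1] at this
    exact Subtype.ext (by simpa using this.symm)
  have hc := irr_isClassFunction hχ
  have e1 : ∀ g, om ψ χ (t⁻¹ * g * t) = ∑ w : U, ψ w⁻¹ * conj (χ (g⁻¹ * w)) := fun g => by
    refine (Fintype.sum_bijective _ ((Equiv.inv U).bijective.comp hσ) _ _ fun w => ?_).symm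
    simp only [Function.comp, Equiv.inv_apply, inv_inv, h2, Subgroup.coe_inv, h1, map_inv]
    rw [← char_inv (irr_isCharacter hχ), ← hc _ t⁻¹]
    congr 2
    group
  have e2 : ∀ u w : U, χ 1 * ∑ g, χ (u * g) * conj (χ (g⁻¹ * w)) =
      if ∀ g, conj (χ g) = χ g then Nat.card G * χ (w * u) else 0 := fun u w => by
    have := sum_irr_mul_irr_inv hχ (irr_conj hχ) ((u : G) * w)
    rw [Fintype.sum_equiv (Equiv.mulLeft (u : G)) _ (fun g => χ g * conj (χ (g⁻¹ * (u * w))))
      fun g => by simp [mul_assoc], this, classFun_mul_comm hc (w : G)]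
    by_cases h : ∀ g, conj (χ g) = χ g
    · rw [if_pos h, if_pos (funext h).symm, mul_div_cancel₀ _ (irr_one_ne_zero hχ)]
    · rw [if_neg h, if_neg fun e => h fun g => (congrFun e g).symm, mul_zero]
  have e3 : χ 1 * ∑ g, om ψ χ g * om ψ χ (t⁻¹ * g * t) = ∑ u : U, ∑ w : U,
      ψ u⁻¹ * ψ w⁻¹ * (χ 1 * ∑ g, χ (u * g) * conj (χ (g⁻¹ * w))) := by
    simp only [e1]
    simp only [om, sum_mul_sum]
    simp only [mul_sum]
    rw [sum_comm]
    refine sum_congr rfl fun u _ => ?_
    rw [sum_comm]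
    exact sum_congr rfl fun w _ => sum_congr rfl fun g _ => by ring
  rw [e3]
  simp only [e2]
  split_ifs
  · have : ∀ u : U, ∑ w : U, (ψ u⁻¹ : ℂ) * ψ w⁻¹ * (Nat.card G * χ (w * u)) =
        Nat.card G * om ψ χ 1 := fun u => by
      have := om_mul ψ χ u 1
      rw [mul_one] at this
      calc _ = Nat.card G * ((ψ u⁻¹ : ℂ) * om ψ χ u) := by
            simp only [om, mul_sum]; exact sum_congr rfl fun w _ => by ring
        _ = _ := by rw [this]; simp
    simp only [this, om_one, sum_const, card_univ, nsmul_eq_mul]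
    ring
  · simp

open _root_.Classical in
/-- The coefficient of `1`. -/
noncomputable def S (x g : G) : ℂ :=
  ∑ u : U, ∑ v : U, if u * g * v * x = 1 then (ψ u⁻¹ : ℂ) * ψ v⁻¹ else 0

theorem S_irrel {g : G} (h : Irrel U ψ g) (x : G) : S ψ x g = 0 := by
  classical
  obtain ⟨c, d, e1, e2⟩ := h
  have : (ψ c : ℂ) * ψ d * S ψ x g = S ψ x g := by
    rw [S, mul_sum]
    refine (Fintype.sum_equiv (Equiv.mulRight c) _ _ fun a => ?_).symm
    rw [mul_sum]
    refine Fintype.sum_equiv (Equiv.mulLeft d) _ _ fun b => ?_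
    have : ((a * c : U) : G) * g * (d * b : U) = a * g * b := by
      conv_rhs => rw [← e1]
      simp [mul_assoc]
    rw [mul_ite, mul_zero]
    refine if_congr (by rw [← this]; rfl) ?_ rfl
    simp only [Equiv.coe_mulRight, Equiv.coe_mulLeft, map_mul, Units.val_mul, mul_inv_rev,
      map_inv, Units.val_inv_eq_inv_val]
    field_simp
  rw [← sub_eq_zero, ← one_mul (S ψ x g), ← mul_assoc, mul_one, ← sub_mul] at this
  refine (mul_eq_zero.1 this).resolve_left fun e => e2 ?_
  exact Units.ext (by simpa using sub_eq_zero.1 e)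

open _root_.Classical in
theorem S_le (x g : G) :
    ‖S ψ x g‖ ≤ ∑ u : U, ∑ v : U, if u * g * v * x = 1 then (1 : ℝ) else 0 := by
  have h1 : ∀ u : U, ‖(ψ u : ℂ)‖ = 1 := fun u =>
    Complex.norm_eq_one_of_pow_eq_one (n := Fintype.card U) (by
      rw [← Units.val_pow_eq_pow_val, ← map_pow, pow_card_eq_one, map_one, Units.val_one])
      Fintype.card_ne_zero
  refine (norm_sum_le _ _).trans (sum_le_sum fun u _ => (norm_sum_le _ _).trans
    (sum_le_sum fun v _ => ?_))
  split_ifs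
  · rw [norm_mul, h1, h1, mul_one]
  · rw [norm_zero]

end N1

open N1 in
theorem card_real {G : Type*} [Group G] [Fintype G] (U : Subgroup G) [Fintype U] (ψ : U →* ℂˣ)
    (hm : ∀ χ, IsIrrCharacter G χ → gam U ψ χ = 0 ∨ gam U ψ χ = 1) (t : G)
    (ht : ∀ u : U, ∃ v : U, (v : G) = t⁻¹ * u * t ∧ ψ v = (ψ u)⁻¹) (R : Finset G)
    (h2 : ∀ g, Irrel U ψ g ∨ ∃ r ∈ R, ∃ a b : U, g = a * r * b) :
    Nat.card {χ : IrrCharacter G // gam U ψ χ = 1 ∧ ∀ g, conj (χ.1 g) = χ.1 g} ≤
      Nat.card {r : R // ∃ a b : U, t⁻¹ * r * t = a * r.1⁻¹ * b} := by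
  classical
  set n := Nat.card {χ : IrrCharacter G // gam U ψ χ = 1 ∧ ∀ g, conj (χ.1 g) = χ.1 g}
  have hG : (Nat.card G : ℂ) ≠ 0 := by exact_mod_cast Nat.card_pos.ne'
  have e1 : (n : ℂ) * (Fintype.card U * Fintype.card U) = ∑ g, S ψ (t⁻¹ * g * t) g := by
    refine mul_left_cancel₀ hG ?_
    calc _ = ∑ χ : IrrCharacter G, χ.1 1 * ∑ g, om ψ χ g * om ψ χ (t⁻¹ * g * t) := by
          have : ∀ χ : IrrCharacter G, χ.1 1 * ∑ g, om ψ χ g * om ψ χ (t⁻¹ * g * t) =
              (if gam U ψ χ = 1 ∧ ∀ g, conj (χ.1 g) = χ.1 g then 1 else 0) *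
              (Nat.card G * (Fintype.card U * Fintype.card U)) := fun χ => by
            rw [sum_om ψ ht χ.2]
            by_cases h : ∀ g, conj (χ.1 g) = χ.1 g <;> rcases hm _ χ.2 with e | e <;> simp [h, e]
          simp only [this, ← sum_mul, sum_boole]
          rw [← Fintype.card_subtype, ← Nat.card_eq_fintype_card (α := {_χ : IrrCharacter G // _})]
          ring
      _ = _ := by
          simp only [fun χ : IrrCharacter G => om_om ψ (irr_isCharacter χ.2) (hm _ χ.2), mul_sum, S]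
          rw [sum_comm]
          refine sum_congr rfl fun g _ => ?_
          rw [sum_comm]
          refine sum_congr rfl fun u _ => ?_
          rw [sum_comm]
          refine sum_congr rfl fun v _ => ?_
          simp only [mul_left_comm (_ : ℂ) ((ψ u⁻¹ : ℂ) * _), ← mul_sum, sum_irr_one_mul]
          split_ifs with h
          · rw [h, regChar_one, mul_comm]
          · rw [regChar_of_ne h, mul_zero, mul_zero]
  set R' := R.filter fun r => ∃ a b : U, t⁻¹ * r * t = a * r⁻¹ * b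
  have e2 : ∀ g, ‖S ψ (t⁻¹ * g * t) g‖ ≤
      ∑ r ∈ R', ∑ a : U, ∑ b : U, if a * r * b = g then (1 : ℝ) else 0 := fun g => by
    have h0 : ∀ r ∈ R', 0 ≤ ∑ a : U, ∑ b : U, if a * r * b = g then (1 : ℝ) else 0 :=
      fun r _ => by positivity
    rcases h2 g with h | ⟨r, hr, a, b, e⟩
    · rw [S_irrel ψ h, norm_zero]
      exact sum_nonneg h0
    refine (S_le ψ _ _).trans ?_
    by_cases h : ∃ c d : U, c * g * d * (t⁻¹ * g * t) = 1
    · obtain ⟨c, d, h⟩ := h
      obtain ⟨a', ha, -⟩ := ht a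
      obtain ⟨b', hb, -⟩ := ht b
      refine le_trans (le_of_eq ?_) (single_le_sum h0 (mem_filter.2 ⟨hr, a'⁻¹ * (b * d)⁻¹,
        (c * a)⁻¹ * b'⁻¹, ?_⟩))
      · refine Fintype.sum_equiv ((Equiv.mulLeft c⁻¹).trans (Equiv.mulRight a)) _ _ fun u => ?_
        refine Fintype.sum_equiv ((Equiv.mulLeft b).trans (Equiv.mulRight d⁻¹)) _ _ fun v => ?_
        refine if_congr ?_ rfl rfl
        rw [← h, mul_left_inj]
        simp only [Equiv.trans_apply, Equiv.coe_mulLeft, Equiv.coe_mulRight, Subgroup.coe_mul,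
          Subgroup.coe_inv]
        rw [show (c : G)⁻¹ * u * a * r * (b * v * (d : G)⁻¹) =
          (c : G)⁻¹ * (u * (a * r * b) * v) * (d : G)⁻¹ by group, ← e, mul_inv_eq_iff_eq_mul,
          inv_mul_eq_iff_eq_mul, mul_assoc (c : G)]
      · simp only [Subgroup.coe_mul, Subgroup.coe_inv, ha, hb]
        rw [show t⁻¹ * r * t = (t⁻¹ * a * t)⁻¹ * (t⁻¹ * g * t) * (t⁻¹ * b * t)⁻¹ by
          rw [e]; group, eq_inv_of_mul_eq_one_right h, e]
        group
    · rw [sum_eq_zero fun u _ => sum_eq_zero fun v _ => if_neg fun e => h ⟨u, v, e⟩]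
      exact sum_nonneg h0
  have e3 : (n : ℝ) * (Fintype.card U * Fintype.card U) ≤
      #R' * (Fintype.card U * Fintype.card U) := by
    calc _ = ‖∑ g, S ψ (t⁻¹ * g * t) g‖ := by rw [← e1]; simp
      _ ≤ _ := (norm_sum_le _ _).trans (sum_le_sum fun g _ => e2 g)
      _ = _ := by
        rw [sum_comm]
        have : ∀ r : G, (∑ g : G, ∑ a : U, ∑ b : U, if a * r * b = g then (1 : ℝ) else 0) =
            (Fintype.card U : ℝ) * Fintype.card U := fun r => by
          rw [sum_comm]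
          have : ∀ a : U, (∑ g : G, ∑ b : U, if a * r * b = g then (1 : ℝ) else 0) =
              Fintype.card U := fun a => by rw [sum_comm]; simp
          simp only [this, sum_const, card_univ, nsmul_eq_mul]
        simp only [this, sum_const, nsmul_eq_mul]
  have hU : (0 : ℝ) < Fintype.card U := by exact_mod_cast Fintype.card_pos
  have e4 : n ≤ #R' := by exact_mod_cast le_of_mul_le_mul_right e3 (mul_pos hU hU)
  refine e4.trans (le_of_eq ?_)
  rw [← Nat.card_eq_finsetCard, ← Nat.card_congr (Equiv.subtypeSubtypeEquivSubtypeInter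
    (· ∈ R) fun r => ∃ a b : U, t⁻¹ * r * t = a * r⁻¹ * b).symm]
  exact Nat.card_congr (Equiv.subtypeEquivRight fun r => mem_filter)

end CF.Hc
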