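import Cfsg.Agent.Hc.A
import Cfsg.Agent.Cusp.K

/-!
# Signed counting of multisets
-/

set_option autoImplicit false

open Finset

namespace CF.Hc

namespace N3

variable {α : Type*} [DecidableEq α] (dg : α → ℕ) (hpos : ∀ a, 0 < dg a)
include hpos

theorem split {n : ℕ} (Z : Finset α) (hZ : ∀ a, a ∈ Z ↔ dg a ≤ n) {S : Multiset α}
    (hS : (S.map dg).sum = n) : n = ∑ a ∈ Z, ∑ k ∈ range n,
      if dg a ∣ k + 1 ∧ (k + 1) / dg a ≤ S.count a then dg a else 0 := by
  have h2 : ∀ a, S.count a * dg a ≤ n := fun a => by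
    rw [← hS]
    obtain ⟨T, e⟩ := Multiset.le_iff_exists_add.1
      (Multiset.le_count_iff_replicate_le.1 (le_refl (S.count a)))
    conv_rhs => rw [e]
    simp
  conv_lhs => rw [← hS, Finset.sum_multiset_map_count]
  refine sum_subset_zero_on_sdiff (fun a ha => (hZ a).2 ?_) (fun a ha => ?_) fun a _ => ?_
  · exact (Nat.le_mul_of_pos_left _ (Multiset.count_pos.2 (Multiset.mem_toFinset.1 ha))).trans (h2 a)
  · refine sum_eq_zero fun k _ => if_neg fun e => ?_
    have := Nat.div_pos (Nat.le_of_dvd k.succ_pos e.1) (hpos a)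
    exact (mem_sdiff.1 ha).2 (Multiset.mem_toFinset.2 (Multiset.count_pos.1 (this.trans_le e.2)))
  · rw [← sum_filter, sum_const, ← card_range (S.count a)]
    congr 1
    refine card_bij (fun j _ => (j + 1) * dg a - 1) (fun j hj => ?_) (fun j _ j' _ e => ?_)
      fun k hk => ?_
    · have a1 := Nat.mul_pos (Nat.add_one_pos j) (hpos a)
      have a2 : (j + 1) * dg a ≤ n := (Nat.mul_le_mul_right (dg a) (mem_range.1 hj)).trans (h2 a)
      rw [mem_filter, mem_range, Nat.sub_add_cancel a1, Nat.mul_div_cancel _ (hpos a)]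
      exact ⟨by omega, dvd_mul_left _ _, by simpa using hj⟩
    · have a1 := Nat.mul_pos (Nat.add_one_pos j) (hpos a)
      have a2 := Nat.mul_pos (Nat.add_one_pos j') (hpos a)
      have := Nat.eq_of_mul_eq_mul_right (hpos a) (show (j + 1) * dg a = (j' + 1) * dg a by omega)
      omega
    · obtain ⟨-, ⟨j, e⟩, a2⟩ := mem_filter.1 hk
      rw [e, Nat.mul_div_cancel_left _ (hpos a)] at a2
      rcases j with _ | j
      · omega
      · exact ⟨j, by simpa using a2, by rw [mul_comm, ← e]; rfl⟩

theorem comb_w (w : α → ℤ) (X : ℕ → Finset (Multiset α))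
    (hX : ∀ n S, S ∈ X n ↔ (S.map dg).sum = n) (Y : ℕ → Finset α) (hY : ∀ d a, a ∈ Y d ↔ dg a = d)
    (n : ℕ) : (n : ℤ) * ∑ S ∈ X n, (S.map w).prod = ∑ k ∈ range n,
      (∑ d ∈ (k + 1).divisors, (d : ℤ) * ∑ a ∈ Y d, w a ^ ((k + 1) / d)) *
        ∑ S ∈ X (n - (k + 1)), (S.map w).prod := by
  let Z := (range (n + 1)).biUnion Y
  have hZ : ∀ a, a ∈ Z ↔ dg a ≤ n := by simp [Z, hY]
  have h1 : ∀ S ∈ X n, (n : ℤ) * (S.map w).prod = ∑ a ∈ Z, ∑ k ∈ range n,
      if dg a ∣ k + 1 ∧ (k + 1) / dg a ≤ S.count a then dg a * (S.map w).prod else 0 :=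
    fun S hS => by
      conv_lhs => rw [split dg hpos Z hZ ((hX n S).1 hS)]
      simp only [Nat.cast_sum, sum_mul, Nat.cast_ite, ite_mul, Nat.cast_zero, zero_mul]
  rw [mul_sum, sum_congr rfl h1, sum_comm]
  simp only [sum_comm (s := X n)]
  rw [sum_comm]
  refine sum_congr rfl fun k hk => ?_
  have hk := mem_range.1 hk
  have h2 : ∀ a, (∑ S ∈ X n, if dg a ∣ k + 1 ∧ (k + 1) / dg a ≤ S.count a then
      dg a * (S.map w).prod else 0) = if dg a ∣ k + 1 then dg a * w a ^ ((k + 1) / dg a) *
        ∑ S ∈ X (n - (k + 1)), (S.map w).prod else 0 := fun a => by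
    split_ifs with h
    · simp only [h, true_and]
      rw [← sum_filter, mul_sum]
      have e : (k + 1) / dg a * dg a = k + 1 := Nat.div_mul_cancel h
      refine (sum_bij (fun T _ => T + Multiset.replicate ((k + 1) / dg a) a) (fun T hT => ?_)
        (fun T _ T' _ e => add_right_cancel e) (fun S hS => ?_) fun T _ => ?_).symm
      · have := (hX _ _).1 hT
        simp [hX, e]
        omega
      · obtain ⟨a1, a2⟩ := mem_filter.1 hS
        obtain ⟨T, rfl⟩ := Multiset.le_iff_exists_add.1 (Multiset.le_count_iff_replicate_le.1 a2)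
        refine ⟨T, (hX _ _).2 ?_, add_comm _ _⟩
        have := (hX _ _).1 a1
        simp [e] at this
        omega
      · simp only [Multiset.map_add, Multiset.prod_add, Multiset.map_replicate,
          Multiset.prod_replicate]
        ring
    · simp [h]
  simp only [h2]
  rw [← sum_filter, ← sum_mul]
  congr 1
  rw [← sum_fiberwise_of_maps_to (g := dg) (t := (k + 1).divisors) fun a ha => by
    simpa using (mem_filter.1 ha).2]
  refine sum_congr rfl fun d hd => ?_
  have hd := Nat.dvd_of_mem_divisors hd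
  rw [mul_sum]
  refine sum_congr ?_ fun a ha => by rw [(hY _ _).1 ha]
  ext a
  simp only [mem_filter, hZ, hY]
  exact ⟨fun h => h.2, fun h => ⟨⟨h ▸ (Nat.le_of_dvd k.succ_pos hd).trans hk, h ▸ hd⟩, h⟩⟩

omit hpos [DecidableEq α] in
theorem prod_sign (p : α → Prop) [DecidablePred p] (S : Multiset α) :
    (S.map fun a => if p a then (-1 : ℤ) else 1).prod = (-1) ^ S.countP p := by
  induction S using Multiset.induction_on with
  | empty => simp
  | cons a S ih =>
    rw [Multiset.map_cons, Multiset.prod_cons, ih, Multiset.countP_cons]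
    split_ifs <;> ring

end N3

/-- N3 (pure combinatorics) -/
theorem comb_sign {α : Type*} (dg : α → ℕ) (hpos : ∀ a, 0 < dg a) (p : α → Prop) [DecidablePred p]
    (hf : ∀ n, Finite {S : Multiset α // (S.map dg).sum = n})
    (h : ∀ n, 0 < n → Nat.card {S : Multiset α // (S.map dg).sum = n ∧ Even (S.countP p)} =
      Nat.card {S : Multiset α // (S.map dg).sum = n ∧ Odd (S.countP p)}) {n : ℕ} (hn : 0 < n) :
    ∑ d ∈ n.divisors, (d : ℤ) * (Nat.card {a // dg a = d ∧ ¬ p a} +
      (-1) ^ (n / d) * Nat.card {a // dg a = d ∧ p a}) = 0 := by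
  classical
  have hf' : ∀ d, Finite {a // dg a = d} := fun d =>
    Finite.of_injective (β := {S : Multiset α // (S.map dg).sum = d})
      (fun a => ⟨{a.1}, by simp [a.2]⟩) fun a b e => Subtype.ext (by simpa using e)
  let X : ℕ → Finset (Multiset α) := fun n => Set.Finite.toFinset
    (s := setOf fun S : Multiset α => (S.map dg).sum = n) (hf n)
  have hX : ∀ n S, S ∈ X n ↔ (S.map dg).sum = n := fun n S => Set.Finite.mem_toFinset _
  let Y : ℕ → Finset α := fun d => Set.Finite.toFinset (s := setOf fun a => dg a = d) (hf' d)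
  have hY : ∀ d a, a ∈ Y d ↔ dg a = d := fun n S => Set.Finite.mem_toFinset _
  have h0 : X 0 = {0} := by
    ext S
    rw [hX, mem_singleton, Multiset.sum_eq_zero_iff]
    refine ⟨fun e => Multiset.eq_zero_of_forall_notMem fun a ha =>
      (hpos a).ne' (e _ (Multiset.mem_map_of_mem _ ha)), fun e => by simp [e]⟩
  have h1 : ∀ m, 0 < m →
      ∑ S ∈ X m, (S.map fun a => if p a then (-1 : ℤ) else 1).prod = 0 := fun m hm => by
    have := h m hm
    rw [Nat.subtype_card ((X m).filter fun S => Even (S.countP p)) (by simp [hX]),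
      Nat.subtype_card ((X m).filter fun S => ¬ Even (S.countP p)) (by simp [hX])] at this
    rw [← sum_filter_add_sum_filter_not _ fun S => Even (S.countP p),
      sum_congr rfl (g := fun _ => 1) fun S hS => by
        rw [N3.prod_sign, (mem_filter.1 hS).2.neg_one_pow],
      sum_congr (s₁ := filter (fun S => ¬ Even (S.countP p)) (X m)) rfl (g := fun _ => -1)
        fun S hS => by
          rw [N3.prod_sign, (Nat.not_even_iff_odd.1 (mem_filter.1 hS).2).neg_one_pow]]
    simp [this]
  obtain ⟨n, rfl⟩ := Nat.exists_eq_add_one_of_ne_zero hn.ne'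
  have h2 := N3.comb_w dg hpos (fun a => if p a then (-1 : ℤ) else 1) X hX Y hY (n + 1)
  rw [h1 _ hn, mul_zero, sum_range_succ, Nat.sub_self, h0, sum_eq_zero fun k hk => by
    rw [h1 _ (by have := mem_range.1 hk; omega), mul_zero]] at h2
  simp only [sum_singleton, Multiset.map_zero, Multiset.prod_zero, mul_one, zero_add] at h2
  rw [h2]
  refine sum_congr rfl fun d _ => congrArg _ ?_
  rw [Nat.subtype_card ((Y d).filter fun a => ¬ p a) (by simp [hY]),
    Nat.subtype_card ((Y d).filter p) (by simp [hY]), ← sum_filter_add_sum_filter_not _ p,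
    sum_congr rfl (g := fun _ => (-1) ^ ((n + 1) / d)) fun a ha => by
      rw [if_pos (mem_filter.1 ha).2],
    sum_congr (s₁ := filter (fun a => ¬ p a) _) rfl (g := fun _ => 1) fun a ha => by
      rw [if_neg (mem_filter.1 ha).2, one_pow]]
  simp [add_comm, mul_comm]

end CF.Hc
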