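import Cfsg.Agent.Hc.N3

/-!
# Non-real cuspidal characters: the counting argument
-/

set_option autoImplicit false

open scoped ComplexConjugate MatrixGroups
open Cfsg Finset Matrix

namespace CF.Hc
open CF.Char CF.Cusp

namespace N4

theorem lin_le {q a b m0 : ℕ} (hq : 2 ≤ q) (h0 : 1 ≤ m0) (h : a * m0 + b ≤ q ^ (m0 + 1)) {m : ℕ}
    (hm : m0 ≤ m) : a * m + b ≤ q ^ (m + 1) := by
  induction m, hm using Nat.le_induction with
  | base => exact h
  | succ m hm ih =>
    have h1 : a * 1 ≤ a * m := Nat.mul_le_mul_left _ (by omega)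
    have h2 : q ^ (m + 1) * 2 ≤ q ^ (m + 1) * q := Nat.mul_le_mul_left _ hq
    rw [pow_succ q (m + 1), mul_add]
    omega

theorem geo {q : ℕ} (hq : 2 ≤ q) (m : ℕ) : ∑ d ∈ Ico 1 (m + 1), (q ^ d - 1) + 2 ≤ 2 * q ^ m := by
  induction m with
  | zero => simp
  | succ m ih =>
    have h2 : q ^ m * 2 ≤ q ^ m * q := Nat.mul_le_mul_left _ hq
    rw [sum_Ico_succ_top (by omega), pow_succ]
    omega

theorem prop_le {q : ℕ} (hq : 2 ≤ q) (k : ℕ) :
    ∑ d ∈ k.properDivisors, (q ^ d - 1) + 2 ≤ 2 * q ^ (k / 2) := by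
  refine le_trans (Nat.add_le_add_right (sum_le_sum_of_subset fun d hd => ?_) _) (geo hq _)
  have h0 := Nat.pos_of_mem_properDivisors hd
  obtain ⟨⟨j, rfl⟩, h2⟩ := Nat.mem_properDivisors.1 hd
  have : 2 ≤ j := by
    by_contra h
    have : j = 0 ∨ j = 1 := by omega
    rcases this with rfl | rfl <;> omega
  have h3 : d * 2 ≤ d * j := Nat.mul_le_mul_left _ this
  exact mem_Ico.2 ⟨h0, by omega⟩

theorem arith {q k c e x : ℕ} (hq : 2 ≤ q) (hk : 3 ≤ k)
    (he : e = 1 ∧ 1 ≤ x ∧ (q = 2 → k = 4 → 2 ≤ x) ∨ e = 2 ∧ 3 ≤ q ∧ x = k + 1)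
    (h1 : q ^ k ≤ e * (k * c) + e * ∑ d ∈ k.properDivisors, (q ^ d - 1) + 1)
    (h2 : c + x ≤ if Even k then 2 * ((q - 1) * q ^ (k / 2 - 1)) else (q - 1) * q ^ (k / 2)) :
    False := by
  have h3 := prop_le hq k
  obtain ⟨r, rfl⟩ : ∃ r, q = r + 1 := ⟨q - 1, by omega⟩
  rw [Nat.add_sub_cancel] at h2
  rcases Nat.even_or_odd' k with ⟨m, rfl | rfl⟩
  · rw [if_pos (even_two_mul m), Nat.mul_div_cancel_left _ two_pos] at h2
    rw [Nat.mul_div_cancel_left _ two_pos] at h3
    by_cases H : 4 * e * r * m + 2 * e * (r + 1) ≤ (r + 1) ^ (m + 1)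
    · obtain ⟨m, rfl⟩ : ∃ j, m = j + 1 := ⟨m - 1, by omega⟩
      rw [Nat.add_sub_cancel] at h2
      have e1 : (r + 1) ^ (2 * (m + 1)) = (r + 1) ^ m * (r + 1) ^ (m + 1 + 1) := by ring
      have e2 := Nat.mul_le_mul_left ((r + 1) ^ m) H
      have e3 := Nat.mul_le_mul_left (2 * (m + 1)) (le_trans (Nat.le_add_right _ _) h2)
      rw [pow_succ] at h3
      rw [e1] at h1
      generalize (r + 1) ^ (m + 1 + 1) = A at *
      generalize ∑ d ∈ (2 * (m + 1)).properDivisors, ((r + 1) ^ d - 1) = S at *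
      generalize (r + 1) ^ m = B at *
      rcases he with ⟨rfl, -⟩ | ⟨rfl, -⟩ <;> nlinarith
    · have hm : m = 2 := by
        by_contra hm
        refine H (lin_le hq (m0 := 3) (by omega) ?_ (by omega))
        rcases he with ⟨rfl, -⟩ | ⟨rfl, h, -⟩
        · obtain ⟨s, rfl⟩ : ∃ s, r = s + 1 := ⟨r - 1, by omega⟩
          ring_nf; omega
        · obtain ⟨s, rfl⟩ : ∃ s, r = s + 2 := ⟨r - 2, by omega⟩
          ring_nf; omega
      subst hm
      rw [show Nat.properDivisors (2 * 2) = {1, 2} by decide] at h1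
      rcases he with ⟨rfl, -, h⟩ | ⟨rfl, h, rfl⟩
      · obtain rfl : r = 1 := by
          by_contra h
          obtain ⟨s, rfl⟩ : ∃ s, r = s + 2 := ⟨r - 2, by omega⟩
          refine H ?_
          ring_nf; omega
        have := h rfl rfl
        norm_num at h1 h2
        omega
      · obtain rfl : r = 2 := by
          by_contra h
          obtain ⟨s, rfl⟩ : ∃ s, r = s + 3 := ⟨r - 3, by omega⟩
          refine H ?_
          ring_nf; omega
        norm_num at h1 h2
        omega
  · have e0 : (2 * m + 1) / 2 = m := by omega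
    rw [if_neg (Nat.not_even_iff_odd.2 (odd_two_mul_add_one m)), e0] at h2
    rw [e0] at h3
    by_cases H : 2 * e * r * m + (e * r + 2 * e) ≤ (r + 1) ^ (m + 1)
    · have e1 : (r + 1) ^ (2 * m + 1) = (r + 1) ^ m * (r + 1) ^ (m + 1) := by ring
      have e2 := Nat.mul_le_mul_left ((r + 1) ^ m) H
      have e3 := Nat.mul_le_mul_left (2 * m + 1) (le_trans (Nat.le_add_right _ _) h2)
      rw [e1] at h1
      generalize (r + 1) ^ (m + 1) = A at *
      generalize ∑ d ∈ (2 * m + 1).properDivisors, ((r + 1) ^ d - 1) = S at *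
      generalize (r + 1) ^ m = B at *
      rcases he with ⟨rfl, -⟩ | ⟨rfl, -⟩ <;> nlinarith
    · have hm : m = 1 := by
        by_contra hm
        refine H (lin_le hq (m0 := 2) (by omega) ?_ (by omega))
        rcases he with ⟨rfl, -⟩ | ⟨rfl, h, -⟩
        · obtain ⟨s, rfl⟩ : ∃ s, r = s + 1 := ⟨r - 1, by omega⟩
          ring_nf; omega
        · obtain ⟨s, rfl⟩ : ∃ s, r = s + 2 := ⟨r - 2, by omega⟩
          ring_nf; omega
      subst hm
      rw [show Nat.properDivisors (2 * 1 + 1) = {1} by decide] at h1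
      rcases he with ⟨rfl, h, -⟩ | ⟨rfl, h, rfl⟩
      · obtain rfl : r = 1 := by
          by_contra h
          obtain ⟨s, rfl⟩ : ∃ s, r = s + 2 := ⟨r - 2, by omega⟩
          refine H ?_
          ring_nf; omega
        norm_num at h1 h2
        omega
      · have : r < 5 := by
          by_contra h
          obtain ⟨s, rfl⟩ : ∃ s, r = s + 5 := ⟨r - 5, by omega⟩
          refine H ?_
          ring_nf; omega
        have : 2 ≤ r := by omega
        interval_cases r <;> norm_num at h1 h2 <;> omega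

variable {F : Type} [Field F] [Fintype F] [DecidableEq F] {k : ℕ}

omit [DecidableEq F] in
theorem ex_add : ∃ θ : AddChar F ℂ, θ ≠ 1 := by
  obtain ⟨θ, h⟩ := (AddChar.exists_apply_ne_zero (α := F) (a := 1)).2 one_ne_zero
  exact ⟨θ, fun e => h (by simp [e])⟩

theorem fin_ms (n : ℕ) : Finite {S : Multiset (CC F) // (S.map CC.deg).sum = n} := by
  obtain ⟨θ, hθ⟩ := ex_add (F := F)
  exact Nat.finite_of_card_ne_zero (card_multiset hθ n ▸ aN_ne Fintype.one_lt_card n)

theorem fin_cc (d : ℕ) : Finite {c : CC F // c.deg = d} :=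
  have := fin_ms (F := F) d
  Finite.of_injective (β := {S : Multiset (CC F) // (S.map CC.deg).sum = d})
    (fun a => ⟨{a.1}, by simp [a.2]⟩) fun a b e => Subtype.ext (by simpa using e)

theorem sum_cc {n : ℕ} (hn : 0 < n) :
    ∑ d ∈ n.divisors, d * Nat.card {c : CC F // c.deg = d} = Nat.card F ^ n - 1 := by
  obtain ⟨θ, hθ⟩ := ex_add (F := F)
  have hq : 1 < Fintype.card F := Fintype.one_lt_card
  obtain ⟨n, rfl⟩ := Nat.exists_eq_add_one_of_ne_zero hn.ne'
  rw [Nat.card_eq_fintype_card]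
  exact rec_unique (a := aN _) (p' := fun k => Fintype.card F ^ (k + 1) - 1)
    (p := fun k => ∑ d ∈ (k + 1).divisors, d * Nat.card {c : CC F // c.deg = d}) rfl (fun m =>
      (comb_rec CC.deg CC.pos _ (aN_ne hq) (card_multiset hθ) m).symm.trans (aN_rec hq.le m)) n

theorem cc_le {d : ℕ} (hd : 0 < d) : d * Nat.card {c : CC F // c.deg = d} ≤ Nat.card F ^ d - 1 := by
  rw [← sum_cc hd]
  exact single_le_sum (f := fun d => d * Nat.card {c : CC F // c.deg = d})
    (fun _ _ => Nat.zero_le _) (Nat.mem_divisors_self _ hd.ne')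

theorem cc_split (p : CC F → Prop) (d : ℕ) : Nat.card {c : CC F // c.deg = d} =
    Nat.card {c : CC F // c.deg = d ∧ ¬ p c} + Nat.card {c : CC F // c.deg = d ∧ p c} := by
  classical
  let Y : Finset (CC F) := Set.Finite.toFinset (s := {c : CC F | c.deg = d}) (fin_cc d)
  have hY : ∀ a, a ∈ Y ↔ a.deg = d := fun S => Set.Finite.mem_toFinset _
  rw [Nat.subtype_card Y hY, Nat.subtype_card (Y.filter fun a => ¬ p a) (by simp [hY]),
    Nat.subtype_card (Y.filter p) (by simp [hY]), add_comm, card_filter_add_card_filter_not]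

theorem upper (cj : CC F → CC F) (p : CC F → Prop) (h : ∀ c : CC F, c.deg = k → ¬ p c → cj c = c)
    (E : Finset (Multiset (CC F)))
    (hE : ∀ S ∈ E, (S.map CC.deg).sum = k ∧ S.map cj = S ∧ S.card ≠ 1) :
    Nat.card {c : CC F // c.deg = k ∧ ¬ p c} + #E ≤
      Nat.card {S : Multiset (CC F) // (S.map CC.deg).sum = k ∧ S.map cj = S} := by
  have := fin_ms (F := F) k
  have := fin_cc (F := F) k
  have : Finite {S : Multiset (CC F) // (S.map CC.deg).sum = k ∧ S.map cj = S} :=
    Finite.of_injective (β := {S : Multiset (CC F) // (S.map CC.deg).sum = k})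
      (fun a => ⟨a.1, a.2.1⟩) fun a b e => Subtype.ext (by simpa using e)
  have : Finite {c : CC F // c.deg = k ∧ ¬ p c} :=
    Finite.of_injective (β := {c : CC F // c.deg = k})
      (fun a => ⟨a.1, a.2.1⟩) fun a b e => Subtype.ext (by simpa using e)
  rw [← Nat.card_eq_finsetCard, ← Nat.card_sum]
  refine Nat.card_le_card_of_injective (Sum.elim
    (fun c => ⟨{c.1}, by simp [c.2.1], by simp [h _ c.2.1 c.2.2]⟩)
    fun S => ⟨S.1, (hE _ S.2).1, (hE _ S.2).2.1⟩) ?_
  rintro (a | a) (b | b) e <;> simp only [Sum.elim_inl, Sum.elim_inr, Subtype.mk.injEq] at e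
  · exact congrArg _ (Subtype.ext (Multiset.singleton_inj.1 e))
  · exact absurd (by rw [← e]; rfl) (hE _ b.2).2.2
  · exact absurd (by rw [e]; rfl) (hE _ a.2).2.2
  · exact congrArg _ (Subtype.ext e)

/-- A linear character of `GL_1`. -/
def lin (lam : GL (Fin 1) F →* ℂˣ) : CC F :=
  ⟨1, ⟨fun g => lam g, irr_linear lam⟩, one_pos, fun _ h h' => by omega⟩

theorem ex_quad (h2 : (2 : F) ≠ 0) : ∃ c : CC F, c.deg = 1 ∧ c ≠ lin 1 ∧
    ∀ g, conj (c.chi.1 g) = c.chi.1 g := by
  have hc : ringChar F ≠ 2 := fun e => h2 (by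
    have := ringChar.spec F 2
    rw [e] at this
    exact_mod_cast this.2 dvd_rfl)
  obtain ⟨a, ha⟩ := quadraticChar_exists_neg_one' hc
  refine ⟨lin (((quadraticChar F).ringHomComp (Int.castRingHom ℂ)).toUnitHom.comp
    GeneralLinearGroup.det), rfl, fun e => ?_, fun g => by simp [lin]⟩
  have e1 := congrFun (congrArg Subtype.val (eq_of_heq (CC.mk.inj e).2))
    (GeneralLinearGroup.scalar (Fin 1) a)
  simp [ha] at e1
  norm_num at e1

theorem nonreal_of (hk : 3 ≤ k) (cj : CC F → CC F)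
    (c1 : ∀ c : CC F, (∀ g, conj (c.chi.1 g) = c.chi.1 g) → cj c = c)
    (c2 : ∀ c, (cj c).deg = c.deg)
    (c3 : Nat.card {S : Multiset (CC F) // (S.map CC.deg).sum = k ∧ S.map cj = S} ≤
      if Even k then 2 * ((Nat.card F - 1) * Nat.card F ^ (k / 2 - 1))
      else (Nat.card F - 1) * Nat.card F ^ (k / 2))
    [DecidablePred fun c : CC F => c.chi.1 (-1) ≠ c.chi.1 1]
    (c4 : (2 : F) ≠ 0 → ∀ n, 0 < n → Nat.card {S : Multiset (CC F) // (S.map CC.deg).sum = n ∧
      Even (S.countP fun c => c.chi.1 (-1) ≠ c.chi.1 1)} =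
      Nat.card {S : Multiset (CC F) // (S.map CC.deg).sum = n ∧
      Odd (S.countP fun c => c.chi.1 (-1) ≠ c.chi.1 1)}) :
    ∃ ψ : GL (Fin k) F → ℂ, IsIrrCharacter _ ψ ∧ IsCusp ψ ∧
      (∃ x, conj (ψ x) ≠ ψ x) ∧ ψ (-1) = ψ 1 := by
  by_contra H
  have hq : 2 ≤ Nat.card F := Finite.one_lt_card
  have k0 : 0 < k := by omega
  have hu := upper (k := k) cj (fun c => c.chi.1 (-1) ≠ c.chi.1 1) fun c hc hp => c1 c fun g => by
    subst hc
    by_contra e
    exact H ⟨c.chi.1, c.chi.2, c.isC, ⟨g, e⟩, not_not.1 hp⟩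
  have h1 := sum_cc (F := F) k0
  have h0 := Nat.one_le_pow k _ (by omega : 0 < Nat.card F)
  have h3 : ∑ d ∈ k.properDivisors, d * Nat.card {c : CC F // c.deg = d} ≤
      ∑ d ∈ k.properDivisors, (Nat.card F ^ d - 1) :=
    sum_le_sum fun d hd => cc_le (Nat.pos_of_mem_properDivisors hd)
  have l1 : cj (lin 1) = lin 1 := c1 _ fun g => by simp [lin]
  have l2 : (lin (1 : GL (Fin 1) F →* ℂˣ)).deg = 1 := rfl
  rw [← Nat.insert_self_properDivisors k0.ne', sum_insert (by simp),
    cc_split fun c : CC F => c.chi.1 (-1) ≠ c.chi.1 1, mul_add] at h1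
  by_cases h2 : (2 : F) = 0
  · have e : Nat.card {c : CC F // c.deg = k ∧ c.chi.1 (-1) ≠ c.chi.1 1} = 0 := by
      rw [Nat.card_eq_zero]
      refine Or.inl ⟨fun c => c.2.2 (congrArg _ (Units.ext ?_))⟩
      ext i j
      simp only [Units.val_neg, Units.val_one, Matrix.neg_apply]
      linear_combination (-(1 : Matrix _ _ F) i j) * h2
    rw [e] at h1
    by_cases h4 : Nat.card F = 2 ∧ k = 4
    · obtain ⟨h4, rfl⟩ := h4
      have a1 := sum_cc (F := F) one_pos
      have a2 := sum_cc (F := F) two_pos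
      rw [show Nat.divisors 2 = {1, 2} by decide, sum_pair (by decide), h4] at a2
      rw [Nat.divisors_one, sum_singleton, h4] at a1
      obtain ⟨a3, ⟨c⟩⟩ := Nat.card_eq_one_iff_unique.1
        (show Nat.card {c : CC F // c.deg = 2} = 1 by omega)
      have a4 : cj c.1 = c.1 := congrArg Subtype.val (a3.elim ⟨cj c.1, (c2 _).trans c.2⟩ c)
      have := hu {Multiset.replicate 4 (lin 1), Multiset.replicate 2 c.1} (by
        simp only [mem_insert, mem_singleton, forall_eq_or_imp, forall_eq, Multiset.map_replicate,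
          Multiset.sum_replicate, Multiset.card_replicate, l1, l2, a4, c.2]
        simp)
      rw [card_pair fun e => by simpa using congrArg Multiset.card e] at this
      exact arith (e := 1) hq hk (Or.inl ⟨rfl, one_le_two, fun _ _ => le_rfl⟩) (by omega)
        (this.trans c3)
    · have := hu {Multiset.replicate k (lin 1)} (by
        simp only [mem_singleton, forall_eq, Multiset.map_replicate,
          Multiset.sum_replicate, Multiset.card_replicate, l1, l2]
        simp
        omega)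
      exact arith (e := 1) hq hk (Or.inl ⟨rfl, le_rfl, fun a b => absurd ⟨a, b⟩ h4⟩) (by omega)
        (this.trans c3)
  · have q3 : 3 ≤ Nat.card F := by
      by_contra h
      have := FiniteField.cast_card_eq_zero F
      rw [← Nat.card_eq_fintype_card, show Nat.card F = 2 by omega] at this
      exact h2 (by exact_mod_cast this)
    obtain ⟨c, d1, d2, d3⟩ := ex_quad h2
    have := hu ((range (k + 1)).image fun i =>
      Multiset.replicate i (lin 1) + Multiset.replicate (k - i) c) (by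
        simp only [mem_image, mem_range, forall_exists_index, and_imp, forall_apply_eq_imp_iff₂,
          Multiset.map_add, Multiset.sum_add, Multiset.card_add, Multiset.map_replicate,
          Multiset.sum_replicate, Multiset.card_replicate, l1, l2, d1, c1 c d3, smul_eq_mul]
        intro i hi
        exact ⟨by omega, trivial, by omega⟩)
    rw [card_image_of_injective _ fun i j e => by
      simpa [Multiset.count_replicate, d2] using congrArg (Multiset.count (lin 1)) e,
      card_range] at this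
    refine arith (e := 2) hq hk (Or.inr ⟨rfl, q3, rfl⟩) ?_ (this.trans c3)
    have h5 := comb_sign CC.deg CC.pos _ fin_ms (c4 h2) k0
    rw [← Nat.insert_self_properDivisors k0.ne', sum_insert (by simp), Nat.div_self k0] at h5
    have h6 : ∑ d ∈ k.properDivisors, (d : ℤ) *
        (Nat.card {c : CC F // c.deg = d ∧ ¬ c.chi.1 (-1) ≠ c.chi.1 1} +
        (-1) ^ (k / d) * Nat.card {c : CC F // c.deg = d ∧ c.chi.1 (-1) ≠ c.chi.1 1}) ≤
        (∑ d ∈ k.properDivisors, d * Nat.card {c : CC F // c.deg = d} : ℕ) := by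
      rw [Nat.cast_sum]
      refine sum_le_sum fun d _ => ?_
      rw [cc_split fun c : CC F => c.chi.1 (-1) ≠ c.chi.1 1]
      push_cast
      refine mul_le_mul_of_nonneg_left (add_le_add_right ?_ _) (Nat.cast_nonneg _)
      rcases neg_one_pow_eq_or ℤ (k / d) with e | e <;> rw [e] <;> omega
    rw [mul_add, pow_one, neg_one_mul, mul_neg, ← Nat.cast_mul, ← Nat.cast_mul] at h5
    omega

end N4

end CF.Hc
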